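import Mathlib
import Cfsg.Prelude.Def_Characters
import Cfsg.Agent.Lib.Lead.ItoDeg
import Cfsg.Agent.Lib.Lead.Taketa

set_option autoImplicit false

namespace Cfsg.Agent.Lib.Lead

open Module Representation

/-- **Clifford structure**: for a normal subgroup `A` with commutative image under an irreducible
representation, the character is induced from the inertia group of an eigencharacter. -/
theorem clifford_struct {G : Type*} [Group G] [Fintype G] {V : Type*} [AddCommGroup V]
    [Module ℂ V] [FiniteDimensional ℂ V] (ρ : Representation ℂ G V) [hρ : ρ.IsIrreducible]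
    (A : Subgroup G) [hA : A.Normal] (hab : ∀ a ∈ A, ∀ b ∈ A, ρ (a * b) = ρ (b * a)) :
    ∃ (T : Subgroup G) (ψ : T → ℂ), Cfsg.IsIrrCharacter T ψ ∧ ρ.character = Cfsg.indFun T ψ ∧
      (T = ⊤ → ∀ a ∈ A, ∃ c : ℂ, ρ a = c • (1 : Module.End ℂ V)) := by
  classical
  haveI : Fintype A := Fintype.ofFinite A
  haveI hnt : Nontrivial V := ((irr_iff ρ).mp hρ).1
  have hirr := ((irr_iff ρ).mp hρ).2
  have hρinv : ∀ (g : G) (w : V), ρ g⁻¹ (ρ g w) = w := by
    intro g w
    rw [← Module.End.mul_apply, ← map_mul, inv_mul_cancel, map_one, Module.End.one_apply]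
  -- Step 1: a common eigenvector for `A`
  let ρA : Representation ℂ A V := ρ.comp A.subtype
  obtain ⟨X, hX, -, hXne, hXirr⟩ :=
    exists_irr_sub ρA ⊤ (fun _ _ _ => Submodule.mem_top) top_ne_bot
  haveI hXnt : Nontrivial X := ((irr_iff _).mp hXirr).1
  have hXirr' := ((irr_iff _).mp hXirr).2
  have hsc : ∀ a : A, ∃ c : ℂ, ∀ v ∈ X, ρ (a : G) v = c • v := by
    intro a
    obtain ⟨c, hc⟩ := Module.End.exists_eigenvalue (subRep ρA X hX a)
    rw [Module.End.hasEigenvalue_iff] at hc
    have hinv : ∀ b : A, ∀ v ∈ Module.End.eigenspace (subRep ρA X hX a) c,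
        subRep ρA X hX b v ∈ Module.End.eigenspace (subRep ρA X hX a) c := by
      intro b v hv
      rw [Module.End.mem_eigenspace_iff] at hv ⊢
      apply Subtype.ext
      rw [subRep_coe, subRep_coe, Submodule.coe_smul, subRep_coe]
      have h1 : ρ (a : G) (v : V) = c • (v : V) := by
        have := congrArg Subtype.val hv
        rw [subRep_coe, Submodule.coe_smul] at this
        exact this
      show ρ (a : G) (ρ (b : G) (v : V)) = c • ρ (b : G) (v : V)
      rw [← Module.End.mul_apply, ← map_mul, hab a a.2 b b.2, map_mul, Module.End.mul_apply, h1,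
        map_smul]
    rcases hXirr' _ hinv with h | h
    · exact absurd h hc
    · refine ⟨c, ?_⟩
      intro v hv
      have h2 : (⟨v, hv⟩ : X) ∈ Module.End.eigenspace (subRep ρA X hX a) c := by rw [h]; trivial
      rw [Module.End.mem_eigenspace_iff] at h2
      have := congrArg Subtype.val h2
      rw [subRep_coe, Submodule.coe_smul] at this
      exact this
  choose lam hlam' using hsc
  obtain ⟨v₀, hv₀X, hv⟩ := Submodule.exists_mem_ne_zero_of_ne_bot hXne
  have hlam : ∀ a : A, ρ (a : G) v₀ = lam a • v₀ := fun a => hlam' a v₀ hv₀X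
  have hsmul_inj : ∀ c₁ c₂ : ℂ, c₁ • v₀ = c₂ • v₀ → c₁ = c₂ :=
    fun c₁ c₂ h => smul_left_injective ℂ hv h
  have hlam_mul : ∀ a b : A, lam (a * b) = lam a * lam b := by
    intro a b
    apply hsmul_inj
    rw [← hlam, Subgroup.coe_mul, map_mul, Module.End.mul_apply, hlam, map_smul, hlam, smul_smul,
      mul_comm]
  have hlam_one : lam 1 = 1 := by
    apply hsmul_inj
    rw [← hlam, Subgroup.coe_one, map_one, Module.End.one_apply, one_smul]
  have hlam_ne : ∀ a : A, lam a ≠ 0 := by
    intro a h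
    have h2 := hlam_mul a a⁻¹
    rw [mul_inv_cancel, hlam_one, h, zero_mul] at h2
    exact one_ne_zero h2
  -- conjugation on `A`
  let cj : G → A → A := fun g a => ⟨g⁻¹ * (a : G) * g, by
    have := hA.conj_mem a a.2 g⁻¹
    simpa using this⟩
  have cj_coe : ∀ g a, ((cj g a : A) : G) = g⁻¹ * (a : G) * g := fun g a => rfl
  have cj_one : ∀ a, cj 1 a = a := by
    intro a
    apply Subtype.ext
    rw [cj_coe]; group
  have cj_mul : ∀ g h a, cj (g * h) a = cj h (cj g a) := by
    intro g h a
    apply Subtype.ext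
    rw [cj_coe, cj_coe, cj_coe]; group
  have cj_mul' : ∀ g a b, cj g (a * b) = cj g a * cj g b := by
    intro g a b
    apply Subtype.ext
    rw [Subgroup.coe_mul, cj_coe, cj_coe, cj_coe, Subgroup.coe_mul]; group
  -- the eigenspace
  let W : Submodule ℂ V :=
    { carrier := {w | ∀ a : A, ρ (a : G) w = lam a • w}
      add_mem' := by
        intro x y hx hy a
        rw [map_add, hx a, hy a, smul_add]
      zero_mem' := by
        intro a
        rw [map_zero, smul_zero]
      smul_mem' := by
        intro c x hx a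
        rw [map_smul, hx a, smul_comm] }
  have hWmem : ∀ w : V, w ∈ W ↔ ∀ a : A, ρ (a : G) w = lam a • w := fun w => Iff.rfl
  have hvW : v₀ ∈ W := fun a => hlam a
  have hWne : W ≠ ⊥ := by
    intro h
    have := hvW
    rw [h, Submodule.mem_bot] at this
    exact hv this
  have K1 : ∀ (g : G) (w : V), w ∈ W → ∀ a : A, ρ (a : G) (ρ g w) = lam (cj g a) • ρ g w := by
    intro g w hw a
    have h2 : (a : G) * g = g * ((cj g a : A) : G) := by rw [cj_coe]; group
    rw [← Module.End.mul_apply, ← map_mul, h2, map_mul, Module.End.mul_apply, hw (cj g a), map_smul]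
  -- the inertia group
  let T : Subgroup G :=
    { carrier := {g | ∀ a : A, lam (cj g a) = lam a}
      one_mem' := by
        intro a
        rw [cj_one]
      mul_mem' := by
        intro g h hg hh a
        rw [cj_mul, hh, hg]
      inv_mem' := by
        intro g hg a
        have h2 := hg (cj g⁻¹ a)
        rw [← cj_mul, inv_mul_cancel, cj_one] at h2
        exact h2.symm }
  have hTmem : ∀ g : G, g ∈ T ↔ ∀ a : A, lam (cj g a) = lam a := fun g => Iff.rfl
  let ρT : Representation ℂ T V := ρ.comp T.subtype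
  have hWT : ∀ g : T, ∀ w ∈ W, ρT g w ∈ W := by
    intro g w hw
    rw [hWmem]
    intro a
    show ρ (a : G) (ρ (g : G) w) = lam a • ρ (g : G) w
    rw [K1 (g : G) w hw a, (hTmem (g : G)).mp g.2 a]
  obtain ⟨U, hU, hUW, hUne, hUirr⟩ := exists_irr_sub ρT W hWT hWne
  -- Step 6: the induced module
  haveI : Fintype (G ⧸ T) := Fintype.ofFinite _
  let Φ : ((G ⧸ T) → U) →ₗ[ℂ] V :=
    ∑ q : G ⧸ T, (ρ q.out) ∘ₗ U.subtype ∘ₗ (LinearMap.proj q)
  have hΦ : ∀ u : (G ⧸ T) → U, Φ u = ∑ q : G ⧸ T, ρ q.out (u q : V) := by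
    intro u
    show (∑ q : G ⧸ T, (ρ q.out) ∘ₗ U.subtype ∘ₗ (LinearMap.proj q)) u = _
    rw [LinearMap.sum_apply]
    rfl
  have hsingle : ∀ (q : G ⧸ T) (w : U), Φ (Pi.single q w) = ρ q.out (w : V) := by
    intro q w
    rw [hΦ, Finset.sum_eq_single q]
    · rw [Pi.single_eq_same]
    · intro q' _ hne
      rw [Pi.single_eq_of_ne hne]
      simp
    · intro h; exact absurd (Finset.mem_univ q) h
  let μ : (G ⧸ T) → A → ℂ := fun q a => lam (cj q.out a)
  have hμne : ∀ q a, μ q a ≠ 0 := fun q a => hlam_ne _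
  have hμmul : ∀ q a b, μ q (a * b) = μ q a * μ q b := by
    intro q a b
    show lam (cj q.out (a * b)) = lam (cj q.out a) * lam (cj q.out b)
    rw [cj_mul', hlam_mul]
  have hinj : Function.Injective Φ := by
    rw [← LinearMap.ker_eq_bot, LinearMap.ker_eq_bot']
    intro u hu
    funext q₀
    let E : Module.End ℂ V := ∑ a : A, (μ q₀ a)⁻¹ • ρ (a : G)
    have hEq : ∀ q : G ⧸ T, E (ρ q.out (u q : V))
        = (if q = q₀ then (Nat.card A : ℂ) else 0) • ρ q.out (u q : V) := by
      intro q
      show (∑ a : A, (μ q₀ a)⁻¹ • ρ (a : G)) (ρ q.out (u q : V)) = _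
      rw [LinearMap.sum_apply]
      have h2 : ∀ a : A, ((μ q₀ a)⁻¹ • ρ (a : G)) (ρ q.out (u q : V))
          = ((μ q₀ a)⁻¹ * μ q a) • ρ q.out (u q : V) := by
        intro a
        rw [LinearMap.smul_apply, K1 q.out (u q : V) (hUW (u q).2) a, smul_smul]
      rw [Finset.sum_congr rfl (fun a _ => h2 a), ← Finset.sum_smul]
      congr 1
      by_cases hq : q = q₀
      · rw [if_pos hq, hq, Finset.sum_congr rfl (fun a _ => inv_mul_cancel₀ (hμne q₀ a)),
          Finset.sum_const, Finset.card_univ, nsmul_eq_mul, mul_one, Nat.card_eq_fintype_card]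
      · rw [if_neg hq]
        have hex : ∃ b : A, (μ q₀ b)⁻¹ * μ q b ≠ 1 := by
          by_contra hcon
          push Not at hcon
          apply hq
          have heq : ∀ a : A, μ q₀ a = μ q a := fun a => (inv_mul_eq_one₀ (hμne q₀ a)).mp (hcon a)
          have hmemT : q₀.out⁻¹ * q.out ∈ T := by
            rw [hTmem]
            intro a
            rw [cj_mul]
            have h3 := heq (cj q₀.out⁻¹ a)
            have h4 : μ q₀ (cj q₀.out⁻¹ a) = lam a := by
              show lam (cj q₀.out (cj q₀.out⁻¹ a)) = lam a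
              rw [← cj_mul, inv_mul_cancel, cj_one]
            rw [h4] at h3
            exact h3.symm
          have h5 : ((q₀.out : G) : G ⧸ T) = ((q.out : G) : G ⧸ T) := QuotientGroup.eq.mpr hmemT
          rw [QuotientGroup.out_eq', QuotientGroup.out_eq'] at h5
          exact h5.symm
        obtain ⟨b, hb⟩ := hex
        exact sum_mul_char_eq_zero (fun a => (μ q₀ a)⁻¹ * μ q a)
          (fun a b => by rw [hμmul, hμmul, mul_inv]; ring) b hb
    have h3 : E (Φ u) = E 0 := by rw [hu]
    rw [hΦ, map_sum, map_zero, Finset.sum_congr rfl (fun q _ => hEq q),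
      Finset.sum_eq_single q₀ (fun q _ hne => by rw [if_neg hne, zero_smul])
        (fun h => absurd (Finset.mem_univ q₀) h), if_pos rfl] at h3
    have hA0 : (Nat.card A : ℂ) ≠ 0 := by exact_mod_cast Nat.card_pos.ne'
    have h4 : ρ q₀.out (u q₀ : V) = 0 := by
      rcases smul_eq_zero.mp h3 with h5 | h5
      · exact absurd h5 hA0
      · exact h5
    have h5 := hρinv q₀.out (u q₀ : V)
    rw [h4, map_zero] at h5
    apply Subtype.ext
    exact h5.symm
  have hrange : LinearMap.range Φ = ⊤ := by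
    have hinv : ∀ g : G, ∀ x ∈ LinearMap.range Φ, ρ g x ∈ LinearMap.range Φ := by
      rintro g _ ⟨u, rfl⟩
      rw [hΦ, map_sum]
      apply Submodule.sum_mem
      intro q _
      have ht : (((g * q.out : G) : G ⧸ T)).out⁻¹ * (g * q.out) ∈ T := by
        rw [← QuotientGroup.eq]; exact QuotientGroup.out_eq' _
      have hmem : ρ ((((g * q.out : G) : G ⧸ T)).out⁻¹ * (g * q.out)) (u q : V) ∈ U :=
        hU ⟨_, ht⟩ (u q : V) (u q).2
      have h2 : ρ g (ρ q.out (u q : V)) = Φ (Pi.single ((g * q.out : G) : G ⧸ T) ⟨_, hmem⟩) := by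
        rw [hsingle]
        show _ = ρ (((g * q.out : G) : G ⧸ T)).out
          (ρ ((((g * q.out : G) : G ⧸ T)).out⁻¹ * (g * q.out)) (u q : V))
        rw [← Module.End.mul_apply, ← Module.End.mul_apply, ← map_mul, ← map_mul,
          mul_inv_cancel_left]
      rw [h2]
      exact LinearMap.mem_range_self _ _
    rcases hirr _ hinv with h | h
    · exfalso
      obtain ⟨u₀, hu₀U, hu₀⟩ := Submodule.exists_mem_ne_zero_of_ne_bot hUne
      have h2 : Φ (Pi.single (QuotientGroup.mk (1 : G) : G ⧸ T) ⟨u₀, hu₀U⟩) ∈ LinearMap.range Φ :=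
        LinearMap.mem_range_self _ _
      rw [h, Submodule.mem_bot, hsingle] at h2
      apply hu₀
      have h3 := hρinv (QuotientGroup.mk (1 : G) : G ⧸ T).out u₀
      rw [← h3]
      have h4 : ρ (QuotientGroup.mk (1 : G) : G ⧸ T).out u₀ = 0 := h2
      rw [h4, map_zero]
    · exact h
  have hfin : finrank ℂ V = Nat.card (G ⧸ T) * finrank ℂ U := by
    have e := LinearEquiv.ofBijective Φ ⟨hinj, LinearMap.range_eq_top.mp hrange⟩
    rw [← e.finrank_eq, Module.finrank_pi_fintype, Finset.sum_const, Finset.card_univ, smul_eq_mul,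
      Nat.card_eq_fintype_card]
  -- the character identity
  have hψirr : Cfsg.IsIrrCharacter T (subRep ρT U hU).character := isIrrCharacter_of_rep _
  refine ⟨T, (subRep ρT U hU).character, hψirr, ?_, ?_⟩
  · haveI : Fintype T := Fintype.ofFinite T
    haveI : Fintype (Cfsg.IrrCharacter G) := Fintype.ofFinite _
    set ψ : T → ℂ := (subRep ρT U hU).character with hψ
    let Χ : Cfsg.IrrCharacter G := ⟨ρ.character, isIrrCharacter_of_rep ρ⟩
    have hI : Cfsg.IsCharacter G (Cfsg.indFun T ψ) :=
      isCharacter_indFun T ψ (isCharacter_of_irr hψirr)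
    obtain ⟨m, hm⟩ := isCharacter_decomp hI
    choose deg hdegpos hdeg using fun χ : Cfsg.IrrCharacter G => irr_one_eq_nat χ
    -- multiplicity of `χ`
    obtain ⟨U', hU', hcompl⟩ := exists_invariant_compl ρT U hU
    have hres : (fun t : T => ρ.character t) = ψ + (subRep ρT U' hU').character :=
      char_of_isCompl ρT U U' hU hU' hcompl
    obtain ⟨n', hn'⟩ := classInner_char_nat (isCharacter_of_irr hψirr)
      (isCharacter_of_rep (subRep ρT U' hU'))
    have hmΧ : m Χ = 1 + n' := by
      have h1 : Cfsg.classInner (Cfsg.indFun T ψ) Χ.1 = (m Χ : ℂ) := by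
        rw [hm]; exact classInner_nat_comb (fun φ => (m φ : ℂ)) Χ
      rw [frobenius_reciprocity T ψ Χ.1 (isClassFunction_of_irr Χ)] at h1
      have h2 : (fun t : T => Χ.1 t) = ψ + (subRep ρT U' hU').character := hres
      rw [h2, classInner_add_right, hn',
        irr_inner_self (⟨ψ, hψirr⟩ : Cfsg.IrrCharacter T)] at h1
      exact_mod_cast h1.symm
    -- degrees
    have hdegΧ : deg Χ = finrank ℂ V := by
      have h1 := hdeg Χ
      have h2 : Χ.1 1 = (finrank ℂ V : ℂ) := Representation.char_one ρ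
      rw [h2] at h1
      exact_mod_cast h1.symm
    have hsum : ∑ φ, m φ * deg φ = deg Χ := by
      have h1 : Cfsg.indFun T ψ 1 = (finrank ℂ V : ℂ) := by
        have hT0 : (Nat.card T : ℂ) ≠ 0 := by exact_mod_cast Nat.card_pos.ne'
        have h3 : ψ 1 = (finrank ℂ U : ℂ) := Representation.char_one _
        rw [indFun_one_eq, h3, hfin, ← Nat.card_eq_fintype_card, ← Subgroup.index_mul_card T,
          Subgroup.index_eq_card]
        push_cast
        field_simp
      rw [hm, Finset.sum_apply] at h1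
      have h2 : ((∑ φ, m φ * deg φ : ℕ) : ℂ) = (finrank ℂ V : ℂ) := by
        rw [← h1]
        push_cast
        apply Finset.sum_congr rfl
        intro φ _
        rw [Pi.smul_apply, smul_eq_mul, hdeg φ]
      rw [hdegΧ]
      exact_mod_cast h2
    have h1 := Finset.add_sum_erase Finset.univ (fun φ => m φ * deg φ) (Finset.mem_univ Χ)
    rw [hsum] at h1
    simp only [hmΧ] at h1
    have hposΧ := hdegpos Χ
    have hn0 : n' = 0 := by
      by_contra hne
      have : 1 ≤ n' := Nat.one_le_iff_ne_zero.mpr hne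
      nlinarith [Nat.zero_le (∑ φ ∈ Finset.univ.erase Χ, m φ * deg φ)]
    have hrest : ∑ φ ∈ Finset.univ.erase Χ, m φ * deg φ = 0 := by
      rw [hn0] at h1
      omega
    have hm0 : ∀ φ : Cfsg.IrrCharacter G, φ ≠ Χ → m φ = 0 := by
      intro φ hφ
      have h2 := (Finset.sum_eq_zero_iff.mp hrest) φ (Finset.mem_erase.mpr ⟨hφ, Finset.mem_univ _⟩)
      rcases Nat.mul_eq_zero.mp h2 with h3 | h3
      · exact h3
      · exact absurd h3 (hdegpos φ).ne'
    rw [hm, Finset.sum_eq_single Χ]
    · rw [hmΧ, hn0]; simp [Χ]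
    · intro φ _ hφ
      rw [hm0 φ hφ]; simp
    · intro h; exact absurd (Finset.mem_univ Χ) h
  · intro hTtop a ha
    refine ⟨lam ⟨a, ha⟩, ?_⟩
    have hWinv : ∀ g : G, ∀ w ∈ W, ρ g w ∈ W := by
      intro g w hw
      have hg : g ∈ T := by rw [hTtop]; trivial
      exact hWT ⟨g, hg⟩ w hw
    rcases hirr W hWinv with h | h
    · exact absurd h hWne
    · apply LinearMap.ext
      intro w
      have hw : w ∈ W := by rw [h]; trivial
      rw [(hWmem w).mp hw ⟨a, ha⟩]
      simp

end Cfsg.Agent.Lib.Lead
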