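import Mathlib
import Cfsg.Prelude.Def_Characters
import Cfsg.Agent.Lib.Lead.Clifford

set_option autoImplicit false

namespace Cfsg.Agent.Lib.Lead

open Module Representation

theorem indFun_congr_subgroup {K : Type*} [Group K] [Fintype K] {S S' : Subgroup K} (h : S = S')
    (θ : S → ℂ) (θ' : S' → ℂ)
    (hθ : ∀ (x : K) (hx : x ∈ S) (hx' : x ∈ S'), θ ⟨x, hx⟩ = θ' ⟨x, hx'⟩) :
    Cfsg.indFun S θ = Cfsg.indFun S' θ' := by
  subst h
  have : θ = θ' := by
    funext x
    exact hθ x.1 x.2 x.2
  rw [this]

/-- induction in stages through a subgroup of a subgroup -/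
theorem ind_map {G : Type*} [Group G] [Fintype G] (K : Subgroup G) [Fintype K] (S : Subgroup K)
    (θ : S → ℂ) :
    Cfsg.indFun K (Cfsg.indFun S θ) = Cfsg.indFun (S.map K.subtype)
      (fun h => θ ((Subgroup.equivMapOfInjective S K.subtype K.subtype_injective).symm h)) := by
  have hHK : S.map K.subtype ≤ K := Subgroup.map_subtype_le S
  rw [← indFun_trans (S.map K.subtype) K hHK]
  congr 1
  have hS : S = (S.map K.subtype).subgroupOf K :=
    (Subgroup.comap_map_eq_self_of_injective K.subtype_injective S).symm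
  apply indFun_congr_subgroup hS
  intro x hx hx'
  congr 1
  symm
  rw [MulEquiv.symm_apply_eq]
  apply Subtype.ext
  rfl

/-- a finite nilpotent group is an M-group -/
theorem nilpotent_mgroup.{u} : ∀ (n : ℕ) (G : Type u) [Group G] [Fintype G] [Group.IsNilpotent G],
    Nat.card G = n → ∀ χ : G → ℂ, Cfsg.IsIrrCharacter G χ →
      ∃ (H : Subgroup G) (lam : H →* ℂˣ), χ = Cfsg.indFun H (fun h => (lam h : ℂ)) := by
  intro n
  induction n using Nat.strong_induction_on with
  | _ n ih =>
    intro G _ _ _ hGn χ hχ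
    classical
    obtain ⟨k, ρ, hρ, rfl⟩ := hχ
    haveI hnt : Nontrivial (Fin k → ℂ) := ((irr_iff ρ).mp hρ).1
    have hirr := ((irr_iff ρ).mp hρ).2
    have hone : (1 : Module.End ℂ (Fin k → ℂ)) ≠ 0 := by
      intro h
      obtain ⟨v, hv⟩ := exists_ne (0 : Fin k → ℂ)
      apply hv
      have : (1 : Module.End ℂ (Fin k → ℂ)) v = (0 : Module.End ℂ (Fin k → ℂ)) v := by rw [h]
      simpa using this
    have hcinj : ∀ a b : ℂ, a • (1 : Module.End ℂ (Fin k → ℂ)) = b • (1 : Module.End ℂ (Fin k → ℂ))
        → a = b := fun a b h => smul_left_injective ℂ hone h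
    -- the scalar subgroup
    let Z : Subgroup G :=
      { carrier := {g | ∃ c : ℂ, ρ g = c • (1 : Module.End ℂ (Fin k → ℂ))}
        one_mem' := ⟨1, by rw [map_one, one_smul]⟩
        mul_mem' := by
          rintro a b ⟨c, hc⟩ ⟨d, hd⟩
          exact ⟨c * d, by rw [map_mul, hc, hd, smul_mul_smul_comm, one_mul]⟩
        inv_mem' := by
          rintro a ⟨c, hc⟩
          have h1 : ρ a * ρ a⁻¹ = 1 := by rw [← map_mul, mul_inv_cancel, map_one]
          rw [hc, smul_mul_assoc, one_mul] at h1
          have hc0 : c ≠ 0 := by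
            rintro rfl
            rw [zero_smul] at h1
            exact hone h1.symm
          refine ⟨c⁻¹, ?_⟩
          rw [← h1, smul_smul, inv_mul_cancel₀ hc0, one_smul] }
    have hZmem : ∀ g : G, g ∈ Z ↔ ∃ c : ℂ, ρ g = c • (1 : Module.End ℂ (Fin k → ℂ)) :=
      fun g => Iff.rfl
    haveI hZn : Z.Normal := by
      constructor
      intro g hg x
      obtain ⟨c, hc⟩ := (hZmem g).mp hg
      rw [hZmem]
      refine ⟨c, ?_⟩
      rw [map_mul, map_mul, hc, mul_smul_comm, mul_one, smul_mul_assoc, ← map_mul, mul_inv_cancel,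
        map_one]
    by_cases hZ : Z = ⊤
    · -- linear case
      have hall : ∀ g : G, ∃ c : ℂ, ρ g = c • (1 : Module.End ℂ (Fin k → ℂ)) := by
        intro g
        have : g ∈ Z := by rw [hZ]; trivial
        exact this
      choose c hc using hall
      have hfin : finrank ℂ (Fin k → ℂ) = 1 := by
        obtain ⟨v, hv⟩ := exists_ne (0 : Fin k → ℂ)
        have hinv : ∀ g : G, ∀ w ∈ Submodule.span ℂ {v}, ρ g w ∈ Submodule.span ℂ {v} := by
          intro g w hw
          rw [hc g]
          simpa using Submodule.smul_mem _ (c g) hw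
        rcases hirr _ hinv with h | h
        · exfalso
          have : v ∈ Submodule.span ℂ {v} := Submodule.mem_span_singleton_self v
          rw [h, Submodule.mem_bot] at this
          exact hv this
        · rw [← finrank_top ℂ (Fin k → ℂ), ← h]
          exact finrank_span_singleton hv
      have hchar : ∀ g : G, ρ.character g = c g := by
        intro g
        show LinearMap.trace ℂ _ (ρ g) = c g
        rw [hc g, map_smul, LinearMap.trace_one, hfin, Nat.cast_one, smul_eq_mul, mul_one]
      have hcmul : ∀ a b : G, c (a * b) = c a * c b := by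
        intro a b
        apply hcinj
        rw [← hc, map_mul, hc, hc, smul_mul_smul_comm, one_mul]
      have hcone : c 1 = 1 := by
        apply hcinj
        rw [← hc, map_one, one_smul]
      let f : (⊤ : Subgroup G) →* ℂ :=
        { toFun := fun g => c (g : G)
          map_one' := hcone
          map_mul' := fun a b => hcmul a b }
      refine ⟨⊤, f.toHomUnits, ?_⟩
      funext g
      rw [indFun_apply, hchar]
      have hterm : ∀ x : G, Cfsg.extendByZero (⊤ : Subgroup G)
          (fun h => ((f.toHomUnits h : ℂˣ) : ℂ)) (x⁻¹ * g * x) = c g := by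
        intro x
        rw [extendByZero_mem' _ _ (Subgroup.mem_top _), MonoidHom.coe_toHomUnits]
        show c (x⁻¹ * g * x) = c g
        rw [hcmul, hcmul, mul_comm (c x⁻¹), mul_assoc, ← hcmul, inv_mul_cancel, hcone, mul_one]
      rw [Finset.sum_congr rfl (fun x _ => hterm x), Finset.sum_const, Finset.card_univ,
        nsmul_eq_mul, Subgroup.card_top, Nat.card_eq_fintype_card]
      have hG0 : (Fintype.card G : ℂ) ≠ 0 := by exact_mod_cast Fintype.card_pos.ne'
      field_simp
    · -- nonlinear case
      haveI : Nontrivial (G ⧸ Z) := by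
        rw [← Finite.one_lt_card_iff_nontrivial, ← Subgroup.index_eq_card]
        have h1 : Z.index ≠ 1 := fun h => hZ (Subgroup.index_eq_one.mp h)
        have h2 : Z.index ≠ 0 := Subgroup.index_ne_zero_of_finite
        omega
      have hcne := Group.IsNilpotent.center_ne_bot (G ⧸ Z)
      obtain ⟨xbar, hx1⟩ := (Subgroup.ne_bot_iff_exists_ne_one.mp hcne)
      obtain ⟨x₀, hx₀⟩ := QuotientGroup.mk_surjective (xbar : G ⧸ Z)
      have hzn : (Subgroup.zpowers (xbar : G ⧸ Z)).Normal := by
        constructor
        intro y hy g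
        have hyc : y ∈ Subgroup.center (G ⧸ Z) := by
          obtain ⟨j, rfl⟩ := Subgroup.mem_zpowers_iff.mp hy
          exact Subgroup.zpow_mem _ xbar.2 j
        have h1 : g * y * g⁻¹ = y := by
          rw [Subgroup.mem_center_iff] at hyc
          rw [hyc g, mul_inv_cancel_right]
        rw [h1]
        exact hy
      let A : Subgroup G := (Subgroup.zpowers (xbar : G ⧸ Z)).comap (QuotientGroup.mk' Z)
      haveI hAn : A.Normal := hzn.comap _
      have hAform : ∀ a ∈ A, ∃ (j : ℤ) (d : ℂ), ρ a = d • ρ (x₀ ^ j) := by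
        intro a ha
        have ha' : (QuotientGroup.mk' Z) a ∈ Subgroup.zpowers (xbar : G ⧸ Z) := ha
        obtain ⟨j, hj⟩ := Subgroup.mem_zpowers_iff.mp ha'
        have h1 : ((x₀ ^ j : G) : G ⧸ Z) = ((a : G) : G ⧸ Z) := by
          rw [QuotientGroup.mk_zpow, hx₀]
          exact hj
        have h2 : (x₀ ^ j)⁻¹ * a ∈ Z := QuotientGroup.eq.mp h1
        obtain ⟨d, hd⟩ := (hZmem _).mp h2
        refine ⟨j, d, ?_⟩
        have h3 : a = x₀ ^ j * ((x₀ ^ j)⁻¹ * a) := by group
        conv_lhs => rw [h3]
        rw [map_mul, hd, mul_smul_comm, mul_one]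
      have hab : ∀ a ∈ A, ∀ b ∈ A, ρ (a * b) = ρ (b * a) := by
        intro a ha b hb
        obtain ⟨j, d, hd⟩ := hAform a ha
        obtain ⟨l, e, he⟩ := hAform b hb
        rw [map_mul, map_mul, hd, he, smul_mul_smul_comm, smul_mul_smul_comm, ← map_mul, ← map_mul,
          ← zpow_add, ← zpow_add, add_comm, mul_comm]
      obtain ⟨T, ψ, hψirr, hψ, hTtop⟩ := clifford_struct ρ A hab
      have hTne : T ≠ ⊤ := by
        intro hT
        have hx₀A : x₀ ∈ A := by
          show (QuotientGroup.mk' Z) x₀ ∈ Subgroup.zpowers (xbar : G ⧸ Z)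
          have : (QuotientGroup.mk' Z) x₀ = (xbar : G ⧸ Z) := hx₀
          rw [this]
          exact Subgroup.mem_zpowers _
        have hx₀Z : x₀ ∈ Z := (hZmem x₀).mpr (hTtop hT x₀ hx₀A)
        apply hx1
        apply Subtype.ext
        rw [← hx₀]
        exact (QuotientGroup.eq_one_iff x₀).mpr hx₀Z
      have hTcard : Nat.card T < n := by
        rw [← hGn]
        have h1 := Subgroup.card_le_card_group T
        have h2 : Nat.card T ≠ Nat.card G := fun h => hTne (Subgroup.eq_top_of_card_eq T h)
        omega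
      haveI : Fintype T := Fintype.ofFinite T
      obtain ⟨S, lam', hlam'⟩ := ih (Nat.card T) hTcard T rfl ψ hψirr
      refine ⟨S.map T.subtype, lam'.comp
        (Subgroup.equivMapOfInjective S T.subtype T.subtype_injective).symm.toMonoidHom, ?_⟩
      rw [hψ, hlam', ind_map]
      rfl

end Cfsg.Agent.Lib.Lead
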