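import Mathlib
import Cfsg.Agent.S0190

set_option autoImplicit false

namespace Cfsg.Agent.Lib.Lead

/-- `p`-quasi-elementary subgroups, in the shape used by the statements -/
def QE {G : Type*} [Group G] (p : ℕ) (H : Subgroup G) : Prop :=
  ∃ C : Subgroup G, C ≤ H ∧ H ≤ Subgroup.normalizer (C : Set G) ∧ IsCyclic C ∧
    Nat.Coprime (Nat.card C) p ∧ ∃ k : ℕ, C.relIndex H = p ^ k

/-- the integer-valued permutation character on the cosets of `H` -/
noncomputable def permZ {G : Type*} [Group G] (H : Subgroup G) : G → ℤ :=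
  fun g => (Nat.card (MulAction.fixedBy (G ⧸ H) g) : ℤ)

theorem indFun_one_eq_permZ {G : Type*} [Group G] [Fintype G] (H : Subgroup G) :
    Cfsg.indFun H (fun _ => (1 : ℂ)) = fun g => ((permZ H g : ℤ) : ℂ) := by
  have h1 := Cfsg.Agent.S0190.result (G := G) (G ⧸ H) ((1 : G) : G ⧸ H)
  have hcongr : ∀ U V : Subgroup G, U = V →
      Cfsg.indFun U (fun _ => (1 : ℂ)) = Cfsg.indFun V (fun _ => (1 : ℂ)) := by
    intro U V h; subst h; rfl
  rw [hcongr _ _ (MulAction.stabilizer_quotient H)] at h1
  rw [← h1]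
  funext g
  simp [permZ]

theorem QE_of_le {G : Type*} [Group G] [Finite G] {p : ℕ} (hp : p.Prime) {H U : Subgroup G}
    (hH : QE p H) (hUH : U ≤ H) : QE p U := by
  obtain ⟨C, hCH, hHN, hcyc, hcop, k, hk⟩ := hH
  refine ⟨C ⊓ U, inf_le_right, ?_, ?_, ?_, ?_⟩
  · intro u hu
    have h1 : u ∈ Subgroup.normalizer (C : Set G) := hHN (hUH hu)
    rw [Subgroup.mem_normalizer_iff] at h1 ⊢
    intro n
    constructor
    · rintro ⟨hn1, hn2⟩
      exact ⟨(h1 n).1 hn1, U.mul_mem (U.mul_mem hu hn2) (U.inv_mem hu)⟩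
    · rintro ⟨hn1, hn2⟩
      refine ⟨(h1 n).2 hn1, ?_⟩
      have h2 := U.mul_mem (U.mul_mem (U.inv_mem hu) hn2) hu
      have h3 : u⁻¹ * (u * n * u⁻¹) * u = n := by group
      rwa [h3] at h2
  · haveI := hcyc
    exact isCyclic_of_injective (Subgroup.inclusion (inf_le_left : C ⊓ U ≤ C))
      (Subgroup.inclusion_injective _)
  · exact Nat.Coprime.coprime_dvd_left (Subgroup.card_dvd_of_le inf_le_left) hcop
  · rw [Subgroup.inf_relIndex_right]
    haveI : (C.subgroupOf H).Normal := Subgroup.normal_subgroupOf_of_le_normalizer hHN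
    have h1 : (C.subgroupOf H).relIndex (U.subgroupOf H) ∣ (C.subgroupOf H).index :=
      Subgroup.relIndex_dvd_index_of_normal _ _
    rw [Subgroup.relIndex_subgroupOf hUH] at h1
    have h2 : (C.subgroupOf H).index = p ^ k := hk
    rw [h2] at h1
    obtain ⟨j, _, hj⟩ := (Nat.dvd_prime_pow hp).1 h1
    exact ⟨j, hj⟩

theorem QE_of_cyclic {G : Type*} [Group G] [Finite G] {p : ℕ} (hp : p.Prime) (z : G) :
    QE p (Subgroup.zpowers z) := by
  obtain ⟨a, r, hr, hor⟩ := Nat.exists_eq_pow_mul_and_not_dvd (orderOf_pos z).ne' p hp.ne_one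
  have hrpos : 0 < r := by
    rcases Nat.eq_zero_or_pos r with h | h
    · exfalso; rw [h, mul_zero] at hor; exact (orderOf_pos z).ne' hor
    · exact h
  have hcord : orderOf (z ^ (p ^ a)) = r := by
    rw [orderOf_pow_of_dvd (pow_pos hp.pos a).ne' (by rw [hor]; exact dvd_mul_right _ _), hor,
      Nat.mul_div_cancel_left _ (pow_pos hp.pos a)]
  have hle : Subgroup.zpowers (z ^ (p ^ a)) ≤ Subgroup.zpowers z :=
    Subgroup.zpowers_le.2 (Subgroup.pow_mem _ (Subgroup.mem_zpowers z) _)
  refine ⟨Subgroup.zpowers (z ^ (p ^ a)), hle, ?_, inferInstance, ?_, a, ?_⟩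
  · intro y hy
    obtain ⟨j, rfl⟩ := Subgroup.mem_zpowers_iff.1 hy
    apply Subgroup.mem_normalizer_fintype
    intro n hn
    have hn' : n ∈ Subgroup.zpowers (z ^ (p ^ a)) := hn
    obtain ⟨i, rfl⟩ := Subgroup.mem_zpowers_iff.1 hn'
    have h1 : z ^ j * (z ^ (p ^ a)) ^ i * (z ^ j)⁻¹ = (z ^ (p ^ a)) ^ i := by
      rw [mul_inv_eq_iff_eq_mul]
      exact (((Commute.refl z).pow_right (p ^ a)).zpow_right i).zpow_left j
    rw [h1]; exact hn
  · rw [Nat.card_zpowers, hcord]
    exact ((Nat.Prime.coprime_iff_not_dvd hp).2 hr).symm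
  · have h1 := Subgroup.index_mul_card ((Subgroup.zpowers (z ^ (p ^ a))).subgroupOf (Subgroup.zpowers z))
    rw [Nat.card_congr (Subgroup.subgroupOfEquivOfLe hle).toEquiv, Nat.card_zpowers, Nat.card_zpowers,
      hcord, hor] at h1
    exact Nat.eq_of_mul_eq_mul_right hrpos h1

theorem permZ_conj {G : Type*} [Group G] (H : Subgroup G) (g y : G) :
    permZ H (g⁻¹ * y * g) = permZ H y := by
  unfold permZ
  congr 1
  apply Nat.card_congr
  exact
    { toFun := fun q => ⟨g • q.1, by
        have h : (g⁻¹ * y * g) • q.1 = q.1 := q.2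
        show y • g • q.1 = g • q.1
        have h2 : y • g • q.1 = g • ((g⁻¹ * y * g) • q.1) := by
          rw [smul_smul, smul_smul]; congr 1; group
        rw [h2, h]⟩
      invFun := fun q => ⟨g⁻¹ • q.1, by
        have h : y • q.1 = q.1 := q.2
        show (g⁻¹ * y * g) • g⁻¹ • q.1 = g⁻¹ • q.1
        have h2 : (g⁻¹ * y * g) • g⁻¹ • q.1 = g⁻¹ • (y • q.1) := by
          rw [smul_smul, smul_smul]; congr 1; group
        rw [h2, h]⟩
      left_inv := fun q => Subtype.ext (by simp)
      right_inv := fun q => Subtype.ext (by simp) }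

theorem permZ_zpowers {G : Type*} [Group G] (H : Subgroup G) (y y' : G)
    (h : Subgroup.zpowers y = Subgroup.zpowers y') : permZ H y = permZ H y' := by
  unfold permZ
  have key : ∀ u v : G, u ∈ Subgroup.zpowers v →
      MulAction.fixedBy (G ⧸ H) v ⊆ MulAction.fixedBy (G ⧸ H) u := by
    intro u v hu q hq
    have h1 : v ∈ MulAction.stabilizer G q := hq
    have h2 : Subgroup.zpowers v ≤ MulAction.stabilizer G q := Subgroup.zpowers_le.2 h1
    exact h2 hu
  have h3 : MulAction.fixedBy (G ⧸ H) y = MulAction.fixedBy (G ⧸ H) y' :=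
    Set.Subset.antisymm (key y' y (by rw [h]; exact Subgroup.mem_zpowers y'))
      (key y y' (by rw [← h]; exact Subgroup.mem_zpowers y))
  rw [h3]

theorem card_conj_mem_eq {G : Type*} [Group G] [Finite G] (H : Subgroup G) (y : G) :
    (Nat.card {g : G // g⁻¹ * y * g ∈ H} : ℤ) = (Nat.card H : ℤ) * permZ H y := by
  unfold permZ
  rw [← Nat.cast_mul, ← Nat.card_prod]
  congr 1
  rw [← Nat.card_congr (QuotientGroup.preimageMkEquivSubgroupProdSet H (MulAction.fixedBy (G ⧸ H) y))]
  apply Nat.card_congr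
  apply Equiv.subtypeEquivRight
  intro g
  show g⁻¹ * y * g ∈ H ↔ y • (g : G ⧸ H) = g
  have h1 : y • (g : G ⧸ H) = ((y * g : G) : G ⧸ H) := rfl
  rw [h1, QuotientGroup.eq]
  have h2 : (y * g)⁻¹ * g = (g⁻¹ * y * g)⁻¹ := by group
  rw [h2, inv_mem_iff]

theorem exists_zpowers_of_le {G : Type*} [Group G] (c : G) (D : Subgroup G)
    (hD : D ≤ Subgroup.zpowers c) : ∃ d : G, D = Subgroup.zpowers d := by
  haveI : IsCyclic D := isCyclic_of_injective (Subgroup.inclusion hD)
    (Subgroup.inclusion_injective _)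
  obtain ⟨g, hg⟩ := IsCyclic.exists_generator (α := D)
  refine ⟨(g : G), le_antisymm ?_ (Subgroup.zpowers_le.2 g.2)⟩
  intro x hx
  obtain ⟨k, hk⟩ := Subgroup.mem_zpowers_iff.1 (hg ⟨x, hx⟩)
  rw [Subgroup.mem_zpowers_iff]
  refine ⟨k, ?_⟩
  have h := congrArg Subtype.val hk
  simpa using h

/-- the number of conjugating elements taking `⟨y⟩` onto `C` -/
noncomputable def thetaZ {G : Type*} [Group G] (C : Subgroup G) : G → ℤ :=
  fun y => (Nat.card {g : G // Subgroup.zpowers (g⁻¹ * y * g) = C} : ℤ)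

/-- the span of the permutation characters on cosets of cyclic subgroups -/
def cycSpan (G : Type*) [Group G] : AddSubgroup (G → ℤ) :=
  AddSubgroup.closure {f : G → ℤ | ∃ z : G, f = permZ (Subgroup.zpowers z)}

theorem thetaZ_mem {G : Type*} [Group G] [Finite G] :
    ∀ (n : ℕ) (c : G), orderOf c = n → thetaZ (Subgroup.zpowers c) ∈ cycSpan G := by
  classical
  haveI : Fintype G := Fintype.ofFinite G
  haveI : Fintype (Subgroup G) := Fintype.ofFinite _
  intro n
  induction n using Nat.strong_induction_on with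
  | _ n ih =>
    intro c hc
    have hpart : (Nat.card (Subgroup.zpowers c) : ℤ) • permZ (Subgroup.zpowers c)
        = ∑ D ∈ Finset.univ.filter (fun D : Subgroup G => D ≤ Subgroup.zpowers c), thetaZ D := by
      funext y
      rw [Finset.sum_apply, Pi.smul_apply, smul_eq_mul, ← card_conj_mem_eq]
      unfold thetaZ
      rw [← Nat.cast_sum]
      congr 1
      rw [Nat.card_eq_fintype_card, Fintype.card_subtype,
        Finset.card_eq_sum_card_fiberwise (f := fun g : G => Subgroup.zpowers (g⁻¹ * y * g))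
          (t := Finset.univ.filter (fun D : Subgroup G => D ≤ Subgroup.zpowers c))
          (fun g hg => by
            have hg' := Finset.mem_coe.1 hg
            rw [Finset.mem_filter] at hg'
            exact Finset.mem_coe.2 (Finset.mem_filter.2
              ⟨Finset.mem_univ _, Subgroup.zpowers_le.2 hg'.2⟩))]
      refine Finset.sum_congr rfl (fun D hD => ?_)
      rw [Nat.card_eq_fintype_card, Fintype.card_subtype, Finset.filter_filter]
      congr 1
      apply Finset.filter_congr
      intro g _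
      constructor
      · intro h; exact h.2
      · intro h
        refine ⟨?_, h⟩
        have h2 : Subgroup.zpowers (g⁻¹ * y * g) ≤ Subgroup.zpowers c := by
          rw [h]; exact (Finset.mem_filter.1 hD).2
        exact h2 (Subgroup.mem_zpowers _)
    have hmemC : Subgroup.zpowers c ∈ Finset.univ.filter (fun D : Subgroup G => D ≤ Subgroup.zpowers c) :=
      Finset.mem_filter.2 ⟨Finset.mem_univ _, le_rfl⟩
    rw [← Finset.add_sum_erase _ _ hmemC] at hpart
    have h1 : thetaZ (Subgroup.zpowers c) = (Nat.card (Subgroup.zpowers c) : ℤ) • permZ (Subgroup.zpowers c)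
        - ∑ D ∈ (Finset.univ.filter (fun D : Subgroup G => D ≤ Subgroup.zpowers c)).erase
          (Subgroup.zpowers c), thetaZ D := eq_sub_of_add_eq hpart.symm
    rw [h1]
    apply AddSubgroup.sub_mem
    · exact AddSubgroup.zsmul_mem _ (AddSubgroup.subset_closure
        (show permZ (Subgroup.zpowers c) ∈ {f : G → ℤ | ∃ z : G, f = permZ (Subgroup.zpowers z)}
          from ⟨c, rfl⟩)) _
    · apply AddSubgroup.sum_mem
      intro D hD
      rw [Finset.mem_erase, Finset.mem_filter] at hD
      obtain ⟨d, rfl⟩ := exists_zpowers_of_le c D hD.2.2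
      apply ih (orderOf d) _ d rfl
      rw [← hc, ← Nat.card_zpowers, ← Nat.card_zpowers c]
      apply lt_of_le_of_ne (Subgroup.card_le_of_le hD.2.2)
      intro heq
      exact hD.1 (Subgroup.eq_of_le_of_card_ge hD.2.2 heq.ge)

theorem artin_perm {G : Type*} [Group G] [Finite G] (h : G → ℤ)
    (hconj : ∀ g y : G, h (g⁻¹ * y * g) = h y)
    (hgen : ∀ y y' : G, Subgroup.zpowers y = Subgroup.zpowers y' → h y = h y') :
    (fun y => (Nat.card G : ℤ) * h y) ∈ cycSpan G := by
  classical
  haveI : Fintype G := Fintype.ofFinite G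
  haveI : Fintype (Subgroup G) := Fintype.ofFinite _
  let hC : Subgroup G → ℤ := fun C =>
    if hex : ∃ c : G, C = Subgroup.zpowers c then h hex.choose else 0
  have hCz : ∀ z : G, hC (Subgroup.zpowers z) = h z := by
    intro z
    have hex : ∃ c : G, Subgroup.zpowers z = Subgroup.zpowers c := ⟨z, rfl⟩
    show (if hex : ∃ c : G, Subgroup.zpowers z = Subgroup.zpowers c then h hex.choose else 0) = h z
    rw [dif_pos hex]
    exact hgen _ _ hex.choose_spec.symm
  have hsum : (fun y => (Nat.card G : ℤ) * h y) = ∑ C : Subgroup G, hC C • thetaZ C := by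
    funext y
    rw [Finset.sum_apply]
    have h1 : ∀ C : Subgroup G, (hC C • thetaZ C) y
        = ∑ g ∈ Finset.univ.filter (fun g : G => Subgroup.zpowers (g⁻¹ * y * g) = C),
          h y := by
      intro C
      rw [Pi.smul_apply, smul_eq_mul]
      unfold thetaZ
      rw [Nat.card_eq_fintype_card, Fintype.card_subtype, Finset.sum_const, nsmul_eq_mul, mul_comm]
      by_cases hne : (Finset.univ.filter (fun g : G => Subgroup.zpowers (g⁻¹ * y * g) = C)).card = 0
      · rw [hne]; simp
      · obtain ⟨g, hg⟩ := Finset.card_pos.1 (Nat.pos_of_ne_zero hne)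
        rw [Finset.mem_filter] at hg
        rw [← hg.2, hCz, hconj]
    rw [Finset.sum_congr rfl (fun C _ => h1 C),
      Finset.sum_fiberwise Finset.univ (fun g : G => Subgroup.zpowers (g⁻¹ * y * g)) (fun _ => h y),
      Finset.sum_const, Finset.card_univ, nsmul_eq_mul, Nat.card_eq_fintype_card]
  rw [hsum]
  apply AddSubgroup.sum_mem
  intro C _
  by_cases hex : ∃ c : G, C = Subgroup.zpowers c
  · obtain ⟨c, rfl⟩ := hex
    exact AddSubgroup.zsmul_mem _ (thetaZ_mem _ c rfl) _
  · have h0 : hC C = 0 := dif_neg hex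
    rw [h0, zero_smul]
    exact AddSubgroup.zero_mem _

end Cfsg.Agent.Lib.Lead
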