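import Mathlib
import Cfsg.Agent.Lib.Lead.MGroup
import Cfsg.Agent.Lib.Lead.Char9
import Cfsg.Agent.Lib.Lead.Artin
import Cfsg.Agent.Lib.Lead.LinTransfer
import Cfsg.Agent.Lib.Lead.Solomon

set_option autoImplicit false

namespace Cfsg.Agent.Lib.Lead

/-- projection formula -/
theorem indFun_mul_classFun {G : Type*} [Group G] [Fintype G] (E : Subgroup G) (φ : E → ℂ)
    (θ : G → ℂ) (hθ : Cfsg.IsClassFunction G θ) :
    Cfsg.indFun E (fun e => φ e * θ e) = Cfsg.indFun E φ * θ := by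
  funext g
  rw [Pi.mul_apply, indFun_apply, indFun_apply, mul_assoc, Finset.sum_mul]
  congr 1
  refine Finset.sum_congr rfl (fun x _ => ?_)
  have h1 : θ (x⁻¹ * g * x) = θ g := by
    have h2 := hθ g x⁻¹
    simpa using h2
  by_cases hx : x⁻¹ * g * x ∈ E
  · rw [extendByZero_mem' E _ hx, extendByZero_mem' E _ hx, h1]
  · rw [extendByZero_not_mem E _ hx, extendByZero_not_mem E _ hx, zero_mul]

/-- the span of the characters induced from `p`-elementary subgroups -/
def elemSpan (G : Type*) [Group G] [Fintype G] (p : ℕ) : AddSubgroup (G → ℂ) :=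
  AddSubgroup.closure {f : G → ℂ | ∃ (E : Subgroup G) (φ : E → ℂ),
    Cfsg.IsElementary p E ∧ Cfsg.IsCharacter E φ ∧ f = Cfsg.indFun E φ}

theorem elemSpan_gen {G : Type*} [Group G] [Fintype G] {p : ℕ} (E : Subgroup G) (φ : E → ℂ)
    (hE : Cfsg.IsElementary p E) (hφ : Cfsg.IsCharacter E φ) :
    Cfsg.indFun E φ ∈ elemSpan G p :=
  AddSubgroup.subset_closure ⟨E, φ, hE, hφ, rfl⟩

theorem elemSpan_mul_char {G : Type*} [Group G] [Fintype G] {p : ℕ} {f : G → ℂ}
    (hf : f ∈ elemSpan G p) {ψ : G → ℂ} (hψ : Cfsg.IsCharacter G ψ) : f * ψ ∈ elemSpan G p := by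
  refine AddSubgroup.closure_induction (p := fun f _ => f * ψ ∈ elemSpan G p) ?_ ?_ ?_ ?_ hf
  · rintro f ⟨E, φ, hE, hφ, rfl⟩
    rw [← indFun_mul_classFun E φ ψ (isClassFunction_of_char hψ)]
    exact elemSpan_gen E _ hE (isCharacter_mul hφ (isCharacter_restrict E hψ))
  · rw [zero_mul]; exact AddSubgroup.zero_mem _
  · intro f g _ _ hf hg; rw [add_mul]; exact AddSubgroup.add_mem _ hf hg
  · intro f _ hf; rw [neg_mul]; exact AddSubgroup.neg_mem _ hf

theorem elemSpan_of_one {G : Type*} [Group G] [Fintype G] {p : ℕ}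
    (h1 : (fun _ : G => (1 : ℂ)) ∈ elemSpan G p) {ψ : G → ℂ} (hψ : Cfsg.IsCharacter G ψ) :
    ψ ∈ elemSpan G p := by
  have h := elemSpan_mul_char h1 hψ
  have h2 : (fun _ : G => (1 : ℂ)) * ψ = ψ := by funext g; simp
  rwa [h2] at h

theorem isElementary_of_equiv {p : ℕ} {E E' : Type*} [Group E] [Group E'] (e : E ≃* E')
    (h : Cfsg.IsElementary p E) : Cfsg.IsElementary p E' := by
  obtain ⟨x, hx, hcop, k, hk⟩ := h
  refine ⟨e x, ?_, ?_, k, ?_⟩
  · rw [Subgroup.mem_center_iff] at hx ⊢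
    intro y
    obtain ⟨y, rfl⟩ := e.surjective y
    rw [← map_mul, ← map_mul, hx y]
  · have h1 : orderOf (e x) = orderOf x := orderOf_injective e.toMonoidHom e.injective x
    rw [h1]; exact hcop
  · have h1 : Subgroup.zpowers (e x) = (Subgroup.zpowers x).map (e : E →* E') := by
      rw [MonoidHom.map_zpowers]; rfl
    rw [h1, Subgroup.index_map_equiv]; exact hk

theorem elemSpan_ind {G : Type*} [Group G] [Fintype G] {p : ℕ} (T : Subgroup G) [Fintype T]
    {f : T → ℂ} (hf : f ∈ elemSpan T p) : Cfsg.indFun T f ∈ elemSpan G p := by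
  refine AddSubgroup.closure_induction (p := fun f _ => Cfsg.indFun T f ∈ elemSpan G p)
    ?_ ?_ ?_ ?_ hf
  · rintro f ⟨E, φ, hE, hφ, rfl⟩
    rw [ind_map T E φ]
    refine elemSpan_gen (E.map T.subtype) _ ?_ ?_
    · exact isElementary_of_equiv (Subgroup.equivMapOfInjective E T.subtype T.subtype_injective) hE
    · exact isCharacter_comp
        (Subgroup.equivMapOfInjective E T.subtype T.subtype_injective).symm.toMonoidHom hφ
  · have h : Cfsg.indFun T (0 : T → ℂ) = 0 := (indLin T).map_zero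
    rw [h]; exact AddSubgroup.zero_mem _
  · intro f g _ _ hf hg
    have h : Cfsg.indFun T (f + g) = Cfsg.indFun T f + Cfsg.indFun T g := (indLin T).map_add f g
    rw [h]; exact AddSubgroup.add_mem _ hf hg
  · intro f _ hf
    have h : Cfsg.indFun T (-f) = -Cfsg.indFun T f := (indLin T).map_neg f
    rw [h]; exact AddSubgroup.neg_mem _ hf

/-- `p`-quasi-elementary groups (as types) -/
def QEG (p : ℕ) (H : Type*) [Group H] : Prop :=
  ∃ C : Subgroup H, C.Normal ∧ IsCyclic C ∧ Nat.Coprime (Nat.card C) p ∧ ∃ k : ℕ, C.index = p ^ k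

theorem QEG_of_QE {G : Type*} [Group G] {p : ℕ} {H : Subgroup G} (h : QE p H) : QEG p H := by
  obtain ⟨C, hCH, hHN, hcyc, hcop, k, hk⟩ := h
  refine ⟨C.subgroupOf H, Subgroup.normal_subgroupOf_of_le_normalizer hHN, ?_, ?_, k, hk⟩
  · haveI := hcyc
    exact isCyclic_of_injective (Subgroup.subgroupOfEquivOfLe hCH).toMonoidHom
      (Subgroup.subgroupOfEquivOfLe hCH).injective
  · rw [Nat.card_congr (Subgroup.subgroupOfEquivOfLe hCH).toEquiv]; exact hcop

theorem QEG_subgroup {H : Type*} [Group H] [Finite H] {p : ℕ} (hp : p.Prime) (h : QEG p H)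
    (T : Subgroup H) : QEG p T := by
  obtain ⟨C, hCn, hcyc, hcop, k, hk⟩ := h
  haveI := hCn
  haveI := hcyc
  have hinj : Function.Injective (T.subtype.subgroupComap C) := by
    intro x y hxy
    have h1 := congrArg (fun z : C => (z : H)) hxy
    exact Subtype.ext (Subtype.ext h1)
  refine ⟨C.subgroupOf T, inferInstance, ?_, ?_, ?_⟩
  · exact isCyclic_of_injective (T.subtype.subgroupComap C) hinj
  · exact Nat.Coprime.coprime_dvd_left (Subgroup.card_dvd_of_injective _ hinj) hcop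
  · have h1 : C.relIndex T ∣ C.index := Subgroup.relIndex_dvd_index_of_normal _ _
    rw [hk] at h1
    obtain ⟨j, _, hj⟩ := (Nat.dvd_prime_pow hp).1 h1
    exact ⟨j, hj⟩

end Cfsg.Agent.Lib.Lead
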