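import Mathlib
import Cfsg.Agent.Lib.Lead.Brauer1
import Cfsg.Agent.Lib.Lead.Char8
import Cfsg.Agent.S0873

set_option autoImplicit false

namespace Cfsg.Agent.Lib.Lead

open Module Representation

theorem exists_zpowers_of_isCyclic {G : Type*} [Group G] (C : Subgroup G) [IsCyclic C] :
    ∃ c : G, C = Subgroup.zpowers c := by
  obtain ⟨g, hg⟩ := IsCyclic.exists_generator (α := C)
  refine ⟨(g : G), le_antisymm ?_ (Subgroup.zpowers_le.2 g.2)⟩
  intro x hx
  obtain ⟨k, hk⟩ := Subgroup.mem_zpowers_iff.1 (hg ⟨x, hx⟩)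
  rw [Subgroup.mem_zpowers_iff]
  refine ⟨k, ?_⟩
  have h := congrArg Subtype.val hk
  simpa using h

/-- an irreducible representation with a nonzero fixed vector is trivial of degree one -/
theorem char_one_of_fixed {G : Type*} [Group G] {V : Type*} [AddCommGroup V] [Module ℂ V]
    [FiniteDimensional ℂ V] (ρ : Representation ℂ G V) [hρ : ρ.IsIrreducible] (v : V) (hv : v ≠ 0)
    (hfix : ∀ g, ρ g v = v) : ρ.character = fun _ => 1 := by
  have hirr := ((irr_iff ρ).mp hρ).2
  let W : Submodule ℂ V :=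
    { carrier := {w | ∀ g, ρ g w = w}
      add_mem' := by intro a b ha hb g; rw [map_add, ha g, hb g]
      zero_mem' := by intro g; rw [map_zero]
      smul_mem' := by intro c a ha g; rw [map_smul, ha g] }
  have hW : W = ⊤ := by
    rcases hirr W (by
      intro g w hw h
      show ρ h (ρ g w) = ρ g w
      rw [hw g, hw h]) with h | h
    · exfalso
      have h1 : v ∈ W := hfix
      rw [h] at h1
      exact hv ((Submodule.mem_bot ℂ).1 h1)
    · exact h
  have hall : ∀ g w, ρ g w = w := by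
    intro g w
    have h1 : w ∈ W := by rw [hW]; trivial
    exact h1 g
  have hS : Submodule.span ℂ {v} = ⊤ := by
    rcases hirr (Submodule.span ℂ {v}) (by intro g w hw; rw [hall]; exact hw) with h | h
    · exfalso; apply hv
      have h1 : v ∈ Submodule.span ℂ {v} := Submodule.mem_span_singleton_self v
      rw [h] at h1; exact (Submodule.mem_bot ℂ).1 h1
    · exact h
  have hfr : finrank ℂ V = 1 := by
    have h1 := finrank_span_singleton (K := ℂ) hv
    rw [hS, finrank_top] at h1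
    exact h1
  funext g
  have h1 : ρ g = 1 := LinearMap.ext (fun w => hall g w)
  show LinearMap.trace ℂ V (ρ g) = 1
  rw [h1, LinearMap.trace_one, hfr]; simp

theorem isElementary_centralizer_sup {H : Type*} [Group H] [Finite H] {p : ℕ} [hpf : Fact p.Prime]
    (C : Subgroup H) [IsCyclic C] (hcop : Nat.Coprime (Nat.card C) p) (P : Subgroup H)
    (hP : IsPGroup p P) :
    Cfsg.IsElementary p ↥((C ⊓ Subgroup.centralizer (P : Set H)) ⊔ P) := by
  obtain ⟨c₀, hc₀⟩ := exists_zpowers_of_isCyclic C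
  obtain ⟨z₀, hz₀⟩ := exists_zpowers_of_le c₀ (C ⊓ Subgroup.centralizer (P : Set H))
    (by rw [← hc₀]; exact inf_le_left)
  obtain ⟨Z, hZ⟩ : ∃ Z : Subgroup H, Z = C ⊓ Subgroup.centralizer (P : Set H) := ⟨_, rfl⟩
  rw [← hZ] at hz₀ ⊢
  obtain ⟨E, hE⟩ : ∃ E : Subgroup H, E = Z ⊔ P := ⟨_, rfl⟩
  rw [← hE]
  have hz₀Z : z₀ ∈ Z := by rw [hz₀]; exact Subgroup.mem_zpowers z₀
  have hZE : Z ≤ E := by rw [hE]; exact le_sup_left
  have hPE : P ≤ E := by rw [hE]; exact le_sup_right
  have hcomm : ∀ y ∈ E, y * z₀ = z₀ * y := by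
    have h1 : E ≤ Subgroup.centralizer ({z₀} : Set H) := by
      rw [hE]
      apply sup_le
      · rw [hz₀, Subgroup.zpowers_le, Subgroup.mem_centralizer_iff]
        intro h hh
        rw [Set.mem_singleton_iff] at hh
        rw [hh]
      · intro u hu
        rw [Subgroup.mem_centralizer_iff]
        intro h hh
        rw [Set.mem_singleton_iff] at hh
        rw [hh]
        have h2 : z₀ ∈ Subgroup.centralizer (P : Set H) := by
          rw [hZ] at hz₀Z; exact hz₀Z.2
        exact (Subgroup.mem_centralizer_iff.1 h2 u hu).symm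
    intro y hy
    have h2 := Subgroup.mem_centralizer_iff.1 (h1 hy) z₀ rfl
    exact h2.symm
  have hcenter : (⟨z₀, hZE hz₀Z⟩ : E) ∈ Subgroup.center E := by
    rw [Subgroup.mem_center_iff]
    intro y
    exact Subtype.ext (hcomm y.1 y.2)
  refine ⟨⟨z₀, hZE hz₀Z⟩, hcenter, ?_, ?_⟩
  · rw [Subgroup.orderOf_mk]
    have h1 : orderOf z₀ ∣ Nat.card C := by
      rw [← Nat.card_zpowers, ← hz₀, hZ]; exact Subgroup.card_dvd_of_le inf_le_left
    exact Nat.Coprime.coprime_dvd_left h1 hcop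
  · obtain ⟨Z', hZ'⟩ : ∃ Z' : Subgroup E, Z' = Subgroup.zpowers (⟨z₀, hZE hz₀Z⟩ : E) := ⟨_, rfl⟩
    rw [← hZ']
    have hZ'eq : Z' = Z.subgroupOf E := by
      ext y
      rw [hZ', Subgroup.mem_subgroupOf, hz₀, Subgroup.mem_zpowers_iff, Subgroup.mem_zpowers_iff]
      constructor
      · rintro ⟨j, hj⟩; exact ⟨j, by rw [← hj]; rfl⟩
      · rintro ⟨j, hj⟩; exact ⟨j, Subtype.ext hj⟩
    haveI : Z'.Normal := by
      have hle : Z' ≤ Subgroup.center E := by
        rw [hZ', Subgroup.zpowers_le]; exact hcenter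
      constructor
      intro n hn g
      have h1 := Subgroup.mem_center_iff.1 (hle hn) g
      rw [h1, mul_inv_cancel_right]; exact hn
    have hsup : Z' ⊔ P.subgroupOf E = ⊤ := by
      rw [hZ'eq, ← Subgroup.subgroupOf_sup hZE hPE, ← hE, Subgroup.subgroupOf_self]
    have h1 : Z'.relIndex (Z' ⊔ P.subgroupOf E) = Z'.relIndex (P.subgroupOf E) :=
      Subgroup.relIndex_sup_left _ _
    rw [hsup, Subgroup.relIndex_top_right] at h1
    have h2 : Z'.relIndex (P.subgroupOf E) ∣ Nat.card (P.subgroupOf E) :=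
      Subgroup.relIndex_dvd_card _ _
    rw [Nat.card_congr (Subgroup.subgroupOfEquivOfLe hPE).toEquiv] at h2
    obtain ⟨n, hn⟩ := hP.exists_card_eq
    rw [hn, ← h1] at h2
    obtain ⟨j, _, hj⟩ := (Nat.dvd_prime_pow hpf.out).1 h2
    exact ⟨j, hj⟩

end Cfsg.Agent.Lib.Lead
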