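import Mathlib
import Cfsg.Agent.Lib.Lead.Brauer2

set_option autoImplicit false

namespace Cfsg.Agent.Lib.Lead

open Module Representation

set_option maxHeartbeats 1000000 in
theorem brauer_qe.{u} (p : ℕ) (hp : p.Prime) : ∀ (n : ℕ) (H : Type u) [Group H] [Fintype H],
    Nat.card H = n → QEG p H → (fun _ : H => (1 : ℂ)) ∈ elemSpan H p := by
  intro n
  induction n using Nat.strong_induction_on with
  | _ n ih =>
    intro H _ _ hn hQ
    classical
    haveI : Fact p.Prime := ⟨hp⟩
    obtain ⟨C, hCn, hcyc, hcop, k, hk⟩ := hQ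
    haveI := hCn
    haveI := hcyc
    obtain ⟨P⟩ : Nonempty (Sylow p H) := inferInstance
    have hCP : C ⊔ (P : Subgroup H) = ⊤ := by
      rw [← Subgroup.index_eq_one]
      have h1 : (C ⊔ (P : Subgroup H)).index ∣ p ^ k := by
        rw [← hk]; exact Subgroup.index_dvd_of_le le_sup_left
      have h2 : (C ⊔ (P : Subgroup H)).index ∣ (P : Subgroup H).index :=
        Subgroup.index_dvd_of_le le_sup_right
      obtain ⟨j, _, hj⟩ := (Nat.dvd_prime_pow hp).1 h1
      rcases Nat.eq_zero_or_pos j with h0 | hpos
      · rw [hj, h0, pow_zero]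
      · exfalso
        apply P.not_dvd_index
        rw [hj] at h2
        exact (dvd_pow_self p hpos.ne').trans h2
    obtain ⟨Z, hZ⟩ : ∃ Z : Subgroup H, Z = C ⊓ Subgroup.centralizer ((P : Subgroup H) : Set H) :=
      ⟨_, rfl⟩
    obtain ⟨E, hE⟩ : ∃ E : Subgroup H, E = Z ⊔ (P : Subgroup H) := ⟨_, rfl⟩
    have hElem : Cfsg.IsElementary p E := by
      rw [hE, hZ]
      exact isElementary_centralizer_sup C hcop (P : Subgroup H) P.isPGroup'
    have hZE : Z ≤ E := by rw [hE]; exact le_sup_left
    have hPE : (P : Subgroup H) ≤ E := by rw [hE]; exact le_sup_right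
    haveI : Fintype (Cfsg.IrrCharacter H) := Fintype.ofFinite _
    haveI : Fintype E := Fintype.ofFinite E
    have hΨ : Cfsg.IsCharacter H (Cfsg.indFun E (fun _ => (1 : ℂ))) :=
      isCharacter_indFun E _ isCharacter_one
    obtain ⟨m, hm⟩ := isCharacter_decomp hΨ
    have hmχ : ∀ χ : Cfsg.IrrCharacter H, (m χ : ℂ)
        = Cfsg.classInner (fun _ : E => (1 : ℂ)) (fun e : E => χ.1 e) := by
      intro χ
      rw [← frobenius_reciprocity E _ χ.1 (isClassFunction_of_irr χ), hm]
      exact (classInner_nat_comb (fun χ => (m χ : ℂ)) χ).symm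
    have hm1 : m (irrOne H) = 1 := by
      have h := hmχ (irrOne H)
      have h2 : Cfsg.classInner (fun _ : E => (1 : ℂ)) (fun e : E => (irrOne H).1 e) = 1 := by
        unfold Cfsg.classInner
        have h3 : ∀ e : E, (1 : ℂ) * (starRingEnd ℂ) ((irrOne H).1 (e : H)) = 1 := by
          intro e
          show (1 : ℂ) * (starRingEnd ℂ) (1 : ℂ) = 1
          simp
        rw [Finset.sum_congr rfl (fun e _ => h3 e), Finset.sum_const, Finset.card_univ,
          Nat.card_eq_fintype_card, nsmul_eq_mul, mul_one]
        exact inv_mul_cancel₀ (by exact_mod_cast Fintype.card_ne_zero)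
      rw [h2] at h
      exact_mod_cast h
    have key : ∀ χ : Cfsg.IrrCharacter H, χ ≠ irrOne H → m χ ≠ 0 → χ.1 ∈ elemSpan H p := by
      intro χ hχ1 hmne
      obtain ⟨d, ρ, hρirr, hρχ⟩ := χ.2
      haveI := hρirr
      have hCcomm : ∀ a ∈ C, ∀ b ∈ C, a * b = b * a := by
        intro a ha b hb
        have h1 := (IsCyclic.commGroup (α := C)).mul_comm ⟨a, ha⟩ ⟨b, hb⟩
        exact congrArg Subtype.val h1
      obtain ⟨T, ψ, hψ, hind, hT⟩ := clifford_struct ρ C (by
        intro a ha b hb
        rw [hCcomm a ha b hb])
      by_cases hTtop : T = ⊤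
      · exfalso
        have hnt : Nontrivial (Fin d → ℂ) := ((irr_iff ρ).mp hρirr).1
        have hone : (1 : Module.End ℂ (Fin d → ℂ)) ≠ 0 := by
          intro h
          obtain ⟨v, hv⟩ := exists_ne (0 : Fin d → ℂ)
          apply hv
          have h2 : (1 : Module.End ℂ (Fin d → ℂ)) v = (0 : Module.End ℂ (Fin d → ℂ)) v := by
            rw [h]
          simpa using h2
        have hcinj : ∀ a b : ℂ, a • (1 : Module.End ℂ (Fin d → ℂ))
            = b • (1 : Module.End ℂ (Fin d → ℂ)) → a = b :=
          fun a b h => smul_left_injective ℂ hone h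
        have hsc : ∀ a : C, ∃ c : ℂ, ρ (a : H) = c • (1 : Module.End ℂ (Fin d → ℂ)) :=
          fun a => hT hTtop a.1 a.2
        choose s hs using hsc
        let f : C →* ℂ :=
          { toFun := s
            map_one' := by
              apply hcinj
              rw [← hs, one_smul]
              exact map_one ρ
            map_mul' := by
              intro a b
              apply hcinj
              rw [← hs, Subgroup.coe_mul, map_mul, hs a, hs b, smul_mul_smul_comm, one_mul] }
        let lamh : C →* ℂˣ := f.toHomUnits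
        have hlam : ∀ c : C, ((lamh c : ℂˣ) : ℂ) = s c := fun c => rfl
        -- the fixed vector
        have hsum : (∑ e : E, ρ (e : H)) ≠ 0 := by
          intro h0
          apply hmne
          have h1 := hmχ χ
          have h2 : Cfsg.classInner (fun _ : E => (1 : ℂ)) (fun e : E => χ.1 e) = 0 := by
            unfold Cfsg.classInner
            have h3 : ∑ e : E, (1 : ℂ) * (starRingEnd ℂ) (χ.1 (e : H))
                = (starRingEnd ℂ) (LinearMap.trace ℂ (Fin d → ℂ) (∑ e : E, ρ (e : H))) := by
              rw [map_sum, map_sum]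
              refine Finset.sum_congr rfl (fun e _ => ?_)
              rw [one_mul, ← hρχ]
              rfl
            rw [h3, h0, map_zero, map_zero, mul_zero]
          rw [h2] at h1
          exact_mod_cast h1
        obtain ⟨w, hw⟩ : ∃ w : Fin d → ℂ, (∑ e : E, ρ (e : H)) w ≠ 0 := by
          by_contra hcon
          push Not at hcon
          exact hsum (LinearMap.ext (fun w => by rw [hcon w]; rfl))
        obtain ⟨v, hv⟩ : ∃ v : Fin d → ℂ, v = (∑ e : E, ρ (e : H)) w := ⟨_, rfl⟩
        have hv0 : v ≠ 0 := by rw [hv]; exact hw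
        have hvfix : ∀ e' : H, e' ∈ E → ρ e' v = v := by
          intro e' he'
          rw [hv, LinearMap.sum_apply, map_sum]
          apply Fintype.sum_equiv (Equiv.mulLeft (⟨e', he'⟩ : E))
          intro e
          show ρ e' (ρ (e : H) w) = ρ ((⟨e', he'⟩ * e : E) : H) w
          rw [Subgroup.coe_mul, map_mul]
          rfl
        have hker : ∀ c : C, (c : H) ∈ Subgroup.centralizer ((P : Subgroup H) : Set H) →
            ((lamh c : ℂˣ) : ℂ) = 1 := by
          intro c hc
          have hcZ : (c : H) ∈ Z := by rw [hZ]; exact ⟨c.2, hc⟩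
          have h1 := hvfix (c : H) (hZE hcZ)
          rw [hs c] at h1
          have h2 : (s c - 1) • v = 0 := by
            rw [sub_smul, one_smul]
            have h3 : (s c • (1 : Module.End ℂ (Fin d → ℂ))) v = s c • v := rfl
            rw [← h3, h1, sub_self]
          rcases smul_eq_zero.1 h2 with h | h
          · rw [hlam]; exact sub_eq_zero.1 h
          · exact absurd h hv0
        have hinv : ∀ (g : H) (c : C), ((lamh ⟨g * c * g⁻¹, hCn.conj_mem (c : H) c.2 g⟩ : ℂˣ) : ℂ)
            = ((lamh c : ℂˣ) : ℂ) := by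
          intro g c
          rw [hlam, hlam]
          apply hcinj
          rw [← hs]
          show ρ (g * (c : H) * g⁻¹) = _
          rw [map_mul, map_mul, hs c, mul_smul_comm, mul_one, smul_mul_assoc, ← map_mul,
            mul_inv_cancel, map_one]
        have hS := Cfsg.Agent.S0873.result p C (P : Subgroup H) P.isPGroup' hcop hCP
          (fun c => ((lamh c : ℂˣ) : ℂ))
          ⟨isCharacter_of_hom lamh, by
            show ((lamh 1 : ℂˣ) : ℂ) = 1
            rw [map_one]; rfl⟩ hinv hker
        have hs1 : ∀ c : C, s c = 1 := by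
          intro c
          have h1 := congrFun hS c
          rw [← hlam]; exact h1
        have hfixall : ∀ h : H, ρ h v = v := by
          intro h
          have h1 : h ∈ ((C ⊔ (P : Subgroup H) : Subgroup H) : Set H) := by
            rw [hCP]; trivial
          rw [Subgroup.normal_mul] at h1
          obtain ⟨c, hc, u, hu, rfl⟩ := Set.mem_mul.1 h1
          rw [map_mul]
          show ρ c (ρ u v) = v
          rw [hvfix u (hPE hu)]
          have h2 := hs ⟨c, hc⟩
          rw [hs1, one_smul] at h2
          have h3 : ρ c = 1 := h2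
          rw [h3]
          rfl
        have hchar := char_one_of_fixed ρ v hv0 hfixall
        apply hχ1
        apply Subtype.ext
        rw [← hρχ, hchar]
        rfl
      · haveI : Fintype T := Fintype.ofFinite T
        have hlt : Nat.card T < n := by
          rw [← hn]
          exact lt_of_le_of_ne (Subgroup.card_le_card_group T)
            (fun h => hTtop (Subgroup.eq_top_of_card_eq T h))
        have h1T := ih (Nat.card T) hlt T rfl (QEG_subgroup hp ⟨C, hCn, hcyc, hcop, k, hk⟩ T)
        have hψmem := elemSpan_of_one h1T (isCharacter_of_irr hψ)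
        rw [← hρχ, hind]
        exact elemSpan_ind T hψmem
    have h3 := hm
    rw [← Finset.add_sum_erase _ _ (Finset.mem_univ (irrOne H)), hm1] at h3
    have hsplit : (fun _ : H => (1 : ℂ)) = Cfsg.indFun E (fun _ => (1 : ℂ))
        - ∑ χ ∈ Finset.univ.erase (irrOne H), (m χ : ℂ) • χ.1 := by
      rw [h3]
      funext x
      simp [irrOne]
    rw [hsplit]
    apply AddSubgroup.sub_mem
    · exact elemSpan_gen E _ hElem isCharacter_one
    · apply AddSubgroup.sum_mem
      intro χ hχ
      rw [Finset.mem_erase] at hχ
      by_cases h0 : m χ = 0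
      · rw [h0]; simp
      · have h4 := key χ hχ.1 h0
        rw [Nat.cast_smul_eq_nsmul]
        exact AddSubgroup.nsmul_mem _ h4 _

end Cfsg.Agent.Lib.Lead
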