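import Mathlib
import Cfsg.Agent.Lib.Lead.Solomon
import Cfsg.Agent.S0869
import Cfsg.Agent.S0870
import Cfsg.Agent.S0871

set_option autoImplicit false

namespace Cfsg.Agent.Lib.Lead

/-- the span of the permutation characters on cosets of `p`-quasi-elementary subgroups -/
def qeSpan (G : Type*) [Group G] (p : ℕ) : AddSubgroup (G → ℤ) :=
  AddSubgroup.closure {f : G → ℤ | ∃ H : Subgroup G, QE p H ∧ f = permZ H}

theorem cycSpan_le_qeSpan {G : Type*} [Group G] [Finite G] {p : ℕ} (hp : p.Prime) :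
    cycSpan G ≤ qeSpan G p := by
  apply AddSubgroup.closure_mono
  rintro f ⟨z, rfl⟩
  exact ⟨_, QE_of_cyclic hp z, rfl⟩

theorem permZ_mul_mem {G : Type*} [Group G] [Fintype G] {p : ℕ} (hp : p.Prime) (H K : Subgroup G)
    (hH : QE p H) : permZ H * permZ K ∈ qeSpan G p := by
  obtain ⟨a, ha, hprod⟩ := Cfsg.Agent.S0870.result H K
  have h1 : permZ H * permZ K = ∑ U : Subgroup G, (a U : ℤ) • permZ U := by
    funext y
    have h2 := congrFun hprod y
    rw [Pi.mul_apply, indFun_one_eq_permZ, indFun_one_eq_permZ, Finset.sum_apply] at h2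
    simp only [Pi.smul_apply, indFun_one_eq_permZ, smul_eq_mul] at h2
    rw [Pi.mul_apply, Finset.sum_apply]
    simp only [Pi.smul_apply, smul_eq_mul]
    exact_mod_cast h2
  rw [h1]
  apply AddSubgroup.sum_mem
  intro U _
  by_cases hU : a U = 0
  · rw [hU]; simp
  · exact AddSubgroup.zsmul_mem _
      (AddSubgroup.subset_closure (show permZ U ∈ {f : G → ℤ | ∃ H : Subgroup G, QE p H ∧ f = permZ H}
        from ⟨U, QE_of_le hp hH (ha U hU), rfl⟩)) _

theorem qeSpan_mul {G : Type*} [Group G] [Fintype G] {p : ℕ} (hp : p.Prime) :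
    ∀ f ∈ qeSpan G p, ∀ g ∈ qeSpan G p, f * g ∈ qeSpan G p := by
  have h1 : ∀ f ∈ qeSpan G p, ∀ K : Subgroup G, f * permZ K ∈ qeSpan G p := by
    intro f hf K
    refine AddSubgroup.closure_induction (p := fun f _ => f * permZ K ∈ qeSpan G p) ?_ ?_ ?_ ?_ hf
    · rintro f ⟨H, hH, rfl⟩; exact permZ_mul_mem hp H K hH
    · rw [zero_mul]; exact AddSubgroup.zero_mem _
    · intro f g _ _ hf hg; rw [add_mul]; exact AddSubgroup.add_mem _ hf hg
    · intro f _ hf; rw [neg_mul]; exact AddSubgroup.neg_mem _ hf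
  intro f hf g hg
  refine AddSubgroup.closure_induction (p := fun g _ => f * g ∈ qeSpan G p) ?_ ?_ ?_ ?_ hg
  · rintro g ⟨K, _, rfl⟩; exact h1 f hf K
  · rw [mul_zero]; exact AddSubgroup.zero_mem _
  · intro g g' _ _ hg hg'; rw [mul_add]; exact AddSubgroup.add_mem _ hg hg'
  · intro g _ hg; rw [mul_neg]; exact AddSubgroup.neg_mem _ hg

theorem qeSpan_good {G : Type*} [Group G] {p : ℕ} :
    ∀ f ∈ qeSpan G p, (∀ g y : G, f (g⁻¹ * y * g) = f y) ∧
      (∀ y y' : G, Subgroup.zpowers y = Subgroup.zpowers y' → f y = f y') := by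
  intro f hf
  refine AddSubgroup.closure_induction (p := fun f _ => (∀ g y : G, f (g⁻¹ * y * g) = f y) ∧
      (∀ y y' : G, Subgroup.zpowers y = Subgroup.zpowers y' → f y = f y')) ?_ ?_ ?_ ?_ hf
  · rintro f ⟨H, _, rfl⟩
    exact ⟨fun g y => permZ_conj H g y, fun y y' h => permZ_zpowers H y y' h⟩
  · exact ⟨fun _ _ => rfl, fun _ _ _ => rfl⟩
  · intro f g _ _ hf hg
    exact ⟨fun a y => by rw [Pi.add_apply, Pi.add_apply, hf.1, hg.1],
      fun y y' h => by rw [Pi.add_apply, Pi.add_apply, hf.2 y y' h, hg.2 y y' h]⟩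
  · intro f _ hf
    exact ⟨fun a y => by rw [Pi.neg_apply, Pi.neg_apply, hf.1],
      fun y y' h => by rw [Pi.neg_apply, Pi.neg_apply, hf.2 y y' h]⟩

theorem solomon_local {G : Type*} [Group G] [Fintype G] (p : ℕ) (hp : p.Prime) :
    ∃ m : ℤ, ¬ (p : ℤ) ∣ m ∧ (fun _ : G => m) ∈ qeSpan G p := by
  classical
  have hB : ∃ g₀ ∈ qeSpan G p, ∀ y, (p : ℤ) ∣ g₀ y - 1 := by
    let R₄ : AddSubgroup (G → ℤ) :=
      { carrier := {f | ∃ g ∈ qeSpan G p, ∀ y, (p : ℤ) ∣ f y - g y}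
        zero_mem' := ⟨0, AddSubgroup.zero_mem _, fun y => by simp⟩
        add_mem' := by
          rintro f f' ⟨g, hg, h⟩ ⟨g', hg', h'⟩
          refine ⟨g + g', AddSubgroup.add_mem _ hg hg', fun y => ?_⟩
          have h3 : (f + f') y - (g + g') y = (f y - g y) + (f' y - g' y) := by
            simp only [Pi.add_apply]; ring
          rw [h3]; exact dvd_add (h y) (h' y)
        neg_mem' := by
          rintro f ⟨g, hg, h⟩
          refine ⟨-g, AddSubgroup.neg_mem _ hg, fun y => ?_⟩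
          have h3 : (-f) y - (-g) y = -(f y - g y) := by simp only [Pi.neg_apply]; ring
          rw [h3]; exact (dvd_neg).2 (h y) }
    have hmul : ∀ f ∈ R₄, ∀ f' ∈ R₄, f * f' ∈ R₄ := by
      rintro f ⟨g, hg, h⟩ f' ⟨g', hg', h'⟩
      refine ⟨g * g', qeSpan_mul hp g hg g' hg', fun y => ?_⟩
      have h3 : (f * f') y - (g * g') y = (f y - g y) * f' y + g y * (f' y - g' y) := by
        simp only [Pi.mul_apply]; ring
      rw [h3]; exact dvd_add (Dvd.dvd.mul_right (h y) _) (Dvd.dvd.mul_left (h' y) _)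
    by_contra hcon
    have h1 : (1 : G → ℤ) ∉ R₄ := by
      rintro ⟨g, hg, h⟩
      apply hcon
      refine ⟨g, hg, fun y => ?_⟩
      have h3 := h y
      rw [Pi.one_apply] at h3
      have h2 : g y - 1 = -(1 - g y) := by ring
      rw [h2]; exact (dvd_neg).2 h3
    haveI : Nonempty G := ⟨1⟩
    obtain ⟨x, q, hq, hdiv⟩ := Cfsg.Agent.S0869.result R₄ hmul h1
    have hqp : q = p := by
      have h2 : (fun _ : G => (p : ℤ)) ∈ R₄ := ⟨0, AddSubgroup.zero_mem _, fun y => by simp⟩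
      have h3 := hdiv _ h2
      have h4 : q ∣ p := by exact_mod_cast h3
      exact (Nat.prime_dvd_prime_iff_eq hq hp).1 h4
    subst hqp
    obtain ⟨H, hQE, n, hn, hnd⟩ := Cfsg.Agent.S0871.result x q hp
    have h5 : permZ H ∈ R₄ :=
      ⟨permZ H, AddSubgroup.subset_closure
        (show permZ H ∈ {f : G → ℤ | ∃ H : Subgroup G, QE q H ∧ f = permZ H} from ⟨H, hQE, rfl⟩),
        fun y => by simp⟩
    have h6 := hdiv _ h5
    have h7 : permZ H x = (n : ℤ) := by
      have h8 := congrFun (indFun_one_eq_permZ H) x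
      rw [hn] at h8
      exact_mod_cast h8.symm
    rw [h7] at h6
    exact hnd (by exact_mod_cast h6)
  obtain ⟨g₀, hg₀, hdvd⟩ := hB
  obtain ⟨k, m', hm', hcard⟩ :=
    Nat.exists_eq_pow_mul_and_not_dvd (Nat.card_pos (α := G)).ne' p hp.ne_one
  have hpow : ∀ n : ℕ, g₀ ^ (n + 1) ∈ qeSpan G p := by
    intro n
    induction n with
    | zero => rw [zero_add, pow_one]; exact hg₀
    | succ n ih => rw [pow_succ]; exact qeSpan_mul hp _ ih _ hg₀
  obtain ⟨G₁, hG₁⟩ : ∃ G₁ : G → ℤ, G₁ = g₀ ^ (p ^ k) := ⟨_, rfl⟩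
  have hG₁mem : G₁ ∈ qeSpan G p := by
    rw [hG₁]
    have h1 : p ^ k = (p ^ k - 1) + 1 := (Nat.sub_add_cancel (Nat.one_le_pow _ _ hp.pos)).symm
    rw [h1]; exact hpow _
  have hG₁dvd : ∀ y, ((p : ℤ) ^ k) ∣ G₁ y - 1 := by
    intro y
    have h1 := dvd_sub_pow_of_dvd_sub (R := ℤ) (p := p) (a := g₀ y) (b := 1) (hdvd y) k
    rw [one_pow] at h1
    rw [hG₁, Pi.pow_apply]
    exact (pow_dvd_pow _ (Nat.le_succ k)).trans h1
  choose h hh using hG₁dvd
  have hgood := qeSpan_good G₁ hG₁mem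
  have hpk : ((p : ℤ) ^ k) ≠ 0 := pow_ne_zero _ (by exact_mod_cast hp.ne_zero)
  have hh1 : ∀ g y : G, h (g⁻¹ * y * g) = h y := by
    intro g y
    apply mul_left_cancel₀ hpk
    rw [← hh, ← hh, hgood.1]
  have hh2 : ∀ y y' : G, Subgroup.zpowers y = Subgroup.zpowers y' → h y = h y' := by
    intro y y' hyy
    apply mul_left_cancel₀ hpk
    rw [← hh, ← hh, hgood.2 y y' hyy]
  have hart := cycSpan_le_qeSpan hp (artin_perm h hh1 hh2)
  refine ⟨(m' : ℤ), by exact_mod_cast hm', ?_⟩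
  have hfin : (fun _ : G => (m' : ℤ)) = (m' : ℤ) • G₁ - (fun y => (Nat.card G : ℤ) * h y) := by
    funext y
    rw [Pi.sub_apply, Pi.smul_apply, smul_eq_mul, hcard]
    push_cast
    have h3 := hh y
    linear_combination (-(m' : ℤ)) * h3
  rw [hfin]
  exact AddSubgroup.sub_mem _ (AddSubgroup.zsmul_mem _ hG₁mem _) hart

theorem qeSpan_exists_coeff {G : Type*} [Group G] [Fintype G] {p : ℕ} :
    ∀ f ∈ qeSpan G p, ∃ a : Subgroup G → ℤ, (∀ H, a H ≠ 0 → QE p H) ∧
      f = ∑ H : Subgroup G, a H • permZ H := by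
  classical
  intro f hf
  refine AddSubgroup.closure_induction (p := fun f _ => ∃ a : Subgroup G → ℤ,
    (∀ H, a H ≠ 0 → QE p H) ∧ f = ∑ H : Subgroup G, a H • permZ H) ?_ ?_ ?_ ?_ hf
  · rintro f ⟨H₀, hH₀, rfl⟩
    refine ⟨fun H => if H = H₀ then 1 else 0, ?_, ?_⟩
    · intro H hH
      by_cases h : H = H₀
      · rw [h]; exact hH₀
      · exfalso; exact hH (if_neg h)
    · rw [Finset.sum_eq_single H₀]
      · show permZ H₀ = (if H₀ = H₀ then (1 : ℤ) else 0) • permZ H₀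
        rw [if_pos rfl, one_smul]
      · intro H _ hne
        show (if H = H₀ then (1 : ℤ) else 0) • permZ H = 0
        rw [if_neg hne, zero_smul]
      · intro h; exact absurd (Finset.mem_univ _) h
  · exact ⟨0, fun H h => absurd rfl h, by simp⟩
  · rintro f g _ _ ⟨a, ha, rfl⟩ ⟨b, hb, rfl⟩
    refine ⟨a + b, ?_, ?_⟩
    · intro H hH
      by_cases h : a H = 0
      · apply hb; intro hb0; apply hH; rw [Pi.add_apply, h, hb0, add_zero]
      · exact ha H h
    · rw [← Finset.sum_add_distrib]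
      refine Finset.sum_congr rfl (fun H _ => ?_)
      rw [Pi.add_apply, add_smul]
  · rintro f _ ⟨a, ha, rfl⟩
    refine ⟨-a, ?_, ?_⟩
    · intro H hH; apply ha; intro h0; apply hH; rw [Pi.neg_apply, h0, neg_zero]
    · rw [← Finset.sum_neg_distrib]
      refine Finset.sum_congr rfl (fun H _ => ?_)
      rw [Pi.neg_apply, neg_smul]

end Cfsg.Agent.Lib.Lead
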