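import Mathlib
import Cfsg.Agent.Lib.Lead.Brauer3
import Cfsg.Agent.S0872

set_option autoImplicit false

namespace Cfsg.Agent.Lib.Lead

theorem brauer_local_mem {G : Type*} [Group G] [Fintype G] (p : ℕ) (hp : p.Prime) :
    ∃ m : ℤ, ¬ (p : ℤ) ∣ m ∧ (fun _ : G => (m : ℂ)) ∈ elemSpan G p := by
  classical
  obtain ⟨m, a, hm, ha, hsum⟩ := Cfsg.Agent.S0872.result (G := G) p hp
  refine ⟨m, hm, ?_⟩
  rw [hsum]
  apply AddSubgroup.sum_mem
  intro H _
  by_cases h0 : a H = 0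
  · rw [h0]; simp
  · haveI : Fintype H := Fintype.ofFinite H
    have hQ : QE p H := ha H h0
    have h1 := brauer_qe p hp (Nat.card H) H rfl (QEG_of_QE hQ)
    have h2 := elemSpan_ind H h1
    rw [Int.cast_smul_eq_zsmul]
    exact AddSubgroup.zsmul_mem _ h2 _

theorem elem_list_neg {G : Type*} [Group G] [Fintype G]
    (l : List ((E : Subgroup G) × ((E → ℂ) × ℤ))) :
    ((l.map (fun t => (⟨t.1, (t.2.1, -t.2.2)⟩ : (E : Subgroup G) × ((E → ℂ) × ℤ)))).map
      fun t => (t.2.2 : ℂ) • Cfsg.indFun t.1 t.2.1).sum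
      = -(l.map fun t => (t.2.2 : ℂ) • Cfsg.indFun t.1 t.2.1).sum := by
  induction l with
  | nil => simp
  | cons t l ih =>
    rw [List.map_cons, List.map_cons, List.sum_cons, ih, List.map_cons, List.sum_cons, neg_add]
    congr 1
    push_cast
    rw [neg_smul]

theorem elem_list_of_mem {G : Type*} [Group G] [Fintype G] {p : ℕ} {f : G → ℂ}
    (hf : f ∈ elemSpan G p) :
    ∃ l : List ((E : Subgroup G) × ((E → ℂ) × ℤ)),
      (∀ t ∈ l, Cfsg.IsElementary p t.1 ∧ Cfsg.IsCharacter t.1 t.2.1) ∧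
      f = (l.map fun t => (t.2.2 : ℂ) • Cfsg.indFun t.1 t.2.1).sum := by
  induction hf using AddSubgroup.closure_induction with
  | mem x hx =>
    obtain ⟨E, φ, hE, hφ, rfl⟩ := hx
    refine ⟨[⟨E, (φ, 1)⟩], ?_, ?_⟩
    · intro t ht
      rw [List.mem_singleton] at ht
      rw [ht]
      exact ⟨hE, hφ⟩
    · simp
  | zero => exact ⟨[], by simp, by simp⟩
  | add x y _ _ hx hy =>
    obtain ⟨l₁, h1, rfl⟩ := hx
    obtain ⟨l₂, h2, rfl⟩ := hy
    refine ⟨l₁ ++ l₂, ?_, ?_⟩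
    · intro t ht
      rcases List.mem_append.mp ht with h | h
      · exact h1 t h
      · exact h2 t h
    · rw [List.map_append, List.sum_append]
  | neg x _ hx =>
    obtain ⟨l, h1, rfl⟩ := hx
    refine ⟨l.map (fun t => (⟨t.1, (t.2.1, -t.2.2)⟩ : (E : Subgroup G) × ((E → ℂ) × ℤ))), ?_, ?_⟩
    · intro t ht
      obtain ⟨t', ht', rfl⟩ := List.mem_map.mp ht
      exact h1 t' ht'
    · rw [elem_list_neg]

end Cfsg.Agent.Lib.Lead
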