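import Mathlib
import Cfsg.Agent.Lib.Lead.Brauer4

set_option autoImplicit false

namespace Cfsg.Agent.Lib.Lead

/-- the span of the characters induced from elementary subgroups (for any prime) -/
def elemSpanAll (G : Type*) [Group G] [Fintype G] : AddSubgroup (G → ℂ) :=
  AddSubgroup.closure {f : G → ℂ | ∃ (E : Subgroup G) (φ : E → ℂ),
    (∃ p : ℕ, p.Prime ∧ Cfsg.IsElementary p E) ∧ Cfsg.IsCharacter E φ ∧ f = Cfsg.indFun E φ}

theorem elemSpan_le_all {G : Type*} [Group G] [Fintype G] {p : ℕ} (hp : p.Prime) :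
    elemSpan G p ≤ elemSpanAll G := by
  apply AddSubgroup.closure_mono
  rintro f ⟨E, φ, hE, hφ, rfl⟩
  exact ⟨E, φ, ⟨p, hp, hE⟩, hφ, rfl⟩

theorem one_mem_elemSpanAll {G : Type*} [Group G] [Fintype G] :
    (fun _ : G => (1 : ℂ)) ∈ elemSpanAll G := by
  classical
  let P : ℤ → Prop := fun k => (fun _ : G => (k : ℂ)) ∈ elemSpanAll G
  have hprime : ∀ p : ℕ, p.Prime → ∃ m : ℤ, ¬ (p : ℤ) ∣ m ∧ P m := by
    intro p hp
    obtain ⟨m, hm, hmem⟩ := brauer_local_mem (G := G) p hp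
    exact ⟨m, hm, elemSpan_le_all hp hmem⟩
  have hPsub : ∀ a b : ℤ, P a → P b → P (a - b) := by
    intro a b ha hb
    have h1 : (fun _ : G => ((a - b : ℤ) : ℂ)) = (fun _ : G => (a : ℂ)) - (fun _ : G => (b : ℂ)) := by
      funext x; simp
    show (fun _ : G => ((a - b : ℤ) : ℂ)) ∈ elemSpanAll G
    rw [h1]; exact AddSubgroup.sub_mem _ ha hb
  have hPmul : ∀ a q : ℤ, P a → P (a * q) := by
    intro a q ha
    have h1 : (fun _ : G => ((a * q : ℤ) : ℂ)) = q • (fun _ : G => (a : ℂ)) := by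
      funext x; simp [mul_comm]
    show (fun _ : G => ((a * q : ℤ) : ℂ)) ∈ elemSpanAll G
    rw [h1]; exact AddSubgroup.zsmul_mem _ ha q
  have hPneg : ∀ a : ℤ, P a → P (-a) := by
    intro a ha
    have h1 := hPmul a (-1) ha
    have h2 : a * (-1) = -a := by ring
    rwa [h2] at h1
  have hex : ∃ d : ℕ, 0 < d ∧ P (d : ℤ) := by
    obtain ⟨m, hm, hP⟩ := hprime 2 Nat.prime_two
    have hm0 : m ≠ 0 := by rintro rfl; exact hm (dvd_zero _)
    refine ⟨m.natAbs, Int.natAbs_pos.2 hm0, ?_⟩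
    rcases Int.natAbs_eq m with h | h
    · rw [← h]; exact hP
    · have h' : (m.natAbs : ℤ) = -m := by omega
      rw [h']; exact hPneg m hP
  obtain ⟨d, hd⟩ : ∃ d, d = Nat.find hex := ⟨_, rfl⟩
  have hdspec : 0 < d ∧ P (d : ℤ) := by rw [hd]; exact Nat.find_spec hex
  have hmin : ∀ j, j < d → ¬ (0 < j ∧ P (j : ℤ)) := by
    rw [hd]; intro j hj; exact Nat.find_min hex hj
  have hdvd : ∀ k : ℤ, P k → (d : ℤ) ∣ k := by
    intro k hk
    by_contra hnd
    have hdpos : (0 : ℤ) < d := by exact_mod_cast hdspec.1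
    have h1 : 0 ≤ k % d := Int.emod_nonneg _ hdpos.ne'
    have h2 : k % d < d := Int.emod_lt_of_pos _ hdpos
    have h3 : k % d ≠ 0 := fun h => hnd (Int.dvd_of_emod_eq_zero h)
    have h4 : P (k % d) := by
      rw [Int.emod_def]; exact hPsub _ _ hk (hPmul _ _ hdspec.2)
    apply hmin (k % d).toNat (by omega)
    refine ⟨by omega, ?_⟩
    rw [Int.toNat_of_nonneg h1]; exact h4
  have hd1 : d = 1 := by
    by_contra hne
    obtain ⟨q, hq, hqd⟩ := Nat.exists_prime_and_dvd hne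
    obtain ⟨m, hm, hP⟩ := hprime q hq
    have h1 := hdvd m hP
    apply hm
    exact (Int.natCast_dvd_natCast.2 hqd).trans h1
  rw [hd1] at hdspec
  have h5 : (fun _ : G => (((1 : ℕ) : ℤ) : ℂ)) ∈ elemSpanAll G := hdspec.2
  have h6 : (fun _ : G => (((1 : ℕ) : ℤ) : ℂ)) = fun _ : G => (1 : ℂ) := by funext x; simp
  rwa [h6] at h5

theorem elemSpanAll_mul_char {G : Type*} [Group G] [Fintype G] {f : G → ℂ}
    (hf : f ∈ elemSpanAll G) {ψ : G → ℂ} (hψ : Cfsg.IsCharacter G ψ) : f * ψ ∈ elemSpanAll G := by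
  refine AddSubgroup.closure_induction (p := fun f _ => f * ψ ∈ elemSpanAll G) ?_ ?_ ?_ ?_ hf
  · rintro f ⟨E, φ, hE, hφ, rfl⟩
    rw [← indFun_mul_classFun E φ ψ (isClassFunction_of_char hψ)]
    exact AddSubgroup.subset_closure
      ⟨E, _, hE, isCharacter_mul hφ (isCharacter_restrict E hψ), rfl⟩
  · rw [zero_mul]; exact AddSubgroup.zero_mem _
  · intro f g _ _ hf hg; rw [add_mul]; exact AddSubgroup.add_mem _ hf hg
  · intro f _ hf; rw [neg_mul]; exact AddSubgroup.neg_mem _ hf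

theorem char_mem_elemSpanAll {G : Type*} [Group G] [Fintype G] {ψ : G → ℂ}
    (hψ : Cfsg.IsCharacter G ψ) : ψ ∈ elemSpanAll G := by
  have h := elemSpanAll_mul_char one_mem_elemSpanAll hψ
  have h2 : (fun _ : G => (1 : ℂ)) * ψ = ψ := by funext g; simp
  rwa [h2] at h

/-- Brauer's characterisation of characters -/
theorem brauer_char {G : Type*} [Group G] [Fintype G] (θ : G → ℂ) (hθ : Cfsg.IsClassFunction G θ)
    (hE : ∀ (E : Subgroup G) (p : ℕ), p.Prime → Cfsg.IsElementary p E →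
      Cfsg.IsGeneralizedCharacter E (fun e : E => θ e)) : Cfsg.IsGeneralizedCharacter G θ := by
  have key : ∀ f ∈ elemSpanAll G, Cfsg.IsGeneralizedCharacter G (f * θ) := by
    intro f hf
    refine AddSubgroup.closure_induction (p := fun f _ => Cfsg.IsGeneralizedCharacter G (f * θ))
      ?_ ?_ ?_ ?_ hf
    · rintro f ⟨E, φ, ⟨p, hp, hEl⟩, hφ, rfl⟩
      rw [← indFun_mul_classFun E φ θ hθ]
      apply isGen_indFun
      have h1 := isGen_mul_char (hE E p hp hEl) hφ
      have h2 : (fun e : E => θ e) * φ = fun e : E => φ e * θ e := by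
        funext e; exact mul_comm _ _
      rwa [h2] at h1
    · rw [zero_mul]; exact isGen_zero
    · intro f g _ _ hf hg; rw [add_mul]; exact isGen_add hf hg
    · intro f _ hf; rw [neg_mul]; exact isGen_neg hf
  have h := key _ one_mem_elemSpanAll
  have h2 : (fun _ : G => (1 : ℂ)) * θ = θ := by funext g; simp
  rwa [h2] at h

end Cfsg.Agent.Lib.Lead
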