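import Mathlib
import Cfsg.Agent.Lib.Lead.Brauer5
import Cfsg.Agent.Lib.Lead.Char14
import Cfsg.Agent.Lib.Lead.Char4

set_option autoImplicit false

namespace Cfsg.Agent.Lib.Lead

/-- combinations of characters with algebraic-integer coefficients -/
def aiSpan (G : Type*) [Group G] : AddSubgroup (G → ℂ) :=
  AddSubgroup.closure {f : G → ℂ | ∃ (a : ℂ) (χ : G → ℂ),
    IsIntegral ℤ a ∧ Cfsg.IsCharacter G χ ∧ f = a • χ}

theorem aiSpan_gen {G : Type*} [Group G] {a : ℂ} {χ : G → ℂ} (ha : IsIntegral ℤ a)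
    (hχ : Cfsg.IsCharacter G χ) : a • χ ∈ aiSpan G :=
  AddSubgroup.subset_closure (show a • χ ∈ {f : G → ℂ | ∃ (a : ℂ) (χ : G → ℂ),
    IsIntegral ℤ a ∧ Cfsg.IsCharacter G χ ∧ f = a • χ} from ⟨a, χ, ha, hχ, rfl⟩)

theorem aiSpan_smul {G : Type*} [Group G] {f : G → ℂ} (hf : f ∈ aiSpan G) {b : ℂ}
    (hb : IsIntegral ℤ b) : b • f ∈ aiSpan G := by
  refine AddSubgroup.closure_induction (p := fun f _ => b • f ∈ aiSpan G) ?_ ?_ ?_ ?_ hf
  · rintro f ⟨a, χ, ha, hχ, rfl⟩
    rw [smul_smul]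
    exact aiSpan_gen (hb.mul ha) hχ
  · rw [smul_zero]; exact (aiSpan G).zero_mem
  · intro x y _ _ hx hy
    rw [smul_add]; exact (aiSpan G).add_mem hx hy
  · intro x _ hx
    rw [smul_neg]; exact (aiSpan G).neg_mem hx

theorem aiSpan_mul_char {G : Type*} [Group G] {f : G → ℂ} (hf : f ∈ aiSpan G) {φ : G → ℂ}
    (hφ : Cfsg.IsCharacter G φ) : f * φ ∈ aiSpan G := by
  refine AddSubgroup.closure_induction (p := fun f _ => f * φ ∈ aiSpan G) ?_ ?_ ?_ ?_ hf
  · rintro f ⟨a, χ, ha, hχ, rfl⟩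
    rw [smul_mul_assoc]
    exact aiSpan_gen ha (isCharacter_mul hχ hφ)
  · rw [zero_mul]; exact (aiSpan G).zero_mem
  · intro x y _ _ hx hy
    rw [add_mul]; exact (aiSpan G).add_mem hx hy
  · intro x _ hx
    rw [neg_mul]; exact (aiSpan G).neg_mem hx

theorem aiSpan_comp {E B : Type*} [Group E] [Group B] (τ : E →* B) {f : B → ℂ}
    (hf : f ∈ aiSpan B) : (fun x => f (τ x)) ∈ aiSpan E := by
  refine AddSubgroup.closure_induction (p := fun f _ => (fun x => f (τ x)) ∈ aiSpan E) ?_ ?_ ?_ ?_ hf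
  · rintro f ⟨a, χ, ha, hχ, rfl⟩
    exact aiSpan_gen ha (isCharacter_comp τ hχ)
  · exact (aiSpan E).zero_mem
  · intro x y _ _ hx hy
    exact (aiSpan E).add_mem hx hy
  · intro x _ hx
    exact (aiSpan E).neg_mem hx

theorem extendByZero_add' {G : Type*} [Group G] (H : Subgroup G) (f g : H → ℂ) (x : G) :
    Cfsg.extendByZero H (f + g) x = Cfsg.extendByZero H f x + Cfsg.extendByZero H g x := by
  by_cases hx : x ∈ H
  · rw [extendByZero_mem' H _ hx, extendByZero_mem' H _ hx, extendByZero_mem' H _ hx]; rfl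
  · rw [extendByZero_not_mem H _ hx, extendByZero_not_mem H _ hx, extendByZero_not_mem H _ hx,
      add_zero]

theorem extendByZero_smul' {G : Type*} [Group G] (H : Subgroup G) (a : ℂ) (f : H → ℂ) (x : G) :
    Cfsg.extendByZero H (a • f) x = a * Cfsg.extendByZero H f x := by
  by_cases hx : x ∈ H
  · rw [extendByZero_mem' H _ hx, extendByZero_mem' H _ hx]; rfl
  · rw [extendByZero_not_mem H _ hx, extendByZero_not_mem H _ hx, mul_zero]

theorem indFun_add' {G : Type*} [Group G] [Fintype G] (H : Subgroup G) (f g : H → ℂ) :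
    Cfsg.indFun H (f + g) = Cfsg.indFun H f + Cfsg.indFun H g := by
  funext x
  rw [Pi.add_apply, indFun_apply, indFun_apply, indFun_apply, ← mul_add, ← Finset.sum_add_distrib]
  congr 1
  exact Finset.sum_congr rfl (fun y _ => extendByZero_add' H f g _)

theorem indFun_smul' {G : Type*} [Group G] [Fintype G] (H : Subgroup G) (a : ℂ) (f : H → ℂ) :
    Cfsg.indFun H (a • f) = a • Cfsg.indFun H f := by
  funext x
  rw [Pi.smul_apply, indFun_apply, indFun_apply, smul_eq_mul, mul_left_comm]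
  congr 1
  rw [Finset.mul_sum]
  exact Finset.sum_congr rfl (fun y _ => extendByZero_smul' H a f _)

theorem aiSpan_ind {G : Type*} [Group G] [Fintype G] (E : Subgroup G) {f : E → ℂ}
    (hf : f ∈ aiSpan E) : Cfsg.indFun E f ∈ aiSpan G := by
  refine AddSubgroup.closure_induction (p := fun f _ => Cfsg.indFun E f ∈ aiSpan G) ?_ ?_ ?_ ?_ hf
  · rintro f ⟨a, χ, ha, hχ, rfl⟩
    rw [indFun_smul']
    exact aiSpan_gen ha (isCharacter_indFun E χ hχ)
  · have h0 : Cfsg.indFun E (0 : E → ℂ) = 0 := by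
      have h1 := indFun_smul' E 0 (0 : E → ℂ)
      rw [zero_smul, zero_smul] at h1
      exact h1
    rw [h0]; exact (aiSpan G).zero_mem
  · intro x y _ _ hx hy
    rw [indFun_add']; exact (aiSpan G).add_mem hx hy
  · intro x _ hx
    have h1 : -x = (-1 : ℂ) • x := by rw [neg_smul, one_smul]
    rw [h1, indFun_smul', neg_smul, one_smul]
    exact (aiSpan G).neg_mem hx

/-- Brauer's characterization of characters, with algebraic-integer coefficients -/
theorem brauer_ai {G : Type*} [Group G] [Fintype G] (θ : G → ℂ) (hθ : Cfsg.IsClassFunction G θ)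
    (hE : ∀ (E : Subgroup G) (p : ℕ), p.Prime → Cfsg.IsElementary p E →
      (fun e : E => θ e) ∈ aiSpan E) : θ ∈ aiSpan G := by
  have key : ∀ f ∈ elemSpanAll G, f * θ ∈ aiSpan G := by
    intro f hf
    refine AddSubgroup.closure_induction (p := fun f _ => f * θ ∈ aiSpan G) ?_ ?_ ?_ ?_ hf
    · rintro f ⟨E, φ, ⟨p, hp, hEp⟩, hφ, rfl⟩
      rw [← indFun_mul_classFun E φ θ hθ]
      apply aiSpan_ind
      have h1 : (fun e : E => φ e * θ e) = (fun e : E => θ e) * φ := by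
        funext e
        exact mul_comm _ _
      rw [h1]
      exact aiSpan_mul_char (hE E p hp hEp) hφ
    · rw [zero_mul]; exact (aiSpan G).zero_mem
    · intro x y _ _ hx hy
      rw [add_mul]; exact (aiSpan G).add_mem hx hy
    · intro x _ hx
      rw [neg_mul]; exact (aiSpan G).neg_mem hx
  have h2 := key _ one_mem_elemSpanAll
  have h3 : (fun _ : G => (1 : ℂ)) * θ = θ := by funext g; simp
  rwa [h3] at h2

theorem aiSpan_exists_coeff {G : Type*} [Group G] [Finite G] [Fintype (Cfsg.IrrCharacter G)]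
    {f : G → ℂ} (hf : f ∈ aiSpan G) :
    ∃ c : Cfsg.IrrCharacter G → ℂ, (∀ χ, IsIntegral ℤ (c χ)) ∧
      f = ∑ χ : Cfsg.IrrCharacter G, c χ • (χ : G → ℂ) := by
  refine AddSubgroup.closure_induction (p := fun f _ => ∃ c : Cfsg.IrrCharacter G → ℂ,
    (∀ χ, IsIntegral ℤ (c χ)) ∧ f = ∑ χ : Cfsg.IrrCharacter G, c χ • (χ : G → ℂ)) ?_ ?_ ?_ ?_ hf
  · rintro f ⟨a, χ, ha, hχ, rfl⟩
    obtain ⟨m, hm⟩ := isCharacter_decomp hχ
    refine ⟨fun ψ => a * (m ψ : ℂ), fun ψ => ha.mul (isIntegral_algebraMap (R := ℤ) (A := ℂ)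
      (x := (m ψ : ℤ))), ?_⟩
    rw [hm, Finset.smul_sum]
    exact Finset.sum_congr rfl (fun ψ _ => by rw [smul_smul])
  · exact ⟨fun _ => 0, fun _ => isIntegral_zero, by simp⟩
  · rintro x y _ _ ⟨c, hc, rfl⟩ ⟨c', hc', rfl⟩
    refine ⟨fun χ => c χ + c' χ, fun χ => (hc χ).add (hc' χ), ?_⟩
    rw [← Finset.sum_add_distrib]
    exact Finset.sum_congr rfl (fun χ _ => by rw [add_smul])
  · rintro x _ ⟨c, hc, rfl⟩
    refine ⟨fun χ => -c χ, fun χ => (hc χ).neg, ?_⟩
    rw [← Finset.sum_neg_distrib]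
    exact Finset.sum_congr rfl (fun χ _ => by rw [neg_smul])

/-- `N` times the indicator of a union of conjugacy classes, for `N` a multiple of the group order -/
theorem aiSpan_indicator {B : Type*} [Group B] [Fintype B] (S : Set B) [DecidablePred (· ∈ S)]
    (hS : ∀ s ∈ S, ∀ b : B, b * s * b⁻¹ ∈ S) (N : ℕ) (hN : Nat.card B ∣ N) :
    (fun b : B => if b ∈ S then (N : ℂ) else 0) ∈ aiSpan B := by
  classical
  haveI : Fintype (Cfsg.IrrCharacter B) := Fintype.ofFinite _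
  obtain ⟨q, hq⟩ := hN
  have hclass : Cfsg.IsClassFunction B (fun b : B => if b ∈ S then (N : ℂ) else 0) := by
    intro g h
    show (if h * g * h⁻¹ ∈ S then (N : ℂ) else 0) = if g ∈ S then (N : ℂ) else 0
    by_cases hg : g ∈ S
    · rw [if_pos (hS g hg h), if_pos hg]
    · have h1 : h * g * h⁻¹ ∉ S := by
        intro h2
        apply hg
        have h3 := hS _ h2 h⁻¹
        have h4 : h⁻¹ * (h * g * h⁻¹) * h⁻¹⁻¹ = g := by group
        rwa [h4] at h3
      rw [if_neg h1, if_neg hg]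
  rw [class_fn_expand' _ hclass]
  apply AddSubgroup.sum_mem
  intro ψ _
  apply aiSpan_gen _ (isCharacter_of_irr ψ.2)
  unfold Cfsg.classInner
  have hcard : (Nat.card B : ℂ) ≠ 0 := by exact_mod_cast Nat.card_pos.ne'
  have h5 : (Nat.card B : ℂ)⁻¹ * ∑ g : B, (if g ∈ S then (N : ℂ) else 0) * (starRingEnd ℂ) (ψ.1 g)
      = ∑ g : B, (if g ∈ S then (q : ℂ) else 0) * ψ.1 g⁻¹ := by
    rw [Finset.mul_sum]
    apply Finset.sum_congr rfl
    intro g _
    obtain ⟨n, ρ, hρ, hρψ⟩ := ψ.2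
    have h6 : (starRingEnd ℂ) (ψ.1 g) = ψ.1 g⁻¹ := by
      rw [← hρψ, char_inv]
    rw [h6]
    by_cases hg : g ∈ S
    · rw [if_pos hg, if_pos hg, hq]
      push_cast
      field_simp
    · rw [if_neg hg, if_neg hg]; ring
  rw [h5]
  apply IsIntegral.sum
  intro g _
  apply IsIntegral.mul
  · by_cases hg : g ∈ S
    · rw [if_pos hg]; exact isIntegral_algebraMap (R := ℤ) (A := ℂ) (x := (q : ℤ))
    · rw [if_neg hg]; exact isIntegral_zero
  · exact irr_isIntegral ψ g⁻¹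

end Cfsg.Agent.Lib.Lead
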