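import Mathlib
import Cfsg.Prelude.Def_Blocks
import Cfsg.Agent.Lib.Lead.Block7

set_option autoImplicit false

namespace Cfsg.Agent.Lib.Lead

open scoped ComplexConjugate
open Module

theorem finsum_mem_eq_sum_ite {α : Type*} [Fintype α] (S : Set α) [DecidablePred (· ∈ S)]
    (f : α → ℂ) : ∑ᶠ a ∈ S, f a = ∑ a, if a ∈ S then f a else 0 := by
  rw [finsum_eq_sum_of_fintype]
  apply Finset.sum_congr rfl
  intro a _
  rw [finsum_eq_if]

/-- an element not centralising a normal `p`-subgroup has central character values in the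
local ideal -/
theorem central_char_mli_of_not_centralizing {G : Type*} [Group G] [Finite G] (p : ℕ)
    [Fact p.Prime] (M : Ideal Cfsg.AlgInt) (hM : Cfsg.IsPModular p M) (Q : Subgroup G)
    [hQn : Q.Normal] (hQ : IsPGroup p Q) (g : G) (hg : g ∉ Subgroup.centralizer (Q : Set G))
    (χ : Cfsg.IrrCharacter G) : Cfsg.MemLocalIdeal M (Cfsg.centralChar χ.1 g) := by
  apply central_char_mli_of_no_conj p M hM g _ χ
  intro x hx hxc
  apply hg
  have hQle : Q ≤ Cfsg.pCore p G := le_sSup ⟨hQn, hQ⟩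
  have hxQ : x ∈ Subgroup.centralizer (Q : Set G) := Subgroup.centralizer_le hQle hxc
  obtain ⟨t, ht⟩ := isConj_iff.mp hx
  have hn : (Subgroup.centralizer (Q : Set G)).Normal := inferInstance
  have h1 := hn.conj_mem x hxQ t⁻¹
  have h2 : t⁻¹ * x * t⁻¹⁻¹ = g := by
    rw [← ht]
    group
  rw [h2] at h1
  exact h1

/-- a class function of `H` supported off `C(P)` (for `P ≤ H ≤ N(P)`) has `Om` in the local
ideal -/
theorem Om_off_centralizer_mli {G : Type*} [Group G] [Finite G] (p : ℕ) [Fact p.Prime]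
    (M : Ideal Cfsg.AlgInt) (hM : Cfsg.IsPModular p M) (P H : Subgroup G) (hP : IsPGroup p P)
    (hPH : P ≤ H) (hHN : H ≤ Subgroup.normalizer (P : Set G)) [Fintype H]
    (ξ : Cfsg.IrrCharacter H) (Y : H → ℂ) (hY : Cfsg.IsClassFunction H Y)
    (hYS : ∀ h, Cfsg.MemLocalRing M (Y h))
    (hY0 : ∀ h : H, (h : G) ∈ Subgroup.centralizer (P : Set G) → Y h = 0) :
    Cfsg.MemLocalIdeal M (Om ξ.1 Y) := by
  classical
  haveI : Fintype (ConjClasses H) := Fintype.ofFinite _
  have hmax := hM.2.1
  haveI hn : (P.subgroupOf H).Normal := Subgroup.normal_subgroupOf_of_le_normalizer hHN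
  have hp' : IsPGroup p (P.subgroupOf H) := hP.comap_subtype
  rw [Om_class_sum ξ hY]
  apply mli_sum hmax
  intro L _
  by_cases hc : ((ccRep L : H) : G) ∈ Subgroup.centralizer (P : Set G)
  · rw [hY0 _ hc, zero_mul]
    exact mli_zero hmax
  · apply mli_mul hmax (hYS _)
    apply central_char_mli_of_not_centralizing p M hM (P.subgroupOf H) hp' (ccRep L) _ ξ
    intro hcon
    apply hc
    rw [Subgroup.mem_centralizer_iff]
    intro q hq
    have h1 := (Subgroup.mem_centralizer_iff.mp hcon) ⟨q, hPH hq⟩ (Subgroup.mem_subgroupOf.mpr hq)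
    exact congrArg Subtype.val h1

/-- the induced central character agrees with the Brauer central character modulo the local
ideal -/
theorem induced_sub_brauer_mli {G : Type*} [Group G] [Finite G] (p : ℕ) [Fact p.Prime]
    (M : Ideal Cfsg.AlgInt) (hM : Cfsg.IsPModular p M) (P H : Subgroup G) (hP : IsPGroup p P)
    (hPH : P ≤ H) (hHN : H ≤ Subgroup.normalizer (P : Set G)) (ξ : Cfsg.IrrCharacter H)
    (g : G) :
    Cfsg.MemLocalIdeal M (Cfsg.inducedCentralChar H ξ.1 g
      - Cfsg.brauerCentralChar P H ξ.1 g) := by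
  classical
  haveI : Fintype H := Fintype.ofFinite H
  have hmax := hM.2.1
  let Y : H → ℂ := fun h =>
    if IsConj g (h : G) ∧ (h : G) ∉ Subgroup.centralizer (P : Set G) then 1 else 0
  have hYcf : Cfsg.IsClassFunction H Y := by
    intro h k
    show (if IsConj g ((k * h * k⁻¹ : H) : G)
        ∧ ((k * h * k⁻¹ : H) : G) ∉ Subgroup.centralizer (P : Set G) then (1 : ℂ) else 0)
      = if IsConj g (h : G) ∧ (h : G) ∉ Subgroup.centralizer (P : Set G) then 1 else 0
    have h1 : IsConj g ((k * h * k⁻¹ : H) : G) ↔ IsConj g (h : G) := by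
      have hc : IsConj (h : G) ((k * h * k⁻¹ : H) : G) := isConj_iff.mpr ⟨(k : G), by simp⟩
      exact ⟨fun h1 => h1.trans hc.symm, fun h1 => h1.trans hc⟩
    have hnorm : ∀ (k : H) (x : G), x ∈ Subgroup.centralizer (P : Set G) →
        (k : G) * x * (k : G)⁻¹ ∈ Subgroup.centralizer (P : Set G) := by
      intro k x hx
      rw [Subgroup.mem_centralizer_iff]
      intro q hq
      have hk := hHN k.2
      rw [Subgroup.mem_normalizer_iff'] at hk
      have hq' : (k : G)⁻¹ * q * (k : G) ∈ P := by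
        have := (hk ((k : G)⁻¹ * q)).mpr (by simpa using hq)
        exact this
      have h3 := (Subgroup.mem_centralizer_iff.mp hx) _ hq'
      calc q * ((k : G) * x * (k : G)⁻¹)
          = (k : G) * (((k : G)⁻¹ * q * (k : G)) * x) * (k : G)⁻¹ := by group
        _ = (k : G) * (x * ((k : G)⁻¹ * q * (k : G))) * (k : G)⁻¹ := by rw [h3]
        _ = (k : G) * x * (k : G)⁻¹ * q := by group
    have h2 : ((k * h * k⁻¹ : H) : G) ∈ Subgroup.centralizer (P : Set G)
        ↔ (h : G) ∈ Subgroup.centralizer (P : Set G) := by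
      constructor
      · intro hx
        have := hnorm k⁻¹ _ hx
        have e : ((k⁻¹ : H) : G) * ((k * h * k⁻¹ : H) : G) * ((k⁻¹ : H) : G)⁻¹ = (h : G) := by
          rw [Subgroup.coe_mul, Subgroup.coe_mul, Subgroup.coe_inv]
          group
        rw [e] at this
        exact this
      · intro hx
        have := hnorm k _ hx
        simpa using this
    simp only [h1, h2]
  have hdiff : Cfsg.inducedCentralChar H ξ.1 g - Cfsg.brauerCentralChar P H ξ.1 g
      = Om ξ.1 Y := by
    unfold Cfsg.inducedCentralChar Cfsg.brauerCentralChar Om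
    rw [finsum_mem_eq_sum_ite, finsum_mem_eq_sum_ite, ← Finset.sum_sub_distrib, Finset.sum_div]
    apply Finset.sum_congr rfl
    intro h _
    simp only [Set.mem_setOf_eq]
    by_cases h1 : IsConj g (h : G) <;>
      by_cases h2 : (h : G) ∈ Subgroup.centralizer (P : Set G) <;>
      simp only [Y, h1, h2, if_true, if_false, true_and, false_and, not_true, not_false_eq_true,
        and_true, and_false, sub_zero, sub_self, one_mul, zero_mul, zero_div, and_self]
  rw [hdiff]
  apply Om_off_centralizer_mli p M hM P H hP hPH hHN ξ Y hYcf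
  · intro h
    show Cfsg.MemLocalRing M
      (if IsConj g (h : G) ∧ (h : G) ∉ Subgroup.centralizer (P : Set G) then 1 else 0)
    split_ifs
    · exact mlr_one hmax
    · exact mlr_zero hmax
  · intro h hc
    show (if IsConj g (h : G) ∧ (h : G) ∉ Subgroup.centralizer (P : Set G) then (1 : ℂ) else 0)
      = 0
    rw [if_neg]
    intro hcon
    exact hcon.2 hc

/-- S0918 -/
theorem induced_iff_brauer {G : Type*} [Group G] [Finite G] (p : ℕ) [Fact p.Prime]
    (M : Ideal Cfsg.AlgInt) (hM : Cfsg.IsPModular p M) (P H : Subgroup G) (hP : IsPGroup p P)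
    (hPH : P ≤ H) (hHN : H ≤ Subgroup.normalizer (P : Set G))
    (b : Set (Cfsg.IrrCharacter H)) (hb : Cfsg.IsPBlock M b) (B : Set (Cfsg.IrrCharacter G))
    (hB : Cfsg.IsPBlock M B) :
    Cfsg.IsInducedBlock M H b B ↔ ∀ ξ ∈ b, ∀ χ ∈ B, ∀ g : G,
      Cfsg.MemLocalIdeal M (Cfsg.brauerCentralChar P H (ξ : H → ℂ) g
        - Cfsg.centralChar (χ : G → ℂ) g) := by
  have hmax := hM.2.1
  constructor
  · rintro ⟨_, _, h⟩ ξ hξ χ hχ g
    have h1 := h ξ hξ χ hχ g
    have h2 := induced_sub_brauer_mli p M hM P H hP hPH hHN ξ g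
    have h3 := mli_sub hmax h1 h2
    have h4 : Cfsg.inducedCentralChar H ξ.1 g - Cfsg.centralChar χ.1 g
        - (Cfsg.inducedCentralChar H ξ.1 g - Cfsg.brauerCentralChar P H ξ.1 g)
        = Cfsg.brauerCentralChar P H ξ.1 g - Cfsg.centralChar χ.1 g := by ring
    rw [h4] at h3
    exact h3
  · intro h
    refine ⟨hb, hB, fun ξ hξ χ hχ g => ?_⟩
    have h3 := mli_add hmax (h ξ hξ χ hχ g) (induced_sub_brauer_mli p M hM P H hP hPH hHN ξ g)
    have h4 : Cfsg.brauerCentralChar P H ξ.1 g - Cfsg.centralChar χ.1 g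
        + (Cfsg.inducedCentralChar H ξ.1 g - Cfsg.brauerCentralChar P H ξ.1 g)
        = Cfsg.inducedCentralChar H ξ.1 g - Cfsg.centralChar χ.1 g := by ring
    rw [h4] at h3
    exact h3

end Cfsg.Agent.Lib.Lead
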