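import Mathlib
import Cfsg.Prelude.Def_Blocks
import Cfsg.Agent.Lib.Lead.Block10

set_option autoImplicit false

namespace Cfsg.Agent.Lib.Lead

open scoped ComplexConjugate
open Module

/-- a sum of an invariant locally integral function over a set on which a `p`-group acts, the
function vanishing at the fixed points, lies in the local ideal -/
theorem orbit_sum_mli {E X : Type*} [Group E] [MulAction E X] [Fintype X] [Finite E] {p : ℕ}
    [Fact p.Prime] {M : Ideal Cfsg.AlgInt} (hM : Cfsg.IsPModular p M) (hE : IsPGroup p E)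
    (f : X → ℂ) (hf : ∀ (g : E) (x : X), f (g • x) = f x)
    (hfS : ∀ x, Cfsg.MemLocalRing M (f x))
    (hfix : ∀ x, (∀ g : E, g • x = x) → f x = 0) : Cfsg.MemLocalIdeal M (∑ x, f x) := by
  classical
  have hmax := hM.2.1
  haveI : Fintype (MulAction.orbitRel.Quotient E X) := Fintype.ofFinite _
  rw [← Finset.sum_fiberwise Finset.univ
    (fun x => (Quotient.mk'' x : MulAction.orbitRel.Quotient E X)) f]
  apply mli_sum hmax
  intro q _
  induction q using Quotient.inductionOn' with
  | h x0 =>
    have h1 : ∀ x ∈ Finset.univ.filter (fun x =>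
        (Quotient.mk'' x : MulAction.orbitRel.Quotient E X) = Quotient.mk'' x0), f x = f x0 := by
      intro x hx
      rw [Finset.mem_filter] at hx
      have h2 := Quotient.eq''.mp hx.2
      rw [MulAction.orbitRel_apply] at h2
      obtain ⟨g, rfl⟩ := h2
      exact hf g x0
    rw [Finset.sum_congr rfl h1, Finset.sum_const, nsmul_eq_mul]
    have h3 : Nat.card (MulAction.orbit E x0) = (Finset.univ.filter (fun x =>
        (Quotient.mk'' x : MulAction.orbitRel.Quotient E X) = Quotient.mk'' x0)).card := by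
      apply Nat.subtype_card
      intro x
      rw [Finset.mem_filter]
      constructor
      · rintro ⟨-, hx⟩
        have h2 := Quotient.eq''.mp hx
        rw [MulAction.orbitRel_apply] at h2
        exact h2
      · intro hx
        refine ⟨Finset.mem_univ _, Quotient.eq''.mpr ?_⟩
        rw [MulAction.orbitRel_apply]
        exact hx
    obtain ⟨n, hn⟩ := hE.card_orbit x0
    rcases Nat.eq_zero_or_pos n with rfl | hnpos
    · rw [pow_zero] at hn
      haveI : Subsingleton (MulAction.orbit E x0) := (Nat.card_eq_one_iff_unique.mp hn).1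
      have hfixed : ∀ u : E, u • x0 = x0 := by
        intro u
        have := Subsingleton.elim (⟨u • x0, MulAction.mem_orbit x0 u⟩ : MulAction.orbit E x0)
          ⟨x0, MulAction.mem_orbit_self x0⟩
        exact congrArg Subtype.val this
      rw [hfix x0 hfixed, mul_zero]
      exact mli_zero hmax
    · rw [mul_comm]
      apply mli_mul hmax (hfS x0)
      apply mli_natCast_of_dvd hM
      rw [← h3, hn]
      exact dvd_pow_self p (by omega)

section brauer

variable {G : Type*} [Group G] [Fintype G]

theorem Om_mlr {M : Ideal Cfsg.AlgInt} (hM : M.IsMaximal) (χ : Cfsg.IrrCharacter G)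
    {c : G → ℂ} (hc : Cfsg.IsClassFunction G c) (hcS : ∀ g, Cfsg.MemLocalRing M (c g)) :
    Cfsg.MemLocalRing M (Om χ.1 c) :=
  specGood_mlr hM (v := fun χ => Om χ.1 c) ⟨c, hc, hcS, fun _ => rfl⟩ χ

theorem Om_congr_mli {M : Ideal Cfsg.AlgInt} (hM : M.IsMaximal) {χ ψ : Cfsg.IrrCharacter G}
    (h : Cfsg.SameBlock M χ.1 ψ.1)
    {c : G → ℂ} (hc : Cfsg.IsClassFunction G c) (hcS : ∀ g, Cfsg.MemLocalRing M (c g)) :
    Cfsg.MemLocalIdeal M (Om χ.1 c - Om ψ.1 c) :=
  specGood_congr hM (v := fun χ => Om χ.1 c) ⟨c, hc, hcS, fun _ => rfl⟩ h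

theorem Om_zero (χ : G → ℂ) : Om χ (fun _ => 0) = 0 := by
  unfold Om
  simp

/-- a class function of `H` (for `P ≤ H ≤ N(P)`) with values in the local ideal on `C(P)` has
`Om` in the local ideal -/
theorem Om_mli_of_centralizer_mli (p : ℕ) [Fact p.Prime]
    (M : Ideal Cfsg.AlgInt) (hM : Cfsg.IsPModular p M) (P H : Subgroup G) (hP : IsPGroup p P)
    (hPH : P ≤ H) (hHN : H ≤ Subgroup.normalizer (P : Set G)) [Fintype H]
    (ξ : Cfsg.IrrCharacter H) (Y : H → ℂ) (hY : Cfsg.IsClassFunction H Y)
    (hYS : ∀ h, Cfsg.MemLocalRing M (Y h))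
    (hY0 : ∀ h : H, (h : G) ∈ Subgroup.centralizer (P : Set G) → Cfsg.MemLocalIdeal M (Y h)) :
    Cfsg.MemLocalIdeal M (Om ξ.1 Y) := by
  classical
  haveI : Fintype (ConjClasses H) := Fintype.ofFinite _
  have hmax := hM.2.1
  haveI hn : (P.subgroupOf H).Normal := Subgroup.normal_subgroupOf_of_le_normalizer hHN
  have hp' : IsPGroup p (P.subgroupOf H) := hP.comap_subtype
  rw [Om_class_sum ξ hY]
  apply mli_sum hmax
  intro L _
  by_cases hc : ((ccRep L : H) : G) ∈ Subgroup.centralizer (P : Set G)
  · rw [mul_comm]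
    exact mli_mul hmax (mlr_of_integral hmax (centralChar_isIntegral ξ _)) (hY0 _ hc)
  · apply mli_mul hmax (hYS _)
    apply central_char_mli_of_not_centralizing p M hM (P.subgroupOf H) hp' (ccRep L) _ ξ
    intro hcon
    apply hc
    rw [Subgroup.mem_centralizer_iff]
    intro q hq
    have h1 := (Subgroup.mem_centralizer_iff.mp hcon) ⟨q, hPH hq⟩ (Subgroup.mem_subgroupOf.mpr hq)
    exact congrArg Subtype.val h1

/-- the functional `c ↦ Om ξ (c|_H)` is multiplicative modulo the local ideal -/
theorem mu_mul_mli (p : ℕ) [Fact p.Prime]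
    (M : Ideal Cfsg.AlgInt) (hM : Cfsg.IsPModular p M) (P H : Subgroup G) (hP : IsPGroup p P)
    (hPH : P ≤ H) (hCH : Subgroup.centralizer (P : Set G) ≤ H)
    (hHN : H ≤ Subgroup.normalizer (P : Set G)) [Fintype H]
    (ξ : Cfsg.IrrCharacter H) {c d : G → ℂ} (hc : Cfsg.IsClassFunction G c)
    (hd : Cfsg.IsClassFunction G d) (hcS : ∀ g, Cfsg.MemLocalRing M (c g))
    (hdS : ∀ g, Cfsg.MemLocalRing M (d g)) :
    Cfsg.MemLocalIdeal M (Om ξ.1 (fun h : H => cconv c d (h : G))
      - Om ξ.1 (fun h : H => c (h : G)) * Om ξ.1 (fun h : H => d (h : G))) := by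
  classical
  have hmax := hM.2.1
  have hcH : Cfsg.IsClassFunction H (fun h : H => c (h : G)) := fun h k => hc (h : G) (k : G)
  have hdH : Cfsg.IsClassFunction H (fun h : H => d (h : G)) := fun h k => hd (h : G) (k : G)
  have hcdH : Cfsg.IsClassFunction H (fun h : H => cconv c d (h : G)) :=
    fun h k => cconv_classFn hc hd (h : G) (k : G)
  rw [← Om_cconv ξ hcH hdH, ← Om_sub]
  apply Om_mli_of_centralizer_mli p M hM P H hP hPH hHN ξ
  · intro h k
    show cconv c d ((k * h * k⁻¹ : H) : G)
        - cconv (fun h : H => c (h : G)) (fun h : H => d (h : G)) (k * h * k⁻¹)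
      = cconv c d (h : G) - cconv (fun h : H => c (h : G)) (fun h : H => d (h : G)) h
    have e1 : cconv c d ((k * h * k⁻¹ : H) : G) = cconv c d (h : G) := hcdH h k
    rw [e1, cconv_classFn hcH hdH h k]
  · intro h
    apply mlr_sub hmax
    · exact mlr_sum hmax _ _ (fun x _ => mlr_mul hmax (hcS x) (hdS _))
    · exact mlr_sum hmax _ _ (fun x _ => mlr_mul hmax (hcS _) (hdS _))
  · intro x hx
    -- the difference is the sum over `G \ H`
    have h1 : cconv (fun h : H => c (h : G)) (fun h : H => d (h : G)) x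
        = ∑ g : G, if g ∈ H then c g * d (g⁻¹ * (x : G)) else 0 := by
      unfold cconv
      rw [← Finset.sum_filter]
      rw [Finset.sum_subtype (Finset.univ.filter (· ∈ H)) (p := (· ∈ H)) (by simp)
        (fun g => c g * d (g⁻¹ * (x : G)))]
      rfl
    have h2 : cconv c d (x : G) - cconv (fun h : H => c (h : G)) (fun h : H => d (h : G)) x
        = ∑ g : G, if g ∈ H then 0 else c g * d (g⁻¹ * (x : G)) := by
      rw [h1]
      unfold cconv
      rw [← Finset.sum_sub_distrib]
      apply Finset.sum_congr rfl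
      intro g _
      split_ifs <;> ring
    rw [h2]
    letI act : MulAction P G :=
      { smul := fun u y => (u : G) * y * (u : G)⁻¹
        one_smul := fun y => by
          show ((1 : P) : G) * y * ((1 : P) : G)⁻¹ = y
          simp
        mul_smul := fun u v y => by
          show ((u * v : P) : G) * y * ((u * v : P) : G)⁻¹
            = (u : G) * ((v : G) * y * (v : G)⁻¹) * (u : G)⁻¹
          simp [mul_assoc] }
    apply orbit_sum_mli hM hP
    · intro u g
      show (if (u : G) * g * (u : G)⁻¹ ∈ H then 0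
          else c ((u : G) * g * (u : G)⁻¹) * d (((u : G) * g * (u : G)⁻¹)⁻¹ * (x : G)))
        = if g ∈ H then 0 else c g * d (g⁻¹ * (x : G))
      have huH : (u : G) ∈ H := hPH u.2
      have hmem : (u : G) * g * (u : G)⁻¹ ∈ H ↔ g ∈ H := by
        constructor
        · intro h
          have := H.mul_mem (H.mul_mem (H.inv_mem huH) h) huH
          have e : (u : G)⁻¹ * ((u : G) * g * (u : G)⁻¹) * (u : G) = g := by group
          rw [e] at this
          exact this
        · intro h
          exact H.mul_mem (H.mul_mem huH h) (H.inv_mem huH)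
      have hxu : (u : G) * (x : G) = (x : G) * (u : G) :=
        (Subgroup.mem_centralizer_iff.mp hx) (u : G) u.2
      have e2 : ((u : G) * g * (u : G)⁻¹)⁻¹ * (x : G) = (u : G) * (g⁻¹ * (x : G)) * (u : G)⁻¹ := by
        have : (x : G) = (u : G) * (x : G) * (u : G)⁻¹ := by
          rw [hxu]
          group
        calc ((u : G) * g * (u : G)⁻¹)⁻¹ * (x : G)
            = (u : G) * g⁻¹ * (u : G)⁻¹ * ((u : G) * (x : G) * (u : G)⁻¹) := by
              rw [← this]
              group
          _ = (u : G) * (g⁻¹ * (x : G)) * (u : G)⁻¹ := by group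
      simp only [hmem]
      rw [hc g (u : G), e2, hd (g⁻¹ * (x : G)) (u : G)]
    · intro g
      show Cfsg.MemLocalRing M (if g ∈ H then 0 else c g * d (g⁻¹ * (x : G)))
      split_ifs
      · exact mlr_zero hmax
      · exact mlr_mul hmax (hcS _) (hdS _)
    · intro g hfix
      show (if g ∈ H then 0 else c g * d (g⁻¹ * (x : G))) = 0
      rw [if_pos]
      apply hCH
      rw [Subgroup.mem_centralizer_iff]
      intro q hq
      have h3 : q * g * q⁻¹ = g := hfix ⟨q, hq⟩
      calc q * g = q * g * q⁻¹ * q := by group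
        _ = g * q := by rw [h3]

end brauer

end Cfsg.Agent.Lib.Lead
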