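import Mathlib
import Cfsg.Prelude.Def_Blocks
import Cfsg.Agent.Lib.Lead.Block11

set_option autoImplicit false

namespace Cfsg.Agent.Lib.Lead

open scoped ComplexConjugate
open Module

section brauer2

variable {G : Type*} [Group G] [Fintype G]

theorem Om_res_delta (H : Subgroup G) [Fintype H] (ξ : Cfsg.IrrCharacter H) (a : ℂ)
    [DecidableEq G] :
    Om ξ.1 (fun h : H => if (h : G) = 1 then a else 0) = a := by
  classical
  have h1 : (fun h : H => if (h : G) = 1 then a else 0) = fun h : H => if h = 1 then a else 0 := by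
    funext h
    have h2 : (h : G) = 1 ↔ h = 1 := OneMemClass.coe_eq_one
    simp only [h2]
  rw [h1]
  exact Om_delta ξ.1 (irr_deg_ne_zero ξ) a

/-- a functional of Brauer type agrees, modulo the local ideal, with the central character of
some irreducible character of `G` -/
theorem exists_irr_of_mult_functional (p : ℕ) [Fact p.Prime]
    (M : Ideal Cfsg.AlgInt) (hM : Cfsg.IsPModular p M) (P H : Subgroup G) (hP : IsPGroup p P)
    (hPH : P ≤ H) (hCH : Subgroup.centralizer (P : Set G) ≤ H)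
    (hHN : H ≤ Subgroup.normalizer (P : Set G)) [Fintype H] (ξ : Cfsg.IrrCharacter H) :
    ∃ χ₀ : Cfsg.IrrCharacter G, ∀ c : G → ℂ, Cfsg.IsClassFunction G c →
      (∀ g, Cfsg.MemLocalRing M (c g)) →
      Cfsg.MemLocalIdeal M (Om ξ.1 (fun h : H => c (h : G)) - Om χ₀.1 c) := by
  classical
  haveI : Fintype (Cfsg.IrrCharacter G) := Fintype.ofFinite _
  have hmax := hM.2.1
  by_contra hcon
  push Not at hcon
  choose c hc hcS hcn using hcon
  have key : ∀ s : Finset (Cfsg.IrrCharacter G), ∃ z : G → ℂ, Cfsg.IsClassFunction G z ∧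
      (∀ g, Cfsg.MemLocalRing M (z g)) ∧
      (∀ ψ : Cfsg.IrrCharacter G, Om ψ.1 z = ∏ χ ∈ s, (Om ψ.1 (c χ) - Om χ.1 (c χ))) ∧
      Cfsg.MemLocalIdeal M (Om ξ.1 (fun h : H => z (h : G))
        - ∏ χ ∈ s, (Om ξ.1 (fun h : H => c χ (h : G)) - Om χ.1 (c χ))) := by
    intro s
    induction s using Finset.induction_on with
    | empty =>
      refine ⟨fun x => if x = 1 then 1 else 0, isClassFunction_delta 1, ?_, ?_, ?_⟩
      · intro g
        show Cfsg.MemLocalRing M (if g = 1 then 1 else 0)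
        split_ifs
        · exact mlr_one hmax
        · exact mlr_zero hmax
      · intro ψ
        rw [Finset.prod_empty]
        exact Om_delta ψ.1 (irr_deg_ne_zero ψ) 1
      · rw [Finset.prod_empty, Om_res_delta H ξ 1, sub_self]
        exact mli_zero hmax
    | insert a s ha ih =>
      obtain ⟨z, hz, hzS, hzOm, hzμ⟩ := ih
      obtain ⟨a₀, ha₀⟩ : ∃ a₀ : ℂ, a₀ = Om a.1 (c a) := ⟨_, rfl⟩
      have ha₀S : Cfsg.MemLocalRing M a₀ := by
        rw [ha₀]
        exact Om_mlr hmax a (hc a) (hcS a)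
      obtain ⟨δa, hδa⟩ : ∃ δa : G → ℂ, δa = fun x => if x = 1 then a₀ else 0 := ⟨_, rfl⟩
      have hδcf : Cfsg.IsClassFunction G δa := by
        rw [hδa]
        exact isClassFunction_delta a₀
      have hδS : ∀ g, Cfsg.MemLocalRing M (δa g) := by
        intro g
        rw [hδa]
        show Cfsg.MemLocalRing M (if g = 1 then a₀ else 0)
        split_ifs
        · exact ha₀S
        · exact mlr_zero hmax
      have hcacf : Cfsg.IsClassFunction G (fun x => c a x - δa x) := by
        intro x k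
        show c a (k * x * k⁻¹) - δa (k * x * k⁻¹) = c a x - δa x
        rw [hc a x k, hδcf x k]
      have hcaS : ∀ g, Cfsg.MemLocalRing M (c a g - δa g) := fun g =>
        mlr_sub hmax (hcS a g) (hδS g)
      have hOmca : ∀ ψ : Cfsg.IrrCharacter G,
          Om ψ.1 (fun x => c a x - δa x) = Om ψ.1 (c a) - a₀ := by
        intro ψ
        rw [Om_sub, hδa, Om_delta ψ.1 (irr_deg_ne_zero ψ)]
      have hμca : Om ξ.1 (fun h : H => c a (h : G) - δa (h : G))
          = Om ξ.1 (fun h : H => c a (h : G)) - a₀ := by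
        rw [Om_sub, hδa, Om_res_delta H ξ a₀]
      have hμcaS : Cfsg.MemLocalRing M (Om ξ.1 (fun h : H => c a (h : G) - δa (h : G))) :=
        Om_mlr hmax ξ (fun h k => hcacf (h : G) (k : G)) (fun h => hcaS _)
      refine ⟨cconv (fun x => c a x - δa x) z, cconv_classFn hcacf hz,
        fun g => mlr_sum hmax _ _ (fun x _ => mlr_mul hmax (hcaS x) (hzS _)), ?_, ?_⟩
      · intro ψ
        rw [Om_cconv ψ hcacf hz, hzOm ψ, Finset.prod_insert ha, hOmca ψ, ha₀]
      · rw [Finset.prod_insert ha]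
        have h1 := mu_mul_mli p M hM P H hP hPH hCH hHN ξ hcacf hz hcaS hzS
        have h2 := mli_mul hmax hμcaS hzμ
        have h3 := mli_add hmax h1 h2
        rw [hμca] at h3
        rw [← ha₀]
        have e : Om ξ.1 (fun h : H => cconv (fun x => c a x - δa x) z (h : G))
            - (Om ξ.1 (fun h : H => c a (h : G)) - a₀) * Om ξ.1 (fun h : H => z (h : G))
            + (Om ξ.1 (fun h : H => c a (h : G)) - a₀) * (Om ξ.1 (fun h : H => z (h : G))
              - ∏ χ ∈ s, (Om ξ.1 (fun h : H => c χ (h : G)) - Om χ.1 (c χ)))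
            = Om ξ.1 (fun h : H => cconv (fun x => c a x - δa x) z (h : G))
              - (Om ξ.1 (fun h : H => c a (h : G)) - a₀)
                * ∏ χ ∈ s, (Om ξ.1 (fun h : H => c χ (h : G)) - Om χ.1 (c χ)) := by ring
        rw [e] at h3
        exact h3
  obtain ⟨z, hz, hzS, hzOm, hzμ⟩ := key Finset.univ
  have hz0 : z = fun _ => 0 := by
    apply Om_ext hz (fun _ _ => rfl)
    intro ψ
    rw [hzOm ψ, Om_zero]
    exact Finset.prod_eq_zero (Finset.mem_univ ψ) (sub_self _)
  rw [hz0] at hzμ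
  have h0 : Om ξ.1 (fun h : H => (fun _ : G => (0 : ℂ)) (h : G)) = 0 := Om_zero ξ.1
  rw [h0, zero_sub] at hzμ
  have h5 := mli_neg hzμ
  rw [neg_neg] at h5
  refine not_mli_prod hmax Finset.univ _ (fun χ _ => ?_) (fun χ _ => hcn χ) h5
  exact mlr_sub hmax (Om_mlr hmax ξ (fun h k => hc χ (h : G) (k : G)) (fun h => hcS χ _))
    (Om_mlr hmax χ (hc χ) (hcS χ))

end brauer2

theorem inducedCentralChar_eq {G : Type*} [Group G] (H : Subgroup G) [Fintype H] (ξ : H → ℂ)
    (g : G) [∀ x, Decidable (IsConj g x)] :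
    Cfsg.inducedCentralChar H ξ g
      = Om ξ (fun h : H => if IsConj g (h : G) then (1 : ℂ) else 0) := by
  classical
  unfold Cfsg.inducedCentralChar Om
  rw [finsum_mem_eq_sum_ite, Finset.sum_div]
  apply Finset.sum_congr rfl
  intro h _
  simp only [Set.mem_setOf_eq]
  by_cases h1 : IsConj g (h : G) <;>
    simp only [h1, if_true, if_false, one_mul, zero_mul, zero_div]

/-- S0919 -/
theorem induced_block_defined_thm {G : Type*} [Group G] [Finite G] (p : ℕ) [Fact p.Prime]
    (M : Ideal Cfsg.AlgInt) (hM : Cfsg.IsPModular p M) (P H : Subgroup G) (hP : IsPGroup p P)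
    (hPH : P ≤ H) (hCH : Subgroup.centralizer (P : Set G) ≤ H)
    (hHN : H ≤ Subgroup.normalizer (P : Set G)) (b : Set (Cfsg.IrrCharacter H))
    (hb : Cfsg.IsPBlock M b) : Cfsg.InducedBlockDefined M H b := by
  classical
  haveI : Fintype G := Fintype.ofFinite G
  haveI : Fintype H := Fintype.ofFinite H
  have hmax := hM.2.1
  obtain ⟨ξ₁, rfl⟩ := hb
  obtain ⟨χ₀, hχ₀⟩ := exists_irr_of_mult_functional p M hM P H hP hPH hCH hHN ξ₁
  refine ⟨Cfsg.blockOf M χ₀.1, ⟨ξ₁, rfl⟩, ⟨χ₀, rfl⟩, ?_⟩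
  intro ξ hξ χ hχ g
  have hind : Cfsg.IsClassFunction G (fun x => if IsConj g x then (1 : ℂ) else 0) :=
    isClassFunction_conjInd g
  have hindS : ∀ x, Cfsg.MemLocalRing M (if IsConj g x then (1 : ℂ) else 0) := by
    intro x
    split_ifs
    · exact mlr_one hmax
    · exact mlr_zero hmax
  have hindH : Cfsg.IsClassFunction H (fun h : H => if IsConj g (h : G) then (1 : ℂ) else 0) :=
    fun h k => hind (h : G) (k : G)
  have h1 := Om_congr_mli hmax (hξ : Cfsg.SameBlock M ξ₁.1 ξ.1) hindH (fun h => hindS _)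
  have h2 := hχ₀ _ hind hindS
  rw [Om_classInd] at h2
  have h3 := (hχ : Cfsg.SameBlock M χ₀.1 χ.1) g
  rw [inducedCentralChar_eq]
  have h4 := mli_add hmax (mli_sub hmax h2 h1) h3
  have e : Om ξ₁.1 (fun h : H => if IsConj g (h : G) then (1 : ℂ) else 0)
        - Cfsg.centralChar χ₀.1 g
      - (Om ξ₁.1 (fun h : H => if IsConj g (h : G) then (1 : ℂ) else 0)
        - Om ξ.1 (fun h : H => if IsConj g (h : G) then (1 : ℂ) else 0))
      + (Cfsg.centralChar χ₀.1 g - Cfsg.centralChar χ.1 g)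
      = Om ξ.1 (fun h : H => if IsConj g (h : G) then (1 : ℂ) else 0)
        - Cfsg.centralChar χ.1 g := by ring
  rw [e] at h4
  exact h4

end Cfsg.Agent.Lib.Lead
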