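import Mathlib
import Cfsg.Prelude.Def_Blocks
import Cfsg.Agent.Lib.Lead.Block3
import Cfsg.Agent.S0903

set_option autoImplicit false

namespace Cfsg.Agent.Lib.Lead

open scoped ComplexConjugate
open Module

section inv

variable {G : Type*} [Group G] [Fintype G] {M : Ideal Cfsg.AlgInt}

theorem specGood_poly_inv (hM : M.IsMaximal) {u : Cfsg.IrrCharacter G → ℂ} (hu : SpecGood M u)
    (s : Finset (Cfsg.IrrCharacter G)) (hs : ∀ θ ∈ s, ¬ Cfsg.MemLocalIdeal M (u θ)) :
    ∃ y : Cfsg.IrrCharacter G → ℂ, SpecGood M y ∧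
      ∀ χ, u χ * y χ = 1 - ∏ θ ∈ s, (1 - (u θ)⁻¹ * u χ) := by
  classical
  induction s using Finset.induction_on with
  | empty =>
    refine ⟨fun _ => 0, specGood_const hM (mlr_zero hM), ?_⟩
    intro χ
    simp
  | insert a s ha ih =>
    obtain ⟨y, hy, hy2⟩ := ih (fun θ hθ => hs θ (Finset.mem_insert_of_mem hθ))
    have ha' := hs a (Finset.mem_insert_self a s)
    have h1 : SpecGood M (fun χ => ∏ θ ∈ s, (1 - (u θ)⁻¹ * u χ)) := by
      apply specGood_prod hM s (fun θ χ => 1 - (u θ)⁻¹ * u χ)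
      intro θ hθ
      apply specGood_sub hM (specGood_const hM (mlr_one hM))
      exact specGood_mul hM (specGood_const hM
        (mlr_inv (specGood_mlr hM hu θ) (hs θ (Finset.mem_insert_of_mem hθ)))) hu
    have h2 := specGood_add hM hy (specGood_mul hM
      (specGood_const hM (mlr_inv (specGood_mlr hM hu a) ha')) h1)
    refine ⟨_, h2, ?_⟩
    intro χ
    rw [Finset.prod_insert ha, mul_add, hy2]
    ring

open Classical in
theorem specGood_block_inv [Fintype (Cfsg.IrrCharacter G)] {p : ℕ} (hM : Cfsg.IsPModular p M)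
    (χ₀ : Cfsg.IrrCharacter G) {u : Cfsg.IrrCharacter G → ℂ} (hu : SpecGood M u)
    (hnot : ∀ θ ∈ Cfsg.blockOf M χ₀.1, ¬ Cfsg.MemLocalIdeal M (u θ)) :
    SpecGood M (fun χ => if χ ∈ Cfsg.blockOf M χ₀.1 then (u χ)⁻¹ else 0) := by
  have hmax := hM.2.1
  obtain ⟨y, hy, hy2⟩ := specGood_poly_inv hmax hu
    (Finset.univ.filter (· ∈ Cfsg.blockOf M χ₀.1))
    (fun θ hθ => hnot θ (Finset.mem_filter.mp hθ).2)
  have h1 := specGood_mul hmax (osima_core hM χ₀) hy
  have h2 : (fun χ => if χ ∈ Cfsg.blockOf M χ₀.1 then (u χ)⁻¹ else 0)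
      = fun χ => (if χ ∈ Cfsg.blockOf M χ₀.1 then (1 : ℂ) else 0) * y χ := by
    funext χ
    by_cases hχ : χ ∈ Cfsg.blockOf M χ₀.1
    · rw [if_pos hχ, if_pos hχ, one_mul]
      have hne : u χ ≠ 0 := by
        intro h0
        apply hnot χ hχ
        rw [h0]
        exact mli_zero hmax
      have h3 := hy2 χ
      rw [Finset.prod_eq_zero (i := χ) (Finset.mem_filter.mpr ⟨Finset.mem_univ _, hχ⟩)
        (by rw [inv_mul_cancel₀ hne, sub_self]), sub_zero] at h3
      exact (eq_inv_of_mul_eq_one_right h3).symm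
    · rw [if_neg hχ, if_neg hχ, zero_mul]
  rw [h2]
  exact h1

end inv

/-- the key step of the min–max theorem -/
theorem minmax_key {G : Type*} [Group G] [Finite G] (p : ℕ) [Fact p.Prime]
    (M : Ideal Cfsg.AlgInt) (hM : Cfsg.IsPModular p M) (χ₀ : Cfsg.IrrCharacter G) (h h' : G)
    (hω : ¬ Cfsg.MemLocalIdeal M (Cfsg.centralChar χ₀.1 h))
    (he : ¬ Cfsg.MemLocalIdeal M (Cfsg.blockCoeff (Cfsg.blockOf M χ₀.1) h'))
    (Q : Subgroup G) (hQ : IsPGroup p Q) (hQh : h' ∈ Subgroup.centralizer (Q : Set G)) :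
    ∃ x, IsConj h x ∧ x ∈ Subgroup.centralizer (Q : Set G) := by
  classical
  haveI : Fintype G := Fintype.ofFinite G
  haveI : Fintype (Cfsg.IrrCharacter G) := Fintype.ofFinite _
  haveI : Fintype (ConjClasses G) := Fintype.ofFinite _
  have hM' := hM
  obtain ⟨hp, hmax, hpM⟩ := hM
  have hu := specGood_omega (G := G) hmax h
  have hnot : ∀ θ ∈ (Cfsg.blockOf M χ₀.1), ¬ Cfsg.MemLocalIdeal M (Cfsg.centralChar θ.1 h) := fun θ hθ =>
    not_mli_of_sub hmax ((hθ : Cfsg.SameBlock M χ₀.1 θ.1) h) hω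
  obtain ⟨w, hw, hw2, hw3⟩ := specGood_block_inv hM' χ₀ hu hnot
  have heq : (fun g => Cfsg.blockCoeff (Cfsg.blockOf M χ₀.1) g)
      = cconv (fun x => if IsConj h x then (1 : ℂ) else 0) w := by
    apply Om_ext (blockCoeff_classFn (Cfsg.blockOf M χ₀.1)) (cconv_classFn (isClassFunction_conjInd h) hw)
    intro χ
    rw [Om_blockCoeff, Om_cconv χ (isClassFunction_conjInd h) hw, Om_classInd, hw3]
    beta_reduce
    by_cases hχ : χ ∈ (Cfsg.blockOf M χ₀.1)
    · rw [if_pos hχ, if_pos hχ, mul_inv_cancel₀]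
      intro h0
      apply hnot χ hχ
      rw [h0]
      exact mli_zero hmax
    · rw [if_neg hχ, if_neg hχ, mul_zero]
  by_contra hcon
  push Not at hcon
  apply he
  have h1 : Cfsg.blockCoeff (Cfsg.blockOf M χ₀.1) h' = cconv (fun x => if IsConj h x then (1 : ℂ) else 0) w h' :=
    congrFun heq h'
  rw [h1]
  unfold cconv
  have h2 : ∑ g : G, (if IsConj h g then (1 : ℂ) else 0) * w (g⁻¹ * h')
      = ∑ y : G, (if IsConj h (h' * y⁻¹) then (1 : ℂ) else 0) * w y := by
    apply Fintype.sum_equiv ((Equiv.inv G).trans (Equiv.mulRight h'))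
    intro g
    simp only [Equiv.trans_apply, Equiv.inv_apply, Equiv.coe_mulRight]
    have : h' * (g⁻¹ * h')⁻¹ = g := by group
    rw [this]
  rw [h2, ← Finset.sum_fiberwise (Finset.univ : Finset G) (fun y => ConjClasses.mk y)]
  apply mli_sum hmax
  intro C _
  have h3 : ∑ y ∈ Finset.univ.filter (fun y : G => ConjClasses.mk y = C),
      (if IsConj h (h' * y⁻¹) then (1 : ℂ) else 0) * w y
      = ((Finset.univ.filter
          (fun y : G => ConjClasses.mk y = C ∧ IsConj h (h' * y⁻¹))).card : ℂ)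
        * w (ccRep C) := by
    have h4 : ∀ y ∈ Finset.univ.filter (fun y : G => ConjClasses.mk y = C),
        (if IsConj h (h' * y⁻¹) then (1 : ℂ) else 0) * w y
        = (if IsConj h (h' * y⁻¹) then (1 : ℂ) else 0) * w (ccRep C) := by
      intro y hy
      have hy' : ConjClasses.mk y = C := (Finset.mem_filter.mp hy).2
      have : IsConj (ccRep C) y := by
        apply ConjClasses.mk_eq_mk_iff_isConj.mp
        rw [ccRep_spec, hy']
      rw [isClassFunction_conj_eq hw this]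
    rw [Finset.sum_congr rfl h4, ← Finset.sum_mul]
    congr 1
    rw [Finset.sum_boole, Finset.filter_filter]
  rw [h3, mul_comm]
  apply mli_mul hmax (hw2 _)
  apply mli_natCast_of_dvd hM'
  have h5 := Cfsg.Agent.S0903.result p Q hQ h' hQh h (ccRep C)
  have h6 : Nat.card {xy : G × G // IsConj h xy.1 ∧ IsConj (ccRep C) xy.2 ∧ xy.1 * xy.2 = h' ∧
      xy.1 ∈ Subgroup.centralizer (Q : Set G) ∧ xy.2 ∈ Subgroup.centralizer (Q : Set G)} = 0 := by
    haveI : IsEmpty {xy : G × G // IsConj h xy.1 ∧ IsConj (ccRep C) xy.2 ∧ xy.1 * xy.2 = h' ∧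
        xy.1 ∈ Subgroup.centralizer (Q : Set G) ∧ xy.2 ∈ Subgroup.centralizer (Q : Set G)} :=
      ⟨fun a => hcon a.1.1 a.2.1 a.2.2.2.2.1⟩
    exact Nat.card_of_isEmpty
  rw [h6] at h5
  have h7 := (Nat.modEq_zero_iff_dvd).mp h5
  have h8 : Nat.card {xy : G × G // IsConj h xy.1 ∧ IsConj (ccRep C) xy.2 ∧ xy.1 * xy.2 = h'}
      = (Finset.univ.filter
          (fun y : G => ConjClasses.mk y = C ∧ IsConj h (h' * y⁻¹))).card := by
    rw [← Fintype.card_subtype, ← Nat.card_eq_fintype_card]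
    apply Nat.card_congr
    refine ⟨fun a => ⟨a.1.2, ?_, ?_⟩, fun b => ⟨(h' * b.1⁻¹, b.1), b.2.2, ?_, ?_⟩, ?_, ?_⟩
    · exact (ConjClasses.mk_eq_mk_iff_isConj.mpr a.2.2.1).symm.trans (ccRep_spec C)
    · have h9 := a.2.2.2
      have h10 : h' * a.1.2⁻¹ = a.1.1 := mul_inv_eq_iff_eq_mul.mpr h9.symm
      rw [h10]
      exact a.2.1
    · apply ConjClasses.mk_eq_mk_iff_isConj.mp
      rw [ccRep_spec]
      exact b.2.1.symm
    · show h' * b.1⁻¹ * b.1 = h'
      group
    · intro a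
      apply Subtype.ext
      apply Prod.ext
      · show h' * a.1.2⁻¹ = a.1.1
        exact mul_inv_eq_iff_eq_mul.mpr a.2.2.2.symm
      · rfl
    · intro b
      rfl
  rw [← h8]
  exact h7

end Cfsg.Agent.Lib.Lead
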