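import Mathlib
import Cfsg.Prelude.Def_Blocks
import Cfsg.Agent.Lib.Lead.Block4

set_option autoImplicit false

namespace Cfsg.Agent.Lib.Lead

open scoped Pointwise

theorem conj_le_centralizer {G : Type*} [Group G] (g x t : G) (ht : t * g * t⁻¹ = x)
    (R : Subgroup G) (hx : x ∈ Subgroup.centralizer (R : Set G)) :
    R.map (MulAut.conj t⁻¹).toMonoidHom ≤ Subgroup.centralizer ({g} : Set G) := by
  rintro _ ⟨r, hr, rfl⟩
  rw [Subgroup.mem_centralizer_iff]
  intro y hy
  rw [Set.mem_singleton_iff] at hy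
  subst hy
  have h1 : x * r = r * x := ((Subgroup.mem_centralizer_iff.mp hx) r hr).symm
  simp only [MulEquiv.coe_toMonoidHom, MulAut.conj_apply, inv_inv]
  have h2 : y = t⁻¹ * x * t := by
    rw [← ht]
    group
  rw [h2]
  calc t⁻¹ * x * t * (t⁻¹ * r * t) = t⁻¹ * (x * r) * t := by group
    _ = t⁻¹ * (r * x) * t := by rw [h1]
    _ = t⁻¹ * r * t * (t⁻¹ * x * t) := by group

theorem mem_centralizer_map_sylow {G : Type*} [Group G] (p : ℕ) (h : G)
    (Q : Subgroup (Subgroup.centralizer ({h} : Set G))) :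
    h ∈ Subgroup.centralizer
      ((Q.map (Subgroup.centralizer ({h} : Set G)).subtype : Subgroup G) : Set G) := by
  rw [Subgroup.mem_centralizer_iff]
  rintro _ ⟨q, hq, rfl⟩
  exact ((Subgroup.mem_centralizer_iff.mp q.2) h (Set.mem_singleton h)).symm

/-- a `p`-subgroup centralised by a conjugate of `g` lies in a conjugate of a given Sylow
`p`-subgroup of `C(g)` -/
theorem le_conj_sylow_centralizer {G : Type*} [Group G] [Finite G] (p : ℕ) [Fact p.Prime]
    (g : G) (D : Sylow p (Subgroup.centralizer ({g} : Set G))) (R : Subgroup G)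
    (hR : IsPGroup p R) (x : G) (hgx : IsConj g x)
    (hx : x ∈ Subgroup.centralizer (R : Set G)) :
    ∃ y : G, R ≤ ((D : Subgroup (Subgroup.centralizer ({g} : Set G))).map
      (Subgroup.centralizer ({g} : Set G)).subtype).map (MulAut.conj y).toMonoidHom := by
  obtain ⟨t, ht⟩ := isConj_iff.mp hgx
  have hR'le := conj_le_centralizer g x t ht R hx
  have hR' : IsPGroup p (R.map (MulAut.conj t⁻¹).toMonoidHom) := hR.map _
  have hP' : IsPGroup p ((R.map (MulAut.conj t⁻¹).toMonoidHom).comap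
      (Subgroup.centralizer ({g} : Set G)).subtype) := hR'.comap_subtype
  obtain ⟨D', hD'⟩ := hP'.exists_le_sylow
  obtain ⟨c, hc⟩ := MulAction.exists_smul_eq (Subgroup.centralizer ({g} : Set G)) D D'
  refine ⟨t * c, ?_⟩
  intro r hr
  have h1 : (MulAut.conj t⁻¹).toMonoidHom r ∈ R.map (MulAut.conj t⁻¹).toMonoidHom :=
    ⟨r, hr, rfl⟩
  have h2 : (⟨(MulAut.conj t⁻¹).toMonoidHom r, hR'le h1⟩ : Subgroup.centralizer ({g} : Set G))
      ∈ (R.map (MulAut.conj t⁻¹).toMonoidHom).comap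
        (Subgroup.centralizer ({g} : Set G)).subtype := h1
  have h3 := hD' h2
  rw [← hc] at h3
  obtain ⟨d, hd, hd2⟩ := (Subgroup.mem_smul_pointwise_iff_exists _ _ _).mp h3
  refine ⟨(d : G), ⟨d, hd, rfl⟩, ?_⟩
  have h4 := congrArg Subtype.val hd2
  simp only [MulAut.smul_def, MulAut.conj_apply, Subgroup.coe_mul, Subgroup.coe_inv,
    MulEquiv.coe_toMonoidHom, inv_inv] at h4
  simp only [MulEquiv.coe_toMonoidHom, MulAut.conj_apply, mul_inv_rev]
  calc t * (c : G) * (d : G) * ((c : G)⁻¹ * t⁻¹)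
      = t * ((c : G) * (d : G) * (c : G)⁻¹) * t⁻¹ := by group
    _ = t * (t⁻¹ * r * t) * t⁻¹ := by rw [h4]
    _ = r := by group

/-- the min–max theorem (S0911) -/
theorem minmax_thm {G : Type*} [Group G] [Finite G] (p : ℕ) [Fact p.Prime]
    (M : Ideal Cfsg.AlgInt) (hM : Cfsg.IsPModular p M) (B : Set (Cfsg.IrrCharacter G))
    (hB : Cfsg.IsPBlock M B) (g : G) (hg : Cfsg.IsDefectClass M B g)
    (D : Sylow p (Subgroup.centralizer ({g} : Set G))) (h : G) :
    (Cfsg.MemLocalRing M (Cfsg.blockCoeff B h) → ¬ Cfsg.MemLocalIdeal M (Cfsg.blockCoeff B h) →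
      ∃ (x : G) (Q : Sylow p (Subgroup.centralizer ({h} : Set G))),
        (Q : Subgroup (Subgroup.centralizer ({h} : Set G))).map
            (Subgroup.centralizer ({h} : Set G)).subtype
          ≤ ((D : Subgroup (Subgroup.centralizer ({g} : Set G))).map
            (Subgroup.centralizer ({g} : Set G)).subtype).map (MulAut.conj x).toMonoidHom) ∧
    ((∃ χ ∈ B, ¬ Cfsg.MemLocalIdeal M (Cfsg.centralChar (χ : G → ℂ) h)) →
      ∃ (x : G) (Q : Sylow p (Subgroup.centralizer ({h} : Set G))),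
        ((D : Subgroup (Subgroup.centralizer ({g} : Set G))).map
            (Subgroup.centralizer ({g} : Set G)).subtype).map (MulAut.conj x).toMonoidHom
          ≤ (Q : Subgroup (Subgroup.centralizer ({h} : Set G))).map
            (Subgroup.centralizer ({h} : Set G)).subtype) := by
  obtain ⟨χ₀, rfl⟩ := hB
  have hmax := hM.2.1
  have hχ₀ : χ₀ ∈ Cfsg.blockOf M χ₀.1 := by
    intro k
    rw [sub_self]
    exact mli_zero hmax
  obtain ⟨hg1, hg2, hg3⟩ := hg
  constructor
  · intro _ he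
    obtain ⟨Q₀⟩ : Nonempty (Sylow p (Subgroup.centralizer ({h} : Set G))) := inferInstance
    have hR : IsPGroup p ((Q₀ : Subgroup (Subgroup.centralizer ({h} : Set G))).map
        (Subgroup.centralizer ({h} : Set G)).subtype) := Q₀.isPGroup'.map _
    obtain ⟨x, hgx, hxR⟩ := minmax_key p M hM χ₀ g h (hg3 χ₀ hχ₀) he _ hR
      (mem_centralizer_map_sylow p h _)
    obtain ⟨y, hy⟩ := le_conj_sylow_centralizer p g D _ hR x hgx hxR
    exact ⟨y, Q₀, hy⟩
  · rintro ⟨χ, hχ, hχh⟩
    have hω : ¬ Cfsg.MemLocalIdeal M (Cfsg.centralChar χ₀.1 h) := by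
      intro hcon
      apply hχh
      have := mli_sub hmax hcon ((hχ : Cfsg.SameBlock M χ₀.1 χ.1) h)
      simpa using this
    have hR : IsPGroup p ((D : Subgroup (Subgroup.centralizer ({g} : Set G))).map
        (Subgroup.centralizer ({g} : Set G)).subtype) := D.isPGroup'.map _
    obtain ⟨x, hhx, hxR⟩ := minmax_key p M hM χ₀ h g hω hg2 _ hR
      (mem_centralizer_map_sylow p g _)
    obtain ⟨t, ht⟩ := isConj_iff.mp hhx
    have hR'le := conj_le_centralizer h x t ht _ hxR
    have hR' := hR.map (MulAut.conj t⁻¹).toMonoidHom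
    obtain ⟨Q, hQ⟩ := (hR'.comap_subtype (K := Subgroup.centralizer ({h} : Set G))).exists_le_sylow
    refine ⟨t⁻¹, Q, ?_⟩
    intro r hr
    exact ⟨⟨r, hR'le hr⟩, hQ hr, rfl⟩

end Cfsg.Agent.Lib.Lead
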