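import Mathlib
import Cfsg.Prelude.Def_Blocks
import Cfsg.Agent.Lib.Lead.Block12
import Cfsg.Agent.Lib.Lead.Block5

set_option autoImplicit false

namespace Cfsg.Agent.Lib.Lead

open scoped ComplexConjugate
open Module

section ind

variable {G : Type*} [Group G] [Fintype G]

theorem Om_res_class_sum [Fintype (ConjClasses G)] (H : Subgroup G) [Fintype H] (ξ : H → ℂ)
    {c : G → ℂ} (hc : Cfsg.IsClassFunction G c) :
    Om ξ (fun h : H => c (h : G))
      = ∑ K : ConjClasses G, c (ccRep K) * Cfsg.inducedCentralChar H ξ (ccRep K) := by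
  classical
  unfold Om
  rw [← Finset.sum_fiberwise (Finset.univ : Finset H) (fun h : H => ConjClasses.mk (h : G)),
    Finset.sum_div]
  apply Finset.sum_congr rfl
  intro K _
  rw [inducedCentralChar_eq]
  unfold Om
  rw [← mul_div_assoc, Finset.mul_sum, Finset.sum_filter]
  congr 1
  apply Finset.sum_congr rfl
  intro h _
  have hiff : ConjClasses.mk (h : G) = K ↔ IsConj (ccRep K) (h : G) := by
    constructor
    · intro h1
      apply ConjClasses.mk_eq_mk_iff_isConj.mp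
      rw [ccRep_spec, h1]
    · intro h1
      rw [← ConjClasses.mk_eq_mk_iff_isConj.mpr h1, ccRep_spec]
  beta_reduce
  by_cases h1 : IsConj (ccRep K) (h : G)
  · rw [if_pos (hiff.mpr h1), if_pos h1, one_mul, ← isClassFunction_conj_eq hc h1]
  · rw [if_neg (fun h2 => h1 (hiff.mp h2)), if_neg h1, zero_mul, mul_zero]

theorem induced_Om_congr {M : Ideal Cfsg.AlgInt} (hM : M.IsMaximal) (H : Subgroup G) [Fintype H]
    (ξ : Cfsg.IrrCharacter H) (χ : Cfsg.IrrCharacter G)
    (hind : ∀ g : G, Cfsg.MemLocalIdeal M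
      (Cfsg.inducedCentralChar H ξ.1 g - Cfsg.centralChar χ.1 g))
    {c : G → ℂ} (hc : Cfsg.IsClassFunction G c) (hcS : ∀ g, Cfsg.MemLocalRing M (c g)) :
    Cfsg.MemLocalIdeal M (Om ξ.1 (fun h : H => c (h : G)) - Om χ.1 c) := by
  classical
  haveI : Fintype (ConjClasses G) := Fintype.ofFinite _
  rw [Om_res_class_sum H ξ.1 hc, Om_class_sum χ hc, ← Finset.sum_sub_distrib]
  apply mli_sum hM
  intro K _
  rw [← mul_sub]
  exact mli_mul hM (hcS _) (hind _)

theorem centralChar_conj_eq (χ : Cfsg.IrrCharacter G) {g x : G} (h : IsConj g x) :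
    Cfsg.centralChar χ.1 g = Cfsg.centralChar χ.1 x := by
  classical
  rw [← Om_classInd χ g, ← Om_classInd χ x]
  congr 1
  funext y
  have : IsConj g y ↔ IsConj x y := ⟨fun h1 => h.symm.trans h1, fun h1 => h.trans h1⟩
  simp only [this]

theorem isDefectClass_conj {M : Ideal Cfsg.AlgInt} {B : Set (Cfsg.IrrCharacter G)} {g x : G}
    (hg : Cfsg.IsDefectClass M B g) (h : IsConj g x) : Cfsg.IsDefectClass M B x := by
  haveI : Fintype (Cfsg.IrrCharacter G) := Fintype.ofFinite _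
  have h1 : Cfsg.blockCoeff B g = Cfsg.blockCoeff B x :=
    isClassFunction_conj_eq (blockCoeff_classFn B) h
  obtain ⟨hg1, hg2, hg3⟩ := hg
  refine ⟨h1 ▸ hg1, h1 ▸ hg2, fun χ hχ => ?_⟩
  rw [← centralChar_conj_eq χ h]
  exact hg3 χ hχ

end ind

/-- S0917 -/
theorem induced_defect_le_thm {G : Type*} [Group G] [Finite G] (p : ℕ) [Fact p.Prime]
    (M : Ideal Cfsg.AlgInt) (hM : Cfsg.IsPModular p M) (H : Subgroup G)
    (b : Set (Cfsg.IrrCharacter H)) (hb : Cfsg.IsPBlock M b) (B : Set (Cfsg.IrrCharacter G))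
    (hB : Cfsg.IsPBlock M B) (hind : Cfsg.IsInducedBlock M H b B) (D : Subgroup H)
    (hD : Cfsg.IsDefectGroup p M b D) :
    ∃ E : Subgroup G, Cfsg.IsDefectGroup p M B E ∧ D.map H.subtype ≤ E := by
  classical
  haveI : Fintype G := Fintype.ofFinite G
  haveI : Fintype H := Fintype.ofFinite H
  haveI : Fintype (Cfsg.IrrCharacter G) := Fintype.ofFinite _
  haveI : Fintype (ConjClasses H) := Fintype.ofFinite _
  have hmax := hM.2.1
  have hosB := fun g => osima_thm p M hM B hB g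
  obtain ⟨g₀, hg₀⟩ := exists_defect_class_thm p M hM B hB
  obtain ⟨ξ₁, rfl⟩ := hb
  obtain ⟨χ₀, rfl⟩ := hB
  have hξ₁ : ξ₁ ∈ Cfsg.blockOf M ξ₁.1 := by
    intro k
    rw [sub_self]
    exact mli_zero hmax
  have hχ₀ : χ₀ ∈ Cfsg.blockOf M χ₀.1 := by
    intro k
    rw [sub_self]
    exact mli_zero hmax
  obtain ⟨hd, hhd, Pd, rfl⟩ := hD
  -- step 4
  have h3 := induced_Om_congr hmax H ξ₁ χ₀ (hind.2.2 ξ₁ hξ₁ χ₀ hχ₀)
    (blockCoeff_classFn (Cfsg.blockOf M χ₀.1)) hosB
  rw [Om_blockCoeff, if_pos hχ₀] at h3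
  have h4 : ¬ Cfsg.MemLocalIdeal M
      (Om ξ₁.1 (fun h : H => Cfsg.blockCoeff (Cfsg.blockOf M χ₀.1) (h : G))) := by
    intro hcon
    apply not_mli_one hmax
    have := mli_sub hmax hcon h3
    simpa using this
  -- step 5
  have hresH : Cfsg.IsClassFunction H
      (fun h : H => Cfsg.blockCoeff (Cfsg.blockOf M χ₀.1) (h : G)) :=
    fun h k => blockCoeff_classFn (Cfsg.blockOf M χ₀.1) (h : G) (k : G)
  rw [Om_class_sum ξ₁ hresH] at h4
  have h5 : ∃ L : ConjClasses H,
      ¬ Cfsg.MemLocalIdeal M (Cfsg.blockCoeff (Cfsg.blockOf M χ₀.1) ((ccRep L : H) : G)) ∧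
      ¬ Cfsg.MemLocalIdeal M (Cfsg.centralChar ξ₁.1 (ccRep L)) := by
    by_contra hcon
    push Not at hcon
    apply h4
    apply mli_sum hmax
    intro L _
    by_cases ha : Cfsg.MemLocalIdeal M
        (Cfsg.blockCoeff (Cfsg.blockOf M χ₀.1) ((ccRep L : H) : G))
    · rw [mul_comm]
      exact mli_mul hmax (mlr_of_integral hmax (centralChar_isIntegral ξ₁ _)) ha
    · exact mli_mul hmax (hosB _) (hcon L ha)
  obtain ⟨L, hL1, hL2⟩ := h5
  -- step 6
  have hDp : IsPGroup p ((Pd : Subgroup (Subgroup.centralizer ({hd} : Set H))).map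
      (Subgroup.centralizer ({hd} : Set H)).subtype) := Pd.isPGroup'.map _
  obtain ⟨l', hl', hl'c⟩ := minmax_key p M hM ξ₁ (ccRep L) hd hL2 hhd.2.1 _ hDp
    (mem_centralizer_map_sylow p hd _)
  -- step 7
  have hl'G : IsConj ((ccRep L : H) : G) (l' : G) := by
    obtain ⟨t, ht⟩ := isConj_iff.mp hl'
    refine isConj_iff.mpr ⟨(t : G), ?_⟩
    rw [← ht]
    simp
  have h7 : ¬ Cfsg.MemLocalIdeal M (Cfsg.blockCoeff (Cfsg.blockOf M χ₀.1) (l' : G)) := by
    rw [← isClassFunction_conj_eq (blockCoeff_classFn (Cfsg.blockOf M χ₀.1)) hl'G]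
    exact hL1
  -- step 8
  have hDGp : IsPGroup p ((((Pd : Subgroup (Subgroup.centralizer ({hd} : Set H))).map
      (Subgroup.centralizer ({hd} : Set H)).subtype)).map H.subtype) := hDp.map _
  have hl'cG : (l' : G) ∈ Subgroup.centralizer
      (((((Pd : Subgroup (Subgroup.centralizer ({hd} : Set H))).map
      (Subgroup.centralizer ({hd} : Set H)).subtype)).map H.subtype : Subgroup G) : Set G) := by
    rw [Subgroup.mem_centralizer_iff]
    rintro _ ⟨d, hd', rfl⟩
    have := (Subgroup.mem_centralizer_iff.mp hl'c) d hd'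
    exact congrArg Subtype.val this
  obtain ⟨x, hx, hxc⟩ := minmax_key p M hM χ₀ g₀ (l' : G) (hg₀.2.2 χ₀ hχ₀) h7 _ hDGp hl'cG
  -- step 9, 10
  have hxdef := isDefectClass_conj hg₀ hx
  have hle : (((Pd : Subgroup (Subgroup.centralizer ({hd} : Set H))).map
      (Subgroup.centralizer ({hd} : Set H)).subtype)).map H.subtype
      ≤ Subgroup.centralizer ({x} : Set G) := by
    intro d hd'
    rw [Subgroup.mem_centralizer_iff]
    intro y hy
    rw [Set.mem_singleton_iff] at hy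
    subst hy
    exact ((Subgroup.mem_centralizer_iff.mp hxc) d hd').symm
  obtain ⟨E₀, hE₀⟩ := (hDGp.comap_subtype (K := Subgroup.centralizer ({x} : Set G))).exists_le_sylow
  refine ⟨_, ⟨x, hxdef, E₀, rfl⟩, ?_⟩
  intro d hd'
  exact ⟨⟨d, hle hd'⟩, hE₀ hd', rfl⟩

end Cfsg.Agent.Lib.Lead
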