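import Mathlib
import Cfsg.Prelude.Def_Blocks
import Cfsg.Agent.Lib.Lead.Block9
import Cfsg.Agent.Lib.Lead.Block5

set_option autoImplicit false

namespace Cfsg.Agent.Lib.Lead

open scoped ComplexConjugate
open Module

/-- S4487 -/
theorem one_block_of_constrained {G : Type*} [Group G] [Finite G] (p : ℕ) [Fact p.Prime]
    (M : Ideal Cfsg.AlgInt) (hM : Cfsg.IsPModular p M)
    (hconstr : Subgroup.centralizer ((Cfsg.pCore p G) : Set G) ≤ Cfsg.pCore p G)
    (χ ψ : Cfsg.IrrCharacter G) : Cfsg.SameBlock M (χ : G → ℂ) (ψ : G → ℂ) := by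
  intro g
  have hmax := hM.2.1
  by_cases hg : g ∈ Subgroup.centralizer (Cfsg.pCore p G : Set G)
  · have hgP : g ∈ Cfsg.pCore p G := hconstr hg
    have h1 := central_char_sub_index_mli p M hM g hgP χ
    have h2 := central_char_sub_index_mli p M hM g hgP ψ
    have h3 := mli_sub hmax h1 h2
    have h4 : Cfsg.centralChar χ.1 g - ((Subgroup.centralizer ({g} : Set G)).index : ℂ)
        - (Cfsg.centralChar ψ.1 g - ((Subgroup.centralizer ({g} : Set G)).index : ℂ))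
        = Cfsg.centralChar χ.1 g - Cfsg.centralChar ψ.1 g := by ring
    rw [h4] at h3
    exact h3
  · haveI : (Cfsg.pCore p G).Normal := Cfsg.Agent.Lib.Helper9.pCore_normal p G
    have hno : ∀ x : G, IsConj g x → x ∉ Subgroup.centralizer (Cfsg.pCore p G : Set G) := by
      intro x hx hxc
      apply hg
      obtain ⟨t, ht⟩ := isConj_iff.mp hx
      have hn : (Subgroup.centralizer (Cfsg.pCore p G : Set G)).Normal := inferInstance
      have h1 := hn.conj_mem x hxc t⁻¹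
      have h2 : t⁻¹ * x * t⁻¹⁻¹ = g := by
        rw [← ht]
        group
      rw [h2] at h1
      exact h1
    exact mli_sub hmax (central_char_mli_of_no_conj p M hM g hno χ)
      (central_char_mli_of_no_conj p M hM g hno ψ)

/-- S0959 -/
theorem brauer_nonzero_iff {G : Type*} [Group G] [Finite G] (p : ℕ) [Fact p.Prime]
    (M : Ideal Cfsg.AlgInt) (hM : Cfsg.IsPModular p M) (B : Set (Cfsg.IrrCharacter G))
    (hB : Cfsg.IsPBlock M B) (D : Subgroup G) (hD : Cfsg.IsDefectGroup p M B D)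
    (P : Subgroup G) (hP : IsPGroup p P) :
    (∃ g : G, Cfsg.MemLocalRing M (Cfsg.blockCoeff B g) ∧
        ¬ Cfsg.MemLocalIdeal M (Cfsg.blockCoeff B g) ∧
        ∃ c : G, IsConj g c ∧ c ∈ Subgroup.centralizer (P : Set G)) ↔
      ∃ x : G, P.map (MulAut.conj x).toMonoidHom ≤ D := by
  classical
  haveI : Fintype G := Fintype.ofFinite G
  haveI : Fintype (Cfsg.IrrCharacter G) := Fintype.ofFinite _
  have hmax := hM.2.1
  obtain ⟨g₁, hg₁, P₁, rfl⟩ := hD
  obtain ⟨χ₀, rfl⟩ := hB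
  have hχ₀ : χ₀ ∈ Cfsg.blockOf M χ₀.1 := by
    intro k
    rw [sub_self]
    exact mli_zero hmax
  constructor
  · rintro ⟨g, -, hg2, c, hgc, hcP⟩
    have hc2 : ¬ Cfsg.MemLocalIdeal M (Cfsg.blockCoeff (Cfsg.blockOf M χ₀.1) c) := by
      rw [← isClassFunction_conj_eq (blockCoeff_classFn (Cfsg.blockOf M χ₀.1)) hgc]
      exact hg2
    obtain ⟨x, hx, hxc⟩ := minmax_key p M hM χ₀ g₁ c (hg₁.2.2 χ₀ hχ₀) hc2 P hP hcP
    obtain ⟨y, hy⟩ := le_conj_sylow_centralizer p g₁ P₁ P hP x hx hxc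
    refine ⟨y⁻¹, ?_⟩
    rintro _ ⟨q, hq, rfl⟩
    obtain ⟨d, hd, hdq⟩ := hy hq
    have h1 : (MulAut.conj y⁻¹).toMonoidHom q = d := by
      rw [← hdq]
      simp only [MulEquiv.coe_toMonoidHom, MulAut.conj_apply]
      group
    rw [h1]
    exact hd
  · rintro ⟨x, hx⟩
    refine ⟨g₁, hg₁.1, hg₁.2.1, x⁻¹ * g₁ * x, isConj_iff.mpr ⟨x⁻¹, by rw [inv_inv]⟩, ?_⟩
    rw [Subgroup.mem_centralizer_iff]
    intro q hq
    have h1 : (MulAut.conj x).toMonoidHom q ∈ (P₁ : Subgroup (Subgroup.centralizer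
        ({g₁} : Set G))).map (Subgroup.centralizer ({g₁} : Set G)).subtype := hx ⟨q, hq, rfl⟩
    obtain ⟨d, -, hd⟩ := h1
    have h2 : g₁ * (d : G) = (d : G) * g₁ :=
      (Subgroup.mem_centralizer_iff.mp d.2) g₁ (Set.mem_singleton g₁)
    have h3 : (d : G) = x * q * x⁻¹ := by
      have : (Subgroup.centralizer ({g₁} : Set G)).subtype d = (d : G) := rfl
      rw [← this, hd]
      simp
    rw [h3] at h2
    calc q * (x⁻¹ * g₁ * x) = x⁻¹ * ((x * q * x⁻¹) * g₁) * x := by group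
      _ = x⁻¹ * (g₁ * (x * q * x⁻¹)) * x := by rw [h2]
      _ = x⁻¹ * g₁ * x * q := by group

end Cfsg.Agent.Lib.Lead
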