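import Mathlib
import Cfsg.Prelude.Def_Blocks
import Cfsg.Agent.Lib.Lead.Block13
import Cfsg.Agent.Lib.Lead.Block8
import Cfsg.Agent.S0963

set_option autoImplicit false

namespace Cfsg.Agent.Lib.Lead

open scoped ComplexConjugate

section sameblock

variable {G : Type*} [Group G] {M : Ideal Cfsg.AlgInt}

theorem sameBlock_refl (hM : M.IsMaximal) (χ : G → ℂ) : Cfsg.SameBlock M χ χ := by
  intro g
  rw [sub_self]
  exact mli_zero hM

theorem sameBlock_symm {χ ψ : G → ℂ} (h : Cfsg.SameBlock M χ ψ) : Cfsg.SameBlock M ψ χ := by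
  intro g
  have h1 := mli_neg (h g)
  rw [neg_sub] at h1
  exact h1

theorem sameBlock_trans (hM : M.IsMaximal) {χ ψ φ : G → ℂ} (h1 : Cfsg.SameBlock M χ ψ)
    (h2 : Cfsg.SameBlock M ψ φ) : Cfsg.SameBlock M χ φ := by
  intro g
  have h3 := mli_add hM (h1 g) (h2 g)
  have h4 : Cfsg.centralChar χ g - Cfsg.centralChar ψ g
      + (Cfsg.centralChar ψ g - Cfsg.centralChar φ g)
      = Cfsg.centralChar χ g - Cfsg.centralChar φ g := by ring
  rw [h4] at h3
  exact h3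

theorem sameBlock_of_mem_block (hM : M.IsMaximal) {B : Set (Cfsg.IrrCharacter G)}
    (hB : Cfsg.IsPBlock M B) {χ ψ : Cfsg.IrrCharacter G} (hχ : χ ∈ B) (hψ : ψ ∈ B) :
    Cfsg.SameBlock M χ.1 ψ.1 := by
  obtain ⟨χ₀, rfl⟩ := hB
  exact sameBlock_trans hM (sameBlock_symm hχ) hψ

theorem mem_block_of_sameBlock (hM : M.IsMaximal) {B : Set (Cfsg.IrrCharacter G)}
    (hB : Cfsg.IsPBlock M B) {χ ψ : Cfsg.IrrCharacter G} (hχ : χ ∈ B)
    (h : Cfsg.SameBlock M χ.1 ψ.1) : ψ ∈ B := by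
  obtain ⟨χ₀, rfl⟩ := hB
  exact sameBlock_trans hM hχ h

theorem block_nonempty (hM : M.IsMaximal) {B : Set (Cfsg.IrrCharacter G)}
    (hB : Cfsg.IsPBlock M B) : ∃ χ, χ ∈ B := by
  obtain ⟨χ₀, rfl⟩ := hB
  exact ⟨χ₀, sameBlock_refl hM _⟩

end sameblock

section unionblocks

variable {G : Type*} [Group G] [Fintype G] {M : Ideal Cfsg.AlgInt}

open Classical in
/-- the indicator of a union of blocks is a good spectral vector -/
theorem specGood_union_blocks [Fintype (Cfsg.IrrCharacter G)] {p : ℕ}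
    (hM : Cfsg.IsPModular p M) (Ω : Set (Cfsg.IrrCharacter G))
    (hΩ : ∀ ψ₀ ∈ Ω, ∀ ψ : Cfsg.IrrCharacter G, Cfsg.SameBlock M ψ₀.1 ψ.1 → ψ ∈ Ω) :
    SpecGood M (fun θ : Cfsg.IrrCharacter G => if θ ∈ Ω then (1 : ℂ) else 0) := by
  have hmax := hM.2.1
  let F : Finset (Cfsg.IrrCharacter G) := Finset.univ.filter (· ∈ Ω)
  let w : Cfsg.IrrCharacter G → ℂ := fun θ =>
    1 - ∏ θ₀ ∈ F, (1 - (if θ ∈ Cfsg.blockOf M θ₀.1 then (1 : ℂ) else 0))
  have hw : SpecGood M w := by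
    apply specGood_sub hmax (specGood_const hmax (mlr_one hmax))
    apply specGood_prod hmax F
      (fun θ₀ θ => 1 - (if θ ∈ Cfsg.blockOf M θ₀.1 then (1 : ℂ) else 0))
    intro θ₀ _
    exact specGood_sub hmax (specGood_const hmax (mlr_one hmax)) (osima_core hM θ₀)
  have hweq : w = fun θ => if θ ∈ Ω then (1 : ℂ) else 0 := by
    funext θ
    show 1 - ∏ θ₀ ∈ F, (1 - (if θ ∈ Cfsg.blockOf M θ₀.1 then (1 : ℂ) else 0)) = _
    by_cases hθ : θ ∈ Ω
    · rw [if_pos hθ]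
      have hmem : θ ∈ Cfsg.blockOf M θ.1 := sameBlock_refl hmax θ.1
      rw [Finset.prod_eq_zero (i := θ) (Finset.mem_filter.mpr ⟨Finset.mem_univ _, hθ⟩)
        (by rw [if_pos hmem, sub_self]), sub_zero]
    · rw [if_neg hθ]
      rw [Finset.prod_eq_one, sub_self]
      intro θ₀ hθ₀
      have hθ₀' : θ₀ ∈ Ω := (Finset.mem_filter.mp hθ₀).2
      rw [if_neg, sub_zero]
      intro hc
      exact hθ (hΩ θ₀ hθ₀' θ hc)
  rw [← hweq]
  exact hw

end unionblocks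

section conjblocks

variable {G : Type*} [Group G] [Fintype G] (N : Subgroup G) [hN : N.Normal] [Fintype N]

omit [Fintype G] in
theorem isConj_conjNormal_iff (g : G) (a b : N) :
    IsConj (⟨g * a * g⁻¹, hN.conj_mem a a.2 g⟩ : N) ⟨g * b * g⁻¹, hN.conj_mem b b.2 g⟩
      ↔ IsConj a b := by
  rw [isConj_iff, isConj_iff]
  constructor
  · rintro ⟨c, hc⟩
    refine ⟨⟨g⁻¹ * c * g, ?_⟩, ?_⟩
    · have := hN.conj_mem c c.2 g⁻¹
      simpa using this
    · apply Subtype.ext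
      have h1 := congrArg Subtype.val hc
      simp only [Subgroup.coe_mul, Subgroup.coe_inv] at h1 ⊢
      have h2 : g⁻¹ * (c : G) * g * a * (g⁻¹ * (c : G) * g)⁻¹
          = g⁻¹ * ((c : G) * (g * a * g⁻¹) * (c : G)⁻¹) * g := by group
      rw [h2, h1]
      group
  · rintro ⟨c, hc⟩
    refine ⟨⟨g * c * g⁻¹, hN.conj_mem c c.2 g⟩, ?_⟩
    apply Subtype.ext
    have h1 := congrArg Subtype.val hc
    simp only [Subgroup.coe_mul, Subgroup.coe_inv] at h1 ⊢
    rw [← h1]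
    group

omit [Fintype G] in
theorem centralChar_conjFun (θ : Cfsg.IrrCharacter N) (g : G) (n : N) :
    Cfsg.centralChar (conjFun N θ.1 g) n
      = Cfsg.centralChar θ.1 ⟨g * n * g⁻¹, hN.conj_mem n n.2 g⟩ := by
  classical
  have h1 := Om_classInd (⟨conjFun N θ.1 g, isIrrCharacter_conjFun N θ.2 g⟩ : Cfsg.IrrCharacter N) n
  have h2 := Om_classInd θ (⟨g * n * g⁻¹, hN.conj_mem n n.2 g⟩ : N)
  have e3 : (⟨g * ((1 : N) : G) * g⁻¹, hN.conj_mem _ (1 : N).2 g⟩ : N) = 1 := by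
    apply Subtype.ext
    show g * ((1 : N) : G) * g⁻¹ = ((1 : N) : G)
    simp
  have e1 : conjFun N θ.1 g 1 = θ.1 1 := by
    rw [conjFun_apply, e3]
  have h3 : Om (conjFun N θ.1 g) (fun x => if IsConj n x then (1 : ℂ) else 0)
      = Om θ.1 (fun x => if IsConj (⟨g * n * g⁻¹, hN.conj_mem n n.2 g⟩ : N) x
          then (1 : ℂ) else 0) := by
    unfold Om
    rw [e1]
    congr 1
    apply Fintype.sum_equiv (MulAut.conjNormal g : N ≃* N).toEquiv
    intro x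
    rw [conjFun_apply]
    have e2 : (MulAut.conjNormal g : N ≃* N).toEquiv x = ⟨g * x * g⁻¹, hN.conj_mem x x.2 g⟩ := rfl
    rw [e2]
    beta_reduce
    by_cases hnx : IsConj n x
    · rw [if_pos hnx, if_pos ((isConj_conjNormal_iff N g n x).mpr hnx)]
    · rw [if_neg hnx, if_neg (fun h => hnx ((isConj_conjNormal_iff N g n x).mp h))]
  exact h1.symm.trans (h3.trans h2)

omit [Fintype G] in
theorem sameBlock_conjFun {M : Ideal Cfsg.AlgInt} (θ θ' : Cfsg.IrrCharacter N) (g : G)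
    (h : Cfsg.SameBlock M θ.1 θ'.1) :
    Cfsg.SameBlock M (conjFun N θ.1 g) (conjFun N θ'.1 g) := by
  intro n
  rw [centralChar_conjFun, centralChar_conjFun]
  exact h _

/-- the set of characters of `N` with a `G`-conjugate in `b` -/
def conjClosure (b : Set (Cfsg.IrrCharacter N)) : Set (Cfsg.IrrCharacter N) :=
  {ψ | ∃ x : G, (⟨conjFun N ψ.1 x, isIrrCharacter_conjFun N ψ.2 x⟩ : Cfsg.IrrCharacter N) ∈ b}

omit [Fintype G] [Fintype N] in
theorem subset_conjClosure (b : Set (Cfsg.IrrCharacter N)) {θ : Cfsg.IrrCharacter N}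
    (hθ : θ ∈ b) : θ ∈ conjClosure N b := by
  refine ⟨1, ?_⟩
  have : (⟨conjFun N θ.1 1, isIrrCharacter_conjFun N θ.2 1⟩ : Cfsg.IrrCharacter N) = θ :=
    Subtype.ext (conjFun_one N θ.1)
  rw [this]
  exact hθ

omit [Fintype G] [Fintype N] in
theorem conjClosure_stable (b : Set (Cfsg.IrrCharacter N)) (ψ : Cfsg.IrrCharacter N)
    (hψ : ψ ∈ conjClosure N b) (k : G) :
    (⟨conjFun N ψ.1 k, isIrrCharacter_conjFun N ψ.2 k⟩ : Cfsg.IrrCharacter N)
      ∈ conjClosure N b := by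
  obtain ⟨x, hx⟩ := hψ
  refine ⟨k⁻¹ * x, ?_⟩
  have : (⟨conjFun N (conjFun N ψ.1 k) (k⁻¹ * x),
      isIrrCharacter_conjFun N (isIrrCharacter_conjFun N ψ.2 k) (k⁻¹ * x)⟩ : Cfsg.IrrCharacter N)
      = ⟨conjFun N ψ.1 x, isIrrCharacter_conjFun N ψ.2 x⟩ := by
    apply Subtype.ext
    show conjFun N (conjFun N ψ.1 k) (k⁻¹ * x) = conjFun N ψ.1 x
    rw [conjFun_mul, mul_inv_cancel_left]
  rw [this]
  exact hx

omit [Fintype G] in
theorem conjClosure_union {M : Ideal Cfsg.AlgInt} (hM : M.IsMaximal)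
    (b : Set (Cfsg.IrrCharacter N)) (hb : Cfsg.IsPBlock M b) (ψ₀ : Cfsg.IrrCharacter N)
    (hψ₀ : ψ₀ ∈ conjClosure N b) (ψ : Cfsg.IrrCharacter N)
    (h : Cfsg.SameBlock M ψ₀.1 ψ.1) : ψ ∈ conjClosure N b := by
  obtain ⟨x, hx⟩ := hψ₀
  refine ⟨x, ?_⟩
  exact mem_block_of_sameBlock hM hb hx (sameBlock_conjFun N ψ₀ ψ x h)

open Classical in
/-- the sum of the idempotents of a `G`-stable union of blocks of `N` -/
theorem stable_idem_fn {p : ℕ} {M : Ideal Cfsg.AlgInt} (hM : Cfsg.IsPModular p M)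
    [Fintype (Cfsg.IrrCharacter N)]
    (Ω : Set (Cfsg.IrrCharacter N))
    (hstab : ∀ ψ ∈ Ω, ∀ k : G,
      (⟨conjFun N ψ.1 k, isIrrCharacter_conjFun N ψ.2 k⟩ : Cfsg.IrrCharacter N) ∈ Ω)
    (hΩ : ∀ ψ₀ ∈ Ω, ∀ ψ : Cfsg.IrrCharacter N, Cfsg.SameBlock M ψ₀.1 ψ.1 → ψ ∈ Ω) :
    ∃ f : G → ℂ, Cfsg.IsClassFunction G f ∧ (∀ g, Cfsg.MemLocalRing M (f g)) ∧
      (∀ g, g ∉ N → f g = 0) ∧
      (∀ n : N, f n = (Nat.card N : ℂ)⁻¹ *
        ∑ ψ : Cfsg.IrrCharacter N, ψ.1 1 * conj (ψ.1 n) * (if ψ ∈ Ω then 1 else 0)) ∧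
      ∀ χ : Cfsg.IrrCharacter G, Om χ.1 f =
        if ∃ θ ∈ Ω, Cfsg.classInner (fun n : N => χ.1 n) θ.1 ≠ 0 then (1 : ℂ) else 0 := by
  have hmax := hM.2.1
  let F : Finset (Cfsg.IrrCharacter N) := Finset.univ.filter (· ∈ Ω)
  have hfN : ∀ n : N, ∑ ψ ∈ F, idemExt N ψ (n : G) = (Nat.card N : ℂ)⁻¹ *
        ∑ ψ : Cfsg.IrrCharacter N, ψ.1 1 * conj (ψ.1 n) * (if ψ ∈ Ω then 1 else 0) := by
    intro n
    rw [Finset.sum_filter, Finset.mul_sum]
    apply Finset.sum_congr rfl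
    intro ψ _
    unfold idemExt
    rw [extendByZero_mem' N _ n.2]
    split_ifs
    · rw [mul_one]
    · rw [mul_zero, mul_zero]
  have hoff : ∀ g, g ∉ N → ∑ ψ ∈ F, idemExt N ψ g = 0 := by
    intro g hg
    apply Finset.sum_eq_zero
    intro ψ _
    unfold idemExt
    exact extendByZero_not_mem N _ hg
  refine ⟨fun x => ∑ ψ ∈ F, idemExt N ψ x, ?_, ?_, hoff, hfN, ?_⟩
  · intro x k
    show ∑ ψ ∈ F, idemExt N ψ (k * x * k⁻¹) = ∑ ψ ∈ F, idemExt N ψ x
    simp_rw [idemExt_conj]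
    apply Finset.sum_nbij' (fun ψ => ⟨conjFun N ψ.1 k, isIrrCharacter_conjFun N ψ.2 k⟩)
      (fun ψ => ⟨conjFun N ψ.1 k⁻¹, isIrrCharacter_conjFun N ψ.2 k⁻¹⟩)
    · intro ψ hψ
      exact Finset.mem_filter.mpr ⟨Finset.mem_univ _, hstab ψ (Finset.mem_filter.mp hψ).2 k⟩
    · intro ψ hψ
      exact Finset.mem_filter.mpr ⟨Finset.mem_univ _, hstab ψ (Finset.mem_filter.mp hψ).2 k⁻¹⟩
    · intro ψ _
      apply Subtype.ext
      show conjFun N (conjFun N ψ.1 k) k⁻¹ = ψ.1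
      rw [conjFun_mul, mul_inv_cancel, conjFun_one]
    · intro ψ _
      apply Subtype.ext
      show conjFun N (conjFun N ψ.1 k⁻¹) k = ψ.1
      rw [conjFun_mul, inv_mul_cancel, conjFun_one]
    · intro ψ _
      rfl
  · intro x
    show Cfsg.MemLocalRing M (∑ ψ ∈ F, idemExt N ψ x)
    by_cases hx : x ∈ N
    · have h1 := hfN ⟨x, hx⟩
      rw [h1]
      exact specGood_coeff (specGood_union_blocks hM Ω hΩ) ⟨x, hx⟩
    · rw [hoff x hx]
      exact mlr_zero hmax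
  · intro χ
    unfold Om
    have h1 : ∑ x : G, (∑ ψ ∈ F, idemExt N ψ x) * χ.1 x
        = ∑ ψ ∈ F, ψ.1 1 * Cfsg.classInner (fun n : N => χ.1 n) ψ.1 := by
      simp_rw [Finset.sum_mul]
      rw [Finset.sum_comm]
      apply Finset.sum_congr rfl
      intro ψ _
      unfold idemExt
      rw [sum_extendByZero_mul]
      unfold Cfsg.classInner
      rw [Finset.mul_sum, Finset.mul_sum]
      apply Finset.sum_congr rfl
      intro n _
      ring
    rw [h1]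
    by_cases hθ : ∃ θ ∈ Ω, Cfsg.classInner (fun n : N => χ.1 n) θ.1 ≠ 0
    · rw [if_pos hθ]
      obtain ⟨θ, hθΩ, hθ⟩ := hθ
      have hrc : Cfsg.IsClassFunction N (fun n : N => χ.1 n) :=
        Cfsg.Agent.Lib.Helper7.Cliff.isClassFunction_restrict N χ.1 (isClassFunction_of_irr χ)
      have hexp := class_fn_expand' (fun n : N => χ.1 n) hrc
      have h2 : χ.1 1 = ∑ ψ : Cfsg.IrrCharacter N,
          Cfsg.classInner (fun n : N => χ.1 n) ψ.1 * ψ.1 1 := by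
        have h3 := congrFun hexp 1
        rw [Finset.sum_apply] at h3
        exact h3
      have h4 : ∑ ψ : Cfsg.IrrCharacter N, Cfsg.classInner (fun n : N => χ.1 n) ψ.1 * ψ.1 1
          = ∑ ψ ∈ F, ψ.1 1 * Cfsg.classInner (fun n : N => χ.1 n) ψ.1 := by
        rw [Finset.sum_filter]
        apply Finset.sum_congr rfl
        intro ψ _
        split_ifs with hx
        · ring
        · have h5 : Cfsg.classInner (fun n : N => χ.1 n) ψ.1 = 0 := by
            by_contra h6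
            apply hx
            obtain ⟨y, hy⟩ :=
              Cfsg.Agent.Lib.Helper7.Cliff.exists_conj_of_constituents N χ θ ψ hθ h6
            have h7 := hstab θ hθΩ y
            have h8 : (⟨conjFun N θ.1 y, isIrrCharacter_conjFun N θ.2 y⟩ : Cfsg.IrrCharacter N)
                = ψ := Subtype.ext hy.symm
            rw [h8] at h7
            exact h7
          rw [h5, zero_mul]
      rw [← h4, ← h2]
      exact div_self (irr_deg_ne_zero χ)
    · rw [if_neg hθ]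
      push Not at hθ
      rw [Finset.sum_eq_zero, zero_div]
      intro ψ hψ
      rw [hθ ψ (Finset.mem_filter.mp hψ).2, mul_zero]

end conjblocks

/-- S0964 -/
theorem covered_blocks_conj {G : Type*} [Group G] [Fintype G] (p : ℕ) [Fact p.Prime]
    (M : Ideal Cfsg.AlgInt) (hM : Cfsg.IsPModular p M) (N : Subgroup G) [hN : N.Normal]
    [Fintype N] (B : Set (Cfsg.IrrCharacter G)) (hB : Cfsg.IsPBlock M B)
    (b : Set (Cfsg.IrrCharacter N)) (hb : Cfsg.IsPBlock M b) (χ : Cfsg.IrrCharacter G)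
    (hχ : χ ∈ B) (θ : Cfsg.IrrCharacter N) (hθ : θ ∈ b)
    (hcon : Cfsg.classInner (fun n : N => (χ : G → ℂ) n) (θ : N → ℂ) ≠ 0)
    (χ' : Cfsg.IrrCharacter G) (hχ' : χ' ∈ B) (ψ : Cfsg.IrrCharacter N)
    (hψ : Cfsg.classInner (fun n : N => (χ' : G → ℂ) n) (ψ : N → ℂ) ≠ 0) :
    ∃ g : G, ∃ θ' ∈ b, ∀ n : N,
      (ψ : N → ℂ) n = (θ' : N → ℂ) ⟨g * n * g⁻¹, hN.conj_mem n n.2 g⟩ := by
  classical
  haveI : Fintype (Cfsg.IrrCharacter N) := Fintype.ofFinite _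
  have hmax := hM.2.1
  obtain ⟨f, hf, hfS, -, -, hfO⟩ := stable_idem_fn N hM (conjClosure N b)
    (conjClosure_stable N b) (conjClosure_union N hmax b hb)
  have h1 := Om_congr_mli hmax (sameBlock_of_mem_block hmax hB hχ hχ') hf hfS
  rw [hfO χ, hfO χ', if_pos ⟨θ, subset_conjClosure N b hθ, hcon⟩] at h1
  by_cases hex : ∃ θ₁ ∈ conjClosure N b,
      Cfsg.classInner (fun n : N => χ'.1 n) θ₁.1 ≠ 0
  · obtain ⟨θ₁, hθ₁, hθ₁c⟩ := hex
    obtain ⟨x, hx⟩ := Cfsg.Agent.Lib.Helper7.Cliff.exists_conj_of_constituents N χ' θ₁ ψ hθ₁c hψ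
    obtain ⟨y, hy⟩ := hθ₁
    refine ⟨y⁻¹ * x, _, hy, ?_⟩
    intro n
    have h2 : ψ.1 = conjFun N (conjFun N θ₁.1 y) (y⁻¹ * x) := by
      rw [conjFun_mul, mul_inv_cancel_left]
      exact hx
    rw [h2]
    rfl
  · rw [if_neg hex, sub_zero] at h1
    exact absurd h1 (not_mli_one hmax)

/-- S0965 -/
theorem passman_cover {G : Type*} [Group G] [Fintype G] (p : ℕ) [Fact p.Prime]
    (M : Ideal Cfsg.AlgInt) (hM : Cfsg.IsPModular p M) (N : Subgroup G) [hN : N.Normal]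
    [Fintype N] (B : Set (Cfsg.IrrCharacter G)) (hB : Cfsg.IsPBlock M B)
    (b : Set (Cfsg.IrrCharacter N)) (hb : Cfsg.IsPBlock M b) :
    (∃ χ ∈ B, ∃ θ ∈ b, Cfsg.classInner (fun n : N => (χ : G → ℂ) n) (θ : N → ℂ) ≠ 0) ↔
      ∀ χ ∈ B, ∀ θ ∈ b, ∀ n : N, Cfsg.MemLocalIdeal M
        (Cfsg.centralChar (χ : G → ℂ) (n : G) - Cfsg.inducedCentralChar N (θ : N → ℂ) (n : G)) := by
  classical
  haveI : Fintype (Cfsg.IrrCharacter N) := Fintype.ofFinite _
  haveI : Fintype (ConjClasses G) := Fintype.ofFinite _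
  have hmax := hM.2.1
  constructor
  · rintro ⟨χ₀, hχ₀, θ₀, hθ₀, hcon⟩ χ hχ θ hθ n
    have h1 := (Cfsg.Agent.S0963.result N χ₀ θ₀).mp hcon n
    have h2 := sameBlock_of_mem_block hmax hB hχ hχ₀ (n : G)
    have h3 : Cfsg.MemLocalIdeal M (Cfsg.inducedCentralChar N θ₀.1 (n : G)
        - Cfsg.inducedCentralChar N θ.1 (n : G)) := by
      rw [inducedCentralChar_eq, inducedCentralChar_eq]
      apply Om_congr_mli hmax (sameBlock_of_mem_block hmax hb hθ₀ hθ)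
      · intro x k
        show (if IsConj (n : G) ((k * x * k⁻¹ : N) : G) then (1 : ℂ) else 0)
          = if IsConj (n : G) (x : G) then (1 : ℂ) else 0
        have : IsConj (n : G) ((k * x * k⁻¹ : N) : G) ↔ IsConj (n : G) (x : G) := by
          have hc : IsConj (x : G) ((k * x * k⁻¹ : N) : G) := isConj_iff.mpr ⟨(k : G), by simp⟩
          exact ⟨fun h1 => h1.trans hc.symm, fun h1 => h1.trans hc⟩
        simp only [this]
      · intro x
        show Cfsg.MemLocalRing M (if IsConj (n : G) (x : G) then (1 : ℂ) else 0)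
        split_ifs
        · exact mlr_one hmax
        · exact mlr_zero hmax
    have h4 := mli_add hmax h2 h3
    rw [h1] at h4
    have h5 : Cfsg.centralChar χ.1 (n : G) - Cfsg.inducedCentralChar N θ₀.1 (n : G)
        + (Cfsg.inducedCentralChar N θ₀.1 (n : G) - Cfsg.inducedCentralChar N θ.1 (n : G))
        = Cfsg.centralChar χ.1 (n : G) - Cfsg.inducedCentralChar N θ.1 (n : G) := by ring
    rw [h5] at h4
    exact h4
  · intro hall
    obtain ⟨χ₁, hχ₁⟩ := block_nonempty hmax hB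
    obtain ⟨θ₁, hθ₁⟩ := block_nonempty hmax hb
    obtain ⟨f, hf, hfS, hfoff, hfN, hfO⟩ := stable_idem_fn N hM (conjClosure N b)
      (conjClosure_stable N b) (conjClosure_union N hmax b hb)
    have h1 : Cfsg.MemLocalIdeal M (Om χ₁.1 f - Om θ₁.1 (fun n : N => f (n : G))) := by
      rw [Om_class_sum χ₁ hf, Om_res_class_sum N θ₁.1 hf, ← Finset.sum_sub_distrib]
      apply mli_sum hmax
      intro K _
      rw [← mul_sub]
      by_cases hK : ccRep K ∈ N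
      · exact mli_mul hmax (hfS _) (hall χ₁ hχ₁ θ₁ hθ₁ ⟨ccRep K, hK⟩)
      · rw [hfoff _ hK, zero_mul]
        exact mli_zero hmax
    have h2 : Om θ₁.1 (fun n : N => f (n : G)) = 1 := by
      have h3 : (fun n : N => f (n : G)) = fun n : N => (Nat.card N : ℂ)⁻¹ *
          ∑ ψ : Cfsg.IrrCharacter N, ψ.1 1 * conj (ψ.1 n)
            * (if ψ ∈ conjClosure N b then 1 else 0) := by
        funext n
        exact hfN n
      rw [h3, Om_expand, if_pos (subset_conjClosure N b hθ₁)]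
    rw [h2, hfO χ₁] at h1
    by_cases hex : ∃ θ' ∈ conjClosure N b,
        Cfsg.classInner (fun n : N => χ₁.1 n) θ'.1 ≠ 0
    · obtain ⟨θ', ⟨x, hx⟩, hθ'c⟩ := hex
      refine ⟨χ₁, hχ₁, _, hx, ?_⟩
      show Cfsg.classInner (fun n : N => χ₁.1 n) (conjFun N θ'.1 x) ≠ 0
      rw [Cfsg.Agent.Lib.Helper7.Cliff.inner_restrict_conjFun N χ₁.1
        (isClassFunction_of_irr χ₁) θ'.1 x]
      exact hθ'c
    · rw [if_neg hex, zero_sub] at h1
      have h4 := mli_neg h1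
      rw [neg_neg] at h4
      exact absurd h4 (not_mli_one hmax)

end Cfsg.Agent.Lib.Lead
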