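import Mathlib
import Cfsg.Prelude.Def_Blocks
import Cfsg.Agent.Lib.Lead.Block16
import Cfsg.Agent.Lib.Lead.Block7

set_option autoImplicit false

namespace Cfsg.Agent.Lib.Lead

open scoped ComplexConjugate

/-- freshman's dream in the local ring -/
theorem mli_sub_of_pow_sub {p : ℕ} [Fact p.Prime] {M : Ideal Cfsg.AlgInt}
    (hM : Cfsg.IsPModular p M) {a b : ℂ} (ha : IsIntegral ℤ a) (hb : IsIntegral ℤ b) (n : ℕ)
    (h : Cfsg.MemLocalIdeal M (a ^ p ^ n - b ^ p ^ n)) : Cfsg.MemLocalIdeal M (a - b) := by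
  obtain ⟨hp, hmax, hpM⟩ := hM
  haveI := hmax
  letI : Field (Cfsg.AlgInt ⧸ M) := Ideal.Quotient.field M
  haveI : CharP (Cfsg.AlgInt ⧸ M) p := by
    rw [CharP.charP_iff_prime_eq_zero hp]
    have h1 : ((p : Cfsg.AlgInt ⧸ M)) = Ideal.Quotient.mk M (p : Cfsg.AlgInt) := by simp
    rw [h1, Ideal.Quotient.eq_zero_iff_mem]
    exact hpM
  obtain ⟨a', ha'⟩ : ∃ a' : Cfsg.AlgInt, (a' : ℂ) = a := ⟨⟨a, ha⟩, rfl⟩
  obtain ⟨b', hb'⟩ : ∃ b' : Cfsg.AlgInt, (b' : ℂ) = b := ⟨⟨b, hb⟩, rfl⟩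
  have hd : (a' - b') ^ p ^ n - (a' ^ p ^ n - b' ^ p ^ n) ∈ M := by
    rw [← Ideal.Quotient.eq_zero_iff_mem]
    rw [map_sub, map_pow, map_sub, map_sub, map_pow, map_pow, sub_pow_char_pow, sub_self]
  have h2 := mli_of_mem hmax hd
  have h3 : (((a' - b') ^ p ^ n - (a' ^ p ^ n - b' ^ p ^ n) : Cfsg.AlgInt) : ℂ)
      = (a - b) ^ p ^ n - (a ^ p ^ n - b ^ p ^ n) := by
    push_cast
    rw [ha', hb']
  rw [h3] at h2
  have h4 := mli_add hmax h2 h
  rw [sub_add_cancel] at h4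
  exact mli_of_pow hmax (mlr_sub hmax (mlr_of_integral hmax ha) (mlr_of_integral hmax hb)) _ h4

theorem block_eq_of_sameBlock {G : Type*} [Group G] {M : Ideal Cfsg.AlgInt} (hM : M.IsMaximal)
    {B₁ B₂ : Set (Cfsg.IrrCharacter G)} (h₁ : Cfsg.IsPBlock M B₁) (h₂ : Cfsg.IsPBlock M B₂)
    {χ₁ χ₂ : Cfsg.IrrCharacter G} (hχ₁ : χ₁ ∈ B₁) (hχ₂ : χ₂ ∈ B₂)
    (h : Cfsg.SameBlock M χ₁.1 χ₂.1) : B₁ = B₂ := by
  ext ξ
  constructor
  · intro hξ
    exact mem_block_of_sameBlock hM h₂ hχ₂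
      (sameBlock_trans hM (sameBlock_symm h) (sameBlock_of_mem_block hM h₁ hχ₁ hξ))
  · intro hξ
    exact mem_block_of_sameBlock hM h₁ hχ₁
      (sameBlock_trans hM h (sameBlock_of_mem_block hM h₂ hχ₂ hξ))

section pquot

variable {G : Type*} [Group G] [Fintype G]

theorem maFn_pow_supp [DecidableEq G] {Q : Type*} [Group Q] (π : G →* Q) (g : G)
    [∀ x, Decidable (IsConj g x)] (hcent : ∀ x, IsConj g x → π x = π g) (n : ℕ) :
    ∀ x, maFn ((maClass g) ^ n) x ≠ 0 → π x = (π g) ^ n := by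
  induction n with
  | zero =>
    intro x hx
    rw [pow_zero, maFn_one] at hx
    by_cases h1 : x = 1
    · rw [h1, map_one, pow_zero]
    · exact absurd (if_neg h1) hx
  | succ n ih =>
    intro x hx
    rw [pow_succ, maFn_mul, maFn_class] at hx
    unfold cconv at hx
    obtain ⟨y, _, hy⟩ := Finset.exists_ne_zero_of_sum_ne_zero hx
    have hy1 := left_ne_zero_of_mul hy
    have hy2 := right_ne_zero_of_mul hy
    have hy3 : IsConj g (y⁻¹ * x) := by
      by_contra h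
      exact hy2 (if_neg h)
    have h1 := ih y hy1
    have h2 := hcent _ hy3
    have h3 : x = y * (y⁻¹ * x) := by group
    rw [h3, map_mul, h1, h2, pow_succ]

theorem centralChar_congr_of_central_pow {Q : Type*} [Group Q] (π : G →* Q) (p : ℕ)
    [Fact p.Prime] (M : Ideal Cfsg.AlgInt) (hM : Cfsg.IsPModular p M)
    (χ ψ : Cfsg.IrrCharacter G)
    (hker : ∀ n : G, π n = 1 →
      Cfsg.MemLocalIdeal M (Cfsg.centralChar χ.1 n - Cfsg.centralChar ψ.1 n))
    (g : G) (hcent : ∀ x, IsConj g x → π x = π g) (k : ℕ) (hpow : (π g) ^ p ^ k = 1) :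
    Cfsg.MemLocalIdeal M (Cfsg.centralChar χ.1 g - Cfsg.centralChar ψ.1 g) := by
  classical
  haveI : Fintype (ConjClasses G) := Fintype.ofFinite _
  have hmax := hM.2.1
  obtain ⟨hcf, hOm⟩ := maFn_pow g (p ^ k)
  have hsupp := maFn_pow_supp π g hcent (p ^ k)
  have h1 : Cfsg.MemLocalIdeal M
      ((Cfsg.centralChar χ.1 g) ^ p ^ k - (Cfsg.centralChar ψ.1 g) ^ p ^ k) := by
    rw [← hOm χ, ← hOm ψ, Om_class_sum χ hcf, Om_class_sum ψ hcf, ← Finset.sum_sub_distrib]
    apply mli_sum hmax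
    intro K _
    rw [← mul_sub]
    by_cases h0 : maFn ((maClass g) ^ p ^ k) (ccRep K) = 0
    · rw [h0, zero_mul]
      exact mli_zero hmax
    · have h2 := hsupp _ h0
      rw [hpow] at h2
      exact mli_mul hmax (mlr_algInt hmax _) (hker _ h2)
  exact mli_sub_of_pow_sub hM (centralChar_isIntegral χ g) (centralChar_isIntegral ψ g) k h1

theorem pquot_same_block_aux (p : ℕ) [Fact p.Prime] (M : Ideal Cfsg.AlgInt)
    (hM : Cfsg.IsPModular p M) (χ ψ : Cfsg.IrrCharacter G) :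
    ∀ m : ℕ, ∀ N : Subgroup G, N.Normal → N.index = m → (∃ k : ℕ, N.index = p ^ k) →
      (∀ n ∈ N, Cfsg.MemLocalIdeal M (Cfsg.centralChar χ.1 n - Cfsg.centralChar ψ.1 n)) →
      Cfsg.SameBlock M χ.1 ψ.1 := by
  intro m
  induction m using Nat.strong_induction_on with
  | _ m ih =>
    intro N hN hm hidx hyp
    have hp : p.Prime := Fact.out
    by_cases htop : N = ⊤
    · intro g
      exact hyp g (by rw [htop]; exact Subgroup.mem_top g)
    · obtain ⟨k, hk⟩ := hidx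
      haveI := hN
      have hcardQ : Nat.card (G ⧸ N) = p ^ k := by
        rw [← Subgroup.index_eq_card]
        exact hk
      have hQp : IsPGroup p (G ⧸ N) := IsPGroup.of_card hcardQ
      haveI : Nontrivial (G ⧸ N) := by
        rw [← Finite.one_lt_card_iff_nontrivial, ← Subgroup.index_eq_card]
        have h1 : N.index ≠ 1 := fun h => htop (Subgroup.index_eq_one.mp h)
        have h0 : N.index ≠ 0 := Subgroup.index_ne_zero_of_finite
        omega
      have hN₁ : ((Subgroup.center (G ⧸ N)).comap (QuotientGroup.mk' N)).Normal := inferInstance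
      have hidx1 : ((Subgroup.center (G ⧸ N)).comap (QuotientGroup.mk' N)).index
          = (Subgroup.center (G ⧸ N)).index :=
        Subgroup.index_comap_of_surjective _ (QuotientGroup.mk'_surjective N)
      have hcmul := Subgroup.card_mul_index (Subgroup.center (G ⧸ N))
      have hcgt : 1 < Nat.card (Subgroup.center (G ⧸ N)) := by
        haveI := hQp.center_nontrivial
        exact Finite.one_lt_card
      have hlt : ((Subgroup.center (G ⧸ N)).comap (QuotientGroup.mk' N)).index < m := by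
        rw [hidx1, ← hm, hk, ← hcardQ, ← hcmul]
        have hpos : 0 < (Subgroup.center (G ⧸ N)).index :=
          Nat.pos_of_ne_zero Subgroup.index_ne_zero_of_finite
        nlinarith
      have hdvd : (Subgroup.center (G ⧸ N)).index ∣ p ^ k := by
        rw [← hcardQ]
        exact Subgroup.index_dvd_card _
      obtain ⟨j, _, hj⟩ := (Nat.dvd_prime_pow hp).mp hdvd
      apply ih _ hlt _ hN₁ rfl ⟨j, by rw [hidx1, hj]⟩
      intro g hg
      have hgc : (QuotientGroup.mk' N) g ∈ Subgroup.center (G ⧸ N) := hg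
      refine centralChar_congr_of_central_pow (QuotientGroup.mk' N) p M hM χ ψ ?_ g ?_ k ?_
      · intro n hn
        exact hyp n ((QuotientGroup.eq_one_iff n).mp hn)
      · intro x hx
        obtain ⟨c, hc⟩ := isConj_iff.mp hx
        rw [← hc, map_mul, map_mul, map_inv]
        have := Subgroup.mem_center_iff.mp hgc ((QuotientGroup.mk' N) c)
        rw [this, mul_inv_cancel_right]
      · rw [← hcardQ]
        exact pow_card_eq_one'

/-- if `G/N` is a `p`-group, the block of a character is determined by its central character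
on `N` -/
theorem pquot_same_block (p : ℕ) [Fact p.Prime] (M : Ideal Cfsg.AlgInt)
    (hM : Cfsg.IsPModular p M) (N : Subgroup G) [hN : N.Normal]
    (hidx : ∃ k : ℕ, N.index = p ^ k) (χ ψ : Cfsg.IrrCharacter G)
    (hyp : ∀ n ∈ N, Cfsg.MemLocalIdeal M (Cfsg.centralChar χ.1 n - Cfsg.centralChar ψ.1 n)) :
    Cfsg.SameBlock M χ.1 ψ.1 :=
  pquot_same_block_aux p M hM χ ψ N.index N hN rfl hidx hyp

end pquot

/-- S0966 -/
theorem unique_cover_ppow {G : Type*} [Group G] [Fintype G] (p : ℕ) [Fact p.Prime]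
    (M : Ideal Cfsg.AlgInt) (hM : Cfsg.IsPModular p M) (N : Subgroup G) [N.Normal] [Fintype N]
    (hidx : ∃ k : ℕ, N.index = p ^ k) (b : Set (Cfsg.IrrCharacter N))
    (hb : Cfsg.IsPBlock M b) :
    ∃! B : Set (Cfsg.IrrCharacter G), Cfsg.IsPBlock M B ∧ ∃ χ ∈ B, ∃ θ ∈ b,
      Cfsg.classInner (fun n : N => (χ : G → ℂ) n) (θ : N → ℂ) ≠ 0 := by
  classical
  have hmax := hM.2.1
  obtain ⟨θ₁, hθ₁⟩ := block_nonempty hmax hb
  obtain ⟨χ₁, hχ₁⟩ := Cfsg.Agent.Lib.Helper7.Cliff.exists_over N θ₁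
  have hB₁ : Cfsg.IsPBlock M (Cfsg.blockOf M χ₁.1) := ⟨χ₁, rfl⟩
  have hχ₁B : χ₁ ∈ Cfsg.blockOf M χ₁.1 := sameBlock_refl hmax _
  refine ⟨Cfsg.blockOf M χ₁.1, ⟨hB₁, χ₁, hχ₁B, θ₁, hθ₁, hχ₁⟩, ?_⟩
  rintro B ⟨hB, χ₂, hχ₂, θ₂, hθ₂, hc₂⟩
  have e1 := (passman_cover p M hM N _ hB₁ b hb).mp ⟨χ₁, hχ₁B, θ₁, hθ₁, hχ₁⟩
  have e2 := (passman_cover p M hM N B hB b hb).mp ⟨χ₂, hχ₂, θ₂, hθ₂, hc₂⟩
  apply block_eq_of_sameBlock hmax hB hB₁ hχ₂ hχ₁B
  apply pquot_same_block p M hM N hidx χ₂ χ₁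
  intro n hn
  have h1 := e2 χ₂ hχ₂ θ₁ hθ₁ ⟨n, hn⟩
  have h2 := e1 χ₁ hχ₁B θ₁ hθ₁ ⟨n, hn⟩
  have h3 := mli_sub hmax h1 h2
  have h4 : Cfsg.centralChar χ₂.1 n - Cfsg.inducedCentralChar N θ₁.1 n
      - (Cfsg.centralChar χ₁.1 n - Cfsg.inducedCentralChar N θ₁.1 n)
      = Cfsg.centralChar χ₂.1 n - Cfsg.centralChar χ₁.1 n := by ring
  rw [← h4]
  exact h3

/-- S0954 -/
theorem pcompl_same_block {G : Type*} [Group G] [Fintype G] (p : ℕ) [Fact p.Prime]
    (M : Ideal Cfsg.AlgInt) (hM : Cfsg.IsPModular p M) (N : Subgroup G) [N.Normal] [Fintype N]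
    (hN : ¬ p ∣ Nat.card N) (hidx : ∃ k : ℕ, N.index = p ^ k) (χ ψ : Cfsg.IrrCharacter G) :
    Cfsg.SameBlock M (χ : G → ℂ) (ψ : G → ℂ) ↔ ∃ θ : Cfsg.IrrCharacter N,
      Cfsg.classInner (fun n : N => (χ : G → ℂ) n) (θ : N → ℂ) ≠ 0 ∧
      Cfsg.classInner (fun n : N => (ψ : G → ℂ) n) (θ : N → ℂ) ≠ 0 := by
  classical
  have hp : p.Prime := Fact.out
  have hmax := hM.2.1
  have hcop : (Nat.card N).Coprime p := ((Nat.Prime.coprime_iff_not_dvd hp).mpr hN).symm
  constructor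
  · intro h
    have hrc : Cfsg.IsClassFunction N (fun n : N => χ.1 n) :=
      Cfsg.Agent.Lib.Helper7.Cliff.isClassFunction_restrict N χ.1 (isClassFunction_of_irr χ)
    have hne : (fun n : N => χ.1 n) ≠ 0 := by
      intro h0
      have h1 := congrFun h0 1
      apply irr_deg_ne_zero χ
      simpa using h1
    obtain ⟨θ, hθ⟩ := Cfsg.Agent.Lib.Helper7.Cliff.exists_constituent _ hrc hne
    refine ⟨θ, hθ, ?_⟩
    have hgood := orbit_idem_specGood N hM hcop θ
    have h1 := specGood_congr hmax hgood h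
    beta_reduce at h1
    by_contra hψ
    rw [if_pos hθ, if_neg (not_not.mpr hψ), sub_zero] at h1
    exact not_mli_one hmax h1
  · rintro ⟨θ, hθχ, hθψ⟩
    apply pquot_same_block p M hM N hidx χ ψ
    intro n hn
    have h1 : Cfsg.centralChar χ.1 n = Cfsg.inducedCentralChar N θ.1 n :=
      (Cfsg.Agent.S0963.result N χ θ).mp hθχ ⟨n, hn⟩
    have h2 : Cfsg.centralChar ψ.1 n = Cfsg.inducedCentralChar N θ.1 n :=
      (Cfsg.Agent.S0963.result N ψ θ).mp hθψ ⟨n, hn⟩
    rw [h1, h2, sub_self]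
    exact mli_zero hmax

/-- the trivial character of a normal subgroup is a constituent iff the character is trivial
on it -/
theorem trivial_constituent_iff {G : Type*} [Group G] [Fintype G] (N : Subgroup G) [N.Normal]
    [Fintype N] (χ : Cfsg.IrrCharacter G) :
    (∃ θ : Cfsg.IrrCharacter N,
      Cfsg.classInner (fun n : N => ((irrOne G) : G → ℂ) n) (θ : N → ℂ) ≠ 0 ∧
      Cfsg.classInner (fun n : N => (χ : G → ℂ) n) (θ : N → ℂ) ≠ 0) ↔
    ∀ n ∈ N, χ.1 n = χ.1 1 := by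
  classical
  haveI : Fintype (Cfsg.IrrCharacter N) := Fintype.ofFinite _
  constructor
  · rintro ⟨θ, h1, hχθ⟩ n hn
    have hθ : θ = irrOne N := by
      by_contra hne
      apply h1
      have h7 : Cfsg.classInner (irrOne N).1 θ.1 = 0 := irr_inner_ne (Ne.symm hne)
      exact h7
    rw [hθ] at hχθ
    have hrc : Cfsg.IsClassFunction N (fun n : N => χ.1 n) :=
      Cfsg.Agent.Lib.Helper7.Cliff.isClassFunction_restrict _ χ.1 (isClassFunction_of_irr χ)
    have hexp := class_fn_expand' (fun n : N => χ.1 n) hrc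
    have hconst : ∀ ψ : Cfsg.IrrCharacter N, ψ ≠ irrOne N →
        Cfsg.classInner (fun n : N => χ.1 n) ψ.1 = 0 := by
      intro ψ hψ
      by_contra h6
      apply hψ
      obtain ⟨y, hy⟩ := Cfsg.Agent.Lib.Helper7.Cliff.exists_conj_of_constituents
        N χ (irrOne N) ψ hχθ h6
      apply Subtype.ext
      rw [hy]
      rfl
    have h2 : ∀ m : N, χ.1 m = Cfsg.classInner (fun n : N => χ.1 n) (irrOne N).1 := by
      intro m
      have h3 := congrFun hexp m
      rw [Finset.sum_apply, Finset.sum_eq_single (irrOne N)] at h3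
      · rw [h3]
        show _ * (1 : ℂ) = _
        rw [mul_one]
      · intro ψ _ hψ
        rw [hconst ψ hψ]
        simp
      · intro h
        exact absurd (Finset.mem_univ _) h
    have h4 := h2 ⟨n, hn⟩
    have h5 := h2 1
    have h6 : χ.1 ((1 : N) : G) = χ.1 1 := by simp
    rw [← h6]
    exact h4.trans h5.symm
  · intro h
    refine ⟨irrOne N, ?_, ?_⟩
    · have h1 : (fun n : N => (irrOne G).1 n) = (irrOne N).1 := rfl
      rw [h1, irr_inner_self]
      exact one_ne_zero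
    · unfold Cfsg.classInner
      have h1 : ∀ n : N, χ.1 n * conj ((irrOne N).1 n) = χ.1 1 := by
        intro n
        rw [h n n.2]
        show χ.1 1 * conj (1 : ℂ) = _
        simp
      simp_rw [h1]
      rw [Finset.sum_const, Finset.card_univ, nsmul_eq_mul, ← Nat.card_eq_fintype_card,
        ← mul_assoc, inv_mul_cancel₀ (Nat.cast_ne_zero.mpr (Nat.card_pos.ne')), one_mul]
      exact irr_deg_ne_zero χ

/-- S0939 -/
theorem principal_block_pcompl {G : Type*} [Group G] [Finite G] (p : ℕ) [Fact p.Prime]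
    (M : Ideal Cfsg.AlgInt) (hM : Cfsg.IsPModular p M)
    (hnc : ∃ k : ℕ, (Cfsg.pPrimeCore p G).index = p ^ k) :
    Cfsg.principalBlock M G = {χ : Cfsg.IrrCharacter G |
      ∀ n ∈ Cfsg.pPrimeCore p G, (χ : G → ℂ) n = (χ : G → ℂ) 1} := by
  classical
  haveI : Fintype G := Fintype.ofFinite G
  haveI : (Cfsg.pPrimeCore p G).Normal := Cfsg.Agent.Lib.Helper7.pPrimeCore_normal' p G
  haveI : Fintype (Cfsg.pPrimeCore p G) := Fintype.ofFinite _
  have hp : p.Prime := Fact.out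
  have hcop := Cfsg.Agent.Lib.Helper7.pPrimeCore_coprime (G := G) p
  have hnd : ¬ p ∣ Nat.card (Cfsg.pPrimeCore p G) := by
    intro hd
    have h1 := Nat.Coprime.eq_one_of_dvd hcop.symm hd
    exact hp.one_lt.ne' h1
  ext χ
  have key := pcompl_same_block p M hM (Cfsg.pPrimeCore p G) hnd hnc (irrOne G) χ
  have key2 := trivial_constituent_iff (Cfsg.pPrimeCore p G) χ
  exact key.trans key2

end Cfsg.Agent.Lib.Lead
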