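import Mathlib
import Cfsg.Prelude.Def_Blocks
import Cfsg.Agent.Lib.Lead.Block14
import Cfsg.Agent.Lib.Lead.Block16

set_option autoImplicit false

namespace Cfsg.Agent.Lib.Lead

open scoped ComplexConjugate

section nilidem

variable {G : Type*} [Group G] [Fintype G] {M : Ideal Cfsg.AlgInt}

theorem cconv_congr_mli (hM : M.IsMaximal) {u u' v v' : G → ℂ}
    (hu : ∀ g, Cfsg.MemLocalIdeal M (u g - u' g)) (hv : ∀ g, Cfsg.MemLocalIdeal M (v g - v' g))
    (hu'S : ∀ g, Cfsg.MemLocalRing M (u' g)) (hvS : ∀ g, Cfsg.MemLocalRing M (v g)) (x : G) :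
    Cfsg.MemLocalIdeal M (cconv u v x - cconv u' v' x) := by
  unfold cconv
  rw [← Finset.sum_sub_distrib]
  apply mli_sum hM
  intro g _
  have e : u g * v (g⁻¹ * x) - u' g * v' (g⁻¹ * x)
      = v (g⁻¹ * x) * (u g - u' g) + u' g * (v (g⁻¹ * x) - v' (g⁻¹ * x)) := by ring
  rw [e]
  exact mli_add hM (mli_mul hM (hvS _) (hu g)) (mli_mul hM (hu'S g) (hv _))

/-- a class function which is idempotent modulo the local ideal and is killed modulo the ideal
by every central character has values in the ideal -/
theorem nil_idem_mli [Fintype (Cfsg.IrrCharacter G)] {p : ℕ} (hM : Cfsg.IsPModular p M)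
    (z : G → ℂ) (hz : Cfsg.IsClassFunction G z) (hzS : ∀ g, Cfsg.MemLocalRing M (z g))
    (hidem : ∀ g, Cfsg.MemLocalIdeal M (z g - cconv z z g))
    (hOm : ∀ ξ : Cfsg.IrrCharacter G, Cfsg.MemLocalIdeal M (Om ξ.1 z)) :
    ∀ g, Cfsg.MemLocalIdeal M (z g) := by
  classical
  have hmax := hM.2.1
  have key : ∀ s : Finset (Cfsg.IrrCharacter G), ∃ w : G → ℂ, Cfsg.IsClassFunction G w ∧
      (∀ ξ' : Cfsg.IrrCharacter G,
        Om ξ'.1 w = Om ξ'.1 z * ∏ ξ ∈ s, (Om ξ'.1 z - Om ξ.1 z)) ∧
      ∀ g, Cfsg.MemLocalIdeal M (w g - z g) := by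
    intro s
    induction s using Finset.induction_on with
    | empty =>
      refine ⟨z, hz, fun ξ' => by rw [Finset.prod_empty, mul_one], fun g => ?_⟩
      rw [sub_self]
      exact mli_zero hmax
    | insert ξ₀ s hξ₀ ih =>
      obtain ⟨w, hw, hwO, hwz⟩ := ih
      have hd : Cfsg.IsClassFunction G (fun x => z x - (if x = 1 then Om ξ₀.1 z else 0)) := by
        intro x k
        have h1 := hz x k
        have h2 : (if k * x * k⁻¹ = 1 then Om ξ₀.1 z else 0)
            = (if x = 1 then Om ξ₀.1 z else 0) := isClassFunction_delta (Om ξ₀.1 z) x k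
        show z (k * x * k⁻¹) - (if k * x * k⁻¹ = 1 then Om ξ₀.1 z else 0)
          = z x - (if x = 1 then Om ξ₀.1 z else 0)
        rw [h1, h2]
      refine ⟨cconv w (fun x => z x - (if x = 1 then Om ξ₀.1 z else 0)),
        cconv_classFn hw hd, ?_, ?_⟩
      · intro ξ'
        rw [Om_cconv ξ' hw hd, hwO ξ', Om_sub, Om_delta ξ'.1 (irr_deg_ne_zero ξ'),
          Finset.prod_insert hξ₀]
        ring
      · intro g
        have hv : ∀ x, Cfsg.MemLocalIdeal M
            ((fun x => z x - (if x = 1 then Om ξ₀.1 z else 0)) x - z x) := by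
          intro x
          show Cfsg.MemLocalIdeal M (z x - (if x = 1 then Om ξ₀.1 z else 0) - z x)
          rw [sub_sub_cancel_left]
          split_ifs
          · exact mli_neg (hOm ξ₀)
          · rw [neg_zero]
            exact mli_zero hmax
        have hvS : ∀ x, Cfsg.MemLocalRing M
            ((fun x => z x - (if x = 1 then Om ξ₀.1 z else 0)) x) := by
          intro x
          show Cfsg.MemLocalRing M (z x - (if x = 1 then Om ξ₀.1 z else 0))
          apply mlr_sub hmax (hzS x)
          split_ifs
          · exact mli_mlr (hOm ξ₀)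
          · exact mlr_zero hmax
        have h1 := cconv_congr_mli hmax hwz hv hzS hvS g
        have h2 := mli_sub hmax h1 (hidem g)
        have e : cconv w (fun x => z x - (if x = 1 then Om ξ₀.1 z else 0)) g - cconv z z g
            - (z g - cconv z z g)
            = cconv w (fun x => z x - (if x = 1 then Om ξ₀.1 z else 0)) g - z g := by ring
        rw [e] at h2
        exact h2
  obtain ⟨w, hw, hwO, hwz⟩ := key Finset.univ
  have hw0 : ∀ g, w g = 0 := by
    intro g
    rw [Om_inv hw g, Finset.sum_eq_zero, mul_zero]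
    intro χ _
    rw [hwO χ, Finset.prod_eq_zero (Finset.mem_univ χ) (sub_self _), mul_zero, mul_zero]
  intro g
  have h1 := hwz g
  rw [hw0 g, zero_sub] at h1
  have h2 := mli_neg h1
  rw [neg_neg] at h2
  exact h2

/-- the part of a convolution of class functions coming from outside `C(P)` vanishes modulo the
local ideal at points of `C(P)` -/
theorem cconv_offcent_mli (p : ℕ) [Fact p.Prime] (hM : Cfsg.IsPModular p M) (P : Subgroup G)
    (hP : IsPGroup p P) {c d : G → ℂ} (hc : Cfsg.IsClassFunction G c)
    (hd : Cfsg.IsClassFunction G d) (hcS : ∀ g, Cfsg.MemLocalRing M (c g))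
    (hdS : ∀ g, Cfsg.MemLocalRing M (d g)) (x : G)
    (hx : x ∈ Subgroup.centralizer (P : Set G))
    [DecidablePred (· ∈ Subgroup.centralizer (P : Set G))] :
    Cfsg.MemLocalIdeal M
      (∑ g : G, if g ∈ Subgroup.centralizer (P : Set G) then 0 else c g * d (g⁻¹ * x)) := by
  have hmax := hM.2.1
  letI act : MulAction P G :=
    { smul := fun u y => (u : G) * y * (u : G)⁻¹
      one_smul := fun y => by
        show ((1 : P) : G) * y * ((1 : P) : G)⁻¹ = y
        simp
      mul_smul := fun u v y => by
        show ((u * v : P) : G) * y * ((u * v : P) : G)⁻¹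
          = (u : G) * ((v : G) * y * (v : G)⁻¹) * (u : G)⁻¹
        simp [mul_assoc] }
  apply orbit_sum_mli hM hP
  · intro u g
    show (if (u : G) * g * (u : G)⁻¹ ∈ Subgroup.centralizer (P : Set G) then 0
        else c ((u : G) * g * (u : G)⁻¹) * d (((u : G) * g * (u : G)⁻¹)⁻¹ * x))
      = if g ∈ Subgroup.centralizer (P : Set G) then 0 else c g * d (g⁻¹ * x)
    have hmem : (u : G) * g * (u : G)⁻¹ ∈ Subgroup.centralizer (P : Set G)
        ↔ g ∈ Subgroup.centralizer (P : Set G) := by
      constructor
      · intro h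
        have h1 := (Subgroup.mem_centralizer_iff.mp h) (u : G) u.2
        have h2 : (u : G) * g * (u : G)⁻¹ = g := by
          have h3 : (u : G) * ((u : G) * g * (u : G)⁻¹) = (u : G) * g := by
            rw [h1]
            group
          exact mul_left_cancel h3
        rw [h2] at h
        exact h
      · intro h
        have h1 := (Subgroup.mem_centralizer_iff.mp h) (u : G) u.2
        have h2 : (u : G) * g * (u : G)⁻¹ = g := by
          rw [h1]
          group
        rw [h2]
        exact h
    have hxu : (u : G) * x = x * (u : G) :=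
      (Subgroup.mem_centralizer_iff.mp hx) (u : G) u.2
    have e2 : ((u : G) * g * (u : G)⁻¹)⁻¹ * x = (u : G) * (g⁻¹ * x) * (u : G)⁻¹ := by
      have h4 : x = (u : G) * x * (u : G)⁻¹ := by
        rw [hxu]
        group
      calc ((u : G) * g * (u : G)⁻¹)⁻¹ * x
          = (u : G) * g⁻¹ * (u : G)⁻¹ * ((u : G) * x * (u : G)⁻¹) := by
            rw [← h4]
            group
        _ = (u : G) * (g⁻¹ * x) * (u : G)⁻¹ := by group
    simp only [hmem]
    rw [hc g (u : G), e2, hd (g⁻¹ * x) (u : G)]
  · intro g
    show Cfsg.MemLocalRing M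
      (if g ∈ Subgroup.centralizer (P : Set G) then 0 else c g * d (g⁻¹ * x))
    split_ifs
    · exact mlr_zero hmax
    · exact mlr_mul hmax (hcS _) (hdS _)
  · intro g hfix
    show (if g ∈ Subgroup.centralizer (P : Set G) then 0 else c g * d (g⁻¹ * x)) = 0
    rw [if_pos]
    rw [Subgroup.mem_centralizer_iff]
    intro q hq
    have h3 : q * g * q⁻¹ = g := hfix ⟨q, hq⟩
    calc q * g = q * g * q⁻¹ * q := by group
      _ = g * q := by rw [h3]

end nilidem

/-- S0958 -/
theorem induced_iff_defect {G : Type*} [Group G] [Finite G] (p : ℕ) [Fact p.Prime]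
    (M : Ideal Cfsg.AlgInt) (hM : Cfsg.IsPModular p M) (P H : Subgroup G) (hP : IsPGroup p P)
    (hPH : P ⊔ Subgroup.centralizer (P : Set G) ≤ H)
    (hHN : H ≤ Subgroup.normalizer (P : Set G)) (B : Set (Cfsg.IrrCharacter G))
    (hB : Cfsg.IsPBlock M B) :
    (∃ b : Set (Cfsg.IrrCharacter H), Cfsg.IsInducedBlock M H b B) ↔
      ∃ D : Subgroup G, Cfsg.IsDefectGroup p M B D ∧
        ∃ x : G, P.map (MulAut.conj x).toMonoidHom ≤ D := by
  classical
  haveI : Fintype G := Fintype.ofFinite G
  haveI : Fintype H := Fintype.ofFinite H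
  haveI : Fintype (Cfsg.IrrCharacter G) := Fintype.ofFinite _
  haveI : Fintype (Cfsg.IrrCharacter H) := Fintype.ofFinite _
  have hmax := hM.2.1
  have hPH' : P ≤ H := le_sup_left.trans hPH
  have hCH : Subgroup.centralizer (P : Set G) ≤ H := le_sup_right.trans hPH
  constructor
  · rintro ⟨b, hb, hB', hind⟩
    obtain ⟨g, hg⟩ := exists_defect_class_thm p M hM b hb
    obtain ⟨P₀⟩ : Nonempty (Sylow p (Subgroup.centralizer ({g} : Set H))) := inferInstance
    have hDb : Cfsg.IsDefectGroup p M b
        ((P₀ : Subgroup _).map (Subgroup.centralizer ({g} : Set H)).subtype) :=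
      ⟨g, hg, P₀, rfl⟩
    have h1 := pcore_le_defect_thm p M hM b hb _ hDb
    obtain ⟨E, hE, hle⟩ := induced_defect_le_thm p M hM H b hb B hB ⟨hb, hB', hind⟩ _ hDb
    refine ⟨E, hE, 1, ?_⟩
    rintro w ⟨y, hy, rfl⟩
    have hyE : y ∈ E := by
      apply hle
      refine ⟨⟨y, hPH' hy⟩, h1 ?_, rfl⟩
      have hn : (P.subgroupOf H).Normal := Subgroup.normal_subgroupOf_of_le_normalizer hHN
      have hpg : IsPGroup p (P.subgroupOf H) := hP.comap_subtype
      have hle2 : P.subgroupOf H ≤ Cfsg.pCore p H := le_sSup ⟨hn, hpg⟩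
      exact hle2 (Subgroup.mem_subgroupOf.mpr hy)
    simpa using hyE
  · rintro ⟨D, hD, x, hx⟩
    obtain ⟨g, hgS, hgn, c, hgc, hc⟩ :=
      (brauer_nonzero_iff p M hM B hB D hD P hP).mpr ⟨x, hx⟩
    have hecf := blockCoeff_classFn B
    have heS := fun g => osima_thm p M hM B hB g
    have hec : Cfsg.blockCoeff B c = Cfsg.blockCoeff B g :=
      (isClassFunction_conj_eq hecf hgc).symm
    by_contra hcon
    push Not at hcon
    have hOmH : ∀ ξ : Cfsg.IrrCharacter H,
        Cfsg.MemLocalIdeal M (Om ξ.1 (fun h : H => Cfsg.blockCoeff B (h : G))) := by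
      intro ξ
      obtain ⟨χ₀, hχ₀⟩ := exists_irr_of_mult_functional p M hM P H hP hPH' hCH hHN ξ
      have hχ₀B : χ₀ ∉ B := by
        intro hmem
        apply hcon (Cfsg.blockOf M ξ.1)
        refine ⟨⟨ξ, rfl⟩, hB, ?_⟩
        intro ξ' hξ' χ hχ k
        have hind : Cfsg.IsClassFunction G (fun x => if IsConj k x then (1 : ℂ) else 0) :=
          isClassFunction_conjInd k
        have hindS : ∀ x, Cfsg.MemLocalRing M (if IsConj k x then (1 : ℂ) else 0) := by
          intro x
          split_ifs
          · exact mlr_one hmax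
          · exact mlr_zero hmax
        have hindH : Cfsg.IsClassFunction H
            (fun h : H => if IsConj k (h : G) then (1 : ℂ) else 0) :=
          fun h k' => hind (h : G) (k' : G)
        have h1 := Om_congr_mli hmax (hξ' : Cfsg.SameBlock M ξ.1 ξ'.1) hindH (fun h => hindS _)
        have h2 := hχ₀ _ hind hindS
        rw [Om_classInd] at h2
        have h3 := sameBlock_of_mem_block hmax hB hmem hχ k
        rw [inducedCentralChar_eq]
        have h4 := mli_add hmax (mli_sub hmax h2 h1) h3
        have e : Om ξ.1 (fun h : H => if IsConj k (h : G) then (1 : ℂ) else 0)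
              - Cfsg.centralChar χ₀.1 k
            - (Om ξ.1 (fun h : H => if IsConj k (h : G) then (1 : ℂ) else 0)
              - Om ξ'.1 (fun h : H => if IsConj k (h : G) then (1 : ℂ) else 0))
            + (Cfsg.centralChar χ₀.1 k - Cfsg.centralChar χ.1 k)
            = Om ξ'.1 (fun h : H => if IsConj k (h : G) then (1 : ℂ) else 0)
              - Cfsg.centralChar χ.1 k := by ring
        rw [e] at h4
        exact h4
      have h1 := hχ₀ _ hecf heS
      rw [Om_blockCoeff, if_neg hχ₀B, sub_zero] at h1
      exact h1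
    have hcn : ∀ c n, c ∈ Subgroup.centralizer (P : Set G) →
        n ∈ Subgroup.normalizer (P : Set G) → n * c * n⁻¹ ∈ Subgroup.centralizer (P : Set G) :=
      (Subgroup.normal_subgroupOf_iff (Subgroup.centralizer_le_normalizer _)).mp inferInstance
    obtain ⟨z, hzdef⟩ : ∃ z : H → ℂ, z = fun h : H =>
        if (h : G) ∈ Subgroup.centralizer (P : Set G) then Cfsg.blockCoeff B (h : G) else 0 :=
      ⟨_, rfl⟩
    have hzv : ∀ h : H, z h =
        if (h : G) ∈ Subgroup.centralizer (P : Set G) then Cfsg.blockCoeff B (h : G) else 0 :=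
      fun h => by rw [hzdef]
    have hzcf : Cfsg.IsClassFunction H z := by
      intro h k
      rw [hzv, hzv]
      have hmem : ((k * h * k⁻¹ : H) : G) ∈ Subgroup.centralizer (P : Set G)
          ↔ (h : G) ∈ Subgroup.centralizer (P : Set G) := by
        constructor
        · intro hh
          have h1 := hcn _ _ hh ((Subgroup.normalizer (P : Set G)).inv_mem (hHN k.2))
          have e : (k : G)⁻¹ * ((k * h * k⁻¹ : H) : G) * (k : G)⁻¹⁻¹ = (h : G) := by
            simp only [Subgroup.coe_mul, Subgroup.coe_inv]
            group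
          rw [e] at h1
          exact h1
        · intro hh
          exact hcn _ _ hh (hHN k.2)
      have e1 : Cfsg.blockCoeff B ((k * h * k⁻¹ : H) : G) = Cfsg.blockCoeff B (h : G) :=
        hecf (h : G) (k : G)
      simp only [hmem, e1]
    have hzS : ∀ h, Cfsg.MemLocalRing M (z h) := by
      intro h
      rw [hzv]
      split_ifs
      · exact heS _
      · exact mlr_zero hmax
    have hzOm : ∀ ξ : Cfsg.IrrCharacter H, Cfsg.MemLocalIdeal M (Om ξ.1 z) := by
      intro ξ
      have hY := Om_mli_of_centralizer_mli p M hM P H hP hPH' hHN ξ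
        (fun h : H => Cfsg.blockCoeff B (h : G) - z h) ?_ ?_ ?_
      · rw [Om_sub] at hY
        have h2 := mli_sub hmax (hOmH ξ) hY
        rw [sub_sub_cancel] at h2
        exact h2
      · intro h k
        show Cfsg.blockCoeff B ((k * h * k⁻¹ : H) : G) - z (k * h * k⁻¹)
          = Cfsg.blockCoeff B (h : G) - z h
        rw [hzcf h k]
        congr 1
        exact hecf (h : G) (k : G)
      · intro h
        exact mlr_sub hmax (heS _) (hzS h)
      · intro h hh
        show Cfsg.MemLocalIdeal M (Cfsg.blockCoeff B (h : G) - z h)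
        rw [hzv, if_pos hh, sub_self]
        exact mli_zero hmax
    have hidem : ∀ h : H, Cfsg.MemLocalIdeal M (z h - cconv z z h) := by
      intro h
      obtain ⟨F, hF⟩ : ∃ F : G → ℂ, F = fun g : G =>
          if g ∈ Subgroup.centralizer (P : Set G) then Cfsg.blockCoeff B g *
            (if g⁻¹ * (h : G) ∈ Subgroup.centralizer (P : Set G)
              then Cfsg.blockCoeff B (g⁻¹ * (h : G)) else 0) else 0 := ⟨_, rfl⟩
      have e1 : ∀ g' : H, z g' * z (g'⁻¹ * h) = F (g' : G) := by
        intro g'
        rw [hzv, hzv, hF]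
        show _ = if (g' : G) ∈ Subgroup.centralizer (P : Set G) then Cfsg.blockCoeff B (g' : G) *
            (if (g' : G)⁻¹ * (h : G) ∈ Subgroup.centralizer (P : Set G)
              then Cfsg.blockCoeff B ((g' : G)⁻¹ * (h : G)) else 0) else 0
        by_cases hg' : (g' : G) ∈ Subgroup.centralizer (P : Set G)
        · rw [if_pos hg', if_pos hg']
          rfl
        · rw [if_neg hg', if_neg hg', zero_mul]
      have h1a : cconv z z h = ∑ g : G, if g ∈ H then F g else 0 := by
        unfold cconv
        rw [← Finset.sum_filter]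
        rw [Finset.sum_subtype (Finset.univ.filter (· ∈ H)) (p := (· ∈ H)) (by simp) F]
        apply Finset.sum_congr rfl
        intro g' _
        exact e1 g'
      have h1 : cconv z z h = ∑ g : G, F g := by
        rw [h1a]
        apply Finset.sum_congr rfl
        intro g _
        by_cases hgH : g ∈ H
        · rw [if_pos hgH]
        · rw [if_neg hgH, hF]
          show (0 : ℂ) = if g ∈ Subgroup.centralizer (P : Set G) then _ else 0
          rw [if_neg (fun hc' => hgH (hCH hc'))]
      by_cases hh : (h : G) ∈ Subgroup.centralizer (P : Set G)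
      · have hid : Cfsg.blockCoeff B (h : G)
            = ∑ g : G, Cfsg.blockCoeff B g * Cfsg.blockCoeff B (g⁻¹ * (h : G)) := by
          have h5 : (fun g => Cfsg.blockCoeff B g)
              = cconv (fun g => Cfsg.blockCoeff B g) (fun g => Cfsg.blockCoeff B g) := by
            apply Om_ext hecf (cconv_classFn hecf hecf)
            intro χ
            rw [Om_cconv χ hecf hecf, Om_blockCoeff]
            split_ifs <;> simp
          exact congrFun h5 (h : G)
        have h2 := cconv_offcent_mli p hM P hP hecf hecf heS heS (h : G) hh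
        rw [hzv, if_pos hh, h1]
        have e3 : Cfsg.blockCoeff B (h : G) - ∑ g : G, F g
            = ∑ g : G, if g ∈ Subgroup.centralizer (P : Set G) then 0
                else Cfsg.blockCoeff B g * Cfsg.blockCoeff B (g⁻¹ * (h : G)) := by
          rw [hid, ← Finset.sum_sub_distrib]
          apply Finset.sum_congr rfl
          intro g _
          rw [hF]
          by_cases hg : g ∈ Subgroup.centralizer (P : Set G)
          · show Cfsg.blockCoeff B g * Cfsg.blockCoeff B (g⁻¹ * (h : G))
              - (if g ∈ Subgroup.centralizer (P : Set G) then Cfsg.blockCoeff B g *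
                (if g⁻¹ * (h : G) ∈ Subgroup.centralizer (P : Set G)
                  then Cfsg.blockCoeff B (g⁻¹ * (h : G)) else 0) else 0) = _
            rw [if_pos hg, if_pos hg, if_pos (Subgroup.mul_mem _ (Subgroup.inv_mem _ hg) hh),
              sub_self]
          · show Cfsg.blockCoeff B g * Cfsg.blockCoeff B (g⁻¹ * (h : G))
              - (if g ∈ Subgroup.centralizer (P : Set G) then Cfsg.blockCoeff B g *
                (if g⁻¹ * (h : G) ∈ Subgroup.centralizer (P : Set G)
                  then Cfsg.blockCoeff B (g⁻¹ * (h : G)) else 0) else 0) = _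
            rw [if_neg hg, if_neg hg, sub_zero]
        rw [e3]
        exact h2
      · rw [hzv, if_neg hh, h1, Finset.sum_eq_zero, sub_zero]
        · exact mli_zero hmax
        · intro g _
          rw [hF]
          show (if g ∈ Subgroup.centralizer (P : Set G) then Cfsg.blockCoeff B g *
                (if g⁻¹ * (h : G) ∈ Subgroup.centralizer (P : Set G)
                  then Cfsg.blockCoeff B (g⁻¹ * (h : G)) else 0) else 0) = 0
          by_cases hg : g ∈ Subgroup.centralizer (P : Set G)
          · rw [if_pos hg, if_neg, mul_zero]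
            intro hc2
            apply hh
            have h6 := Subgroup.mul_mem _ hg hc2
            simpa using h6
          · rw [if_neg hg]
    have hfin := nil_idem_mli hM z hzcf hzS hidem hzOm ⟨c, hCH hc⟩
    rw [hzv] at hfin
    have hfin2 : Cfsg.MemLocalIdeal M (Cfsg.blockCoeff B c) := by
      have e : (if ((⟨c, hCH hc⟩ : H) : G) ∈ Subgroup.centralizer (P : Set G)
          then Cfsg.blockCoeff B ((⟨c, hCH hc⟩ : H) : G) else 0) = Cfsg.blockCoeff B c :=
        if_pos hc
      rw [e] at hfin
      exact hfin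
    rw [hec] at hfin2
    exact hgn hfin2

end Cfsg.Agent.Lib.Lead
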