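import Mathlib
import Cfsg.Prelude.Def_Blocks
import Cfsg.Agent.Lib.Lead.Block18
import Cfsg.Agent.Lib.Lead.Block17
import Cfsg.Agent.Lib.Lead.Taketa

set_option autoImplicit false

namespace Cfsg.Agent.Lib.Lead

open scoped ComplexConjugate

theorem defect_group_card_le {G : Type*} [Group G] [Finite G] (p : ℕ) [Fact p.Prime]
    (M : Ideal Cfsg.AlgInt) (hM : Cfsg.IsPModular p M) (B : Set (Cfsg.IrrCharacter G))
    (hB : Cfsg.IsPBlock M B) (D D' : Subgroup G) (hD : Cfsg.IsDefectGroup p M B D)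
    (hD' : Cfsg.IsDefectGroup p M B D') : Nat.card D' ≤ Nat.card D := by
  obtain ⟨g, hg, P₁, rfl⟩ := hD
  obtain ⟨g', hg', P₂, rfl⟩ := hD'
  obtain ⟨x, Q, hQ⟩ := (minmax_thm p M hM B hB g hg P₁ g').1 hg'.1 hg'.2.1
  have h1 := Subgroup.card_le_of_le hQ
  rw [Subgroup.card_map_of_injective
    (show Function.Injective (MulAut.conj x).toMonoidHom from (MulAut.conj x).injective)] at h1
  rw [Subgroup.card_map_of_injective (Subgroup.subtype_injective _)] at h1 ⊢
  rw [Subgroup.card_map_of_injective (Subgroup.subtype_injective _)] at h1 ⊢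
  have h2 : Nat.card (P₂ : Subgroup (Subgroup.centralizer ({g'} : Set G)))
      = Nat.card (Q : Subgroup (Subgroup.centralizer ({g'} : Set G))) := by
    rw [Sylow.card_eq_multiplicity, Sylow.card_eq_multiplicity]
  rw [h2]
  exact h1

theorem defect_group_card_eq {G : Type*} [Group G] [Finite G] (p : ℕ) [Fact p.Prime]
    (M : Ideal Cfsg.AlgInt) (hM : Cfsg.IsPModular p M) (B : Set (Cfsg.IrrCharacter G))
    (hB : Cfsg.IsPBlock M B) (D D' : Subgroup G) (hD : Cfsg.IsDefectGroup p M B D)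
    (hD' : Cfsg.IsDefectGroup p M B D') : Nat.card D = Nat.card D' :=
  le_antisymm (defect_group_card_le p M hM B hB D' D hD' hD)
    (defect_group_card_le p M hM B hB D D' hD hD')

theorem defect_group_isPGroup {G : Type*} [Group G] (p : ℕ) [Fact p.Prime]
    (M : Ideal Cfsg.AlgInt) (B : Set (Cfsg.IrrCharacter G)) (D : Subgroup G)
    (hD : Cfsg.IsDefectGroup p M B D) : IsPGroup p D := by
  obtain ⟨g, hg, P₁, rfl⟩ := hD
  exact P₁.isPGroup'.map _

/-- S0955 -/
theorem defect_eq_pcore_normalizer {G : Type*} [Group G] [Finite G] (p : ℕ) [Fact p.Prime]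
    (M : Ideal Cfsg.AlgInt) (hM : Cfsg.IsPModular p M) (B : Set (Cfsg.IrrCharacter G))
    (hB : Cfsg.IsPBlock M B) (D : Subgroup G) (hD : Cfsg.IsDefectGroup p M B D) :
    (Cfsg.pCore p (Subgroup.normalizer (D : Set G))).map
      (Subgroup.normalizer (D : Set G)).subtype = D := by
  classical
  have hDp : IsPGroup p D := defect_group_isPGroup p M B D hD
  have hDN : D ≤ Subgroup.normalizer (D : Set G) := Subgroup.le_normalizer
  have hCN : Subgroup.centralizer (D : Set G) ≤ Subgroup.normalizer (D : Set G) :=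
    Subgroup.centralizer_le_normalizer _
  have h1 : D ≤ (Cfsg.pCore p (Subgroup.normalizer (D : Set G))).map
      (Subgroup.normalizer (D : Set G)).subtype := by
    intro y hy
    have hn : (D.subgroupOf (Subgroup.normalizer (D : Set G))).Normal :=
      Subgroup.normal_subgroupOf_of_le_normalizer le_rfl
    have hpg : IsPGroup p (D.subgroupOf (Subgroup.normalizer (D : Set G))) := hDp.comap_subtype
    have hle2 : D.subgroupOf (Subgroup.normalizer (D : Set G))
        ≤ Cfsg.pCore p (Subgroup.normalizer (D : Set G)) := le_sSup ⟨hn, hpg⟩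
    exact ⟨⟨y, hDN hy⟩, hle2 (Subgroup.mem_subgroupOf.mpr hy), rfl⟩
  have hconj : D.map (MulAut.conj (1 : G)).toMonoidHom ≤ D := by
    rintro w ⟨y, hy, rfl⟩
    simpa using hy
  obtain ⟨b, hbind⟩ := (induced_iff_defect p M hM D (Subgroup.normalizer (D : Set G)) hDp
    (sup_le hDN hCN) le_rfl B hB).mpr ⟨D, hD, 1, hconj⟩
  have hb := hbind.1
  obtain ⟨g, hg⟩ := exists_defect_class_thm p M hM b hb
  obtain ⟨P₀⟩ : Nonempty (Sylow p (Subgroup.centralizer
    ({g} : Set (Subgroup.normalizer (D : Set G))))) := inferInstance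
  have hDb : Cfsg.IsDefectGroup p M b ((P₀ : Subgroup _).map
      (Subgroup.centralizer ({g} : Set (Subgroup.normalizer (D : Set G)))).subtype) :=
    ⟨g, hg, P₀, rfl⟩
  have h2 := pcore_le_defect_thm p M hM b hb _ hDb
  obtain ⟨E, hE, hle⟩ := induced_defect_le_thm p M hM _ b hb B hB hbind _ hDb
  have hcard := defect_group_card_eq p M hM B hB D E hD hE
  have hQE : (Cfsg.pCore p (Subgroup.normalizer (D : Set G))).map
      (Subgroup.normalizer (D : Set G)).subtype ≤ E := (Subgroup.map_mono h2).trans hle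
  have hDE : D = E := Subgroup.eq_of_le_of_card_ge (h1.trans hQE) (le_of_eq hcard.symm)
  apply le_antisymm
  · exact hQE.trans (le_of_eq hDE.symm)
  · exact h1

/-- S0971 -/
theorem induced_unique_cover {G : Type*} [Group G] [Fintype G] (p : ℕ) [Fact p.Prime]
    (M : Ideal Cfsg.AlgInt) (hM : Cfsg.IsPModular p M) (Q : Subgroup G) [Q.Normal]
    (hQ : IsPGroup p Q) [Fintype ↥(Q ⊔ Subgroup.centralizer (Q : Set G))]
    (b : Set (Cfsg.IrrCharacter ↥(Q ⊔ Subgroup.centralizer (Q : Set G))))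
    (hb : Cfsg.IsPBlock M b) :
    Cfsg.InducedBlockDefined M (Q ⊔ Subgroup.centralizer (Q : Set G)) b ∧
      ∀ B : Set (Cfsg.IrrCharacter G), Cfsg.IsPBlock M B →
        (∃ χ ∈ B, ∃ θ ∈ b, Cfsg.classInner
          (fun n : ↥(Q ⊔ Subgroup.centralizer (Q : Set G)) => (χ : G → ℂ) n)
          (θ : ↥(Q ⊔ Subgroup.centralizer (Q : Set G)) → ℂ) ≠ 0) →
        Cfsg.IsInducedBlock M (Q ⊔ Subgroup.centralizer (Q : Set G)) b B := by
  classical
  have hmax := hM.2.1
  haveI : Finite G := Finite.of_fintype G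
  have hHN : Q ⊔ Subgroup.centralizer (Q : Set G) ≤ Subgroup.normalizer (Q : Set G) := by
    rw [Subgroup.normalizer_eq_top]
    exact le_top
  refine ⟨induced_block_defined_thm p M hM Q _ hQ le_sup_left le_sup_right hHN b hb, ?_⟩
  intro B hB hcov
  refine ⟨hb, hB, ?_⟩
  intro ξ hξ χ hχ g
  by_cases hg : g ∈ Q ⊔ Subgroup.centralizer (Q : Set G)
  · have h1 := (passman_cover p M hM (Q ⊔ Subgroup.centralizer (Q : Set G)) B hB b hb).mp
      hcov χ hχ ξ hξ ⟨g, hg⟩
    have h2 := mli_neg h1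
    rw [neg_sub] at h2
    exact h2
  · have h0 : Cfsg.inducedCentralChar (Q ⊔ Subgroup.centralizer (Q : Set G)) ξ.1 g = 0 := by
      rw [inducedCentralChar_eq]
      have h3 : (fun h : ↥(Q ⊔ Subgroup.centralizer (Q : Set G)) =>
          if IsConj g (h : G) then (1 : ℂ) else 0) = fun _ => 0 := by
        funext h
        rw [if_neg]
        intro hconj
        apply hg
        obtain ⟨k, hk⟩ := isConj_iff.mp hconj.symm
        rw [← hk]
        exact (inferInstance : (Q ⊔ Subgroup.centralizer (Q : Set G)).Normal).conj_mem _ h.2 k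
      rw [h3, Om_zero]
    rw [h0, zero_sub]
    apply mli_neg
    apply central_char_mli_of_not_centralizing p M hM Q hQ g _ χ
    intro hc
    exact hg ((le_sup_right : Subgroup.centralizer (Q : Set G) ≤ Q ⊔ _) hc)

/-- S0934 -/
theorem induced_block_over {G : Type*} [Group G] [Fintype G] (p : ℕ) [Fact p.Prime]
    (M : Ideal Cfsg.AlgInt) (hM : Cfsg.IsPModular p M) (H : Subgroup G) [Fintype H]
    (b : Set (Cfsg.IrrCharacter H)) (B : Set (Cfsg.IrrCharacter G))
    (hind : Cfsg.IsInducedBlock M H b B) (ξ : Cfsg.IrrCharacter H) (hξ : ξ ∈ b) :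
    ∃ χ ∈ B, Cfsg.classInner (fun h : H => (χ : G → ℂ) h) (ξ : H → ℂ) ≠ 0 := by
  classical
  haveI : Finite G := Finite.of_fintype G
  haveI : Fintype (Cfsg.IrrCharacter G) := Fintype.ofFinite _
  have hmax := hM.2.1
  obtain ⟨hb, hB, hrel⟩ := hind
  by_contra hcon
  push Not at hcon
  obtain ⟨χ₁, hχ₁⟩ := block_nonempty hmax hB
  have hecf := blockCoeff_classFn B
  have heS := fun g => osima_thm p M hM B hB g
  have h1 := induced_Om_congr hmax H ξ χ₁ (fun g => hrel ξ hξ χ₁ hχ₁ g) hecf heS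
  rw [Om_blockCoeff, if_pos hχ₁] at h1
  have hz : ∀ χ : Cfsg.IrrCharacter G, χ ∈ B →
      ∑ h : H, conj (χ.1 (h : G)) * ξ.1 h = 0 := by
    intro χ hχ
    have h2 := hcon χ hχ
    unfold Cfsg.classInner at h2
    have h3 : ∑ h : H, χ.1 (h : G) * conj (ξ.1 h) = 0 := by
      rcases mul_eq_zero.mp h2 with h4 | h4
      · exfalso
        have h6 : (Nat.card H : ℂ) ≠ 0 := Nat.cast_ne_zero.mpr Nat.card_pos.ne'
        exact h6 (inv_eq_zero.mp h4)
      · exact h4
    have h5 := congrArg conj h3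
    rw [map_sum, map_zero] at h5
    rw [← h5]
    apply Finset.sum_congr rfl
    intro h _
    rw [map_mul, Complex.conj_conj]
  have h0 : Om ξ.1 (fun h : H => Cfsg.blockCoeff B (h : G)) = 0 := by
    unfold Om
    have hsum : ∑ h : H, Cfsg.blockCoeff B (h : G) * ξ.1 h = 0 := by
      have e1 : ∀ h : H, Cfsg.blockCoeff B (h : G) * ξ.1 h
          = ∑ χ : Cfsg.IrrCharacter G, (Nat.card G : ℂ)⁻¹ * (χ.1 1 * (if χ ∈ B then 1 else 0))
            * (conj (χ.1 (h : G)) * ξ.1 h) := by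
        intro h
        rw [blockCoeff_eq, Finset.mul_sum, Finset.sum_mul]
        apply Finset.sum_congr rfl
        intro χ _
        ring
      rw [Finset.sum_congr rfl (fun h _ => e1 h), Finset.sum_comm]
      apply Finset.sum_eq_zero
      intro χ _
      rw [← Finset.mul_sum]
      by_cases hχ : χ ∈ B
      · rw [hz χ hχ, mul_zero]
      · rw [if_neg hχ, mul_zero, mul_zero, zero_mul]
    rw [hsum, zero_div]
  rw [h0, zero_sub] at h1
  have h2 := mli_neg h1
  rw [neg_neg] at h2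
  exact not_mli_one hmax h2

/-- the central character of an irreducible induced character -/
theorem centralChar_indFun {G : Type*} [Group G] [Fintype G] (H : Subgroup G) [Fintype H]
    (ξ : Cfsg.IrrCharacter H) (hind : Cfsg.IsIrrCharacter G (Cfsg.indFun H (ξ : H → ℂ)))
    (g : G) :
    Cfsg.centralChar (Cfsg.indFun H ξ.1) g = Cfsg.inducedCentralChar H ξ.1 g := by
  classical
  have hcf : Cfsg.IsClassFunction G (Cfsg.indFun H ξ.1) :=
    isClassFunction_of_irr ⟨_, hind⟩
  have hfrob := frobenius_reciprocity H ξ.1 (fun x => if IsConj g x then (1 : ℂ) else 0)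
    (isClassFunction_conjInd g)
  unfold Cfsg.classInner at hfrob
  have hL : ∑ x : G, Cfsg.indFun H ξ.1 x * conj (if IsConj g x then (1 : ℂ) else 0)
      = ((Subgroup.centralizer ({g} : Set G)).index : ℂ) * Cfsg.indFun H ξ.1 g := by
    rw [← sum_conjInd_mul g _ hcf]
    apply Finset.sum_congr rfl
    intro x _
    split_ifs <;> simp
  have hξ1 := irr_deg_ne_zero ξ
  have hR : ∑ h : H, ξ.1 h * conj (if IsConj g (h : G) then (1 : ℂ) else 0)
      = Cfsg.inducedCentralChar H ξ.1 g * ξ.1 1 := by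
    rw [inducedCentralChar_eq]
    unfold Om
    rw [div_mul_cancel₀ _ hξ1]
    apply Finset.sum_congr rfl
    intro h _
    beta_reduce
    by_cases hc : IsConj g (h : G)
    · rw [if_pos hc, map_one, mul_one, one_mul]
    · rw [if_neg hc, map_zero, mul_zero, zero_mul]
  rw [hL, hR] at hfrob
  have h1 := indFun_one_eq H ξ.1
  have hG : (Nat.card G : ℂ) ≠ 0 := Nat.cast_ne_zero.mpr Nat.card_pos.ne'
  have hH : (Nat.card H : ℂ) ≠ 0 := Nat.cast_ne_zero.mpr Nat.card_pos.ne'
  have hFG : (Fintype.card G : ℂ) = (Nat.card G : ℂ) := by rw [Nat.card_eq_fintype_card]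
  unfold Cfsg.centralChar
  rw [h1, hFG]
  have h2 : ((Subgroup.centralizer ({g} : Set G)).index : ℂ) * Cfsg.indFun H ξ.1 g
      = (Nat.card G : ℂ) * ((Nat.card H : ℂ)⁻¹ * (Cfsg.inducedCentralChar H ξ.1 g * ξ.1 1)) := by
    rw [← hfrob]
    field_simp
  rw [h2]
  field_simp

/-- S0933 -/
theorem irr_induction_block {G : Type*} [Group G] [Fintype G] (p : ℕ) [Fact p.Prime]
    (M : Ideal Cfsg.AlgInt) (hM : Cfsg.IsPModular p M) (H : Subgroup G)
    (ξ : Cfsg.IrrCharacter H) (hind : Cfsg.IsIrrCharacter G (Cfsg.indFun H (ξ : H → ℂ))) :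
    Cfsg.IsInducedBlock M H (Cfsg.blockOf M (ξ : H → ℂ))
      (Cfsg.blockOf M (Cfsg.indFun H (ξ : H → ℂ))) := by
  classical
  haveI : Fintype H := Fintype.ofFinite H
  have hmax := hM.2.1
  refine ⟨⟨ξ, rfl⟩, ⟨⟨_, hind⟩, rfl⟩, ?_⟩
  intro ξ' hξ' χ' hχ' g
  have h1 := centralChar_indFun H ξ hind g
  have h2 : Cfsg.MemLocalIdeal M (Cfsg.centralChar (Cfsg.indFun H ξ.1) g
      - Cfsg.centralChar χ'.1 g) := hχ' g
  have h3 : Cfsg.MemLocalIdeal M (Cfsg.inducedCentralChar H ξ.1 g
      - Cfsg.inducedCentralChar H ξ'.1 g) := by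
    rw [inducedCentralChar_eq, inducedCentralChar_eq]
    apply Om_congr_mli hmax (hξ' : Cfsg.SameBlock M ξ.1 ξ'.1)
    · intro x k
      show (if IsConj g ((k * x * k⁻¹ : H) : G) then (1 : ℂ) else 0)
        = if IsConj g (x : G) then (1 : ℂ) else 0
      have h4 : IsConj g ((k * x * k⁻¹ : H) : G) ↔ IsConj g (x : G) := by
        have hc : IsConj (x : G) ((k * x * k⁻¹ : H) : G) := isConj_iff.mpr ⟨(k : G), by simp⟩
        exact ⟨fun h1 => h1.trans hc.symm, fun h1 => h1.trans hc⟩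
      simp only [h4]
    · intro x
      show Cfsg.MemLocalRing M (if IsConj g (x : G) then (1 : ℂ) else 0)
      split_ifs
      · exact mlr_one hmax
      · exact mlr_zero hmax
  rw [h1] at h2
  have h5 := mli_sub hmax h2 h3
  have e : Cfsg.inducedCentralChar H ξ.1 g - Cfsg.centralChar χ'.1 g
      - (Cfsg.inducedCentralChar H ξ.1 g - Cfsg.inducedCentralChar H ξ'.1 g)
      = Cfsg.inducedCentralChar H ξ'.1 g - Cfsg.centralChar χ'.1 g := by ring
  rw [e] at h5
  exact h5

end Cfsg.Agent.Lib.Lead
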