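import Mathlib
import Cfsg.Prelude.Def_Blocks
import Cfsg.Agent.Lib.Lead.Block19
import Cfsg.Agent.S0916

set_option autoImplicit false

namespace Cfsg.Agent.Lib.Lead

open scoped ComplexConjugate

section fmt

variable {G : Type*} [Group G] [Finite G]

/-- the centralizer of `x` in a subgroup `N`, as a subgroup of `G` -/
theorem map_centralizer_subtype (N : Subgroup G) (x : N) :
    (Subgroup.centralizer ({x} : Set N)).map N.subtype
      = Subgroup.centralizer ({(x : G)} : Set G) ⊓ N := by
  ext g
  constructor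
  · rintro ⟨n, hn, rfl⟩
    have hn' : n * x = x * n := Subgroup.mem_centralizer_singleton_iff.mp hn
    refine ⟨Subgroup.mem_centralizer_singleton_iff.mpr ?_, n.2⟩
    exact congrArg Subtype.val hn'
  · rintro ⟨hg, hgN⟩
    have hg' : g * (x : G) = (x : G) * g := Subgroup.mem_centralizer_singleton_iff.mp hg
    exact ⟨⟨g, hgN⟩, Subgroup.mem_centralizer_singleton_iff.mpr (Subtype.ext hg'), rfl⟩

/-- a `p`-subgroup `D` centralized by `x ∈ N(D)` whose order is the `p`-part of `|C_{N(D)}(x)|`
is a Sylow `p`-subgroup of `C_G(x)` -/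
theorem sylow_centralizer_of_card (p : ℕ) [Fact p.Prime] (D : Subgroup G) (hD : IsPGroup p D)
    (x : Subgroup.normalizer (D : Set G))
    (hx : (x : G) ∈ Subgroup.centralizer (D : Set G))
    (hcard : Nat.card D
      = p ^ (Nat.card (Subgroup.centralizer ({x} : Set (Subgroup.normalizer (D : Set G))))).factorization p) :
    ∃ S : Sylow p (Subgroup.centralizer ({(x : G)} : Set G)),
      (S : Subgroup (Subgroup.centralizer ({(x : G)} : Set G))).map
        (Subgroup.centralizer ({(x : G)} : Set G)).subtype = D := by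
  have hDle : D ≤ Subgroup.centralizer ({(x : G)} : Set G) ⊓ Subgroup.normalizer (D : Set G) := by
    intro d hd
    refine ⟨Subgroup.mem_centralizer_singleton_iff.mpr ?_, Subgroup.le_normalizer hd⟩
    exact (Subgroup.mem_centralizer_iff.mp hx) d hd
  have hc1 : Nat.card (Subgroup.centralizer ({x} : Set (Subgroup.normalizer (D : Set G))))
      = Nat.card ↥(Subgroup.centralizer ({(x : G)} : Set G) ⊓ Subgroup.normalizer (D : Set G)) := by
    rw [← map_centralizer_subtype,
      Subgroup.card_map_of_injective (Subgroup.subtype_injective _)]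
  have hc2 : Nat.card (D.subgroupOf
      (Subgroup.centralizer ({(x : G)} : Set G) ⊓ Subgroup.normalizer (D : Set G)))
      = Nat.card D := Nat.card_congr (Subgroup.subgroupOfEquivOfLe hDle).toEquiv
  have hS := (Cfsg.Agent.S0916.result p D hD).2 (x : G) hx
    ⟨Sylow.ofCard (D.subgroupOf
      (Subgroup.centralizer ({(x : G)} : Set G) ⊓ Subgroup.normalizer (D : Set G)))
      (by rw [hc2, hcard, hc1]), Subgroup.map_subgroupOf_eq_of_le hDle⟩
  exact hS

/-- for a class with defect group `D`, the induced central character from `N(D)` agrees modulo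
the ideal with the central character of the `N(D)`-class inside `C(D)` -/
theorem induced_eq_central_of_defect (p : ℕ) [Fact p.Prime] (M : Ideal Cfsg.AlgInt)
    (hM : Cfsg.IsPModular p M) (D : Subgroup G) (hD : IsPGroup p D)
    (y : Subgroup.normalizer (D : Set G)) (hy : (y : G) ∈ Subgroup.centralizer (D : Set G))
    (hS : ∃ S : Sylow p (Subgroup.centralizer ({(y : G)} : Set G)),
      (S : Subgroup (Subgroup.centralizer ({(y : G)} : Set G))).map
        (Subgroup.centralizer ({(y : G)} : Set G)).subtype = D)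
    (ξ : Cfsg.IrrCharacter (Subgroup.normalizer (D : Set G))) :
    Cfsg.MemLocalIdeal M (Cfsg.inducedCentralChar (Subgroup.normalizer (D : Set G)) ξ.1 (y : G)
      - Cfsg.centralChar ξ.1 y) := by
  classical
  haveI : Fintype G := Fintype.ofFinite G
  haveI : Fintype (Subgroup.normalizer (D : Set G)) := Fintype.ofFinite _
  have hmax := hM.2.1
  rw [inducedCentralChar_eq, ← Om_classInd ξ y, ← Om_sub]
  apply Om_mli_of_centralizer_mli p M hM D (Subgroup.normalizer (D : Set G)) hD
    Subgroup.le_normalizer le_rfl ξ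
  · intro h k
    show (if IsConj (y : G) ((k * h * k⁻¹ : Subgroup.normalizer (D : Set G)) : G)
          then (1 : ℂ) else 0) - (if IsConj y (k * h * k⁻¹) then (1 : ℂ) else 0)
      = (if IsConj (y : G) (h : G) then (1 : ℂ) else 0) - (if IsConj y h then (1 : ℂ) else 0)
    have h1 : IsConj (y : G) ((k * h * k⁻¹ : Subgroup.normalizer (D : Set G)) : G)
        ↔ IsConj (y : G) (h : G) := by
      have hc : IsConj (h : G) ((k * h * k⁻¹ : Subgroup.normalizer (D : Set G)) : G) :=
        isConj_iff.mpr ⟨(k : G), by simp⟩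
      exact ⟨fun h1 => h1.trans hc.symm, fun h1 => h1.trans hc⟩
    have h2 : IsConj y (k * h * k⁻¹) ↔ IsConj y h := by
      have hc : IsConj h (k * h * k⁻¹) := isConj_iff.mpr ⟨k, rfl⟩
      exact ⟨fun h1 => h1.trans hc.symm, fun h1 => h1.trans hc⟩
    simp only [h1, h2]
  · intro h
    show Cfsg.MemLocalRing M ((if IsConj (y : G) (h : G) then (1 : ℂ) else 0)
      - (if IsConj y h then (1 : ℂ) else 0))
    apply mlr_sub hmax
    · split_ifs
      · exact mlr_one hmax
      · exact mlr_zero hmax
    · split_ifs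
      · exact mlr_one hmax
      · exact mlr_zero hmax
  · intro h hh
    show Cfsg.MemLocalIdeal M ((if IsConj (y : G) (h : G) then (1 : ℂ) else 0)
      - (if IsConj y h then (1 : ℂ) else 0))
    have h3 : IsConj (y : G) (h : G) ↔ IsConj y h := by
      constructor
      · intro hc
        obtain ⟨n, hn, hn2⟩ := ((Cfsg.Agent.S0916.result p D hD).1 (y : G) hS).2 (y : G) (h : G)
          (IsConj.refl _) hc hy hh
        exact isConj_iff.mpr ⟨⟨n, hn⟩, Subtype.ext hn2⟩
      · intro hc
        obtain ⟨k, hk⟩ := isConj_iff.mp hc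
        refine isConj_iff.mpr ⟨(k : G), ?_⟩
        rw [← hk]
        simp
    by_cases hc : IsConj y h
    · rw [if_pos (h3.mpr hc), if_pos hc, sub_self]
      exact mli_zero hmax
    · rw [if_neg (fun h4 => hc (h3.mp h4)), if_neg hc, sub_self]
      exact mli_zero hmax

/-- First Main Theorem, part (i) -/
theorem fmt_part1 (p : ℕ) [Fact p.Prime] (M : Ideal Cfsg.AlgInt) (hM : Cfsg.IsPModular p M)
    (D : Subgroup G) (hD : IsPGroup p D)
    (b : Set (Cfsg.IrrCharacter (Subgroup.normalizer (D : Set G)))) (hb : Cfsg.IsPBlock M b)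
    (hDb : Cfsg.IsDefectGroup p M b (D.subgroupOf (Subgroup.normalizer (D : Set G)))) :
    ∃ B : Set (Cfsg.IrrCharacter G), Cfsg.IsPBlock M B ∧ Cfsg.IsDefectGroup p M B D ∧
      Cfsg.IsInducedBlock M (Subgroup.normalizer (D : Set G)) b B := by
  classical
  have hmax := hM.2.1
  have hDN : D ≤ Subgroup.normalizer (D : Set G) := Subgroup.le_normalizer
  have hCN := Subgroup.centralizer_le_normalizer (D : Set G)
  obtain ⟨B, hBind⟩ := induced_block_defined_thm p M hM D _ hD hDN hCN le_rfl b hb
  have hB := hBind.2.1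
  refine ⟨B, hB, ?_, hBind⟩
  have hDb' := hDb
  obtain ⟨y, hy, P₀, hP₀⟩ := hDb
  have hyC : (y : G) ∈ Subgroup.centralizer (D : Set G) := by
    rw [Subgroup.mem_centralizer_iff]
    intro d hd
    have h1 : (⟨d, hDN hd⟩ : Subgroup.normalizer (D : Set G))
        ∈ D.subgroupOf (Subgroup.normalizer (D : Set G)) := Subgroup.mem_subgroupOf.mpr hd
    rw [hP₀] at h1
    obtain ⟨c, hc, hc2⟩ := h1
    have h2 : (c : Subgroup.normalizer (D : Set G)) * y = y * (c : Subgroup.normalizer (D : Set G)) :=
      Subgroup.mem_centralizer_singleton_iff.mp c.2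
    have h3 : ((c : Subgroup.normalizer (D : Set G)) : G) = d := congrArg Subtype.val hc2
    have h4 : ((c : Subgroup.normalizer (D : Set G)) : G) * (y : G)
        = (y : G) * ((c : Subgroup.normalizer (D : Set G)) : G) := congrArg Subtype.val h2
    rw [h3] at h4
    exact h4
  have hcardD : Nat.card D = p ^ (Nat.card (Subgroup.centralizer
      ({y} : Set (Subgroup.normalizer (D : Set G))))).factorization p := by
    rw [← Nat.card_congr (Subgroup.subgroupOfEquivOfLe hDN).toEquiv, hP₀,
      Subgroup.card_map_of_injective (Subgroup.subtype_injective _), Sylow.card_eq_multiplicity]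
  obtain ⟨S, hS⟩ := sylow_centralizer_of_card p D hD y hyC hcardD
  obtain ⟨ξ₁, hξ₁⟩ := block_nonempty hmax hb
  have hω : ∀ χ ∈ B, ¬ Cfsg.MemLocalIdeal M (Cfsg.centralChar χ.1 (y : G)) := by
    intro χ hχ hcon
    apply hy.2.2 ξ₁ hξ₁
    have h1 := induced_eq_central_of_defect p M hM D hD y hyC ⟨S, hS⟩ ξ₁
    have h2 := hBind.2.2 ξ₁ hξ₁ χ hχ (y : G)
    have h3 := mli_add hmax (mli_sub hmax h2 h1) hcon
    have e : Cfsg.inducedCentralChar (Subgroup.normalizer (D : Set G)) ξ₁.1 (y : G)
          - Cfsg.centralChar χ.1 (y : G)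
        - (Cfsg.inducedCentralChar (Subgroup.normalizer (D : Set G)) ξ₁.1 (y : G)
          - Cfsg.centralChar ξ₁.1 y) + Cfsg.centralChar χ.1 (y : G)
        = Cfsg.centralChar ξ₁.1 y := by ring
    rw [e] at h3
    exact h3
  obtain ⟨E, hE, hle⟩ := induced_defect_le_thm p M hM _ b hb B hB hBind _ hDb'
  rw [Subgroup.map_subgroupOf_eq_of_le hDN] at hle
  have hE' := hE
  obtain ⟨g₁, hg₁, P₁, hP₁⟩ := hE
  obtain ⟨χ₁, hχ₁⟩ := block_nonempty hmax hB
  obtain ⟨x, Q, hQ⟩ := (minmax_thm p M hM B hB g₁ hg₁ P₁ (y : G)).2 ⟨χ₁, hχ₁, hω χ₁ hχ₁⟩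
  have hcE : Nat.card E ≤ Nat.card D := by
    have h1 := Subgroup.card_le_of_le hQ
    rw [Subgroup.card_map_of_injective
      (show Function.Injective (MulAut.conj x).toMonoidHom from (MulAut.conj x).injective),
      ← hP₁] at h1
    rw [Subgroup.card_map_of_injective (Subgroup.subtype_injective _)] at h1
    have h2 : Nat.card (Q : Subgroup (Subgroup.centralizer ({(y : G)} : Set G)))
        = Nat.card (S : Subgroup (Subgroup.centralizer ({(y : G)} : Set G))) := by
      rw [Sylow.card_eq_multiplicity, Sylow.card_eq_multiplicity]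
    have h3 : Nat.card D = Nat.card (S : Subgroup (Subgroup.centralizer ({(y : G)} : Set G))) := by
      have h5 := Subgroup.card_map_of_injective
        (K := (S : Subgroup (Subgroup.centralizer ({(y : G)} : Set G))))
        (Subgroup.subtype_injective (Subgroup.centralizer ({(y : G)} : Set G)))
      rw [hS] at h5
      exact h5
    rw [h3, ← h2]
    exact h1
  have hDE : D = E := Subgroup.eq_of_le_of_card_ge hle hcE
  rw [hDE]
  exact hE'

/-- First Main Theorem, existence in part (ii) -/
theorem fmt_part2_exists (p : ℕ) [Fact p.Prime] (M : Ideal Cfsg.AlgInt)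
    (hM : Cfsg.IsPModular p M) (D : Subgroup G) (hD : IsPGroup p D)
    (B : Set (Cfsg.IrrCharacter G)) (hB : Cfsg.IsPBlock M B)
    (hDB : Cfsg.IsDefectGroup p M B D) :
    ∃ b : Set (Cfsg.IrrCharacter (Subgroup.normalizer (D : Set G))), Cfsg.IsPBlock M b ∧
      Cfsg.IsDefectGroup p M b (D.subgroupOf (Subgroup.normalizer (D : Set G))) ∧
      Cfsg.IsInducedBlock M (Subgroup.normalizer (D : Set G)) b B := by
  classical
  have hDN : D ≤ Subgroup.normalizer (D : Set G) := Subgroup.le_normalizer
  have hCN := Subgroup.centralizer_le_normalizer (D : Set G)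
  have hconj : D.map (MulAut.conj (1 : G)).toMonoidHom ≤ D := by
    rintro w ⟨y, hy, rfl⟩
    simpa using hy
  obtain ⟨b, hbind⟩ := (induced_iff_defect p M hM D (Subgroup.normalizer (D : Set G)) hD
    (sup_le hDN hCN) le_rfl B hB).mpr ⟨D, hDB, 1, hconj⟩
  have hb := hbind.1
  refine ⟨b, hb, ?_, hbind⟩
  obtain ⟨g, hg⟩ := exists_defect_class_thm p M hM b hb
  obtain ⟨P₀⟩ : Nonempty (Sylow p (Subgroup.centralizer
    ({g} : Set (Subgroup.normalizer (D : Set G))))) := inferInstance
  have hDb : Cfsg.IsDefectGroup p M b ((P₀ : Subgroup _).map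
      (Subgroup.centralizer ({g} : Set (Subgroup.normalizer (D : Set G)))).subtype) :=
    ⟨g, hg, P₀, rfl⟩
  have h2 := pcore_le_defect_thm p M hM b hb _ hDb
  obtain ⟨E, hE, hle⟩ := induced_defect_le_thm p M hM _ b hb B hB hbind _ hDb
  have hcard := defect_group_card_eq p M hM B hB D E hDB hE
  have hn : (D.subgroupOf (Subgroup.normalizer (D : Set G))).Normal :=
    Subgroup.normal_subgroupOf_of_le_normalizer le_rfl
  have hpg : IsPGroup p (D.subgroupOf (Subgroup.normalizer (D : Set G))) := hD.comap_subtype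
  have hle2 : D.subgroupOf (Subgroup.normalizer (D : Set G))
      ≤ Cfsg.pCore p (Subgroup.normalizer (D : Set G)) := le_sSup ⟨hn, hpg⟩
  have hle3 := hle2.trans h2
  have hc : Nat.card ((P₀ : Subgroup _).map
      (Subgroup.centralizer ({g} : Set (Subgroup.normalizer (D : Set G)))).subtype)
      ≤ Nat.card (D.subgroupOf (Subgroup.normalizer (D : Set G))) := by
    have h4 := Subgroup.card_le_of_le hle
    rw [Subgroup.card_map_of_injective
      (Subgroup.subtype_injective (Subgroup.normalizer (D : Set G)))] at h4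
    rw [Nat.card_congr (Subgroup.subgroupOfEquivOfLe hDN).toEquiv, hcard]
    exact h4
  have heq := Subgroup.eq_of_le_of_card_ge hle3 hc
  rw [heq]
  exact hDb

/-- First Main Theorem, uniqueness in part (ii) -/
theorem fmt_unique (p : ℕ) [Fact p.Prime] (M : Ideal Cfsg.AlgInt)
    (hM : Cfsg.IsPModular p M) (D : Subgroup G) (hD : IsPGroup p D)
    (B : Set (Cfsg.IrrCharacter G)) (hB : Cfsg.IsPBlock M B)
    (b₁ b₂ : Set (Cfsg.IrrCharacter (Subgroup.normalizer (D : Set G))))
    (hb₁ : Cfsg.IsPBlock M b₁) (hb₂ : Cfsg.IsPBlock M b₂)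
    (hD₁ : Cfsg.IsDefectGroup p M b₁ (D.subgroupOf (Subgroup.normalizer (D : Set G))))
    (hi₁ : Cfsg.IsInducedBlock M (Subgroup.normalizer (D : Set G)) b₁ B)
    (hi₂ : Cfsg.IsInducedBlock M (Subgroup.normalizer (D : Set G)) b₂ B) : b₁ = b₂ := by
  classical
  haveI : Fintype G := Fintype.ofFinite G
  haveI : Fintype (Subgroup.normalizer (D : Set G)) := Fintype.ofFinite _
  haveI : Fintype (Cfsg.IrrCharacter (Subgroup.normalizer (D : Set G))) := Fintype.ofFinite _
  haveI : Fintype (ConjClasses (Subgroup.normalizer (D : Set G))) := Fintype.ofFinite _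
  have hmax := hM.2.1
  have hDN : D ≤ Subgroup.normalizer (D : Set G) := Subgroup.le_normalizer
  obtain ⟨ξ₁, hξ₁⟩ := block_nonempty hmax hb₁
  obtain ⟨ξ₂, hξ₂⟩ := block_nonempty hmax hb₂
  obtain ⟨χ₁, hχ₁⟩ := block_nonempty hmax hB
  have hecf := blockCoeff_classFn b₁
  have heS := fun g => osima_thm p M hM b₁ hb₁ g
  haveI hn : (D.subgroupOf (Subgroup.normalizer (D : Set G))).Normal :=
    Subgroup.normal_subgroupOf_of_le_normalizer le_rfl
  have hpg : IsPGroup p (D.subgroupOf (Subgroup.normalizer (D : Set G))) := hD.comap_subtype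
  have hcD1 : Nat.card D = Nat.card (D.subgroupOf (Subgroup.normalizer (D : Set G))) :=
    (Nat.card_congr (Subgroup.subgroupOfEquivOfLe hDN).toEquiv).symm
  obtain ⟨y₁, hy₁, P₁, hP₁⟩ := hD₁
  have key : Cfsg.MemLocalIdeal M (Om ξ₁.1 (fun g => Cfsg.blockCoeff b₁ g)
      - Om ξ₂.1 (fun g => Cfsg.blockCoeff b₁ g)) := by
    rw [Om_class_sum ξ₁ hecf, Om_class_sum ξ₂ hecf, ← Finset.sum_sub_distrib]
    apply mli_sum hmax
    intro L _
    rw [← mul_sub]
    by_cases he : Cfsg.MemLocalIdeal M (Cfsg.blockCoeff b₁ (ccRep L))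
    · rw [mul_comm]
      exact mli_mul hmax (mlr_sub hmax (mlr_of_integral hmax (centralChar_isIntegral ξ₁ _))
        (mlr_of_integral hmax (centralChar_isIntegral ξ₂ _))) he
    · apply mli_mul hmax (heS _)
      by_cases hω : Cfsg.MemLocalIdeal M (Cfsg.centralChar ξ₁.1 (ccRep L))
          ∧ Cfsg.MemLocalIdeal M (Cfsg.centralChar ξ₂.1 (ccRep L))
      · exact mli_sub hmax hω.1 hω.2
      · have hxC : ((ccRep L : Subgroup.normalizer (D : Set G)) : G)
            ∈ Subgroup.centralizer (D : Set G) := by
          by_contra hnc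
          apply hω
          have hnc' : ccRep L ∉ Subgroup.centralizer
              ((D.subgroupOf (Subgroup.normalizer (D : Set G)) :
                Subgroup (Subgroup.normalizer (D : Set G))) :
                Set (Subgroup.normalizer (D : Set G))) := by
            intro hc
            apply hnc
            rw [Subgroup.mem_centralizer_iff]
            intro d hd
            have h7 := (Subgroup.mem_centralizer_iff.mp hc) ⟨d, hDN hd⟩
              (Subgroup.mem_subgroupOf.mpr hd)
            exact congrArg Subtype.val h7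
          exact ⟨central_char_mli_of_not_centralizing p M hM _ hpg _ hnc' ξ₁,
            central_char_mli_of_not_centralizing p M hM _ hpg _ hnc' ξ₂⟩
        obtain ⟨n, Q, hQ⟩ := (minmax_thm p M hM b₁ hb₁ y₁ hy₁ P₁ (ccRep L)).1 (heS _) he
        have hle1 : p ^ (Nat.card (Subgroup.centralizer
            ({ccRep L} : Set (Subgroup.normalizer (D : Set G))))).factorization p
            ≤ Nat.card D := by
          have h1 := Subgroup.card_le_of_le hQ
          rw [Subgroup.card_map_of_injective
            (show Function.Injective (MulAut.conj n).toMonoidHom from (MulAut.conj n).injective),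
            ← hP₁, Subgroup.card_map_of_injective (Subgroup.subtype_injective _),
            Sylow.card_eq_multiplicity] at h1
          rw [hcD1]
          exact h1
        have hDNC : D.subgroupOf (Subgroup.normalizer (D : Set G))
            ≤ Subgroup.centralizer ({ccRep L} : Set (Subgroup.normalizer (D : Set G))) := by
          intro d hd
          exact Subgroup.mem_centralizer_singleton_iff.mpr (Subtype.ext
            ((Subgroup.mem_centralizer_iff.mp hxC) (d : G) (Subgroup.mem_subgroupOf.mp hd)))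
        have hle2 : Nat.card D ≤ p ^ (Nat.card (Subgroup.centralizer
            ({ccRep L} : Set (Subgroup.normalizer (D : Set G))))).factorization p := by
          obtain ⟨Q', hQ'⟩ := (hpg.comap_subtype (K := Subgroup.centralizer
            ({ccRep L} : Set (Subgroup.normalizer (D : Set G))))).exists_le_sylow
          have h1 := Subgroup.card_le_of_le hQ'
          rw [Sylow.card_eq_multiplicity] at h1
          have h8 : Nat.card ((D.subgroupOf (Subgroup.normalizer (D : Set G))).subgroupOf
              (Subgroup.centralizer ({ccRep L} : Set (Subgroup.normalizer (D : Set G)))))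
              = Nat.card (D.subgroupOf (Subgroup.normalizer (D : Set G))) :=
            Nat.card_congr (Subgroup.subgroupOfEquivOfLe hDNC).toEquiv
          rw [hcD1, ← h8]
          exact h1
        have hcard := le_antisymm hle2 hle1
        have hS := sylow_centralizer_of_card p D hD (ccRep L) hxC hcard
        have h1 := induced_eq_central_of_defect p M hM D hD (ccRep L) hxC hS ξ₁
        have h2 := induced_eq_central_of_defect p M hM D hD (ccRep L) hxC hS ξ₂
        have h3 := hi₁.2.2 ξ₁ hξ₁ χ₁ hχ₁ ((ccRep L : Subgroup.normalizer (D : Set G)) : G)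
        have h4 := hi₂.2.2 ξ₂ hξ₂ χ₁ hχ₁ ((ccRep L : Subgroup.normalizer (D : Set G)) : G)
        have h5 := mli_add hmax (mli_sub hmax (mli_sub hmax h3 h1) h4) h2
        have e : Cfsg.inducedCentralChar (Subgroup.normalizer (D : Set G)) ξ₁.1
              ((ccRep L : Subgroup.normalizer (D : Set G)) : G)
              - Cfsg.centralChar χ₁.1 ((ccRep L : Subgroup.normalizer (D : Set G)) : G)
            - (Cfsg.inducedCentralChar (Subgroup.normalizer (D : Set G)) ξ₁.1
              ((ccRep L : Subgroup.normalizer (D : Set G)) : G)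
              - Cfsg.centralChar ξ₁.1 (ccRep L))
            - (Cfsg.inducedCentralChar (Subgroup.normalizer (D : Set G)) ξ₂.1
              ((ccRep L : Subgroup.normalizer (D : Set G)) : G)
              - Cfsg.centralChar χ₁.1 ((ccRep L : Subgroup.normalizer (D : Set G)) : G))
            + (Cfsg.inducedCentralChar (Subgroup.normalizer (D : Set G)) ξ₂.1
              ((ccRep L : Subgroup.normalizer (D : Set G)) : G)
              - Cfsg.centralChar ξ₂.1 (ccRep L))
            = Cfsg.centralChar ξ₁.1 (ccRep L) - Cfsg.centralChar ξ₂.1 (ccRep L) := by ring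
        rw [e] at h5
        exact h5
  rw [Om_blockCoeff, Om_blockCoeff, if_pos hξ₁] at key
  by_cases h2 : ξ₂ ∈ b₁
  · exact block_eq_of_sameBlock hmax hb₁ hb₂ h2 hξ₂ (sameBlock_refl hmax _)
  · rw [if_neg h2, sub_zero] at key
    exact absurd key (not_mli_one hmax)

end fmt

/-- S0920: Brauer's First Main Theorem -/
theorem brauer_first_main {G : Type*} [Group G] [Finite G] (p : ℕ) [Fact p.Prime]
    (M : Ideal Cfsg.AlgInt) (hM : Cfsg.IsPModular p M) (D : Subgroup G) (hD : IsPGroup p D) :
    (∀ b : Set (Cfsg.IrrCharacter (Subgroup.normalizer (D : Set G))), Cfsg.IsPBlock M b →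
      Cfsg.IsDefectGroup p M b (D.subgroupOf (Subgroup.normalizer (D : Set G))) →
      ∃ B : Set (Cfsg.IrrCharacter G), Cfsg.IsPBlock M B ∧ Cfsg.IsDefectGroup p M B D ∧
        Cfsg.IsInducedBlock M (Subgroup.normalizer (D : Set G)) b B) ∧
    (∀ B : Set (Cfsg.IrrCharacter G), Cfsg.IsPBlock M B → Cfsg.IsDefectGroup p M B D →
      ∃! b : Set (Cfsg.IrrCharacter (Subgroup.normalizer (D : Set G))), Cfsg.IsPBlock M b ∧
        Cfsg.IsDefectGroup p M b (D.subgroupOf (Subgroup.normalizer (D : Set G))) ∧
        Cfsg.IsInducedBlock M (Subgroup.normalizer (D : Set G)) b B) := by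
  refine ⟨fun b hb hDb => fmt_part1 p M hM D hD b hb hDb, fun B hB hDB => ?_⟩
  obtain ⟨b, hb, hDb, hind⟩ := fmt_part2_exists p M hM D hD B hB hDB
  refine ⟨b, ⟨hb, hDb, hind⟩, ?_⟩
  rintro b' ⟨hb', hDb', hind'⟩
  exact fmt_unique p M hM D hD B hB b' b hb' hb hDb' hind' hind

end Cfsg.Agent.Lib.Lead
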