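import Mathlib
import Cfsg.Prelude.Def_Blocks
import Cfsg.Agent.Lib.Lead.Block20

set_option autoImplicit false

namespace Cfsg.Agent.Lib.Lead

open scoped ComplexConjugate

section transport

variable {A A' : Type*} [Group A] [Group A'] [Fintype A] [Fintype A']

theorem Om_comp_equiv (e : A ≃* A') (θ c : A' → ℂ) :
    Om (fun a => θ (e a)) (fun a => c (e a)) = Om θ c := by
  unfold Om
  beta_reduce
  rw [map_one]
  congr 1
  exact Fintype.sum_equiv e.toEquiv _ _ (fun a => rfl)

theorem isConj_equiv_iff (e : A ≃* A') (a x : A) : IsConj (e a) (e x) ↔ IsConj a x := by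
  constructor
  · intro h
    have h1 := e.symm.toMonoidHom.map_isConj h
    simpa using h1
  · intro h
    exact e.toMonoidHom.map_isConj h

theorem centralChar_comp_equiv (e : A ≃* A') (θ : Cfsg.IrrCharacter A') (a : A) :
    Cfsg.centralChar (fun a => θ.1 (e a)) a = Cfsg.centralChar θ.1 (e a) := by
  classical
  have hθ' : Cfsg.IsIrrCharacter A (fun a => θ.1 (e a)) :=
    isIrrCharacter_comp_surj e.toMonoidHom e.surjective θ.2
  have h1 := Om_classInd (⟨_, hθ'⟩ : Cfsg.IrrCharacter A) a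
  have h2 := Om_classInd θ (e a)
  have h3 : (fun x : A => if IsConj a x then (1 : ℂ) else 0)
      = fun x => (fun y : A' => if IsConj (e a) y then (1 : ℂ) else 0) (e x) := by
    funext x
    beta_reduce
    by_cases hc : IsConj a x
    · rw [if_pos hc, if_pos ((isConj_equiv_iff e a x).mpr hc)]
    · rw [if_neg hc, if_neg (fun h => hc ((isConj_equiv_iff e a x).mp h))]
  have h4 := Om_comp_equiv e θ.1 (fun y : A' => if IsConj (e a) y then (1 : ℂ) else 0)
  rw [← h3] at h4
  exact h1.symm.trans (h4.trans h2)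

theorem sameBlock_comp_equiv {M : Ideal Cfsg.AlgInt} (e : A ≃* A')
    (θ ψ : Cfsg.IrrCharacter A') (h : Cfsg.SameBlock M θ.1 ψ.1) :
    Cfsg.SameBlock M (fun a => θ.1 (e a)) (fun a => ψ.1 (e a)) := by
  intro a
  rw [centralChar_comp_equiv, centralChar_comp_equiv]
  exact h (e a)

end transport

section lift

variable {G : Type*} [Group G] [Finite G]

/-- transport of a set of characters of `L` to the copy of `L` inside `N` -/
def liftBlock {L N : Subgroup G} (hLN : L ≤ N) (b : Set (Cfsg.IrrCharacter L)) :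
    Set (Cfsg.IrrCharacter (L.subgroupOf N)) :=
  {ψ | ∃ θ ∈ b, ψ.1 = fun a => θ.1 (Subgroup.subgroupOfEquivOfLe hLN a)}

theorem irr_lift {L N : Subgroup G} (hLN : L ≤ N) (θ : Cfsg.IrrCharacter L) :
    Cfsg.IsIrrCharacter (L.subgroupOf N)
      (fun a => θ.1 (Subgroup.subgroupOfEquivOfLe hLN a)) :=
  isIrrCharacter_comp_surj (Subgroup.subgroupOfEquivOfLe hLN).toMonoidHom
    (Subgroup.subgroupOfEquivOfLe hLN).surjective θ.2

theorem liftBlock_isPBlock {M : Ideal Cfsg.AlgInt} (hM : M.IsMaximal) {L N : Subgroup G}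
    (hLN : L ≤ N) (b : Set (Cfsg.IrrCharacter L)) (hb : Cfsg.IsPBlock M b) :
    Cfsg.IsPBlock M (liftBlock hLN b) := by
  classical
  haveI : Fintype L := Fintype.ofFinite L
  haveI : Fintype (L.subgroupOf N) := Fintype.ofFinite _
  obtain ⟨θ₀, rfl⟩ := hb
  refine ⟨⟨_, irr_lift hLN θ₀⟩, ?_⟩
  ext ψ
  constructor
  · rintro ⟨θ, hθ, hψ⟩
    show Cfsg.SameBlock M (fun a => θ₀.1 (Subgroup.subgroupOfEquivOfLe hLN a)) ψ.1
    rw [hψ]
    exact sameBlock_comp_equiv (Subgroup.subgroupOfEquivOfLe hLN) θ₀ θ hθ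
  · intro hψ
    have hirr : Cfsg.IsIrrCharacter L
        (fun x => ψ.1 ((Subgroup.subgroupOfEquivOfLe hLN).symm x)) :=
      isIrrCharacter_comp_surj (Subgroup.subgroupOfEquivOfLe hLN).symm.toMonoidHom
        (Subgroup.subgroupOfEquivOfLe hLN).symm.surjective ψ.2
    refine ⟨⟨_, hirr⟩, ?_, ?_⟩
    · have h1 := sameBlock_comp_equiv (Subgroup.subgroupOfEquivOfLe hLN).symm
        (⟨_, irr_lift hLN θ₀⟩ : Cfsg.IrrCharacter (L.subgroupOf N)) ψ hψ
      have h2 : (fun x : L => (fun a => θ₀.1 (Subgroup.subgroupOfEquivOfLe hLN a))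
          ((Subgroup.subgroupOfEquivOfLe hLN).symm x)) = θ₀.1 := by
        funext x
        beta_reduce
        rw [MulEquiv.apply_symm_apply]
      show Cfsg.SameBlock M θ₀.1 (fun x => ψ.1 ((Subgroup.subgroupOfEquivOfLe hLN).symm x))
      rw [← h2]
      exact h1
    · funext a
      show ψ.1 a = ψ.1 ((Subgroup.subgroupOfEquivOfLe hLN).symm
        (Subgroup.subgroupOfEquivOfLe hLN a))
      rw [MulEquiv.symm_apply_apply]

/-- transitivity of block induction through an intermediate subgroup -/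
theorem induced_trans_lift (p : ℕ) [Fact p.Prime] (M : Ideal Cfsg.AlgInt)
    (hM : Cfsg.IsPModular p M) {L N : Subgroup G} (hLN : L ≤ N)
    (b : Set (Cfsg.IrrCharacter L)) (B : Set (Cfsg.IrrCharacter G))
    (hb : Cfsg.IsInducedBlock M L b B) (β : Set (Cfsg.IrrCharacter N))
    (hβ : Cfsg.IsInducedBlock M (L.subgroupOf N) (liftBlock hLN b) β) :
    Cfsg.IsInducedBlock M N β B := by
  classical
  haveI : Fintype G := Fintype.ofFinite G
  haveI : Fintype L := Fintype.ofFinite L
  haveI : Fintype N := Fintype.ofFinite N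
  haveI : Fintype (L.subgroupOf N) := Fintype.ofFinite _
  have hmax := hM.2.1
  refine ⟨hβ.2.1, hb.2.1, ?_⟩
  intro ξ hξ χ hχ g
  obtain ⟨θ, hθ⟩ := block_nonempty hmax hb.1
  have hθl : (⟨_, irr_lift hLN θ⟩ : Cfsg.IrrCharacter (L.subgroupOf N)) ∈ liftBlock hLN b :=
    ⟨θ, hθ, rfl⟩
  have hc : Cfsg.IsClassFunction N (fun n : N => if IsConj g (n : G) then (1 : ℂ) else 0) := by
    intro x k
    show (if IsConj g ((k * x * k⁻¹ : N) : G) then (1 : ℂ) else 0)
      = if IsConj g (x : G) then (1 : ℂ) else 0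
    have h4 : IsConj g ((k * x * k⁻¹ : N) : G) ↔ IsConj g (x : G) := by
      have hc : IsConj (x : G) ((k * x * k⁻¹ : N) : G) := isConj_iff.mpr ⟨(k : G), by simp⟩
      exact ⟨fun h1 => h1.trans hc.symm, fun h1 => h1.trans hc⟩
    simp only [h4]
  have hcS : ∀ n : N, Cfsg.MemLocalRing M (if IsConj g (n : G) then (1 : ℂ) else 0) := by
    intro n
    split_ifs
    · exact mlr_one hmax
    · exact mlr_zero hmax
  have h1 := induced_Om_congr hmax (L.subgroupOf N) ⟨_, irr_lift hLN θ⟩ ξ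
    (fun n => hβ.2.2 _ hθl ξ hξ n) hc hcS
  have h2 := hb.2.2 θ hθ χ hχ g
  have e1 : Om (fun a : L.subgroupOf N => θ.1 (Subgroup.subgroupOfEquivOfLe hLN a))
      (fun a : L.subgroupOf N => if IsConj g ((a : N) : G) then (1 : ℂ) else 0)
      = Cfsg.inducedCentralChar L θ.1 g := by
    rw [inducedCentralChar_eq]
    exact Om_comp_equiv (Subgroup.subgroupOfEquivOfLe hLN) θ.1
      (fun h : L => if IsConj g (h : G) then (1 : ℂ) else 0)
  have e2 : Om ξ.1 (fun n : N => if IsConj g (n : G) then (1 : ℂ) else 0)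
      = Cfsg.inducedCentralChar N ξ.1 g := (inducedCentralChar_eq N ξ.1 g).symm
  have h1' : Cfsg.MemLocalIdeal M (Cfsg.inducedCentralChar L θ.1 g
      - Cfsg.inducedCentralChar N ξ.1 g) := by
    rw [← e1, ← e2]
    exact h1
  have h3 := mli_sub hmax h2 h1'
  have e : Cfsg.inducedCentralChar L θ.1 g - Cfsg.centralChar χ.1 g
      - (Cfsg.inducedCentralChar L θ.1 g - Cfsg.inducedCentralChar N ξ.1 g)
      = Cfsg.inducedCentralChar N ξ.1 g - Cfsg.centralChar χ.1 g := by ring
  rw [e] at h3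
  exact h3

/-- a block inducing a block with defect group `P` from a subgroup between `P C(P)` and `N(P)`
has defect group `P` -/
theorem defect_of_inducing (p : ℕ) [Fact p.Prime] (M : Ideal Cfsg.AlgInt)
    (hM : Cfsg.IsPModular p M) (P H : Subgroup G) (hPH : P ≤ H)
    (hHN : H ≤ Subgroup.normalizer (P : Set G)) (B : Set (Cfsg.IrrCharacter G))
    (hB : Cfsg.IsPBlock M B) (hPB : Cfsg.IsDefectGroup p M B P)
    (b : Set (Cfsg.IrrCharacter H)) (hbind : Cfsg.IsInducedBlock M H b B) :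
    Cfsg.IsDefectGroup p M b (P.subgroupOf H) := by
  classical
  have hD : IsPGroup p P := defect_group_isPGroup p M B P hPB
  have hb := hbind.1
  obtain ⟨g, hg⟩ := exists_defect_class_thm p M hM b hb
  obtain ⟨P₀⟩ : Nonempty (Sylow p (Subgroup.centralizer ({g} : Set H))) := inferInstance
  have hDb : Cfsg.IsDefectGroup p M b ((P₀ : Subgroup _).map
      (Subgroup.centralizer ({g} : Set H)).subtype) := ⟨g, hg, P₀, rfl⟩
  have h2 := pcore_le_defect_thm p M hM b hb _ hDb
  obtain ⟨E, hE, hle⟩ := induced_defect_le_thm p M hM _ b hb B hB hbind _ hDb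
  have hcard := defect_group_card_eq p M hM B hB P E hPB hE
  have hn : (P.subgroupOf H).Normal := Subgroup.normal_subgroupOf_of_le_normalizer hHN
  have hpg : IsPGroup p (P.subgroupOf H) := hD.comap_subtype
  have hle2 : P.subgroupOf H ≤ Cfsg.pCore p H := le_sSup ⟨hn, hpg⟩
  have hle3 := hle2.trans h2
  have hc : Nat.card ((P₀ : Subgroup _).map (Subgroup.centralizer ({g} : Set H)).subtype)
      ≤ Nat.card (P.subgroupOf H) := by
    have h4 := Subgroup.card_le_of_le hle
    rw [Subgroup.card_map_of_injective (Subgroup.subtype_injective H)] at h4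
    rw [Nat.card_congr (Subgroup.subgroupOfEquivOfLe hPH).toEquiv, hcard]
    exact h4
  have heq := Subgroup.eq_of_le_of_card_ge hle3 hc
  rw [heq]
  exact hDb

/-- blocks of `L` (between `P C(P)` and `N(P)`, normalized by `N(P)`) inducing the same block
with defect group `P` are conjugate under `N(P)` -/
theorem efmt_conj (p : ℕ) [Fact p.Prime] (M : Ideal Cfsg.AlgInt) (hM : Cfsg.IsPModular p M)
    (B : Set (Cfsg.IrrCharacter G)) (hB : Cfsg.IsPBlock M B) (P : Subgroup G)
    (hP : Cfsg.IsDefectGroup p M B P) (L : Subgroup G) (hPL : P ≤ L)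
    (hCL : Subgroup.centralizer (P : Set G) ≤ L) (hLN : L ≤ Subgroup.normalizer (P : Set G))
    (hLn : (L.subgroupOf (Subgroup.normalizer (P : Set G))).Normal)
    (b b' : Set (Cfsg.IrrCharacter L)) (hb : Cfsg.IsInducedBlock M L b B)
    (hb' : Cfsg.IsInducedBlock M L b' B) :
    ∃ n ∈ Subgroup.normalizer (P : Set G), ∀ θ ∈ b, ∃ θ' ∈ b', ∀ x : L,
      ∀ hx : n * (x : G) * n⁻¹ ∈ L, θ'.1 x = θ.1 ⟨n * (x : G) * n⁻¹, hx⟩ := by
  classical
  haveI : Fintype G := Fintype.ofFinite G
  haveI : Fintype (Subgroup.normalizer (P : Set G)) := Fintype.ofFinite _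
  haveI : Fintype (L.subgroupOf (Subgroup.normalizer (P : Set G))) := Fintype.ofFinite _
  haveI := hLn
  have hmax := hM.2.1
  have hPp : IsPGroup p P := defect_group_isPGroup p M B P hP
  have hPN : P ≤ Subgroup.normalizer (P : Set G) := Subgroup.le_normalizer
  haveI hP'n : (P.subgroupOf (Subgroup.normalizer (P : Set G))).Normal :=
    Subgroup.normal_subgroupOf_of_le_normalizer le_rfl
  have hP'p : IsPGroup p (P.subgroupOf (Subgroup.normalizer (P : Set G))) := hPp.comap_subtype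
  have hP'L' : P.subgroupOf (Subgroup.normalizer (P : Set G))
      ≤ L.subgroupOf (Subgroup.normalizer (P : Set G)) :=
    fun y hy => Subgroup.mem_subgroupOf.mpr (hPL (Subgroup.mem_subgroupOf.mp hy))
  have hCL' : Subgroup.centralizer
      ((P.subgroupOf (Subgroup.normalizer (P : Set G)) :
        Subgroup (Subgroup.normalizer (P : Set G))) : Set (Subgroup.normalizer (P : Set G)))
      ≤ L.subgroupOf (Subgroup.normalizer (P : Set G)) := by
    intro y hy
    apply Subgroup.mem_subgroupOf.mpr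
    apply hCL
    rw [Subgroup.mem_centralizer_iff]
    intro d hd
    have h7 := (Subgroup.mem_centralizer_iff.mp hy) ⟨d, hPN hd⟩ (Subgroup.mem_subgroupOf.mpr hd)
    exact congrArg Subtype.val h7
  have hL'N : L.subgroupOf (Subgroup.normalizer (P : Set G))
      ≤ Subgroup.normalizer ((P.subgroupOf (Subgroup.normalizer (P : Set G)) :
        Subgroup (Subgroup.normalizer (P : Set G))) : Set (Subgroup.normalizer (P : Set G))) := by
    rw [Subgroup.normalizer_eq_top (H := P.subgroupOf (Subgroup.normalizer (P : Set G)))]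
    exact le_top
  have hbl := liftBlock_isPBlock hmax hLN b hb.1
  have hbl' := liftBlock_isPBlock hmax hLN b' hb'.1
  obtain ⟨β, hβ⟩ := induced_block_defined_thm p M hM
    (P.subgroupOf (Subgroup.normalizer (P : Set G)))
    (L.subgroupOf (Subgroup.normalizer (P : Set G))) hP'p hP'L' hCL' hL'N (liftBlock hLN b) hbl
  obtain ⟨β', hβ'⟩ := induced_block_defined_thm p M hM
    (P.subgroupOf (Subgroup.normalizer (P : Set G)))
    (L.subgroupOf (Subgroup.normalizer (P : Set G))) hP'p hP'L' hCL' hL'N (liftBlock hLN b') hbl'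
  have hi := induced_trans_lift p M hM hLN b B hb β hβ
  have hi' := induced_trans_lift p M hM hLN b' B hb' β' hβ'
  have hDβ := defect_of_inducing p M hM P (Subgroup.normalizer (P : Set G)) hPN le_rfl B hB hP β hi
  have heq : β = β' := fmt_unique p M hM P hPp B hB β β' hβ.2.1 hβ'.2.1 hDβ hi hi'
  subst heq
  have hcov : ∃ χ ∈ β, ∃ θ ∈ liftBlock hLN b, Cfsg.classInner
      (fun n : L.subgroupOf (Subgroup.normalizer (P : Set G)) => χ.1 n) θ.1 ≠ 0 := by
    apply (passman_cover p M hM (L.subgroupOf (Subgroup.normalizer (P : Set G))) β hβ.2.1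
      (liftBlock hLN b) hbl).mpr
    intro χ hχ θ hθ n
    have h1 := mli_neg (hβ.2.2 θ hθ χ hχ n)
    rw [neg_sub] at h1
    exact h1
  have hcov' : ∃ χ ∈ β, ∃ θ ∈ liftBlock hLN b', Cfsg.classInner
      (fun n : L.subgroupOf (Subgroup.normalizer (P : Set G)) => χ.1 n) θ.1 ≠ 0 := by
    apply (passman_cover p M hM (L.subgroupOf (Subgroup.normalizer (P : Set G))) β hβ.2.1
      (liftBlock hLN b') hbl').mpr
    intro χ hχ θ hθ n
    have h1 := mli_neg (hβ'.2.2 θ hθ χ hχ n)
    rw [neg_sub] at h1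
    exact h1
  obtain ⟨χ, hχ, θ₁, hθ₁, hcon⟩ := hcov
  obtain ⟨χ', hχ', ψ', hψ', hcon'⟩ := hcov'
  obtain ⟨g, θ₀, hθ₀, hconj⟩ := covered_blocks_conj p M hM
    (L.subgroupOf (Subgroup.normalizer (P : Set G))) β hβ.2.1 (liftBlock hLN b) hbl χ hχ θ₁ hθ₁
    hcon χ' hχ' ψ' hcon'
  refine ⟨(g : G), g.2, ?_⟩
  intro θ hθ
  have hθl : (⟨_, irr_lift hLN θ⟩ :
      Cfsg.IrrCharacter (L.subgroupOf (Subgroup.normalizer (P : Set G)))) ∈ liftBlock hLN b :=
    ⟨θ, hθ, rfl⟩
  have h1 := sameBlock_of_mem_block hmax hbl hθ₀ hθl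
  have h2 := sameBlock_conjFun (L.subgroupOf (Subgroup.normalizer (P : Set G))) θ₀
    ⟨_, irr_lift hLN θ⟩ g h1
  have h3 : conjFun (L.subgroupOf (Subgroup.normalizer (P : Set G))) θ₀.1 g = ψ'.1 := by
    funext n
    rw [conjFun_apply]
    exact (hconj n).symm
  rw [h3] at h2
  have hκ : (⟨conjFun (L.subgroupOf (Subgroup.normalizer (P : Set G)))
      (fun a => θ.1 (Subgroup.subgroupOfEquivOfLe hLN a)) g,
      isIrrCharacter_conjFun (L.subgroupOf (Subgroup.normalizer (P : Set G)))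
        (irr_lift hLN θ) g⟩ :
      Cfsg.IrrCharacter (L.subgroupOf (Subgroup.normalizer (P : Set G)))) ∈ liftBlock hLN b' :=
    mem_block_of_sameBlock hmax hbl' hψ' h2
  obtain ⟨θ', hθ', hκθ'⟩ := hκ
  refine ⟨θ', hθ', ?_⟩
  intro x hx
  have h4 := congrFun hκθ' ((Subgroup.subgroupOfEquivOfLe hLN).symm x)
  beta_reduce at h4
  rw [MulEquiv.apply_symm_apply] at h4
  rw [← h4]
  show conjFun (L.subgroupOf (Subgroup.normalizer (P : Set G)))
      (fun a => θ.1 (Subgroup.subgroupOfEquivOfLe hLN a)) g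
      ((Subgroup.subgroupOfEquivOfLe hLN).symm x) = _
  rw [conjFun_apply]
  congr 1

end lift

/-- S0973: Extended First Main Theorem -/
theorem extended_first_main {G : Type*} [Group G] [Finite G] (p : ℕ) [Fact p.Prime]
    (M : Ideal Cfsg.AlgInt) (hM : Cfsg.IsPModular p M) (B : Set (Cfsg.IrrCharacter G))
    (hB : Cfsg.IsPBlock M B) (P : Subgroup G) (hP : Cfsg.IsDefectGroup p M B P) :
    (∃ b : Set (Cfsg.IrrCharacter ↥(P ⊔ Subgroup.centralizer (P : Set G))),
      Cfsg.IsDefectGroup p M b (P.subgroupOf (P ⊔ Subgroup.centralizer (P : Set G))) ∧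
      Cfsg.IsInducedBlock M (P ⊔ Subgroup.centralizer (P : Set G)) b B) ∧
    ∀ b b' : Set (Cfsg.IrrCharacter ↥(P ⊔ Subgroup.centralizer (P : Set G))),
      Cfsg.IsInducedBlock M (P ⊔ Subgroup.centralizer (P : Set G)) b B →
      Cfsg.IsInducedBlock M (P ⊔ Subgroup.centralizer (P : Set G)) b' B →
      ∃ n ∈ Subgroup.normalizer (P : Set G), ∀ θ ∈ b, ∃ θ' ∈ b',
        ∀ x : ↥(P ⊔ Subgroup.centralizer (P : Set G)),
        ∀ hx : n * (x : G) * n⁻¹ ∈ P ⊔ Subgroup.centralizer (P : Set G),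
          (θ' : ↥(P ⊔ Subgroup.centralizer (P : Set G)) → ℂ) x
            = (θ : ↥(P ⊔ Subgroup.centralizer (P : Set G)) → ℂ) ⟨n * (x : G) * n⁻¹, hx⟩ := by
  have hPp := defect_group_isPGroup p M B P hP
  have hPN : P ≤ Subgroup.normalizer (P : Set G) := Subgroup.le_normalizer
  have hCN := Subgroup.centralizer_le_normalizer (P : Set G)
  have hLN : P ⊔ Subgroup.centralizer (P : Set G) ≤ Subgroup.normalizer (P : Set G) :=
    sup_le hPN hCN
  have hconj : P.map (MulAut.conj (1 : G)).toMonoidHom ≤ P := by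
    rintro w ⟨y, hy, rfl⟩
    simpa using hy
  constructor
  · obtain ⟨b, hbind⟩ := (induced_iff_defect p M hM P (P ⊔ Subgroup.centralizer (P : Set G)) hPp
      le_rfl hLN B hB).mpr ⟨P, hP, 1, hconj⟩
    exact ⟨b, defect_of_inducing p M hM P _ le_sup_left hLN B hB hP b hbind, hbind⟩
  · intro b b' hb hb'
    have hcn : ∀ c n, c ∈ Subgroup.centralizer (P : Set G) →
        n ∈ Subgroup.normalizer (P : Set G) → n * c * n⁻¹ ∈ Subgroup.centralizer (P : Set G) :=
      (Subgroup.normal_subgroupOf_iff (Subgroup.centralizer_le_normalizer _)).mp inferInstance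
    have hLn : ((P ⊔ Subgroup.centralizer (P : Set G)).subgroupOf
        (Subgroup.normalizer (P : Set G))).Normal := by
      rw [Subgroup.normal_subgroupOf_iff hLN]
      intro h n hh hn
      have h1 : n * h * n⁻¹ ∈ (P ⊔ Subgroup.centralizer (P : Set G)).map
          (MulAut.conj n).toMonoidHom := ⟨h, hh, rfl⟩
      rw [Subgroup.map_sup] at h1
      refine (sup_le ?_ ?_ : P.map (MulAut.conj n).toMonoidHom
        ⊔ (Subgroup.centralizer (P : Set G)).map (MulAut.conj n).toMonoidHom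
        ≤ P ⊔ Subgroup.centralizer (P : Set G)) h1
      · rintro w ⟨y, hy, rfl⟩
        apply Subgroup.mem_sup_left
        have hk := hn
        rw [Subgroup.mem_normalizer_iff'] at hk
        have h5 : n * (y * n⁻¹) ∈ P := (hk (y * n⁻¹)).mp (by simpa using hy)
        rw [← mul_assoc] at h5
        exact h5
      · rintro w ⟨y, hy, rfl⟩
        apply Subgroup.mem_sup_right
        exact hcn y n hy hn
    exact efmt_conj p M hM B hB P hP _ le_sup_left le_sup_right hLN hLn b b' hb hb'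

end Cfsg.Agent.Lib.Lead
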