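import Mathlib
import Cfsg.Agent.Lib.Lead.Block21
import Cfsg.Agent.Lib.Helper7.Clifford

/-!
Fong–Reynolds correspondence, part A: counting conjugates of a block of a normal subgroup.
-/

set_option autoImplicit false

namespace Cfsg.Agent.Lib.Lead

open scoped ComplexConjugate

/-- sum of a function vanishing off a subgroup -/
theorem sum_eq_sum_subgroup_of_zero_off {G : Type*} [Group G] [Fintype G] (H : Subgroup G)
    [Fintype H] (F : G → ℂ) (h0 : ∀ g, g ∉ H → F g = 0) : ∑ g : G, F g = ∑ h : H, F h := by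
  classical
  have h1 : ∑ g : G, F g = ∑ g ∈ Finset.univ.filter (· ∈ H), F g := by
    rw [Finset.sum_filter]
    apply Finset.sum_congr rfl
    intro g _
    by_cases h : g ∈ H
    · rw [if_pos h]
    · rw [if_neg h, h0 g h]
  rw [h1]
  exact Finset.sum_subtype (Finset.univ.filter (· ∈ H)) (p := (· ∈ H)) (by simp) F

theorem classInner_comp_mulEquiv {A A' : Type*} [Group A] [Group A'] [Fintype A] [Fintype A']
    (e : A ≃* A') (φ θ : A' → ℂ) :
    Cfsg.classInner (fun a => φ (e a)) (fun a => θ (e a)) = Cfsg.classInner φ θ := by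
  unfold Cfsg.classInner
  rw [Nat.card_congr e.toEquiv]
  congr 1
  exact Equiv.sum_comp e.toEquiv (fun a' => φ a' * conj (θ a'))

section frA

variable {G : Type*} [Group G] [Fintype G] (N : Subgroup G) [hN : N.Normal] [Fintype N]

/-- conjugation as a permutation of the irreducible characters of a normal subgroup -/
noncomputable def irrConjEquiv (g : G) : Cfsg.IrrCharacter N ≃ Cfsg.IrrCharacter N where
  toFun θ := ⟨conjFun N θ.1 g, isIrrCharacter_conjFun N θ.2 g⟩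
  invFun θ := ⟨conjFun N θ.1 g⁻¹, isIrrCharacter_conjFun N θ.2 g⁻¹⟩
  left_inv θ := by
    apply Subtype.ext
    show conjFun N (conjFun N θ.1 g) g⁻¹ = θ.1
    rw [conjFun_mul, mul_inv_cancel, conjFun_one]
  right_inv θ := by
    apply Subtype.ext
    show conjFun N (conjFun N θ.1 g⁻¹) g = θ.1
    rw [conjFun_mul, inv_mul_cancel, conjFun_one]

theorem stab_iff_of_mem {M : Ideal Cfsg.AlgInt} (hM : M.IsMaximal)
    (b : Set (Cfsg.IrrCharacter N)) (hb : Cfsg.IsPBlock M b) (T : Subgroup G)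
    (hT : ∀ g : G, g ∈ T ↔ ∀ θ ∈ b, irrConjEquiv N g θ ∈ b)
    {θ₀ : Cfsg.IrrCharacter N} (hθ₀ : θ₀ ∈ b) (g : G) :
    irrConjEquiv N g θ₀ ∈ b ↔ g ∈ T := by
  constructor
  · intro h
    rw [hT]
    intro θ hθ
    have h1 : Cfsg.SameBlock M (irrConjEquiv N g θ₀).1 (irrConjEquiv N g θ).1 :=
      sameBlock_conjFun N θ₀ θ g (sameBlock_of_mem_block hM hb hθ₀ hθ)
    exact mem_block_of_sameBlock hM hb h h1
  · intro hg
    exact (hT g).mp hg θ₀ hθ₀

open Classical in
theorem count_conj_mem {M : Ideal Cfsg.AlgInt} (hM : M.IsMaximal)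
    (b : Set (Cfsg.IrrCharacter N)) (hb : Cfsg.IsPBlock M b) (T : Subgroup G) [Fintype T]
    (hT : ∀ g : G, g ∈ T ↔ ∀ θ ∈ b, irrConjEquiv N g θ ∈ b) (θ : Cfsg.IrrCharacter N) :
    ∑ g : G, (if irrConjEquiv N g θ ∈ b then (1 : ℂ) else 0)
      = if θ ∈ conjClosure N b then (Nat.card T : ℂ) else 0 := by
  by_cases hθ : θ ∈ conjClosure N b
  · rw [if_pos hθ]
    obtain ⟨x, hx⟩ := hθ
    have hx' : irrConjEquiv N x θ ∈ b := hx
    have h1 : ∀ g : G, irrConjEquiv N g θ ∈ b ↔ x⁻¹ * g ∈ T := by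
      intro g
      rw [← stab_iff_of_mem N hM b hb T hT hx' (x⁻¹ * g)]
      have e : irrConjEquiv N (x⁻¹ * g) (irrConjEquiv N x θ) = irrConjEquiv N g θ := by
        apply Subtype.ext
        show conjFun N (conjFun N θ.1 x) (x⁻¹ * g) = conjFun N θ.1 g
        rw [conjFun_mul, mul_inv_cancel_left]
      rw [e]
    have h2 : ∑ g : G, (if irrConjEquiv N g θ ∈ b then (1 : ℂ) else 0)
        = ∑ g : G, (if x⁻¹ * g ∈ T then (1 : ℂ) else 0) := by
      apply Finset.sum_congr rfl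
      intro g _
      by_cases h : x⁻¹ * g ∈ T
      · rw [if_pos h, if_pos ((h1 g).mpr h)]
      · rw [if_neg h, if_neg (fun h' => h ((h1 g).mp h'))]
    rw [h2]
    have h3 : ∑ g : G, (if x⁻¹ * g ∈ T then (1 : ℂ) else 0)
        = ∑ g : G, (if g ∈ T then (1 : ℂ) else 0) :=
      Fintype.sum_equiv (Equiv.mulLeft x⁻¹) _ _ (fun g => rfl)
    rw [h3, Finset.sum_boole, Nat.card_eq_fintype_card]
    convert congrArg (Nat.cast : ℕ → ℂ)
      (Fintype.card_of_subtype (p := fun g => g ∈ T) (Finset.univ.filter (· ∈ T)) (by simp)).symm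
  · rw [if_neg hθ]
    apply Finset.sum_eq_zero
    intro g _
    rw [if_neg]
    intro h
    exact hθ ⟨g, h⟩

open Classical in
theorem conj_count_sum {M : Ideal Cfsg.AlgInt} (hM : M.IsMaximal)
    (b : Set (Cfsg.IrrCharacter N)) (hb : Cfsg.IsPBlock M b) (T : Subgroup G) [Fintype T]
    (hT : ∀ g : G, g ∈ T ↔ ∀ θ ∈ b, irrConjEquiv N g θ ∈ b)
    [Fintype (Cfsg.IrrCharacter N)]
    (c : Cfsg.IrrCharacter N → ℂ) (hc : ∀ θ g, c (irrConjEquiv N g θ) = c θ) :
    (Nat.card T : ℂ) * ∑ θ : Cfsg.IrrCharacter N, (if θ ∈ conjClosure N b then c θ else 0)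
      = (Nat.card G : ℂ) * ∑ θ : Cfsg.IrrCharacter N, (if θ ∈ b then c θ else 0) := by
  have h1 : ∑ g : G, ∑ θ : Cfsg.IrrCharacter N, (if irrConjEquiv N g θ ∈ b then c θ else 0)
      = (Nat.card T : ℂ) *
        ∑ θ : Cfsg.IrrCharacter N, (if θ ∈ conjClosure N b then c θ else 0) := by
    rw [Finset.sum_comm, Finset.mul_sum]
    apply Finset.sum_congr rfl
    intro θ _
    have e : ∀ g : G, (if irrConjEquiv N g θ ∈ b then c θ else 0)
        = c θ * (if irrConjEquiv N g θ ∈ b then (1 : ℂ) else 0) := by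
      intro g
      by_cases h : irrConjEquiv N g θ ∈ b
      · rw [if_pos h, if_pos h, mul_one]
      · rw [if_neg h, if_neg h, mul_zero]
    rw [Finset.sum_congr rfl (fun g _ => e g), ← Finset.mul_sum,
      count_conj_mem N hM b hb T hT θ]
    by_cases h : θ ∈ conjClosure N b
    · rw [if_pos h, if_pos h, mul_comm]
    · rw [if_neg h, if_neg h, mul_zero, mul_zero]
  have h2 : ∑ g : G, ∑ θ : Cfsg.IrrCharacter N, (if irrConjEquiv N g θ ∈ b then c θ else 0)
      = (Nat.card G : ℂ) * ∑ θ : Cfsg.IrrCharacter N, (if θ ∈ b then c θ else 0) := by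
    have e : ∀ g : G, ∑ θ : Cfsg.IrrCharacter N, (if irrConjEquiv N g θ ∈ b then c θ else 0)
        = ∑ θ : Cfsg.IrrCharacter N, (if θ ∈ b then c θ else 0) := by
      intro g
      rw [← Equiv.sum_comp (irrConjEquiv N g) (fun θ => if θ ∈ b then c θ else 0)]
      apply Finset.sum_congr rfl
      intro θ _
      rw [hc θ g]
    rw [Finset.sum_congr rfl (fun g _ => e g), Finset.sum_const, Finset.card_univ, nsmul_eq_mul,
      Nat.card_eq_fintype_card]
  rw [← h1, h2]

theorem over_conjClosure_iff (b : Set (Cfsg.IrrCharacter N)) (χ : Cfsg.IrrCharacter G) :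
    (∃ θ ∈ conjClosure N b, Cfsg.classInner (fun n : N => χ.1 n) θ.1 ≠ 0) ↔
      ∃ θ ∈ b, Cfsg.classInner (fun n : N => χ.1 n) θ.1 ≠ 0 := by
  constructor
  · rintro ⟨θ, ⟨x, hx⟩, h⟩
    refine ⟨_, hx, ?_⟩
    show Cfsg.classInner (fun n : N => χ.1 n) (conjFun N θ.1 x) ≠ 0
    rw [Cfsg.Agent.Lib.Helper7.Cliff.inner_restrict_conjFun N χ.1 (isClassFunction_of_irr χ) θ.1 x]
    exact h
  · rintro ⟨θ, hθ, h⟩
    exact ⟨θ, subset_conjClosure N b hθ, h⟩

open Classical in
theorem blockCoeff_sum_char {p : ℕ} {M : Ideal Cfsg.AlgInt} (hM : Cfsg.IsPModular p M)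
    (b : Set (Cfsg.IrrCharacter N)) (hb : Cfsg.IsPBlock M b) (T : Subgroup G) [Fintype T]
    (hT : ∀ g : G, g ∈ T ↔ ∀ θ ∈ b, irrConjEquiv N g θ ∈ b) (χ : Cfsg.IrrCharacter G) :
    (Nat.card G : ℂ) * ∑ n : N, Cfsg.blockCoeff b n * χ.1 n
      = (Nat.card T : ℂ) * χ.1 1 *
        (if ∃ θ ∈ b, Cfsg.classInner (fun n : N => χ.1 n) θ.1 ≠ 0 then (1 : ℂ) else 0) := by
  haveI : Fintype (Cfsg.IrrCharacter N) := Fintype.ofFinite _
  obtain ⟨F, hFc, hFS, hF0, hFN, hFOm⟩ := stable_idem_fn N hM (conjClosure N b)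
    (conjClosure_stable N b) (conjClosure_union N hM.2.1 b hb)
  suffices key : (Nat.card G : ℂ) * ∑ n : N, Cfsg.blockCoeff b n * χ.1 n
      = (Nat.card T : ℂ) * χ.1 1 * Om χ.1 F by
    rw [key, hFOm χ]
    by_cases h : ∃ θ ∈ b, Cfsg.classInner (fun n : N => χ.1 n) θ.1 ≠ 0
    · rw [if_pos h, if_pos ((over_conjClosure_iff N b χ).mpr h)]
    · rw [if_neg h, if_neg (fun h' => h ((over_conjClosure_iff N b χ).mp h'))]
  obtain ⟨c, hc⟩ : ∃ c : Cfsg.IrrCharacter N → ℂ,
      c = fun θ => ∑ n : N, θ.1 1 * conj (θ.1 n) * χ.1 n := ⟨_, rfl⟩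
  have hcinv : ∀ θ g, c (irrConjEquiv N g θ) = c θ := by
    intro θ g
    rw [hc]
    show ∑ n : N, conjFun N θ.1 g 1 * conj (conjFun N θ.1 g n) * χ.1 n
      = ∑ n : N, θ.1 1 * conj (θ.1 n) * χ.1 n
    rw [← Equiv.sum_comp (MulAut.conjNormal g : N ≃* N).toEquiv
      (fun n : N => θ.1 1 * conj (θ.1 n) * χ.1 n)]
    apply Finset.sum_congr rfl
    intro n _
    have e1 : conjFun N θ.1 g 1 = θ.1 1 := by
      rw [conjFun_apply]; exact congrArg θ.1 (Subtype.ext (by simp))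
    have e2 : conjFun N θ.1 g n = θ.1 ((MulAut.conjNormal g : N ≃* N) n) := by
      rw [conjFun_apply]
      exact congrArg θ.1 (Subtype.ext (by simp [MulAut.conjNormal_apply]))
    have e3 : χ.1 (((MulAut.conjNormal g : N ≃* N) n : N) : G) = χ.1 n := by
      rw [MulAut.conjNormal_apply]
      exact isClassFunction_of_irr χ n g
    rw [e1, e2]
    show θ.1 1 * conj (θ.1 ((MulAut.conjNormal g : N ≃* N) n)) * χ.1 n
      = θ.1 1 * conj (θ.1 ((MulAut.conjNormal g : N ≃* N) n))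
        * χ.1 (((MulAut.conjNormal g : N ≃* N) n : N) : G)
    rw [e3]
  have hcount := conj_count_sum N hM.2.1 b hb T hT c hcinv
  have hA : ∑ n : N, Cfsg.blockCoeff b n * χ.1 n
      = (Nat.card N : ℂ)⁻¹ * ∑ θ : Cfsg.IrrCharacter N, (if θ ∈ b then c θ else 0) := by
    have e : ∀ n : N, Cfsg.blockCoeff b n * χ.1 n = (Nat.card N : ℂ)⁻¹ *
        ∑ θ : Cfsg.IrrCharacter N, (if θ ∈ b then θ.1 1 * conj (θ.1 n) * χ.1 n else 0) := by
      intro n
      rw [blockCoeff_eq b n, mul_assoc, Finset.sum_mul]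
      congr 1
      apply Finset.sum_congr rfl
      intro θ _
      by_cases h : θ ∈ b
      · rw [if_pos h, if_pos h, mul_one]
      · rw [if_neg h, if_neg h, mul_zero, zero_mul]
    rw [Finset.sum_congr rfl (fun n _ => e n), ← Finset.mul_sum, Finset.sum_comm]
    congr 1
    apply Finset.sum_congr rfl
    intro θ _
    by_cases h : θ ∈ b
    · simp only [if_pos h]; rw [hc]
    · simp only [if_neg h, Finset.sum_const_zero]
  have hB : ∑ x : G, F x * χ.1 x
      = (Nat.card N : ℂ)⁻¹ *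
        ∑ θ : Cfsg.IrrCharacter N, (if θ ∈ conjClosure N b then c θ else 0) := by
    rw [sum_eq_sum_subgroup_of_zero_off N (fun x => F x * χ.1 x)
      (fun g hg => by rw [hF0 g hg, zero_mul])]
    have e : ∀ n : N, F n * χ.1 n = (Nat.card N : ℂ)⁻¹ *
        ∑ θ : Cfsg.IrrCharacter N,
          (if θ ∈ conjClosure N b then θ.1 1 * conj (θ.1 n) * χ.1 n else 0) := by
      intro n
      rw [hFN n, mul_assoc, Finset.sum_mul]
      congr 1
      apply Finset.sum_congr rfl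
      intro θ _
      by_cases h : θ ∈ conjClosure N b
      · rw [if_pos h, if_pos h, mul_one]
      · rw [if_neg h, if_neg h, mul_zero, zero_mul]
    rw [Finset.sum_congr rfl (fun n _ => e n), ← Finset.mul_sum, Finset.sum_comm]
    congr 1
    apply Finset.sum_congr rfl
    intro θ _
    by_cases h : θ ∈ conjClosure N b
    · simp only [if_pos h]; rw [hc]
    · simp only [if_neg h, Finset.sum_const_zero]
  have hOmF : ∑ x : G, F x * χ.1 x = χ.1 1 * Om χ.1 F := by
    have h1 := irr_deg_ne_zero χ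
    unfold Om
    field_simp
  rw [hA, mul_assoc (Nat.card T : ℂ), ← hOmF, hB]
  linear_combination (-(Nat.card N : ℂ)⁻¹) * hcount

end frA

end Cfsg.Agent.Lib.Lead
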