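import Mathlib
import Cfsg.Agent.Lib.Lead.Block22

/-!
Fong–Reynolds correspondence, part B: the stable idempotent on the stabilizer and the
degree count.
-/

set_option autoImplicit false

namespace Cfsg.Agent.Lib.Lead

open scoped ComplexConjugate

/-- transport of irreducible characters to `L.subgroupOf N` as an equivalence -/
noncomputable def irrLiftEquiv {G : Type*} [Group G] [Finite G] {L N : Subgroup G}
    (hLN : L ≤ N) : Cfsg.IrrCharacter L ≃ Cfsg.IrrCharacter (L.subgroupOf N) where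
  toFun θ := ⟨fun a => θ.1 (Subgroup.subgroupOfEquivOfLe hLN a), irr_lift hLN θ⟩
  invFun ψ := ⟨fun a => ψ.1 ((Subgroup.subgroupOfEquivOfLe hLN).symm a),
    isIrrCharacter_comp_surj (Subgroup.subgroupOfEquivOfLe hLN).symm.toMonoidHom
      (Subgroup.subgroupOfEquivOfLe hLN).symm.surjective ψ.2⟩
  left_inv θ := by
    apply Subtype.ext
    funext a
    show θ.1 ((Subgroup.subgroupOfEquivOfLe hLN) ((Subgroup.subgroupOfEquivOfLe hLN).symm a))
      = θ.1 a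
    rw [MulEquiv.apply_symm_apply]
  right_inv ψ := by
    apply Subtype.ext
    funext a
    show ψ.1 ((Subgroup.subgroupOfEquivOfLe hLN).symm ((Subgroup.subgroupOfEquivOfLe hLN) a))
      = ψ.1 a
    rw [MulEquiv.symm_apply_apply]

section frB

variable {G : Type*} [Group G] [Fintype G] (N : Subgroup G) [hN : N.Normal] [Fintype N]

open Classical in
/-- the idempotent of a block `b` of `N`, as a class function on the stabilizer `T` of `b` -/
theorem stab_idem_fn {p : ℕ} {M : Ideal Cfsg.AlgInt} (hM : Cfsg.IsPModular p M)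
    (b : Set (Cfsg.IrrCharacter N)) (hb : Cfsg.IsPBlock M b) (T : Subgroup G) [Fintype T]
    (hT : ∀ g : G, g ∈ T ↔ ∀ θ ∈ b, irrConjEquiv N g θ ∈ b) (hNT : N ≤ T) :
    ∃ f : T → ℂ, Cfsg.IsClassFunction T f ∧ (∀ t, Cfsg.MemLocalRing M (f t)) ∧
      (∀ χ : G → ℂ, ∑ t : T, f t * χ t = ∑ n : N, Cfsg.blockCoeff b n * χ n) ∧
      ∀ ψ : Cfsg.IrrCharacter T, Om ψ.1 f =
        if ∃ θ ∈ b, Cfsg.classInner (fun n : N => ψ.1 ⟨n, hNT n.2⟩) θ.1 ≠ 0
        then (1 : ℂ) else 0 := by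
  haveI : Fintype (Cfsg.IrrCharacter N) := Fintype.ofFinite _
  haveI : Fintype (N.subgroupOf T) := Fintype.ofFinite _
  haveI : Fintype (Cfsg.IrrCharacter (N.subgroupOf T)) := Fintype.ofFinite _
  have hmax := hM.2.1
  have hblk := liftBlock_isPBlock hmax hNT b hb
  obtain ⟨f, hfc, hfS, hf0, hfN, hfOm⟩ := stable_idem_fn (G := T) (N.subgroupOf T) hM
    (liftBlock hNT b)
    (by
      rintro ψ' ⟨θ, hθ, hψ'⟩ k
      refine ⟨irrConjEquiv N (k : G) θ, (hT k).mp k.2 θ hθ, ?_⟩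
      funext a
      show conjFun (N.subgroupOf T) ψ'.1 k a
        = conjFun N θ.1 (k : G) (Subgroup.subgroupOfEquivOfLe hNT a)
      rw [conjFun_apply, conjFun_apply, hψ']
      exact congrArg θ.1 (Subtype.ext rfl))
    (fun ψ₀ hψ₀ ψ h => mem_block_of_sameBlock hmax hblk hψ₀ h)
  have hfval : ∀ n' : N.subgroupOf T,
      f n' = Cfsg.blockCoeff b (Subgroup.subgroupOfEquivOfLe hNT n') := by
    intro n'
    rw [hfN n', blockCoeff_eq b (Subgroup.subgroupOfEquivOfLe hNT n'),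
      card_subgroupOf_of_le hNT]
    congr 1
    symm
    apply Fintype.sum_equiv (irrLiftEquiv hNT)
    intro θ
    show θ.1 1 * conj (θ.1 (Subgroup.subgroupOfEquivOfLe hNT n')) * _
      = θ.1 (Subgroup.subgroupOfEquivOfLe hNT 1)
        * conj (θ.1 (Subgroup.subgroupOfEquivOfLe hNT n')) * _
    rw [map_one]
    congr 1
    by_cases h : θ ∈ b
    · rw [if_pos h, if_pos]
      exact ⟨θ, h, rfl⟩
    · rw [if_neg h, if_neg]
      rintro ⟨θ₂, hθ₂, h2⟩
      apply h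
      have e : θ = θ₂ := (irrLiftEquiv hNT).injective (Subtype.ext h2)
      rw [e]; exact hθ₂
  refine ⟨f, hfc, hfS, ?_, ?_⟩
  · intro χ
    rw [sum_eq_sum_subgroup_of_zero_off (N.subgroupOf T) (fun t : T => f t * χ t)
      (fun t ht => by rw [hf0 t ht, zero_mul])]
    rw [← Equiv.sum_comp (Subgroup.subgroupOfEquivOfLe hNT).toEquiv
      (fun n : N => Cfsg.blockCoeff b n * χ n)]
    apply Finset.sum_congr rfl
    intro n' _
    show f n' * χ ((n' : T) : G) = _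
    rw [hfval n']
    rfl
  · intro ψ
    rw [hfOm ψ]
    have key : ∀ θ : Cfsg.IrrCharacter N,
        Cfsg.classInner (fun n' : N.subgroupOf T => ψ.1 n')
          (fun a => θ.1 (Subgroup.subgroupOfEquivOfLe hNT a))
          = Cfsg.classInner (fun n : N => ψ.1 ⟨n, hNT n.2⟩) θ.1 :=
      fun θ => classInner_comp_mulEquiv (Subgroup.subgroupOfEquivOfLe hNT)
        (fun n : N => ψ.1 ⟨n, hNT n.2⟩) θ.1
    have hiff : (∃ θ' ∈ liftBlock hNT b,
        Cfsg.classInner (fun n' : N.subgroupOf T => ψ.1 n') θ'.1 ≠ 0) ↔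
        ∃ θ ∈ b, Cfsg.classInner (fun n : N => ψ.1 ⟨n, hNT n.2⟩) θ.1 ≠ 0 := by
      constructor
      · rintro ⟨θ', ⟨θ, hθ, hθ'⟩, h⟩
        refine ⟨θ, hθ, ?_⟩
        rw [← key θ, ← hθ']
        exact h
      · rintro ⟨θ, hθ, h⟩
        refine ⟨irrLiftEquiv hNT θ, ⟨θ, hθ, rfl⟩, ?_⟩
        show Cfsg.classInner (fun n' : N.subgroupOf T => ψ.1 n')
          (fun a => θ.1 (Subgroup.subgroupOfEquivOfLe hNT a)) ≠ 0
        rw [key θ]
        exact h
    by_cases h : ∃ θ ∈ b, Cfsg.classInner (fun n : N => ψ.1 ⟨n, hNT n.2⟩) θ.1 ≠ 0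
    · rw [if_pos h, if_pos (hiff.mpr h)]
    · rw [if_neg h, if_neg (fun h' => h (hiff.mp h'))]

open Classical in
/-- the package: an idempotent class function on `T` with its two spectral properties -/
theorem fr_pack {p : ℕ} {M : Ideal Cfsg.AlgInt} (hM : Cfsg.IsPModular p M)
    (b : Set (Cfsg.IrrCharacter N)) (hb : Cfsg.IsPBlock M b) (T : Subgroup G) [Fintype T]
    (hT : ∀ g : G, g ∈ T ↔ ∀ θ ∈ b, irrConjEquiv N g θ ∈ b) (hNT : N ≤ T) :
    ∃ f : T → ℂ, Cfsg.IsClassFunction T f ∧ (∀ t, Cfsg.MemLocalRing M (f t)) ∧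
      (∀ ψ : Cfsg.IrrCharacter T, Om ψ.1 f =
        if ∃ θ ∈ b, Cfsg.classInner (fun n : N => ψ.1 ⟨n, hNT n.2⟩) θ.1 ≠ 0
        then (1 : ℂ) else 0) ∧
      ∀ χ : Cfsg.IrrCharacter G, (Nat.card G : ℂ) * ∑ t : T, f t * χ.1 t
        = (Nat.card T : ℂ) * χ.1 1 *
          (if ∃ θ ∈ b, Cfsg.classInner (fun n : N => χ.1 n) θ.1 ≠ 0 then (1 : ℂ) else 0) := by
  obtain ⟨f, hfc, hfS, hfsum, hfOm⟩ := stab_idem_fn N hM b hb T hT hNT
  refine ⟨f, hfc, hfS, hfOm, ?_⟩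
  intro χ
  rw [hfsum χ.1]
  exact blockCoeff_sum_char N hM b hb T hT χ

end frB

section frC

variable {G : Type*} [Group G] [Fintype G]

theorem sum_mul_decomp (f χT : G → ℂ) [Fintype (Cfsg.IrrCharacter G)]
    (a : Cfsg.IrrCharacter G → ℂ) (h : χT = ∑ ψ, a ψ • ψ.1) :
    ∑ t : G, f t * χT t = ∑ ψ : Cfsg.IrrCharacter G, a ψ * (ψ.1 1 * Om ψ.1 f) := by
  rw [h]
  have e : ∀ t : G, f t * (∑ ψ : Cfsg.IrrCharacter G, a ψ • ψ.1) t
      = ∑ ψ : Cfsg.IrrCharacter G, a ψ * (f t * ψ.1 t) := by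
    intro t
    rw [Finset.sum_apply, Finset.mul_sum]
    apply Finset.sum_congr rfl
    intro ψ _
    rw [Pi.smul_apply, smul_eq_mul]; ring
  rw [Finset.sum_congr rfl (fun t _ => e t), Finset.sum_comm]
  apply Finset.sum_congr rfl
  intro ψ _
  rw [← Finset.mul_sum]
  congr 1
  have h1 := irr_deg_ne_zero ψ
  unfold Om
  field_simp

/-- a character with an irreducible constituent of the same degree is that constituent -/
theorem char_eq_irr_of_deg (Θ : G → ℂ) (hΘ : Cfsg.IsCharacter G Θ) (χ : Cfsg.IrrCharacter G)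
    (h : Cfsg.classInner Θ χ.1 ≠ 0) (hdeg : Θ 1 = χ.1 1) : Θ = χ.1 := by
  classical
  haveI : Fintype (Cfsg.IrrCharacter G) := Fintype.ofFinite _
  obtain ⟨m, hm⟩ := isCharacter_decomp hΘ
  have hmχ : Cfsg.classInner Θ χ.1 = (m χ : ℂ) := by
    rw [hm]; exact classInner_nat_comb (fun χ => (m χ : ℂ)) χ
  have hm0 : m χ ≠ 0 := by
    intro h0; rw [hmχ, h0] at h; exact h (by simp)
  have hdegs : ∀ χ' : Cfsg.IrrCharacter G, ∃ k : ℕ, 0 < k ∧ χ'.1 1 = (k : ℂ) :=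
    fun χ' => irr_one_eq_nat χ'
  choose d hdpos hd using hdegs
  have h2 : Θ 1 = ((∑ χ', m χ' * d χ' : ℕ) : ℂ) := by
    rw [hm, Finset.sum_apply]
    push_cast
    apply Finset.sum_congr rfl
    intro χ' _
    rw [Pi.smul_apply, smul_eq_mul, hd χ']
  have h3 : ∑ χ', m χ' * d χ' = d χ := by
    have e : ((∑ χ', m χ' * d χ' : ℕ) : ℂ) = (d χ : ℂ) := by rw [← h2, hdeg, hd χ]
    exact_mod_cast e
  have hle0 : d χ ≤ m χ * d χ := Nat.le_mul_of_pos_left _ (Nat.pos_of_ne_zero hm0)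
  have h4 : ∀ χ' : Cfsg.IrrCharacter G, χ' ≠ χ → m χ' = 0 := by
    intro χ' hne
    have h5 : m χ * d χ + m χ' * d χ' ≤ ∑ χ'', m χ'' * d χ'' := by
      rw [← Finset.sum_pair (f := fun χ'' => m χ'' * d χ'') hne.symm]
      exact Finset.sum_le_sum_of_subset (Finset.subset_univ _)
    have h7 : m χ' * d χ' = 0 := by omega
    rcases Nat.mul_eq_zero.mp h7 with h8 | h8
    · exact h8
    · exact absurd h8 (hdpos χ').ne'
  have h5 : m χ = 1 := by
    have h6 : m χ * d χ ≤ ∑ χ'', m χ'' * d χ'' :=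
      Finset.single_le_sum (f := fun χ'' => m χ'' * d χ'') (fun _ _ => Nat.zero_le _)
        (Finset.mem_univ χ)
    rw [h3] at h6
    have h7 : m χ * d χ ≤ 1 * d χ := by rw [one_mul]; exact h6
    have h8 : m χ ≤ 1 := Nat.le_of_mul_le_mul_right h7 (hdpos χ)
    omega
  rw [hm, Finset.sum_eq_single χ]
  · rw [h5]; simp
  · intro χ' _ hne
    rw [h4 χ' hne]; simp
  · intro h; exact absurd (Finset.mem_univ χ) h

open Classical in
/-- the degree count at the heart of the Fong–Reynolds correspondence -/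
theorem fr_core (T : Subgroup G) [Fintype T] (ψ : Cfsg.IrrCharacter T)
    (χ : Cfsg.IrrCharacter G)
    (hψχ : Cfsg.classInner (fun t : T => χ.1 t) ψ.1 ≠ 0)
    (f : T → ℂ) (ov : Cfsg.IrrCharacter T → Prop)
    (hOm : ∀ ψ' : Cfsg.IrrCharacter T, Om ψ'.1 f = if ov ψ' then (1 : ℂ) else 0) (hov : ov ψ)
    (ε : ℂ) (hε : ε = 0 ∨ ε = 1)
    (hS : (Nat.card G : ℂ) * ∑ t : T, f t * χ.1 t = (Nat.card T : ℂ) * χ.1 1 * ε) :
    ε = 1 ∧ (Nat.card G : ℂ) * ψ.1 1 = (Nat.card T : ℂ) * χ.1 1 ∧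
      Cfsg.classInner (fun t : T => χ.1 t) ψ.1 = 1 ∧
      ∀ ψ' : Cfsg.IrrCharacter T, ψ' ≠ ψ → ov ψ' →
        Cfsg.classInner (fun t : T => χ.1 t) ψ'.1 = 0 := by
  haveI : Fintype (Cfsg.IrrCharacter T) := Fintype.ofFinite _
  have hχT : Cfsg.IsCharacter T (fun t : T => χ.1 t) :=
    isCharacter_restrict T (isCharacter_of_irr χ.2)
  obtain ⟨m, hm⟩ := isCharacter_decomp hχT
  have hmv : ∀ ψ' : Cfsg.IrrCharacter T,
      Cfsg.classInner (fun t : T => χ.1 t) ψ'.1 = (m ψ' : ℂ) := by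
    intro ψ'
    rw [hm]; exact classInner_nat_comb (fun χ => (m χ : ℂ)) ψ'
  have hm0 : m ψ ≠ 0 := by
    intro h0; rw [hmv ψ, h0] at hψχ; exact hψχ (by simp)
  have hdegs : ∀ ψ' : Cfsg.IrrCharacter T, ∃ k : ℕ, 0 < k ∧ ψ'.1 1 = (k : ℂ) :=
    fun ψ' => irr_one_eq_nat ψ'
  choose d hdpos hd using hdegs
  obtain ⟨dχ, hdχpos, hdχ⟩ := irr_one_eq_nat χ
  obtain ⟨Snat, hSnatdef⟩ : ∃ S : ℕ, S = ∑ ψ', m ψ' * d ψ' * (if ov ψ' then 1 else 0) :=
    ⟨_, rfl⟩
  have hSnat : ∑ t : T, f t * χ.1 t = (Snat : ℂ) := by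
    refine (sum_mul_decomp f (fun t : T => χ.1 t) (fun ψ' => (m ψ' : ℂ)) hm).trans ?_
    rw [hSnatdef]
    push_cast
    apply Finset.sum_congr rfl
    intro ψ' _
    rw [hOm ψ', hd ψ']
    by_cases h : ov ψ'
    · simp [h]
    · simp [h]
  have hind : Cfsg.classInner (Cfsg.indFun T ψ.1) χ.1 ≠ 0 := by
    rw [frobenius_reciprocity T ψ.1 χ.1 (isClassFunction_of_irr χ), ← classInner_conj_symm,
      hmv ψ]
    simp [hm0]
  obtain ⟨r, hr⟩ := Cfsg.Agent.Lib.Helper7.Cliff.deg_le_of_constituent (Cfsg.indFun T ψ.1)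
    (isCharacter_indFun T ψ.1 (isCharacter_of_irr ψ.2)) χ hind
  rw [indFun_one_eq, hd ψ, hdχ, ← Nat.card_eq_fintype_card] at hr
  have hTne : (Nat.card T : ℂ) ≠ 0 := by exact_mod_cast Nat.card_pos.ne'
  have hr' : Nat.card G * d ψ = Nat.card T * (dχ + r) := by
    have e : ((Nat.card G * d ψ : ℕ) : ℂ) = ((Nat.card T * (dχ + r) : ℕ) : ℂ) := by
      push_cast
      rw [← hr, ← mul_assoc, mul_inv_cancel₀ hTne, one_mul]
    exact_mod_cast e
  have hle1 : m ψ * d ψ ≤ Snat := by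
    have h1 := Finset.single_le_sum (f := fun ψ' => m ψ' * d ψ' * (if ov ψ' then 1 else 0))
      (fun _ _ => Nat.zero_le _) (Finset.mem_univ ψ)
    rw [← hSnatdef] at h1
    simpa [hov] using h1
  have hle0 : d ψ ≤ m ψ * d ψ := Nat.le_mul_of_pos_left _ (Nat.pos_of_ne_zero hm0)
  have hSpos : 0 < Snat := lt_of_lt_of_le (hdpos ψ) (hle0.trans hle1)
  have hGpos : 0 < Nat.card G := Nat.card_pos
  have hTpos : 0 < Nat.card T := Nat.card_pos
  rw [hSnat] at hS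
  have hε1 : ε = 1 := by
    rcases hε with h | h
    · exfalso
      rw [h, mul_zero] at hS
      have e : (Nat.card G * Snat : ℕ) = 0 := by exact_mod_cast hS
      have e2 := Nat.mul_pos hGpos hSpos
      omega
    · exact h
  rw [hε1, mul_one, hdχ] at hS
  have hS' : Nat.card G * Snat = Nat.card T * dχ := by exact_mod_cast hS
  have h1 : Nat.card G * d ψ ≤ Nat.card G * Snat := Nat.mul_le_mul_left _ (hle0.trans hle1)
  have h2 : Nat.card T * dχ ≤ Nat.card T * (dχ + r) :=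
    Nat.mul_le_mul_left _ (Nat.le_add_right _ _)
  have h3 : Nat.card G * Snat = Nat.card G * d ψ := by omega
  have h4 : Snat = d ψ := Nat.eq_of_mul_eq_mul_left hGpos h3
  have h5 : Nat.card G * d ψ = Nat.card T * dχ := by omega
  have hm1 : m ψ = 1 := by
    have h6 : m ψ * d ψ ≤ 1 * d ψ := by rw [one_mul]; exact hle1.trans h4.le
    have h7 : m ψ ≤ 1 := Nat.le_of_mul_le_mul_right h6 (hdpos ψ)
    omega
  have hm' : ∀ ψ' : Cfsg.IrrCharacter T, ψ' ≠ ψ → ov ψ' → m ψ' = 0 := by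
    intro ψ' hne hov'
    have h6 : m ψ * d ψ * (if ov ψ then 1 else 0) + m ψ' * d ψ' * (if ov ψ' then 1 else 0)
        ≤ Snat := by
      rw [hSnatdef, ← Finset.sum_pair
        (f := fun ψ'' => m ψ'' * d ψ'' * (if ov ψ'' then 1 else 0)) hne.symm]
      exact Finset.sum_le_sum_of_subset (Finset.subset_univ _)
    rw [if_pos hov, if_pos hov', mul_one, mul_one, h4] at h6
    have h7 : m ψ' * d ψ' = 0 := by omega
    rcases Nat.mul_eq_zero.mp h7 with h8 | h8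
    · exact h8
    · exact absurd h8 (hdpos ψ').ne'
  refine ⟨hε1, ?_, ?_, ?_⟩
  · rw [hd ψ, hdχ]; exact_mod_cast h5
  · rw [hmv ψ, hm1]; simp
  · intro ψ' hne hov'
    rw [hmv ψ', hm' ψ' hne hov']; simp

end frC

end Cfsg.Agent.Lib.Lead
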