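import Mathlib
import Cfsg.Agent.Lib.Lead.Block23

/-!
Fong–Reynolds correspondence, part C: irreducibility of induced characters, the trace
argument and the theorem.
-/

set_option autoImplicit false

namespace Cfsg.Agent.Lib.Lead

open scoped ComplexConjugate

section frE

variable {G : Type*} [Group G] [Fintype G]

/-- a right-`K`-invariant function sums to `|K|` times a partial sum -/
theorem sum_right_coset_inv (K : Subgroup G) (f : G → ℂ)
    (hf : ∀ y : G, ∀ k ∈ K, f (y * k) = f y) :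
    ∃ t : Finset G, ∑ y : G, f y = (Nat.card K : ℂ) * ∑ y ∈ t, f y := by
  classical
  haveI : Fintype (G ⧸ K) := Fintype.ofFinite _
  refine ⟨Finset.univ.image (fun q : G ⧸ K => q.out), ?_⟩
  rw [← Finset.sum_fiberwise (Finset.univ) (QuotientGroup.mk : G → G ⧸ K) f]
  rw [Finset.sum_image (by
    intro q _ q' _ h
    have := congrArg (QuotientGroup.mk : G → G ⧸ K) h
    simpa using this), Finset.mul_sum]
  apply Finset.sum_congr rfl
  intro q _
  have h1 : ∀ y ∈ Finset.univ.filter (fun y : G => (QuotientGroup.mk y : G ⧸ K) = q),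
      f y = f q.out := by
    intro y hy
    have hy' : (QuotientGroup.mk y : G ⧸ K) = q := (Finset.mem_filter.mp hy).2
    have h2 : q.out⁻¹ * y ∈ K := by
      rw [← QuotientGroup.eq, QuotientGroup.out_eq', hy']
    have h3 := hf q.out _ h2
    rw [mul_inv_cancel_left] at h3
    exact h3
  rw [Finset.sum_congr rfl h1, Finset.sum_const, nsmul_eq_mul]
  congr 1
  have hc : Nat.card {y : G // (QuotientGroup.mk y : G ⧸ K) = q} = Nat.card K := by
    have e := QuotientGroup.preimageMkEquivSubgroupProdSet K ({q} : Set (G ⧸ K))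
    have h3 := Nat.card_congr e
    rw [Nat.card_prod] at h3
    have h4 : Nat.card (({q} : Set (G ⧸ K)) : Type _) = 1 := by simp
    rw [h4, mul_one] at h3
    exact h3
  rw [← hc, Nat.card_eq_fintype_card, Fintype.card_subtype]

/-- an induced class function with local-integer values has local-integer values -/
theorem indFun_mlr {M : Ideal Cfsg.AlgInt} (hM : M.IsMaximal) (T : Subgroup G) [Fintype T]
    (w : T → ℂ) (hw : Cfsg.IsClassFunction T w) (hwS : ∀ t, Cfsg.MemLocalRing M (w t))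
    (x : G) : Cfsg.MemLocalRing M (Cfsg.indFun T w x) := by
  obtain ⟨t, ht⟩ := sum_right_coset_inv T (fun y => Cfsg.extendByZero T w (y⁻¹ * x * y)) (by
    intro y k hk
    show Cfsg.extendByZero T w ((y * k)⁻¹ * x * (y * k))
      = Cfsg.extendByZero T w (y⁻¹ * x * y)
    have e : (y * k)⁻¹ * x * (y * k) = k⁻¹ * (y⁻¹ * x * y) * k := by group
    rw [e]
    by_cases h : y⁻¹ * x * y ∈ T
    · have h' : k⁻¹ * (y⁻¹ * x * y) * k ∈ T := T.mul_mem (T.mul_mem (T.inv_mem hk) h) hk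
      rw [extendByZero_mem' T w h', extendByZero_mem' T w h]
      have h2 := hw ⟨y⁻¹ * x * y, h⟩ ⟨k⁻¹, T.inv_mem hk⟩
      refine (congrArg w (Subtype.ext ?_)).trans h2
      simp
    · have h' : k⁻¹ * (y⁻¹ * x * y) * k ∉ T := by
        intro h2
        apply h
        have h3 := T.mul_mem (T.mul_mem hk h2) (T.inv_mem hk)
        have e2 : k * (k⁻¹ * (y⁻¹ * x * y) * k) * k⁻¹ = y⁻¹ * x * y := by group
        rwa [e2] at h3
      rw [extendByZero_not_mem T w h', extendByZero_not_mem T w h])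
  have ht' : ∑ y : G, Cfsg.extendByZero T w (y⁻¹ * x * y)
      = (Nat.card T : ℂ) * ∑ y ∈ t, Cfsg.extendByZero T w (y⁻¹ * x * y) := ht
  rw [indFun_apply, ht', ← mul_assoc,
    inv_mul_cancel₀ (by exact_mod_cast Nat.card_pos.ne' : (Nat.card T : ℂ) ≠ 0), one_mul]
  apply mlr_sum hM
  intro y _
  by_cases h : y⁻¹ * x * y ∈ T
  · rw [extendByZero_mem' T w h]; exact hwS _
  · rw [extendByZero_not_mem T w h]; exact mlr_zero hM

open Classical in
theorem fr_irr (T : Subgroup G) [Fintype T] (ψ : Cfsg.IrrCharacter T)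
    (f : T → ℂ) (ov : Cfsg.IrrCharacter T → Prop)
    (hOm : ∀ ψ' : Cfsg.IrrCharacter T, Om ψ'.1 f = if ov ψ' then (1 : ℂ) else 0) (hov : ov ψ)
    (hS : ∀ χ : Cfsg.IrrCharacter G, ∃ ε : ℂ, (ε = 0 ∨ ε = 1) ∧
      (Nat.card G : ℂ) * ∑ t : T, f t * χ.1 t = (Nat.card T : ℂ) * χ.1 1 * ε) :
    Cfsg.IsIrrCharacter G (Cfsg.indFun T ψ.1) := by
  have hchar : Cfsg.IsCharacter G (Cfsg.indFun T ψ.1) :=
    isCharacter_indFun T ψ.1 (isCharacter_of_irr ψ.2)
  have hTne : (Nat.card T : ℂ) ≠ 0 := by exact_mod_cast Nat.card_pos.ne'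
  have hne : Cfsg.indFun T ψ.1 ≠ 0 := by
    intro h0
    have h1 := congrFun h0 1
    rw [indFun_one_eq] at h1
    have hG : (Fintype.card G : ℂ) ≠ 0 := by exact_mod_cast Fintype.card_ne_zero
    have h2 := irr_deg_ne_zero ψ
    simp [hTne, hG, h2] at h1
  obtain ⟨χ, hχ⟩ := Cfsg.Agent.Lib.Helper7.Cliff.exists_constituent (Cfsg.indFun T ψ.1)
    (indFun_isClassFunction T ψ.1) hne
  have hψχ : Cfsg.classInner (fun t : T => χ.1 t) ψ.1 ≠ 0 := by
    have h1 := hχ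
    rw [frobenius_reciprocity T ψ.1 χ.1 (isClassFunction_of_irr χ)] at h1
    rw [← classInner_conj_symm]
    intro h2
    apply h1
    have h3 := congrArg (starRingEnd ℂ) h2
    simpa using h3
  obtain ⟨ε, hε, hSχ⟩ := hS χ
  obtain ⟨-, hdeg, -, -⟩ := fr_core T ψ χ hψχ f ov hOm hov ε hε hSχ
  have h1 : Cfsg.indFun T ψ.1 1 = χ.1 1 := by
    rw [indFun_one_eq, ← Nat.card_eq_fintype_card, hdeg, ← mul_assoc, inv_mul_cancel₀ hTne,
      one_mul]
  rw [char_eq_irr_of_deg (Cfsg.indFun T ψ.1) hchar χ hχ h1]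
  exact χ.2

open Classical in
theorem fr_struct (T : Subgroup G) [Fintype T] (ψ : Cfsg.IrrCharacter T)
    (f : T → ℂ) (ov : Cfsg.IrrCharacter T → Prop)
    (hOm : ∀ ψ' : Cfsg.IrrCharacter T, Om ψ'.1 f = if ov ψ' then (1 : ℂ) else 0) (hov : ov ψ)
    (hirr : Cfsg.IsIrrCharacter G (Cfsg.indFun T ψ.1))
    (ε : ℂ) (hε : ε = 0 ∨ ε = 1)
    (hS : (Nat.card G : ℂ) * ∑ t : T, f t * Cfsg.indFun T ψ.1 t
      = (Nat.card T : ℂ) * Cfsg.indFun T ψ.1 1 * ε) :
    ε = 1 ∧ (Nat.card G : ℂ) * ψ.1 1 = (Nat.card T : ℂ) * Cfsg.indFun T ψ.1 1 ∧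
      Cfsg.classInner (fun t : T => Cfsg.indFun T ψ.1 t) ψ.1 = 1 ∧
      ∀ ψ' : Cfsg.IrrCharacter T, ψ' ≠ ψ → ov ψ' →
        Cfsg.classInner (fun t : T => Cfsg.indFun T ψ.1 t) ψ'.1 = 0 := by
  have h1 : Cfsg.classInner (fun t : T => Cfsg.indFun T ψ.1 t) ψ.1 ≠ 0 := by
    have h2 := frobenius_reciprocity T ψ.1 (Cfsg.indFun T ψ.1) (indFun_isClassFunction T ψ.1)
    have h3 : Cfsg.classInner (Cfsg.indFun T ψ.1) (Cfsg.indFun T ψ.1) = 1 :=
      irr_inner_self ⟨_, hirr⟩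
    rw [h3] at h2
    rw [← classInner_conj_symm, ← h2]
    simp
  exact fr_core T ψ ⟨_, hirr⟩ h1 f ov hOm hov ε hε hS

/-- the trace argument: the central character of `ψ^G` on an induced class function -/
theorem fr_trace (T : Subgroup G) [Fintype T] (ψ : Cfsg.IrrCharacter T)
    (hirr : Cfsg.IsIrrCharacter G (Cfsg.indFun T ψ.1))
    (ov : Cfsg.IrrCharacter T → Prop)
    (hdeg : (Nat.card G : ℂ) * ψ.1 1 = (Nat.card T : ℂ) * Cfsg.indFun T ψ.1 1)
    (h1 : Cfsg.classInner (fun t : T => Cfsg.indFun T ψ.1 t) ψ.1 = 1)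
    (h0 : ∀ ψ' : Cfsg.IrrCharacter T, ψ' ≠ ψ → ov ψ' →
      Cfsg.classInner (fun t : T => Cfsg.indFun T ψ.1 t) ψ'.1 = 0)
    (w : T → ℂ) (hw0 : ∀ ψ' : Cfsg.IrrCharacter T, ¬ ov ψ' → Om ψ'.1 w = 0) :
    Om (Cfsg.indFun T ψ.1) (Cfsg.indFun T w) = Om ψ.1 w := by
  classical
  haveI : Fintype (Cfsg.IrrCharacter T) := Fintype.ofFinite _
  obtain ⟨χ, hχdef⟩ : ∃ χ : G → ℂ, χ = Cfsg.indFun T ψ.1 := ⟨_, rfl⟩
  rw [← hχdef] at hirr hdeg h1 h0 ⊢
  have hχc : Cfsg.IsClassFunction G χ := by rw [hχdef]; exact indFun_isClassFunction T ψ.1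
  have hχ1 : χ 1 ≠ 0 := irr_deg_ne_zero ⟨χ, hirr⟩
  have hG : (Nat.card G : ℂ) ≠ 0 := by exact_mod_cast Nat.card_pos.ne'
  have hTne : (Nat.card T : ℂ) ≠ 0 := by exact_mod_cast Nat.card_pos.ne'
  have hfrob := frobenius_reciprocity T w (fun x => conj (χ x)) (by
    intro g h
    show conj (χ (h * g * h⁻¹)) = conj (χ g)
    rw [hχc g h])
  unfold Cfsg.classInner at hfrob
  simp only [Complex.conj_conj] at hfrob
  have hexp := class_fn_expand' (fun t : T => χ t)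
    (Cfsg.Agent.Lib.Helper7.Cliff.isClassFunction_restrict T χ hχc)
  have hsum := sum_mul_decomp w (fun t : T => χ t)
    (fun ψ' => Cfsg.classInner (fun t : T => χ t) ψ'.1) hexp
  have hsingle : ∑ ψ' : Cfsg.IrrCharacter T,
      Cfsg.classInner (fun t : T => χ t) ψ'.1 * (ψ'.1 1 * Om ψ'.1 w) = ψ.1 1 * Om ψ.1 w := by
    rw [Finset.sum_eq_single ψ]
    · rw [h1, one_mul]
    · intro ψ' _ hne
      by_cases hov : ov ψ'
      · rw [h0 ψ' hne hov, zero_mul]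
      · rw [hw0 ψ' hov, mul_zero, mul_zero]
    · intro h; exact absurd (Finset.mem_univ ψ) h
  have hsum' : ∑ t : T, w t * χ t = ψ.1 1 * Om ψ.1 w := hsum.trans hsingle
  have e0 : ∑ x : G, Cfsg.indFun T w x * χ x
      = (Nat.card G : ℂ) * ((Nat.card G : ℂ)⁻¹ * ∑ x : G, Cfsg.indFun T w x * χ x) := by
    rw [← mul_assoc, mul_inv_cancel₀ hG, one_mul]
  have e1 : (Nat.card G : ℂ) * ((Nat.card T : ℂ)⁻¹ * (ψ.1 1 * Om ψ.1 w)) = χ 1 * Om ψ.1 w := by
    rw [show (Nat.card G : ℂ) * ((Nat.card T : ℂ)⁻¹ * (ψ.1 1 * Om ψ.1 w))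
      = (Nat.card T : ℂ)⁻¹ * ((Nat.card G : ℂ) * ψ.1 1) * Om ψ.1 w by ring, hdeg, ← mul_assoc,
      inv_mul_cancel₀ hTne, one_mul]
  show (∑ x : G, Cfsg.indFun T w x * χ x) / χ 1 = Om ψ.1 w
  rw [e0, hfrob, hsum', e1]
  field_simp

end frE

end Cfsg.Agent.Lib.Lead
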