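import Mathlib
import Cfsg.Agent.Lib.Lead.Block24

/-!
Fong–Reynolds correspondence, part D: the theorem.
-/

set_option autoImplicit false

namespace Cfsg.Agent.Lib.Lead

open scoped ComplexConjugate

section frD

variable {G : Type*} [Group G] [Fintype G] (N : Subgroup G) [hN : N.Normal] [Fintype N]

theorem fr_irr_over {p : ℕ} {M : Ideal Cfsg.AlgInt} (hM : Cfsg.IsPModular p M)
    (b : Set (Cfsg.IrrCharacter N)) (hb : Cfsg.IsPBlock M b) (T : Subgroup G) [Fintype T]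
    (hT : ∀ g : G, g ∈ T ↔ ∀ θ ∈ b, irrConjEquiv N g θ ∈ b) (hNT : N ≤ T)
    (ψ : Cfsg.IrrCharacter T)
    (hov : ∃ θ ∈ b, Cfsg.classInner (fun n : N => ψ.1 ⟨n, hNT n.2⟩) θ.1 ≠ 0) :
    Cfsg.IsIrrCharacter G (Cfsg.indFun T ψ.1) := by
  classical
  obtain ⟨f, hfc, hfS, hfOm, hfS2⟩ := fr_pack N hM b hb T hT hNT
  refine fr_irr T ψ f
    (fun ψ' => ∃ θ ∈ b, Cfsg.classInner (fun n : N => ψ'.1 ⟨n, hNT n.2⟩) θ.1 ≠ 0) ?_ hov ?_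
  · intro ψ'
    rw [hfOm ψ']
  · intro χ
    by_cases h : ∃ θ ∈ b, Cfsg.classInner (fun n : N => χ.1 n) θ.1 ≠ 0
    · refine ⟨1, Or.inr rfl, ?_⟩
      rw [hfS2 χ, if_pos h]
    · refine ⟨0, Or.inl rfl, ?_⟩
      rw [hfS2 χ, if_neg h]

theorem fr_struct_over {p : ℕ} {M : Ideal Cfsg.AlgInt} (hM : Cfsg.IsPModular p M)
    (b : Set (Cfsg.IrrCharacter N)) (hb : Cfsg.IsPBlock M b) (T : Subgroup G) [Fintype T]
    (hT : ∀ g : G, g ∈ T ↔ ∀ θ ∈ b, irrConjEquiv N g θ ∈ b) (hNT : N ≤ T)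
    (ψ : Cfsg.IrrCharacter T)
    (hov : ∃ θ ∈ b, Cfsg.classInner (fun n : N => ψ.1 ⟨n, hNT n.2⟩) θ.1 ≠ 0) :
    (∃ θ ∈ b, Cfsg.classInner (fun n : N => Cfsg.indFun T ψ.1 n) θ.1 ≠ 0) ∧
      (Nat.card G : ℂ) * ψ.1 1 = (Nat.card T : ℂ) * Cfsg.indFun T ψ.1 1 ∧
      Cfsg.classInner (fun t : T => Cfsg.indFun T ψ.1 t) ψ.1 = 1 ∧
      ∀ ψ' : Cfsg.IrrCharacter T, ψ' ≠ ψ →
        (∃ θ ∈ b, Cfsg.classInner (fun n : N => ψ'.1 ⟨n, hNT n.2⟩) θ.1 ≠ 0) →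
        Cfsg.classInner (fun t : T => Cfsg.indFun T ψ.1 t) ψ'.1 = 0 := by
  classical
  have hirr := fr_irr_over N hM b hb T hT hNT ψ hov
  obtain ⟨f, hfc, hfS, hfOm, hfS2⟩ := fr_pack N hM b hb T hT hNT
  have hOm' : ∀ ψ' : Cfsg.IrrCharacter T, Om ψ'.1 f =
      if (∃ θ ∈ b, Cfsg.classInner (fun n : N => ψ'.1 ⟨n, hNT n.2⟩) θ.1 ≠ 0)
      then (1 : ℂ) else 0 := by
    intro ψ'
    rw [hfOm ψ']
  by_cases h : ∃ θ ∈ b, Cfsg.classInner (fun n : N => Cfsg.indFun T ψ.1 n) θ.1 ≠ 0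
  · have h2 := hfS2 ⟨_, hirr⟩
    rw [if_pos h] at h2
    obtain ⟨-, h3, h4, h5⟩ := fr_struct T ψ f
      (fun ψ' => ∃ θ ∈ b, Cfsg.classInner (fun n : N => ψ'.1 ⟨n, hNT n.2⟩) θ.1 ≠ 0)
      hOm' hov hirr 1 (Or.inr rfl) h2
    exact ⟨h, h3, h4, h5⟩
  · exfalso
    have h2 := hfS2 ⟨_, hirr⟩
    rw [if_neg h] at h2
    obtain ⟨h3, -⟩ := fr_struct T ψ f
      (fun ψ' => ∃ θ ∈ b, Cfsg.classInner (fun n : N => ψ'.1 ⟨n, hNT n.2⟩) θ.1 ≠ 0)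
      hOm' hov hirr 0 (Or.inl rfl) h2
    exact zero_ne_one h3

theorem fr_surj {p : ℕ} {M : Ideal Cfsg.AlgInt} (hM : Cfsg.IsPModular p M)
    (b : Set (Cfsg.IrrCharacter N)) (hb : Cfsg.IsPBlock M b) (T : Subgroup G) [Fintype T]
    (hT : ∀ g : G, g ∈ T ↔ ∀ θ ∈ b, irrConjEquiv N g θ ∈ b) (hNT : N ≤ T)
    (χ : Cfsg.IrrCharacter G)
    (hov : ∃ θ ∈ b, Cfsg.classInner (fun n : N => χ.1 n) θ.1 ≠ 0) :
    ∃ ψ : Cfsg.IrrCharacter T,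
      (∃ θ ∈ b, Cfsg.classInner (fun n : N => ψ.1 ⟨n, hNT n.2⟩) θ.1 ≠ 0) ∧
      χ.1 = Cfsg.indFun T ψ.1 := by
  classical
  haveI : Fintype (Cfsg.IrrCharacter T) := Fintype.ofFinite _
  obtain ⟨f, hfc, hfS, hfOm, hfS2⟩ := fr_pack N hM b hb T hT hNT
  have hχT : Cfsg.IsCharacter T (fun t : T => χ.1 t) :=
    isCharacter_restrict T (isCharacter_of_irr χ.2)
  obtain ⟨m, hm⟩ := isCharacter_decomp hχT
  have hmv : ∀ ψ' : Cfsg.IrrCharacter T,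
      Cfsg.classInner (fun t : T => χ.1 t) ψ'.1 = (m ψ' : ℂ) := by
    intro ψ'
    rw [hm]; exact classInner_nat_comb (fun χ => (m χ : ℂ)) ψ'
  have h1 := hfS2 χ
  rw [if_pos hov, mul_one] at h1
  have h2 : ∑ t : T, f t * χ.1 t ≠ 0 := by
    intro h0
    rw [h0, mul_zero] at h1
    have hTne : (Nat.card T : ℂ) ≠ 0 := by exact_mod_cast Nat.card_pos.ne'
    exact mul_ne_zero hTne (irr_deg_ne_zero χ) h1.symm
  have h3 := sum_mul_decomp f (fun t : T => χ.1 t) (fun ψ' => (m ψ' : ℂ)) hm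
  have h3' : ∑ t : T, f t * χ.1 t
      = ∑ ψ' : Cfsg.IrrCharacter T, (m ψ' : ℂ) * (ψ'.1 1 * Om ψ'.1 f) := h3
  rw [h3'] at h2
  obtain ⟨ψ, -, hψ⟩ := Finset.exists_ne_zero_of_sum_ne_zero h2
  have hmψ : (m ψ : ℂ) ≠ 0 := left_ne_zero_of_mul hψ
  have hOmψ : Om ψ.1 f ≠ 0 := right_ne_zero_of_mul (right_ne_zero_of_mul hψ)
  have hovψ : ∃ θ ∈ b, Cfsg.classInner (fun n : N => ψ.1 ⟨n, hNT n.2⟩) θ.1 ≠ 0 := by
    by_contra hcon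
    rw [hfOm ψ, if_neg hcon] at hOmψ
    exact hOmψ rfl
  have hirr := fr_irr_over N hM b hb T hT hNT ψ hovψ
  refine ⟨ψ, hovψ, ?_⟩
  have h4 : Cfsg.classInner (Cfsg.indFun T ψ.1) χ.1 ≠ 0 := by
    rw [frobenius_reciprocity T ψ.1 χ.1 (isClassFunction_of_irr χ), ← classInner_conj_symm,
      hmv ψ]
    intro h5
    apply hmψ
    have h6 := congrArg (starRingEnd ℂ) h5
    simpa using h6
  have h5 := irr_inner (⟨_, hirr⟩ : Cfsg.IrrCharacter G) χ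
  by_cases h6 : (⟨_, hirr⟩ : Cfsg.IrrCharacter G) = χ
  · exact (congrArg Subtype.val h6).symm
  · rw [if_neg h6] at h5
    exact absurd h5 h4

theorem overT_of_sameBlock {p : ℕ} {M : Ideal Cfsg.AlgInt} (hM : Cfsg.IsPModular p M)
    (b : Set (Cfsg.IrrCharacter N)) (hb : Cfsg.IsPBlock M b) (T : Subgroup G) [Fintype T]
    (hT : ∀ g : G, g ∈ T ↔ ∀ θ ∈ b, irrConjEquiv N g θ ∈ b) (hNT : N ≤ T)
    (ψ₀ ψ : Cfsg.IrrCharacter T) (h : Cfsg.SameBlock M ψ₀.1 ψ.1)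
    (h₀ : ∃ θ ∈ b, Cfsg.classInner (fun n : N => ψ₀.1 ⟨n, hNT n.2⟩) θ.1 ≠ 0) :
    ∃ θ ∈ b, Cfsg.classInner (fun n : N => ψ.1 ⟨n, hNT n.2⟩) θ.1 ≠ 0 := by
  classical
  obtain ⟨f, hfc, hfS, hfOm, -⟩ := fr_pack N hM b hb T hT hNT
  have h1 := Om_congr_mli hM.2.1 h hfc hfS
  rw [hfOm ψ₀, hfOm ψ, if_pos h₀] at h1
  by_contra hcon
  rw [if_neg hcon, sub_zero] at h1
  exact not_mli_one hM.2.1 h1

theorem over_of_sameBlock {p : ℕ} {M : Ideal Cfsg.AlgInt} (hM : Cfsg.IsPModular p M)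
    (b : Set (Cfsg.IrrCharacter N)) (hb : Cfsg.IsPBlock M b)
    (χ₀ χ : Cfsg.IrrCharacter G) (h : Cfsg.SameBlock M χ₀.1 χ.1)
    (h₀ : ∃ θ ∈ b, Cfsg.classInner (fun n : N => χ₀.1 n) θ.1 ≠ 0) :
    ∃ θ ∈ b, Cfsg.classInner (fun n : N => χ.1 n) θ.1 ≠ 0 := by
  classical
  haveI : Fintype (Cfsg.IrrCharacter N) := Fintype.ofFinite _
  obtain ⟨F, hFc, hFS, -, -, hFOm⟩ := stable_idem_fn N hM (conjClosure N b)
    (conjClosure_stable N b) (conjClosure_union N hM.2.1 b hb)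
  have h1 := Om_congr_mli hM.2.1 h hFc hFS
  rw [hFOm χ₀, hFOm χ, if_pos ((over_conjClosure_iff N b χ₀).mpr h₀)] at h1
  by_contra hcon
  rw [if_neg (fun h' => hcon ((over_conjClosure_iff N b χ).mp h')), sub_zero] at h1
  exact not_mli_one hM.2.1 h1

theorem fr_sameBlock_down {p : ℕ} {M : Ideal Cfsg.AlgInt} (hM : Cfsg.IsPModular p M)
    (b : Set (Cfsg.IrrCharacter N)) (hb : Cfsg.IsPBlock M b) (T : Subgroup G) [Fintype T]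
    (hT : ∀ g : G, g ∈ T ↔ ∀ θ ∈ b, irrConjEquiv N g θ ∈ b) (hNT : N ≤ T)
    (ψ₁ ψ₂ : Cfsg.IrrCharacter T)
    (h₁ : ∃ θ ∈ b, Cfsg.classInner (fun n : N => ψ₁.1 ⟨n, hNT n.2⟩) θ.1 ≠ 0)
    (h₂ : ∃ θ ∈ b, Cfsg.classInner (fun n : N => ψ₂.1 ⟨n, hNT n.2⟩) θ.1 ≠ 0)
    (h : Cfsg.SameBlock M (Cfsg.indFun T ψ₁.1) (Cfsg.indFun T ψ₂.1)) :
    Cfsg.SameBlock M ψ₁.1 ψ₂.1 := by
  classical
  have hmax := hM.2.1
  obtain ⟨f, hfc, hfS, hfOm, -⟩ := fr_pack N hM b hb T hT hNT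
  have hirr₁ := fr_irr_over N hM b hb T hT hNT ψ₁ h₁
  have hirr₂ := fr_irr_over N hM b hb T hT hNT ψ₂ h₂
  obtain ⟨-, hd₁, ha₁, hz₁⟩ := fr_struct_over N hM b hb T hT hNT ψ₁ h₁
  obtain ⟨-, hd₂, ha₂, hz₂⟩ := fr_struct_over N hM b hb T hT hNT ψ₂ h₂
  intro t
  obtain ⟨z, hzdef⟩ : ∃ z : T → ℂ, z = fun s : T => if IsConj t s then (1 : ℂ) else 0 :=
    ⟨_, rfl⟩
  have hzc : Cfsg.IsClassFunction T z := by rw [hzdef]; exact isClassFunction_conjInd t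
  have hzS : ∀ s, Cfsg.MemLocalRing M (z s) := by
    intro s
    rw [hzdef]
    by_cases hs : IsConj t s
    · simp only [if_pos hs]; exact mlr_one hmax
    · simp only [if_neg hs]; exact mlr_zero hmax
  have hwc : Cfsg.IsClassFunction T (cconv z f) := cconv_classFn hzc hfc
  have hwS : ∀ s, Cfsg.MemLocalRing M (cconv z f s) := by
    intro s
    unfold cconv
    exact mlr_sum hmax _ _ (fun x _ => mlr_mul hmax (hzS x) (hfS _))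
  have hOmw : ∀ ψ' : Cfsg.IrrCharacter T, Om ψ'.1 (cconv z f)
      = Cfsg.centralChar ψ'.1 t * Om ψ'.1 f := by
    intro ψ'
    rw [Om_cconv ψ' hzc hfc, hzdef, Om_classInd ψ' t]
  have hw0 : ∀ ψ' : Cfsg.IrrCharacter T,
      ¬ (∃ θ ∈ b, Cfsg.classInner (fun n : N => ψ'.1 ⟨n, hNT n.2⟩) θ.1 ≠ 0) →
      Om ψ'.1 (cconv z f) = 0 := by
    intro ψ' hno
    rw [hOmw ψ', hfOm ψ', if_neg hno, mul_zero]
  have tr₁ := fr_trace T ψ₁ hirr₁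
    (fun ψ' => ∃ θ ∈ b, Cfsg.classInner (fun n : N => ψ'.1 ⟨n, hNT n.2⟩) θ.1 ≠ 0)
    hd₁ ha₁ hz₁ (cconv z f) hw0
  have tr₂ := fr_trace T ψ₂ hirr₂
    (fun ψ' => ∃ θ ∈ b, Cfsg.classInner (fun n : N => ψ'.1 ⟨n, hNT n.2⟩) θ.1 ≠ 0)
    hd₂ ha₂ hz₂ (cconv z f) hw0
  have hWc : Cfsg.IsClassFunction G (Cfsg.indFun T (cconv z f)) :=
    indFun_isClassFunction T (cconv z f)
  have hWS : ∀ x, Cfsg.MemLocalRing M (Cfsg.indFun T (cconv z f) x) :=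
    fun x => indFun_mlr hmax T (cconv z f) hwc hwS x
  have h3 := Om_congr_mli hmax (χ := ⟨_, hirr₁⟩) (ψ := ⟨_, hirr₂⟩) h hWc hWS
  have h4 : Cfsg.MemLocalIdeal M (Om (Cfsg.indFun T ψ₁.1) (Cfsg.indFun T (cconv z f))
      - Om (Cfsg.indFun T ψ₂.1) (Cfsg.indFun T (cconv z f))) := h3
  rw [tr₁, tr₂, hOmw ψ₁, hOmw ψ₂, hfOm ψ₁, hfOm ψ₂, if_pos h₁, if_pos h₂, mul_one, mul_one]
    at h4
  exact h4

end frD

/-- **Fong–Reynolds correspondence** -/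
theorem fong_reynolds {G : Type*} [Group G] [Fintype G] (p : ℕ) [Fact p.Prime] (M : Ideal Cfsg.AlgInt) (hM : Cfsg.IsPModular p M) (N : Subgroup G) [hN : N.Normal] [Fintype N] (b : Set (Cfsg.IrrCharacter N)) (hb : Cfsg.IsPBlock M b) (T : Subgroup G) [Fintype T] (hT : ∀ g : G, g ∈ T ↔ ∀ θ ∈ b, ∀ θ' : Cfsg.IrrCharacter N, (∀ n : N, (θ' : N → ℂ) n = (θ : N → ℂ) ⟨g * n * g⁻¹, hN.conj_mem n n.2 g⟩) → θ' ∈ b) (hNT : N ≤ T) : (∀ B' : Set (Cfsg.IrrCharacter T), Cfsg.IsPBlock M B' → (∃ ψ ∈ B', ∃ θ ∈ b, Cfsg.classInner (fun n : N => (ψ : T → ℂ) ⟨(n : G), hNT n.2⟩) (θ : N → ℂ) ≠ 0) → ∃ B : Set (Cfsg.IrrCharacter G), Cfsg.IsInducedBlock M T B' B ∧ (∃ χ ∈ B, ∃ θ ∈ b, Cfsg.classInner (fun n : N => (χ : G → ℂ) n) (θ : N → ℂ) ≠ 0) ∧ (∀ ψ ∈ B', Cfsg.IsIrrCharacter G (Cfsg.indFun T (ψ : T → ℂ))) ∧ ∀ χ : Cfsg.IrrCharacter G, χ ∈ B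 ↔ ∃ ψ ∈ B', (χ : G → ℂ) = Cfsg.indFun T (ψ : T → ℂ)) ∧ (∀ B'₁ B'₂ : Set (Cfsg.IrrCharacter T), Cfsg.IsPBlock M B'₁ → Cfsg.IsPBlock M B'₂ → (∃ ψ ∈ B'₁, ∃ θ ∈ b, Cfsg.classInner (fun n : N => (ψ : T → ℂ) ⟨(n : G), hNT n.2⟩) (θ : N → ℂ) ≠ 0) → (∃ ψ ∈ B'₂, ∃ θ ∈ b, Cfsg.classInner (fun n : N => (ψ : T → ℂ) ⟨(n : G), hNT n.2⟩) (θ : N → ℂ) ≠ 0) → ∀ B : Set (Cfsg.IrrCharacter G), Cfsg.IsInducedBlock M T B'₁ B → Cfsg.IsInducedBlock M T B'₂ B → B'₁ = B'₂) ∧ (∀ B : Set (Cfsg.IrrCharacter G), Cfsg.IsPBlock M B → (∃ χ ∈ B, ∃ θ ∈ b, Cfsg.classInner (fun n : N => (χ : G → ℂ) n) (θ : N → ℂ) ≠ 0) → ∃ B' : Set (Cfsg.IrrCharacter T), Cfsg.IsPBlock M B' ∧ (∃ ψ ∈ B', ∃ θ ∈ b, Cfsg.classInner (fun n : N => (ψ : T → ℂ) ⟨(n : G), hNT n.2⟩) (θ : N → ℂ) ≠ 0) ∧ Cfsg.IsInducedBlock M T B' B) := by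
  have hmax := hM.2.1
  have hT' : ∀ g : G, g ∈ T ↔ ∀ θ ∈ b, irrConjEquiv N g θ ∈ b := by
    intro g
    rw [hT g]
    constructor
    · intro h θ hθ
      exact h θ hθ (irrConjEquiv N g θ) (fun n => rfl)
    · intro h θ hθ θ' hθ'
      have e : θ' = irrConjEquiv N g θ := Subtype.ext (funext hθ')
      rw [e]; exact h θ hθ
  refine ⟨?_, ?_, ?_⟩
  · rintro B' hB' ⟨ψ₀, hψ₀, hov₀⟩
    have hirr₀ := fr_irr_over N hM b hb T hT' hNT ψ₀ hov₀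
    have hst₀ := fr_struct_over N hM b hb T hT' hNT ψ₀ hov₀
    have hB'eq : B' = Cfsg.blockOf M ψ₀.1 :=
      block_eq_of_sameBlock hmax hB' ⟨ψ₀, rfl⟩ hψ₀ (sameBlock_refl hmax ψ₀.1)
        (sameBlock_refl hmax ψ₀.1)
    have hind := irr_induction_block p M hM T ψ₀ hirr₀
    rw [← hB'eq] at hind
    have hovB' : ∀ ψ ∈ B', ∃ θ ∈ b,
        Cfsg.classInner (fun n : N => ψ.1 ⟨n, hNT n.2⟩) θ.1 ≠ 0 := fun ψ hψ =>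
      overT_of_sameBlock N hM b hb T hT' hNT ψ₀ ψ (sameBlock_of_mem_block hmax hB' hψ₀ hψ) hov₀
    refine ⟨Cfsg.blockOf M (Cfsg.indFun T ψ₀.1), hind, ?_, ?_, ?_⟩
    · exact ⟨⟨_, hirr₀⟩, sameBlock_refl hmax _, hst₀.1⟩
    · intro ψ hψ
      exact fr_irr_over N hM b hb T hT' hNT ψ (hovB' ψ hψ)
    · intro χ
      constructor
      · intro hχ
        have hχ' : Cfsg.SameBlock M (Cfsg.indFun T ψ₀.1) χ.1 := hχ
        have hovχ := over_of_sameBlock N hM b hb ⟨_, hirr₀⟩ χ hχ' hst₀.1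
        obtain ⟨ψ₁, hov₁, hχeq⟩ := fr_surj N hM b hb T hT' hNT χ hovχ
        refine ⟨ψ₁, ?_, hχeq⟩
        have hsb : Cfsg.SameBlock M (Cfsg.indFun T ψ₀.1) (Cfsg.indFun T ψ₁.1) := by
          rw [← hχeq]; exact hχ'
        exact mem_block_of_sameBlock hmax hB' hψ₀
          (fr_sameBlock_down N hM b hb T hT' hNT ψ₀ ψ₁ hov₀ hov₁ hsb)
      · rintro ⟨ψ, hψ, hχeq⟩
        show Cfsg.SameBlock M (Cfsg.indFun T ψ₀.1) χ.1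
        have hirrψ := fr_irr_over N hM b hb T hT' hNT ψ (hovB' ψ hψ)
        intro g
        have h1 := hind.2.2 ψ hψ ⟨_, hirr₀⟩ (sameBlock_refl hmax _) g
        rw [← centralChar_indFun T ψ hirrψ g] at h1
        have h2 := mli_neg h1
        rw [neg_sub] at h2
        rw [hχeq]
        exact h2
  · rintro B'₁ B'₂ hB'₁ hB'₂ ⟨ψ₁, hψ₁, hov₁⟩ ⟨ψ₂, hψ₂, hov₂⟩ B hind₁ hind₂
    have hirr₁ := fr_irr_over N hM b hb T hT' hNT ψ₁ hov₁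
    have hirr₂ := fr_irr_over N hM b hb T hT' hNT ψ₂ hov₂
    obtain ⟨χ, hχ⟩ := block_nonempty hmax hind₁.2.1
    have hsb : Cfsg.SameBlock M (Cfsg.indFun T ψ₁.1) (Cfsg.indFun T ψ₂.1) := by
      intro g
      have h1 := hind₁.2.2 ψ₁ hψ₁ χ hχ g
      have h2 := hind₂.2.2 ψ₂ hψ₂ χ hχ g
      rw [← centralChar_indFun T ψ₁ hirr₁ g] at h1
      rw [← centralChar_indFun T ψ₂ hirr₂ g] at h2
      have h3 := mli_sub hmax h1 h2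
      rw [sub_sub_sub_cancel_right] at h3
      exact h3
    exact block_eq_of_sameBlock hmax hB'₁ hB'₂ hψ₁ hψ₂
      (fr_sameBlock_down N hM b hb T hT' hNT ψ₁ ψ₂ hov₁ hov₂ hsb)
  · rintro B hB ⟨χ, hχ, hovχ⟩
    obtain ⟨ψ, hov, hχeq⟩ := fr_surj N hM b hb T hT' hNT χ hovχ
    have hirr := fr_irr_over N hM b hb T hT' hNT ψ hov
    refine ⟨Cfsg.blockOf M ψ.1, ⟨ψ, rfl⟩, ⟨ψ, sameBlock_refl hmax _, hov⟩, ?_⟩
    have hind := irr_induction_block p M hM T ψ hirr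
    have hBeq : B = Cfsg.blockOf M (Cfsg.indFun T ψ.1) :=
      block_eq_of_sameBlock hmax hB ⟨⟨_, hirr⟩, rfl⟩ (χ₂ := ⟨_, hirr⟩) hχ
        (sameBlock_refl hmax _) (by rw [hχeq]; exact sameBlock_refl hmax _)
    rw [hBeq]; exact hind

end Cfsg.Agent.Lib.Lead
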