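import Mathlib
import Cfsg.Agent.Lib.Lead.Block25

/-!
Stable blocks of a normal subgroup of `p`-power index.
-/

set_option autoImplicit false

namespace Cfsg.Agent.Lib.Lead

open scoped ComplexConjugate

section pq

variable {G : Type*} [Group G] [Fintype G]

omit [Fintype G] in
theorem card_inf_mul_relIndex (H K : Subgroup G) :
    Nat.card (H ⊓ K : Subgroup G) * H.relIndex K = Nat.card K := by
  have h1 := Subgroup.card_mul_index (H.subgroupOf K)
  have h2 : Nat.card (H.subgroupOf K) = Nat.card (H ⊓ K : Subgroup G) := by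
    rw [← Subgroup.subgroupOf_map_subtype, Subgroup.card_map_of_injective K.subtype_injective]
  rw [h2] at h1
  exact h1

/-- coset representatives: right-`K`-invariant functions sum to `|K|` times the partial sum -/
theorem coset_reps_sum (K : Subgroup G) :
    ∃ t : Finset G, ∀ f : G → ℂ, (∀ y : G, ∀ k ∈ K, f (y * k) = f y) →
      ∑ y : G, f y = (Nat.card K : ℂ) * ∑ y ∈ t, f y := by
  classical
  haveI : Fintype (G ⧸ K) := Fintype.ofFinite _
  refine ⟨Finset.univ.image (fun q : G ⧸ K => q.out), ?_⟩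
  intro f hf
  rw [← Finset.sum_fiberwise (Finset.univ) (QuotientGroup.mk : G → G ⧸ K) f]
  rw [Finset.sum_image (by
    intro q _ q' _ h
    have := congrArg (QuotientGroup.mk : G → G ⧸ K) h
    simpa using this), Finset.mul_sum]
  apply Finset.sum_congr rfl
  intro q _
  have h1 : ∀ y ∈ Finset.univ.filter (fun y : G => (QuotientGroup.mk y : G ⧸ K) = q),
      f y = f q.out := by
    intro y hy
    have hy' : (QuotientGroup.mk y : G ⧸ K) = q := (Finset.mem_filter.mp hy).2
    have h2 : q.out⁻¹ * y ∈ K := by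
      rw [← QuotientGroup.eq, QuotientGroup.out_eq', hy']
    have h3 := hf q.out _ h2
    rw [mul_inv_cancel_left] at h3
    exact h3
  rw [Finset.sum_congr rfl h1, Finset.sum_const, nsmul_eq_mul]
  congr 1
  have hc : Nat.card {y : G // (QuotientGroup.mk y : G ⧸ K) = q} = Nat.card K := by
    have e := QuotientGroup.preimageMkEquivSubgroupProdSet K ({q} : Set (G ⧸ K))
    have h3 := Nat.card_congr e
    rw [Nat.card_prod] at h3
    have h4 : Nat.card (({q} : Set (G ⧸ K)) : Type _) = 1 := by simp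
    rw [h4, mul_one] at h3
    exact h3
  rw [← hc, Nat.card_eq_fintype_card, Fintype.card_subtype]

/-- the induced central character through the induced function -/
theorem icc_mul_eq (H : Subgroup G) [Fintype H] (ξ : H → ℂ) (hξ1 : ξ 1 ≠ 0) (g : G) :
    ((Subgroup.centralizer ({g} : Set G)).index : ℂ) * Cfsg.indFun H ξ g
      = (Nat.card G : ℂ) * ((Nat.card H : ℂ)⁻¹ * (Cfsg.inducedCentralChar H ξ g * ξ 1)) := by
  classical
  have hcf : Cfsg.IsClassFunction G (Cfsg.indFun H ξ) := indFun_isClassFunction H ξ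
  have hfrob := frobenius_reciprocity H ξ (fun x => if IsConj g x then (1 : ℂ) else 0)
    (isClassFunction_conjInd g)
  unfold Cfsg.classInner at hfrob
  have hL : ∑ x : G, Cfsg.indFun H ξ x * conj (if IsConj g x then (1 : ℂ) else 0)
      = ((Subgroup.centralizer ({g} : Set G)).index : ℂ) * Cfsg.indFun H ξ g := by
    rw [← sum_conjInd_mul g _ hcf]
    apply Finset.sum_congr rfl
    intro x _
    split_ifs <;> simp
  have hR : ∑ h : H, ξ h * conj (if IsConj g (h : G) then (1 : ℂ) else 0)
      = Cfsg.inducedCentralChar H ξ g * ξ 1 := by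
    rw [inducedCentralChar_eq]
    unfold Om
    rw [div_mul_cancel₀ _ hξ1]
    apply Finset.sum_congr rfl
    intro h _
    beta_reduce
    by_cases hc : IsConj g (h : G)
    · rw [if_pos hc, map_one, mul_one, one_mul]
    · rw [if_neg hc, map_zero, mul_zero, zero_mul]
  rw [hL, hR] at hfrob
  have hG : (Nat.card G : ℂ) ≠ 0 := Nat.cast_ne_zero.mpr Nat.card_pos.ne'
  rw [← hfrob]
  field_simp

/-- Sylow subgroups and a normal subgroup of `p`-power index -/
theorem sylow_normal_split (p : ℕ) [Fact p.Prime] (N : Subgroup G) [N.Normal] (k : ℕ)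
    (hk : N.index = p ^ k) (C : Subgroup G) (hNC : N ⊔ C = ⊤) (Q : Sylow p C) (P : Subgroup G)
    (hPQ : P = (Q : Subgroup C).map C.subtype) :
    N ⊔ P = ⊤ ∧
      Nat.card (P ⊓ N : Subgroup G) = p ^ (Nat.card (C ⊓ N : Subgroup G)).factorization p := by
  have hp : p.Prime := Fact.out
  have hPC : P ≤ C := by rw [hPQ]; exact Subgroup.map_subtype_le _
  have cP : Nat.card P = p ^ (Nat.card C).factorization p := by
    rw [hPQ, Subgroup.card_map_of_injective C.subtype_injective]
    exact Q.card_eq_multiplicity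
  have r1 := card_inf_mul_relIndex N C
  have r2 : N.relIndex C = p ^ k := by
    rw [← Subgroup.relIndex_sup_left, hNC, Subgroup.relIndex_top_right, hk]
  rw [r2] at r1
  have hKpos : 0 < Nat.card (N ⊓ C : Subgroup G) := Nat.card_pos
  have hab : (Nat.card C).factorization p
      = (Nat.card (N ⊓ C : Subgroup G)).factorization p + k := by
    rw [← r1, Nat.factorization_mul hKpos.ne' (pow_ne_zero k hp.ne_zero), Finsupp.add_apply,
      Nat.factorization_pow, Finsupp.smul_apply, hp.factorization_self, smul_eq_mul, mul_one]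
  have r3 := card_inf_mul_relIndex N P
  rw [cP] at r3
  have r4 : N.relIndex P ∣ p ^ k := by
    rw [← hk]; exact Subgroup.relIndex_dvd_index_of_normal N P
  obtain ⟨i, hik, hi⟩ := (Nat.dvd_prime_pow hp).mp r4
  have r5 : Nat.card (N ⊓ P : Subgroup G) ∣ p ^ (Nat.card C).factorization p :=
    Dvd.intro _ r3
  obtain ⟨b', hb'le, hb'⟩ := (Nat.dvd_prime_pow hp).mp r5
  rw [hb', hi, ← pow_add] at r3
  have r6 : b' + i = (Nat.card C).factorization p := Nat.pow_right_injective hp.two_le r3
  have r7 : Nat.card (N ⊓ P : Subgroup G) ∣ Nat.card (N ⊓ C : Subgroup G) :=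
    Subgroup.card_dvd_of_le (inf_le_inf_left N hPC)
  rw [hb'] at r7
  have r8 : b' ≤ (Nat.card (N ⊓ C : Subgroup G)).factorization p :=
    (hp.pow_dvd_iff_le_factorization hKpos.ne').mp r7
  have hb'eq : b' = (Nat.card (N ⊓ C : Subgroup G)).factorization p := by omega
  have hieq : i = k := by omega
  constructor
  · apply (Subgroup.card_eq_iff_eq_top (N ⊔ P)).mp
    have s1 := card_inf_mul_relIndex N (N ⊔ P)
    rw [inf_sup_self, Subgroup.relIndex_sup_left, hi, hieq, ← hk] at s1
    rw [← s1]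
    exact Subgroup.card_mul_index N
  · rw [inf_comm P N, inf_comm C N, hb', hb'eq]

end pq

section stable

variable {G : Type*} [Group G] [Fintype G] (N : Subgroup G) [hN : N.Normal] [Fintype N]

/-- for a `G`-stable block `c` of `N`, the induced central character at an element of `N` is
congruent to `|G : N C_G(g)|` times the central character -/
theorem icc_stable_congr {p : ℕ} [Fact p.Prime] {M : Ideal Cfsg.AlgInt}
    (hM : Cfsg.IsPModular p M) (c : Set (Cfsg.IrrCharacter N)) (hc : Cfsg.IsPBlock M c)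
    (hstab : ∀ ψ ∈ c, ∀ k : G,
      (⟨conjFun N ψ.1 k, isIrrCharacter_conjFun N ψ.2 k⟩ : Cfsg.IrrCharacter N) ∈ c)
    (θ : Cfsg.IrrCharacter N) (hθ : θ ∈ c) (g : N) :
    Cfsg.MemLocalIdeal M (Cfsg.inducedCentralChar N θ.1 (g : G)
      - ((N ⊔ Subgroup.centralizer ({(g : G)} : Set G)).index : ℂ) * Cfsg.centralChar θ.1 g) := by
  classical
  have hmax := hM.2.1
  have hθ1 := irr_deg_ne_zero θ
  obtain ⟨t, ht⟩ := coset_reps_sum (N ⊔ Subgroup.centralizer ({(g : G)} : Set G))
  -- the function
  obtain ⟨f, hfdef⟩ : ∃ f : G → ℂ, f = fun y => conjFun N θ.1 y g := ⟨_, rfl⟩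
  have hfinv : ∀ y : G, ∀ k ∈ N ⊔ Subgroup.centralizer ({(g : G)} : Set G),
      f (y * k) = f y := by
    intro y k hk
    have hk' : k ∈ ((N ⊔ Subgroup.centralizer ({(g : G)} : Set G) : Subgroup G) : Set G) := hk
    rw [Subgroup.normal_mul] at hk'
    obtain ⟨n, hn, c₀, hc₀, rfl⟩ := Set.mem_mul.mp hk'
    have hcg : c₀ * (g : G) = (g : G) * c₀ := Subgroup.mem_centralizer_singleton_iff.mp hc₀
    have e1 : c₀ * (g : G) * c₀⁻¹ = (g : G) := by rw [hcg, mul_inv_cancel_right]
    rw [hfdef]
    show θ.1 ⟨y * (n * c₀) * (g : G) * (y * (n * c₀))⁻¹, _⟩ = θ.1 ⟨y * (g : G) * y⁻¹, _⟩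
    have h2 := isClassFunction_of_irr θ ⟨y * (g : G) * y⁻¹, hN.conj_mem g g.2 y⟩
      ⟨y * n * y⁻¹, hN.conj_mem n hn y⟩
    refine (congrArg θ.1 (Subtype.ext ?_)).trans h2
    show y * (n * c₀) * (g : G) * (y * (n * c₀))⁻¹
      = y * n * y⁻¹ * (y * (g : G) * y⁻¹) * (y * n * y⁻¹)⁻¹
    have e2 : y * (n * c₀) * (g : G) * (y * (n * c₀))⁻¹
        = y * n * (c₀ * (g : G) * c₀⁻¹) * n⁻¹ * y⁻¹ := by group
    rw [e2, e1]
    group
  have hsum := ht f hfinv
  have hone := ht (fun _ => 1) (fun _ _ _ => rfl)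
  simp only [Finset.sum_const, Finset.card_univ, nsmul_eq_mul, mul_one] at hone
  -- hone : (Fintype.card G : ℂ) = |K| * t.card
  have hcardt : Nat.card (N ⊔ Subgroup.centralizer ({(g : G)} : Set G) : Subgroup G) * t.card
      = Nat.card G := by
    rw [Nat.card_eq_fintype_card (α := G)]
    exact_mod_cast hone.symm
  have hidx : (N ⊔ Subgroup.centralizer ({(g : G)} : Set G)).index = t.card := by
    have h1 := Subgroup.card_mul_index (N ⊔ Subgroup.centralizer ({(g : G)} : Set G))
    rw [← hcardt] at h1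
    exact Nat.eq_of_mul_eq_mul_left Nat.card_pos h1
  -- icc through the induced function
  have hicc := icc_mul_eq N θ.1 hθ1 (g : G)
  have hind : Cfsg.indFun N θ.1 (g : G) = (Nat.card N : ℂ)⁻¹ * ∑ y : G, f y := by
    rw [indFun_apply]
    congr 1
    apply Fintype.sum_equiv (Equiv.inv G)
    intro x
    have hx : x⁻¹ * (g : G) * x ∈ N := by
      have := hN.conj_mem g g.2 x⁻¹
      rwa [inv_inv] at this
    rw [extendByZero_mem' N θ.1 hx, hfdef]
    show θ.1 ⟨x⁻¹ * (g : G) * x, hx⟩ = θ.1 ⟨x⁻¹ * (g : G) * x⁻¹⁻¹, _⟩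
    exact congrArg θ.1 (Subtype.ext (by simp))
  rw [hind, hsum] at hicc
  -- central characters of the conjugates
  have hω : ∀ y : G, Cfsg.centralChar (conjFun N θ.1 y) g
      = ((Subgroup.centralizer ({g} : Set N)).index : ℂ) * f y / θ.1 1 := by
    intro y
    unfold Cfsg.centralChar
    have e1 : conjFun N θ.1 y 1 = θ.1 1 := by
      rw [conjFun_apply]; exact congrArg θ.1 (Subtype.ext (by simp))
    rw [e1, hfdef]
  -- cardinalities
  have n1 := card_inf_mul_relIndex N (N ⊔ Subgroup.centralizer ({(g : G)} : Set G))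
  rw [inf_sup_self, Subgroup.relIndex_sup_left] at n1
  have n2 := card_inf_mul_relIndex N (Subgroup.centralizer ({(g : G)} : Set G))
  have n3 := Subgroup.card_mul_index (Subgroup.centralizer ({g} : Set N))
  have n4 : Nat.card (Subgroup.centralizer ({g} : Set N))
      = Nat.card (N ⊓ Subgroup.centralizer ({(g : G)} : Set G) : Subgroup G) := by
    rw [inf_comm, ← map_centralizer_subtype N g,
      Subgroup.card_map_of_injective N.subtype_injective]
  rw [n4] at n3
  have n5 := Subgroup.card_mul_index (Subgroup.centralizer ({(g : G)} : Set G))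
  have hnat : (Subgroup.centralizer ({(g : G)} : Set G)).index
      * Nat.card (N ⊔ Subgroup.centralizer ({(g : G)} : Set G) : Subgroup G)
      = Nat.card G * (Subgroup.centralizer ({g} : Set N)).index := by
    rw [← n5, ← n1, ← n3]
    have e : Nat.card (Subgroup.centralizer ({(g : G)} : Set G))
        = Nat.card (N ⊓ Subgroup.centralizer ({(g : G)} : Set G) : Subgroup G)
          * N.relIndex (Subgroup.centralizer ({(g : G)} : Set G)) := n2.symm
    rw [e]
    ring
  have hnatC : ((Subgroup.centralizer ({(g : G)} : Set G)).index : ℂ)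
      * (Nat.card (N ⊔ Subgroup.centralizer ({(g : G)} : Set G) : Subgroup G) : ℂ)
      = (Nat.card G : ℂ) * ((Subgroup.centralizer ({g} : Set N)).index : ℂ) := by
    exact_mod_cast hnat
  have hG : (Nat.card G : ℂ) ≠ 0 := Nat.cast_ne_zero.mpr Nat.card_pos.ne'
  have hNne : (Nat.card N : ℂ) ≠ 0 := Nat.cast_ne_zero.mpr Nat.card_pos.ne'
  -- the induced central character as a sum over the representatives
  have hiccsum : Cfsg.inducedCentralChar N θ.1 (g : G)
      = ∑ y ∈ t, Cfsg.centralChar (conjFun N θ.1 y) g := by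
    have e1 : ∑ y ∈ t, Cfsg.centralChar (conjFun N θ.1 y) g
        = ((Subgroup.centralizer ({g} : Set N)).index : ℂ) * (∑ y ∈ t, f y) / θ.1 1 := by
      rw [Finset.mul_sum, Finset.sum_div]
      apply Finset.sum_congr rfl
      intro y _
      exact hω y
    rw [e1]
    have e2 : (Nat.card G : ℂ) * ((Nat.card N : ℂ)⁻¹
        * (Cfsg.inducedCentralChar N θ.1 (g : G) * θ.1 1))
        = (Nat.card G : ℂ) * ((Nat.card N : ℂ)⁻¹
          * (((Subgroup.centralizer ({g} : Set N)).index : ℂ) * (∑ y ∈ t, f y))) := by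
      rw [← hicc]
      linear_combination ((Nat.card N : ℂ)⁻¹ * (∑ y ∈ t, f y)) * hnatC
    have e3 := mul_left_cancel₀ hG e2
    have e4 := mul_left_cancel₀ (inv_ne_zero hNne) e3
    rw [eq_div_iff hθ1]
    exact e4
  rw [hiccsum, hidx]
  have hfin : ∑ y ∈ t, Cfsg.centralChar (conjFun N θ.1 y) g
      - (t.card : ℂ) * Cfsg.centralChar θ.1 g
      = ∑ y ∈ t, (Cfsg.centralChar (conjFun N θ.1 y) g - Cfsg.centralChar θ.1 g) := by
    rw [Finset.sum_sub_distrib, Finset.sum_const, nsmul_eq_mul]
  rw [hfin]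
  apply mli_sum hmax
  intro y _
  exact sameBlock_of_mem_block hmax hc (hstab θ hθ y) hθ g

end stable

end Cfsg.Agent.Lib.Lead
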