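import Mathlib
import Cfsg.Agent.Lib.Lead.Block26

/-!
Fong–Reynolds, part E: the block idempotent as a trace and a fixed-point argument.
-/

set_option autoImplicit false

namespace Cfsg.Agent.Lib.Lead

open scoped ComplexConjugate

section frF

variable {G : Type*} [Group G] [Fintype G]

theorem sum_eq_card_mul_sum_out (K : Subgroup G) [Fintype (G ⧸ K)] (f : G → ℂ)
    (hf : ∀ y : G, ∀ k ∈ K, f (y * k) = f y) :
    ∑ y : G, f y = (Nat.card K : ℂ) * ∑ q : G ⧸ K, f q.out := by
  classical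
  rw [← Finset.sum_fiberwise (Finset.univ) (QuotientGroup.mk : G → G ⧸ K) f, Finset.mul_sum]
  apply Finset.sum_congr rfl
  intro q _
  have h1 : ∀ y ∈ Finset.univ.filter (fun y : G => (QuotientGroup.mk y : G ⧸ K) = q),
      f y = f q.out := by
    intro y hy
    have hy' : (QuotientGroup.mk y : G ⧸ K) = q := (Finset.mem_filter.mp hy).2
    have h2 : q.out⁻¹ * y ∈ K := by
      rw [← QuotientGroup.eq, QuotientGroup.out_eq', hy']
    have h3 := hf q.out _ h2
    rw [mul_inv_cancel_left] at h3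
    exact h3
  rw [Finset.sum_congr rfl h1, Finset.sum_const, nsmul_eq_mul]
  congr 1
  have hc : Nat.card {y : G // (QuotientGroup.mk y : G ⧸ K) = q} = Nat.card K := by
    have e := QuotientGroup.preimageMkEquivSubgroupProdSet K ({q} : Set (G ⧸ K))
    have h3 := Nat.card_congr e
    rw [Nat.card_prod] at h3
    have h4 : Nat.card (({q} : Set (G ⧸ K)) : Type _) = 1 := by simp
    rw [h4, mul_one] at h3
    exact h3
  rw [← hc, Nat.card_eq_fintype_card, Fintype.card_subtype]

theorem Om_indFun_expand (T : Subgroup G) [Fintype T] [Fintype (Cfsg.IrrCharacter T)]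
    (χ : Cfsg.IrrCharacter G) (w : T → ℂ) :
    Om χ.1 (Cfsg.indFun T w) = (Nat.card G : ℂ) * ((Nat.card T : ℂ)⁻¹ *
      ∑ ψ' : Cfsg.IrrCharacter T,
        Cfsg.classInner (fun t : T => χ.1 t) ψ'.1 * (ψ'.1 1 * Om ψ'.1 w)) / χ.1 1 := by
  have hχc := isClassFunction_of_irr χ
  have hG : (Nat.card G : ℂ) ≠ 0 := by exact_mod_cast Nat.card_pos.ne'
  have hfrob := frobenius_reciprocity T w (fun x => conj (χ.1 x)) (by
    intro g h
    show conj (χ.1 (h * g * h⁻¹)) = conj (χ.1 g)
    rw [hχc g h])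
  unfold Cfsg.classInner at hfrob
  simp only [Complex.conj_conj] at hfrob
  have hexp := class_fn_expand' (fun t : T => χ.1 t)
    (Cfsg.Agent.Lib.Helper7.Cliff.isClassFunction_restrict T χ.1 hχc)
  have hsum := sum_mul_decomp w (fun t : T => χ.1 t)
    (fun ψ' => Cfsg.classInner (fun t : T => χ.1 t) ψ'.1) hexp
  have hsum' : ∑ t : T, w t * χ.1 t = ∑ ψ' : Cfsg.IrrCharacter T,
      Cfsg.classInner (fun t : T => χ.1 t) ψ'.1 * (ψ'.1 1 * Om ψ'.1 w) := hsum
  have e0 : ∑ x : G, Cfsg.indFun T w x * χ.1 x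
      = (Nat.card G : ℂ) * ((Nat.card G : ℂ)⁻¹ * ∑ x : G, Cfsg.indFun T w x * χ.1 x) := by
    rw [← mul_assoc, mul_inv_cancel₀ hG, one_mul]
  show (∑ x : G, Cfsg.indFun T w x * χ.1 x) / χ.1 1 = _
  rw [e0, hfrob, hsum']

/-- a fixed-point argument: if the induced function is a unit at `x`, some conjugate of `x`
in `T` has unit coefficient and carries a given `p`-subgroup of the centralizer into `T` -/
theorem exists_fixed_conj {p : ℕ} [Fact p.Prime] {M : Ideal Cfsg.AlgInt}
    (hM : Cfsg.IsPModular p M) (T : Subgroup G) [Fintype T] (w : T → ℂ)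
    (hw : Cfsg.IsClassFunction T w) (hwS : ∀ t, Cfsg.MemLocalRing M (w t)) (x : G)
    (E : Subgroup G) (hE : IsPGroup p E) (hEC : E ≤ Subgroup.centralizer ({x} : Set G))
    (hnot : ¬ Cfsg.MemLocalIdeal M (Cfsg.indFun T w x)) :
    ∃ y : G, ∃ hy : y⁻¹ * x * y ∈ T, ¬ Cfsg.MemLocalIdeal M (w ⟨y⁻¹ * x * y, hy⟩) ∧
      ∀ u ∈ E, y⁻¹ * u * y ∈ T := by
  classical
  haveI : Fintype (G ⧸ T) := Fintype.ofFinite _
  have hmax := hM.2.1
  obtain ⟨f, hfdef⟩ : ∃ f : G → ℂ, f = fun y => Cfsg.extendByZero T w (y⁻¹ * x * y) :=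
    ⟨_, rfl⟩
  have hfT : ∀ y : G, ∀ k ∈ T, f (y * k) = f y := by
    intro y k hk
    rw [hfdef]
    show Cfsg.extendByZero T w ((y * k)⁻¹ * x * (y * k))
      = Cfsg.extendByZero T w (y⁻¹ * x * y)
    have e : (y * k)⁻¹ * x * (y * k) = k⁻¹ * (y⁻¹ * x * y) * k := by group
    rw [e]
    by_cases h : y⁻¹ * x * y ∈ T
    · have h' : k⁻¹ * (y⁻¹ * x * y) * k ∈ T := T.mul_mem (T.mul_mem (T.inv_mem hk) h) hk
      rw [extendByZero_mem' T w h', extendByZero_mem' T w h]
      have h2 := hw ⟨y⁻¹ * x * y, h⟩ ⟨k⁻¹, T.inv_mem hk⟩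
      refine (congrArg w (Subtype.ext ?_)).trans h2
      simp
    · have h' : k⁻¹ * (y⁻¹ * x * y) * k ∉ T := by
        intro h2
        apply h
        have h3 := T.mul_mem (T.mul_mem hk h2) (T.inv_mem hk)
        have e2 : k * (k⁻¹ * (y⁻¹ * x * y) * k) * k⁻¹ = y⁻¹ * x * y := by group
        rwa [e2] at h3
      rw [extendByZero_not_mem T w h', extendByZero_not_mem T w h]
  have hfE : ∀ u ∈ E, ∀ y : G, f (u * y) = f y := by
    intro u hu y
    have hux : u * x = x * u := Subgroup.mem_centralizer_singleton_iff.mp (hEC hu)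
    rw [hfdef]
    show Cfsg.extendByZero T w ((u * y)⁻¹ * x * (u * y)) = Cfsg.extendByZero T w (y⁻¹ * x * y)
    have e : (u * y)⁻¹ * x * (u * y) = y⁻¹ * x * y := by
      have e1 : (u * y)⁻¹ * x * (u * y) = y⁻¹ * (u⁻¹ * (x * u)) * y := by group
      rw [e1, ← hux, inv_mul_cancel_left]
    rw [e]
  have hfS : ∀ y, Cfsg.MemLocalRing M (f y) := by
    intro y
    rw [hfdef]
    show Cfsg.MemLocalRing M (Cfsg.extendByZero T w (y⁻¹ * x * y))
    by_cases h : y⁻¹ * x * y ∈ T
    · rw [extendByZero_mem' T w h]; exact hwS _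
    · rw [extendByZero_not_mem T w h]; exact mlr_zero hmax
  -- the value as a sum over cosets
  have hval : Cfsg.indFun T w x = ∑ q : G ⧸ T, f q.out := by
    rw [indFun_apply]
    have h1 : ∑ y : G, Cfsg.extendByZero T w (y⁻¹ * x * y) = ∑ y : G, f y := by rw [hfdef]
    rw [h1, sum_eq_card_mul_sum_out T f hfT, ← mul_assoc,
      inv_mul_cancel₀ (by exact_mod_cast Nat.card_pos.ne' : (Nat.card T : ℂ) ≠ 0), one_mul]
  -- invariance on cosets
  have hinv : ∀ (u : E) (q : G ⧸ T), f (u • q).out = f q.out := by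
    intro u q
    have h1 : ((u : G) * q.out)⁻¹ * (u • q).out ∈ T := by
      apply QuotientGroup.eq.mp
      rw [QuotientGroup.out_eq']
      have h2 : u • (QuotientGroup.mk q.out : G ⧸ T) = QuotientGroup.mk ((u : G) * q.out) := rfl
      rw [← h2, QuotientGroup.out_eq']
    have h3 := hfT ((u : G) * q.out) _ h1
    rw [mul_inv_cancel_left] at h3
    rw [h3]
    exact hfE u u.2 q.out
  have hfixinv : ∀ (u : E) (q : G ⧸ T), (∀ v : E, v • (u • q) = u • q) ↔ (∀ v : E, v • q = q) := by
    intro u q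
    constructor
    · intro h v
      have h1 := h (u * v * u⁻¹)
      rw [← mul_smul, inv_mul_cancel_right, mul_smul] at h1
      exact smul_left_cancel u h1
    · intro h v
      rw [h u, h v]
  -- the non-fixed part sums into the ideal
  have hnonfix := orbit_sum_mli hM (E := E) (X := G ⧸ T) hE
    (fun q => if (∀ v : E, v • q = q) then 0 else f q.out)
    (by
      intro u q
      by_cases hq : ∀ v : E, v • q = q
      · rw [if_pos hq, if_pos ((hfixinv u q).mpr hq)]
      · rw [if_neg hq, if_neg (fun h => hq ((hfixinv u q).mp h)), hinv u q])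
    (by
      intro q
      by_cases hq : ∀ v : E, v • q = q
      · simp only [if_pos hq]; exact mlr_zero hmax
      · simp only [if_neg hq]; exact hfS _)
    (by
      intro q hq
      simp only [if_pos hq])
  by_contra hcon
  push Not at hcon
  apply hnot
  rw [hval]
  have hsplit : ∑ q : G ⧸ T, f q.out
      = ∑ q : G ⧸ T, (if (∀ v : E, v • q = q) then 0 else f q.out)
        + ∑ q : G ⧸ T, (if (∀ v : E, v • q = q) then f q.out else 0) := by
    rw [← Finset.sum_add_distrib]
    apply Finset.sum_congr rfl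
    intro q _
    by_cases hq : ∀ v : E, v • q = q
    · rw [if_pos hq, if_pos hq, zero_add]
    · rw [if_neg hq, if_neg hq, add_zero]
  rw [hsplit]
  apply mli_add hmax hnonfix
  apply mli_sum hmax
  intro q _
  by_cases hq : ∀ v : E, v • q = q
  · rw [if_pos hq]
    by_cases hmem : q.out⁻¹ * x * q.out ∈ T
    · have hfq : f q.out = w ⟨q.out⁻¹ * x * q.out, hmem⟩ := by
        rw [hfdef]; exact extendByZero_mem' T w hmem
      rw [hfq]
      by_contra hmli
      obtain ⟨u, hu, hnotT⟩ := hcon q.out hmem hmli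
      apply hnotT
      have h1 := hq ⟨u, hu⟩
      have h2 : (⟨u, hu⟩ : E) • (QuotientGroup.mk q.out : G ⧸ T) = QuotientGroup.mk q.out := by
        rw [QuotientGroup.out_eq']; exact h1
      have h3 : (QuotientGroup.mk (u * q.out) : G ⧸ T) = QuotientGroup.mk q.out := h2
      have h4 := QuotientGroup.eq.mp h3.symm
      rwa [← mul_assoc] at h4
    · have hfq : f q.out = 0 := by
        rw [hfdef]; exact extendByZero_not_mem T w hmem
      rw [hfq]; exact mli_zero hmax
  · rw [if_neg hq]; exact mli_zero hmax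

end frF

end Cfsg.Agent.Lib.Lead
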