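import Mathlib
import Cfsg.Agent.Lib.Lead.Block28

/-!
Fong–Reynolds, part F: defect groups and heights.
-/

set_option autoImplicit false

namespace Cfsg.Agent.Lib.Lead

open scoped ComplexConjugate

theorem sInf_add_image (a : ℕ) (S : Set ℕ) (hS : S.Nonempty) :
    sInf ((fun n => a + n) '' S) = a + sInf S := by
  apply le_antisymm
  · exact Nat.sInf_le ⟨sInf S, Nat.sInf_mem hS, rfl⟩
  · obtain ⟨s, hs, hs'⟩ := Nat.sInf_mem (hS.image (fun n => a + n))
    rw [← hs']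
    exact Nat.add_le_add_left (Nat.sInf_le hs) a

theorem charDegree_cast_irr {G : Type*} [Group G] (χ : Cfsg.IrrCharacter G) :
    ∃ d : ℕ, 0 < d ∧ χ.1 1 = (d : ℂ) ∧ Cfsg.charDegree χ.1 = d := by
  obtain ⟨n, hn0, hn⟩ := irr_one_eq_nat χ
  refine ⟨n, hn0, hn, ?_⟩
  unfold Cfsg.charDegree
  rw [hn]
  simp

theorem charDegree_indFun {G : Type*} [Group G] [Fintype G] (T : Subgroup G) [Fintype T]
    (ψ : Cfsg.IrrCharacter T) :
    Cfsg.charDegree (Cfsg.indFun T ψ.1) = T.index * Cfsg.charDegree ψ.1 := by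
  obtain ⟨d, hd0, hd, hdeg⟩ := charDegree_cast_irr ψ
  rw [hdeg]
  have hTne : (Nat.card T : ℂ) ≠ 0 := by exact_mod_cast Nat.card_pos.ne'
  have hG : (Fintype.card G : ℂ) = (Nat.card T : ℂ) * (T.index : ℂ) := by
    rw [← Nat.card_eq_fintype_card]
    exact_mod_cast (Subgroup.card_mul_index T).symm
  have h1 : Cfsg.indFun T ψ.1 1 = ((T.index * d : ℕ) : ℂ) := by
    rw [indFun_one_eq, hd, hG]
    push_cast
    field_simp
  unfold Cfsg.charDegree
  rw [h1, Complex.natCast_re, Nat.floor_natCast]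

section frG

variable {G : Type*} [Group G] [Fintype G] (N : Subgroup G) [hN : N.Normal] [Fintype N]

/-- the idempotent of the Fong–Reynolds correspondent is the trace of the idempotent -/
theorem fr_idem_ind {p : ℕ} [Fact p.Prime] {M : Ideal Cfsg.AlgInt} (hM : Cfsg.IsPModular p M)
    (b : Set (Cfsg.IrrCharacter N)) (hb : Cfsg.IsPBlock M b) (T : Subgroup G) [Fintype T]
    (hT : ∀ g : G, g ∈ T ↔ ∀ θ ∈ b, irrConjEquiv N g θ ∈ b) (hNT : N ≤ T)
    (B' : Set (Cfsg.IrrCharacter T)) (hB' : Cfsg.IsPBlock M B')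
    (hovB' : ∀ ψ ∈ B', ∃ θ ∈ b, Cfsg.classInner (fun n : N => ψ.1 ⟨n, hNT n.2⟩) θ.1 ≠ 0)
    (B : Set (Cfsg.IrrCharacter G))
    (hBiff : ∀ χ : Cfsg.IrrCharacter G, χ ∈ B ↔ ∃ ψ ∈ B', χ.1 = Cfsg.indFun T ψ.1) (x : G) :
    Cfsg.blockCoeff B x = Cfsg.indFun T (fun t => Cfsg.blockCoeff B' t) x := by
  classical
  haveI : Fintype (Cfsg.IrrCharacter G) := Fintype.ofFinite _
  haveI : Fintype (Cfsg.IrrCharacter T) := Fintype.ofFinite _
  have hmax := hM.2.1
  have hOmw : ∀ ψ' : Cfsg.IrrCharacter T,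
      Om ψ'.1 (fun t => Cfsg.blockCoeff B' t) = if ψ' ∈ B' then 1 else 0 :=
    fun ψ' => Om_blockCoeff B' ψ'
  have hw0 : ∀ ψ' : Cfsg.IrrCharacter T,
      ¬ (∃ θ ∈ b, Cfsg.classInner (fun n : N => ψ'.1 ⟨n, hNT n.2⟩) θ.1 ≠ 0) →
      Om ψ'.1 (fun t => Cfsg.blockCoeff B' t) = 0 := by
    intro ψ' hno
    rw [hOmw ψ', if_neg (fun h => hno (hovB' ψ' h))]
  have key : ∀ χ : Cfsg.IrrCharacter G, Om χ.1 (fun g => Cfsg.blockCoeff B g)
      = Om χ.1 (Cfsg.indFun T (fun t => Cfsg.blockCoeff B' t)) := by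
    intro χ
    rw [Om_blockCoeff B χ]
    by_cases hov : ∃ θ ∈ b, Cfsg.classInner (fun n : N => χ.1 n) θ.1 ≠ 0
    · obtain ⟨ψ, hovψ, hχeq⟩ := fr_surj N hM b hb T hT hNT χ hov
      have hirr := fr_irr_over N hM b hb T hT hNT ψ hovψ
      obtain ⟨-, hd, ha, hz⟩ := fr_struct_over N hM b hb T hT hNT ψ hovψ
      have tr := fr_trace T ψ hirr
        (fun ψ' => ∃ θ ∈ b, Cfsg.classInner (fun n : N => ψ'.1 ⟨n, hNT n.2⟩) θ.1 ≠ 0)
        hd ha hz (fun t => Cfsg.blockCoeff B' t) hw0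
      have hiff : χ ∈ B ↔ ψ ∈ B' := by
        constructor
        · intro h
          obtain ⟨ψ₂, hψ₂, h2⟩ := (hBiff χ).mp h
          have h3 : Cfsg.SameBlock M (Cfsg.indFun T ψ₂.1) (Cfsg.indFun T ψ.1) := by
            rw [← h2, ← hχeq]; exact sameBlock_refl hmax _
          exact mem_block_of_sameBlock hmax hB' hψ₂
            (fr_sameBlock_down N hM b hb T hT hNT ψ₂ ψ (hovB' ψ₂ hψ₂) hovψ h3)
        · intro h
          exact (hBiff χ).mpr ⟨ψ, h, hχeq⟩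
      rw [hχeq, tr, hOmw ψ]
      by_cases h : ψ ∈ B'
      · rw [if_pos h, if_pos (hiff.mpr h)]
      · rw [if_neg h, if_neg (fun h' => h (hiff.mp h'))]
    · have hχB : χ ∉ B := by
        intro h
        obtain ⟨ψ₂, hψ₂, h2⟩ := (hBiff χ).mp h
        apply hov
        rw [h2]
        exact (fr_struct_over N hM b hb T hT hNT ψ₂ (hovB' ψ₂ hψ₂)).1
      rw [if_neg hχB, Om_indFun_expand T χ]
      have hz : ∑ ψ' : Cfsg.IrrCharacter T, Cfsg.classInner (fun t : T => χ.1 t) ψ'.1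
          * (ψ'.1 1 * Om ψ'.1 (fun t => Cfsg.blockCoeff B' t)) = 0 := by
        apply Finset.sum_eq_zero
        intro ψ' _
        by_cases hψ' : ψ' ∈ B'
        · have h0 : Cfsg.classInner (fun t : T => χ.1 t) ψ'.1 = 0 := by
            by_contra hne
            apply hχB
            have hirr' := fr_irr_over N hM b hb T hT hNT ψ' (hovB' ψ' hψ')
            have h4 : Cfsg.classInner (Cfsg.indFun T ψ'.1) χ.1 ≠ 0 := by
              rw [frobenius_reciprocity T ψ'.1 χ.1 (isClassFunction_of_irr χ),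
                ← classInner_conj_symm]
              intro h5
              apply hne
              have h6 := congrArg (starRingEnd ℂ) h5
              simpa using h6
            have h5 := irr_inner (⟨_, hirr'⟩ : Cfsg.IrrCharacter G) χ
            by_cases h6 : (⟨_, hirr'⟩ : Cfsg.IrrCharacter G) = χ
            · exact (hBiff χ).mpr ⟨ψ', hψ', (congrArg Subtype.val h6).symm⟩
            · rw [if_neg h6] at h5
              exact absurd h5 h4
          rw [h0, zero_mul]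
        · rw [hOmw ψ', if_neg hψ', mul_zero, mul_zero]
      rw [hz, mul_zero, mul_zero, zero_div]
  have h1 := Om_ext (blockCoeff_classFn B)
    (indFun_isClassFunction T (fun t => Cfsg.blockCoeff B' t)) key
  exact congrFun h1 x

theorem fr_defect_card_le {p : ℕ} [Fact p.Prime] {M : Ideal Cfsg.AlgInt}
    (hM : Cfsg.IsPModular p M)
    (b : Set (Cfsg.IrrCharacter N)) (hb : Cfsg.IsPBlock M b) (T : Subgroup G) [Fintype T]
    (hT : ∀ g : G, g ∈ T ↔ ∀ θ ∈ b, irrConjEquiv N g θ ∈ b) (hNT : N ≤ T)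
    (B' : Set (Cfsg.IrrCharacter T)) (hB' : Cfsg.IsPBlock M B')
    (hovB' : ∀ ψ ∈ B', ∃ θ ∈ b, Cfsg.classInner (fun n : N => ψ.1 ⟨n, hNT n.2⟩) θ.1 ≠ 0)
    (B : Set (Cfsg.IrrCharacter G))
    (hBiff : ∀ χ : Cfsg.IrrCharacter G, χ ∈ B ↔ ∃ ψ ∈ B', χ.1 = Cfsg.indFun T ψ.1)
    (E : Subgroup G) (hE : Cfsg.IsDefectGroup p M B E)
    (D : Subgroup T) (hD : Cfsg.IsDefectGroup p M B' D) : Nat.card E ≤ Nat.card D := by
  classical
  haveI : Fintype (Cfsg.IrrCharacter T) := Fintype.ofFinite _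
  have hmax := hM.2.1
  have hp : p.Prime := Fact.out
  have hEp : IsPGroup p E := defect_group_isPGroup p M B E hE
  obtain ⟨x, ⟨hxS, hxI, hxω⟩, P, hEP⟩ := hE
  have hEC : E ≤ Subgroup.centralizer ({x} : Set G) := by
    rw [hEP]; exact Subgroup.map_subtype_le _
  have hwc : Cfsg.IsClassFunction T (fun t => Cfsg.blockCoeff B' t) := blockCoeff_classFn B'
  have hwS : ∀ t, Cfsg.MemLocalRing M (Cfsg.blockCoeff B' t) :=
    fun t => osima_thm p M hM B' hB' t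
  have hnot : ¬ Cfsg.MemLocalIdeal M (Cfsg.indFun T (fun t => Cfsg.blockCoeff B' t) x) := by
    rw [← fr_idem_ind N hM b hb T hT hNT B' hB' hovB' B hBiff x]; exact hxI
  obtain ⟨y, hy, hyI, hyE⟩ := exists_fixed_conj hM T (fun t => Cfsg.blockCoeff B' t) hwc hwS x
    E hEp hEC hnot
  obtain ⟨t₀, ht₀, D₀, hDD₀⟩ := hD
  obtain ⟨z, Q, hQ⟩ := (minmax_thm p M hM B' hB' t₀ ht₀ D₀ ⟨y⁻¹ * x * y, hy⟩).1 (hwS _) hyI
  have h1 := Subgroup.card_le_of_le hQ
  rw [Subgroup.card_map_of_injective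
    (show Function.Injective (MulAut.conj z).toMonoidHom from (MulAut.conj z).injective)] at h1
  rw [Subgroup.card_map_of_injective (Subgroup.subtype_injective _)] at h1
  rw [Subgroup.card_map_of_injective (Subgroup.subtype_injective _)] at h1
  have hDcard : Nat.card D = Nat.card D₀ := by
    rw [hDD₀, Subgroup.card_map_of_injective (Subgroup.subtype_injective _)]
  obtain ⟨n, hn⟩ := IsPGroup.iff_card.mp hEp
  have hE1T : E.map (MulAut.conj y⁻¹).toMonoidHom ≤ T := by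
    rintro _ ⟨u, hu, rfl⟩
    show (MulAut.conj y⁻¹) u ∈ T
    rw [MulAut.conj_apply, inv_inv]
    exact hyE u hu
  have hE2card : Nat.card ((E.map (MulAut.conj y⁻¹).toMonoidHom).subgroupOf T) = p ^ n := by
    rw [card_subgroupOf_of_le hE1T, Subgroup.card_map_of_injective
      (show Function.Injective (MulAut.conj y⁻¹).toMonoidHom from (MulAut.conj y⁻¹).injective),
      hn]
  have hE2C : (E.map (MulAut.conj y⁻¹).toMonoidHom).subgroupOf T
      ≤ Subgroup.centralizer ({(⟨y⁻¹ * x * y, hy⟩ : T)} : Set T) := by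
    intro s hs
    obtain ⟨u, hu, hus⟩ := Subgroup.mem_map.mp (Subgroup.mem_subgroupOf.mp hs)
    have hux : u * x = x * u := Subgroup.mem_centralizer_singleton_iff.mp (hEC hu)
    apply Subgroup.mem_centralizer_singleton_iff.mpr
    apply Subtype.ext
    show (s : G) * (y⁻¹ * x * y) = y⁻¹ * x * y * (s : G)
    rw [← hus]
    show (MulAut.conj y⁻¹) u * (y⁻¹ * x * y) = y⁻¹ * x * y * (MulAut.conj y⁻¹) u
    rw [MulAut.conj_apply, inv_inv]
    have e1 : y⁻¹ * u * y * (y⁻¹ * x * y) = y⁻¹ * (u * x) * y := by group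
    have e2 : y⁻¹ * x * y * (y⁻¹ * u * y) = y⁻¹ * (x * u) * y := by group
    rw [e1, e2, hux]
  have hdvd := Subgroup.card_dvd_of_le hE2C
  rw [hE2card] at hdvd
  have hle : n ≤ (Nat.card (Subgroup.centralizer
      ({(⟨y⁻¹ * x * y, hy⟩ : T)} : Set T))).factorization p :=
    (hp.pow_dvd_iff_le_factorization Nat.card_pos.ne').mp hdvd
  have hQcard := Q.card_eq_multiplicity
  calc Nat.card E = p ^ n := hn
    _ ≤ p ^ (Nat.card (Subgroup.centralizer
        ({(⟨y⁻¹ * x * y, hy⟩ : T)} : Set T))).factorization p :=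
      Nat.pow_le_pow_right hp.pos hle
    _ = Nat.card Q := hQcard.symm
    _ ≤ Nat.card D₀ := h1
    _ = Nat.card D := hDcard.symm

end frG

/-- **Fong–Reynolds**: defect groups and heights -/
theorem fr_defect_height {G : Type*} [Group G] [Fintype G] (p : ℕ) [Fact p.Prime] (M : Ideal Cfsg.AlgInt) (hM : Cfsg.IsPModular p M) (N : Subgroup G) [hN : N.Normal] [Fintype N] (b : Set (Cfsg.IrrCharacter N)) (hb : Cfsg.IsPBlock M b) (T : Subgroup G) [Fintype T] (hT : ∀ g : G, g ∈ T ↔ ∀ θ ∈ b, ∀ θ' : Cfsg.IrrCharacter N, (∀ n : N, (θ' : N → ℂ) n = (θ : N → ℂ) ⟨g * n * g⁻¹, hN.conj_mem n n.2 g⟩) → θ' ∈ b) (hNT : N ≤ T) (B' : Set (Cfsg.IrrCharacter T)) (hB' : Cfsg.IsPBlock M B') (hcov : (∃ ψ ∈ B', ∃ θ ∈ b, Cfsg.classInner (fun n : N => (ψ : T → ℂ) ⟨(n : G), hNT n.2⟩) (θ : N → ℂ) ≠ 0)) (B : Set (Cfsg.IrrCharacter G)) (hind : Cfsg.IsInducedBlock M T B' B) : (∀ D : Subgroup T, Cfsg.IsDefectGroup p M B' D → Cfsg.IsDefectGroup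 p M B (D.map T.subtype)) ∧ ∀ ψ ∈ B', ∃ χ ∈ B, (χ : G → ℂ) = Cfsg.indFun T (ψ : T → ℂ) ∧ Cfsg.blockHeight p B (χ : G → ℂ) = Cfsg.blockHeight p B' (ψ : T → ℂ) := by
  classical
  have hmax := hM.2.1
  have hp : p.Prime := Fact.out
  have hT' : ∀ g : G, g ∈ T ↔ ∀ θ ∈ b, irrConjEquiv N g θ ∈ b := by
    intro g
    rw [hT g]
    constructor
    · intro h θ hθ
      exact h θ hθ (irrConjEquiv N g θ) (fun n => rfl)
    · intro h θ hθ θ' hθ'
      have e : θ' = irrConjEquiv N g θ := Subtype.ext (funext hθ')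
      rw [e]; exact h θ hθ
  obtain ⟨B₂, hind₂, -, hirrB', hBiff₂⟩ := (fong_reynolds p M hM N b hb T hT hNT).1 B' hB' hcov
  obtain ⟨ψ₀, hψ₀, hov₀⟩ := hcov
  have hovB' : ∀ ψ ∈ B', ∃ θ ∈ b,
      Cfsg.classInner (fun n : N => ψ.1 ⟨n, hNT n.2⟩) θ.1 ≠ 0 := fun ψ hψ =>
    overT_of_sameBlock N hM b hb T hT' hNT ψ₀ ψ (sameBlock_of_mem_block hmax hB' hψ₀ hψ) hov₀
  -- B = B₂
  obtain ⟨χ₁, hχ₁⟩ := block_nonempty hmax hind.2.1
  have hχ₂ : (⟨_, hirrB' ψ₀ hψ₀⟩ : Cfsg.IrrCharacter G) ∈ B₂ :=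
    (hBiff₂ _).mpr ⟨ψ₀, hψ₀, rfl⟩
  have hsb : Cfsg.SameBlock M χ₁.1 (Cfsg.indFun T ψ₀.1) := by
    intro g
    have h1 := hind.2.2 ψ₀ hψ₀ χ₁ hχ₁ g
    have h2 := hind₂.2.2 ψ₀ hψ₀ ⟨_, hirrB' ψ₀ hψ₀⟩ hχ₂ g
    have h3 := mli_sub hmax h2 h1
    rw [sub_sub_sub_cancel_left] at h3
    exact h3
  have hBB₂ : B = B₂ :=
    block_eq_of_sameBlock hmax hind.2.1 hind₂.2.1 hχ₁ hχ₂ hsb
  subst hBB₂
  refine ⟨?_, ?_⟩
  · intro D hD
    obtain ⟨E, hE, hle⟩ := induced_defect_le_thm p M hM T B' hB' B hind.2.1 hind D hD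
    have hcard := fr_defect_card_le N hM b hb T hT' hNT B' hB' hovB' B hBiff₂ E hE D hD
    have heq : D.map T.subtype = E := by
      apply Subgroup.eq_of_le_of_card_ge hle
      rw [Subgroup.card_map_of_injective (Subgroup.subtype_injective _)]
      exact hcard
    rw [heq]; exact hE
  · intro ψ hψ
    refine ⟨⟨_, hirrB' ψ hψ⟩, (hBiff₂ _).mpr ⟨ψ, hψ, rfl⟩, rfl, ?_⟩
    show Cfsg.blockHeight p B (Cfsg.indFun T ψ.1) = Cfsg.blockHeight p B' ψ.1
    unfold Cfsg.blockHeight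
    have hTidx : T.index ≠ 0 := Subgroup.index_ne_zero_of_finite
    have hfact : ∀ ψ' : Cfsg.IrrCharacter T,
        (Cfsg.charDegree (Cfsg.indFun T ψ'.1)).factorization p
          = T.index.factorization p + (Cfsg.charDegree ψ'.1).factorization p := by
      intro ψ'
      obtain ⟨d, hd0, -, hdeg⟩ := charDegree_cast_irr ψ'
      rw [charDegree_indFun T ψ', hdeg, Nat.factorization_mul hTidx hd0.ne', Finsupp.add_apply]
    have hset : (fun χ' : Cfsg.IrrCharacter G => (Cfsg.charDegree χ'.1).factorization p) '' B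
        = (fun n => T.index.factorization p + n) ''
          ((fun ψ' : Cfsg.IrrCharacter T => (Cfsg.charDegree ψ'.1).factorization p) '' B') := by
      ext m
      constructor
      · rintro ⟨χ', hχ', rfl⟩
        obtain ⟨ψ', hψ', h2⟩ := (hBiff₂ χ').mp hχ'
        refine ⟨_, ⟨ψ', hψ', rfl⟩, ?_⟩
        show T.index.factorization p + (Cfsg.charDegree ψ'.1).factorization p
          = (Cfsg.charDegree χ'.1).factorization p
        rw [h2, hfact ψ']
      · rintro ⟨_, ⟨ψ', hψ', rfl⟩, rfl⟩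
        refine ⟨⟨_, hirrB' ψ' hψ'⟩, (hBiff₂ _).mpr ⟨ψ', hψ', rfl⟩, ?_⟩
        show (Cfsg.charDegree (Cfsg.indFun T ψ'.1)).factorization p
          = T.index.factorization p + (Cfsg.charDegree ψ'.1).factorization p
        exact hfact ψ'
    rw [hset, sInf_add_image _ _ (Set.Nonempty.image _ ⟨ψ, hψ⟩), hfact ψ,
      Nat.add_sub_add_left]

end Cfsg.Agent.Lib.Lead
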