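import Mathlib
import Cfsg.Agent.Lib.Lead.Block29

/-!
S4430: the block parts of an induced character at the identity.
-/

set_option autoImplicit false

namespace Cfsg.Agent.Lib.Lead

open scoped ComplexConjugate

theorem blockPart_apply {G : Type*} [Group G] [Fintype G] (B : Set (Cfsg.IrrCharacter G))
    (ϑ : G → ℂ) (g : G) :
    Cfsg.blockPart B ϑ g = ∑ᶠ χ ∈ B, Cfsg.classInner ϑ χ.1 * χ.1 g := by
  have h : Fintype.ofFinite G = ‹Fintype G› := Subsingleton.elim _ _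
  show (∑ᶠ χ ∈ B, @Cfsg.classInner G _ (Fintype.ofFinite G) ϑ χ.1 * χ.1 g) = _
  rw [h]

theorem padic_ratio {p : ℕ} [Fact p.Prime] {M : Ideal Cfsg.AlgInt} (hM : Cfsg.IsPModular p M)
    (n D : ℕ) (hD : D ≠ 0) (lam : ℂ) (h : (n : ℂ) = (D : ℂ) * lam) :
    (Cfsg.MemLocalRing M lam → ¬ Cfsg.MemLocalIdeal M lam →
      n ≠ 0 ∧ n.factorization p = D.factorization p) ∧
    (Cfsg.MemLocalIdeal M lam → n = 0 ∨ D.factorization p < n.factorization p) := by
  have hp : p.Prime := Fact.out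
  have hmax := hM.2.1
  have hDC : (D : ℂ) ≠ 0 := by exact_mod_cast hD
  by_cases hn : n = 0
  · subst hn
    have hl : lam = 0 := by
      have h0 : (D : ℂ) * lam = 0 := by rw [← h]; simp
      rcases mul_eq_zero.mp h0 with h1 | h1
      · exact absurd h1 hDC
      · exact h1
    subst hl
    exact ⟨fun _ h2 => absurd (mli_zero hmax) h2, fun _ => Or.inl rfl⟩
  · obtain ⟨a, n', hn', hna⟩ := Nat.exists_eq_pow_mul_and_not_dvd hn p hp.ne_one
    obtain ⟨b, D', hD', hDb⟩ := Nat.exists_eq_pow_mul_and_not_dvd hD p hp.ne_one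
    have hn'0 : n' ≠ 0 := by rintro rfl; exact hn' (dvd_zero p)
    have hD'0 : D' ≠ 0 := by rintro rfl; exact hD' (dvd_zero p)
    have hfa : n.factorization p = a := by
      rw [hna, Nat.factorization_mul (pow_ne_zero _ hp.ne_zero) hn'0, hp.factorization_pow]
      simp [Nat.factorization_eq_zero_of_not_dvd hn']
    have hfb : D.factorization p = b := by
      rw [hDb, Nat.factorization_mul (pow_ne_zero _ hp.ne_zero) hD'0, hp.factorization_pow]
      simp [Nat.factorization_eq_zero_of_not_dvd hD']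
    rw [hfa, hfb]
    have hrel : (p : ℂ) ^ a * (n' : ℂ) = (p : ℂ) ^ b * (D' : ℂ) * lam := by
      have h0 := h
      rw [hna, hDb] at h0
      push_cast at h0
      exact h0
    have hpC : (p : ℂ) ≠ 0 := by exact_mod_cast hp.ne_zero
    have hle : Cfsg.MemLocalRing M lam → b ≤ a := by
      intro hl
      by_contra hlt
      obtain ⟨k, hk⟩ : ∃ k, b = a + (k + 1) := ⟨b - a - 1, by omega⟩
      apply not_mli_natCast hM hn'
      have e : (n' : ℂ) = ((D' : ℂ) * lam) * ((p ^ (k + 1) : ℕ) : ℂ) := by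
        have h1 : (p : ℂ) ^ a * (n' : ℂ)
            = (p : ℂ) ^ a * (((D' : ℂ) * lam) * (p : ℂ) ^ (k + 1)) := by
          rw [hrel, hk, pow_add]; ring
        have h2 := mul_left_cancel₀ (pow_ne_zero a hpC) h1
        rw [h2]; push_cast; ring
      rw [e]
      exact mli_mul hmax (mlr_mul hmax (mlr_natCast hmax D') hl)
        (mli_natCast_of_dvd hM (dvd_pow_self p (Nat.succ_ne_zero k)))
    have hge : Cfsg.MemLocalRing M lam → ¬ Cfsg.MemLocalIdeal M lam → a ≤ b := by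
      intro hl hnl
      by_contra hlt
      obtain ⟨k, hk⟩ : ∃ k, a = b + (k + 1) := ⟨a - b - 1, by omega⟩
      have e : lam * (D' : ℂ) = ((p ^ (k + 1) * n' : ℕ) : ℂ) := by
        have h1 : (p : ℂ) ^ b * (lam * (D' : ℂ))
            = (p : ℂ) ^ b * ((p : ℂ) ^ (k + 1) * (n' : ℂ)) := by
          have h0 := hrel
          rw [hk, pow_add] at h0
          linear_combination (-1 : ℂ) * h0
        have h2 := mul_left_cancel₀ (pow_ne_zero b hpC) h1
        rw [h2]; push_cast; ring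
      have h3 : Cfsg.MemLocalIdeal M (lam * (D' : ℂ)) := by
        rw [e]
        exact mli_natCast_of_dvd hM
          (Dvd.dvd.mul_right (dvd_pow_self p (Nat.succ_ne_zero k)) n')
      rcases mli_prime hmax hl (mlr_natCast hmax D') h3 with h4 | h4
      · exact hnl h4
      · exact not_mli_natCast hM hD' h4
    refine ⟨fun hl hnl => ⟨hn, le_antisymm (hge hl hnl) (hle hl)⟩, fun hI => Or.inr ?_⟩
    have h1 := hle (mli_mlr hI)
    rcases Nat.lt_or_ge b a with h2 | h2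
    · exact h2
    · exfalso
      have hab : a = b := le_antisymm h2 h1
      apply not_mli_natCast hM hn'
      have e : (n' : ℂ) = (D' : ℂ) * lam := by
        have h3 := hrel
        rw [hab, mul_assoc] at h3
        exact mul_left_cancel₀ (pow_ne_zero b hpC) h3
      rw [e]
      exact mli_mul hmax (mlr_natCast hmax D') hI

theorem blockPart_ind_one {G : Type*} [Group G] [Fintype G] (H : Subgroup G) [Fintype H]
    (ξ : Cfsg.IrrCharacter H) (B : Set (Cfsg.IrrCharacter G)) :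
    Cfsg.blockPart B (Cfsg.indFun H ξ.1) 1
      = (H.index : ℂ) * ξ.1 1 * Om ξ.1 (fun h : H => Cfsg.blockCoeff B (h : G)) := by
  classical
  haveI : Fintype (Cfsg.IrrCharacter G) := Fintype.ofFinite _
  rw [blockPart_apply, finsum_mem_eq_sum_ite]
  unfold Om
  obtain ⟨d, hd0, hd, -⟩ := charDegree_cast_irr ξ
  have hξ1 : ξ.1 1 ≠ 0 := by rw [hd]; exact_mod_cast hd0.ne'
  have hHne : (Nat.card H : ℂ) ≠ 0 := by exact_mod_cast Nat.card_pos.ne'
  have hG : (Nat.card G : ℂ) = (Nat.card H : ℂ) * (H.index : ℂ) := by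
    exact_mod_cast (Subgroup.card_mul_index H).symm
  have hidx : (H.index : ℂ) ≠ 0 := by
    exact_mod_cast (Subgroup.index_ne_zero_of_finite (H := H))
  have hL : ∀ χ : Cfsg.IrrCharacter G, Cfsg.classInner (Cfsg.indFun H ξ.1) χ.1
      = (Nat.card H : ℂ)⁻¹ * ∑ h : H, ξ.1 h * conj (χ.1 h) := by
    intro χ
    rw [frobenius_reciprocity H ξ.1 χ.1 (isClassFunction_of_irr χ)]
    rfl
  have hR : ∑ h : H, Cfsg.blockCoeff B (h : G) * ξ.1 h
      = (Nat.card G : ℂ)⁻¹ * ∑ χ : Cfsg.IrrCharacter G,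
          (if χ ∈ B then χ.1 1 * ∑ h : H, ξ.1 h * conj (χ.1 h) else 0) := by
    have h1 : ∀ h : H, Cfsg.blockCoeff B (h : G) * ξ.1 h
        = (Nat.card G : ℂ)⁻¹ * ∑ χ : Cfsg.IrrCharacter G,
            (if χ ∈ B then χ.1 1 * (ξ.1 h * conj (χ.1 h)) else 0) := by
      intro h
      rw [blockCoeff_eq B (h : G), mul_assoc, Finset.sum_mul]
      congr 1
      apply Finset.sum_congr rfl
      intro χ _
      by_cases hχ : χ ∈ B
      · rw [if_pos hχ, if_pos hχ]; ring
      · rw [if_neg hχ, if_neg hχ]; ring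
    rw [Finset.sum_congr rfl (fun h _ => h1 h), ← Finset.mul_sum, Finset.sum_comm]
    congr 1
    apply Finset.sum_congr rfl
    intro χ _
    by_cases hχ : χ ∈ B
    · simp only [if_pos hχ]; rw [Finset.mul_sum]
    · simp only [if_neg hχ]; simp
  have hOm : (H.index : ℂ) * ξ.1 1 * ((∑ h : H, Cfsg.blockCoeff B (h : G) * ξ.1 h) / ξ.1 1)
      = (H.index : ℂ) * (∑ h : H, Cfsg.blockCoeff B (h : G) * ξ.1 h) := by
    field_simp
  rw [hOm, hR, ← mul_assoc, Finset.mul_sum]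
  apply Finset.sum_congr rfl
  intro χ _
  by_cases hχ : χ ∈ B
  · rw [if_pos hχ, if_pos hχ, hL, hG]
    field_simp
  · rw [if_neg hχ, if_neg hχ, mul_zero]

theorem induced_blockPart_thm {G : Type*} [Group G] [Fintype G] (p : ℕ) [Fact p.Prime] (M : Ideal Cfsg.AlgInt) (hM : Cfsg.IsPModular p M) (H : Subgroup G) [Fintype H] (b : Set (Cfsg.IrrCharacter H)) (B₀ : Set (Cfsg.IrrCharacter G)) (hind : Cfsg.IsInducedBlock M H b B₀) (ξ : Cfsg.IrrCharacter H) (hξ : ξ ∈ b) : (∃ n : ℕ, Cfsg.blockPart B₀ (Cfsg.indFun H (ξ : H → ℂ)) 1 = (n : ℂ) ∧ n ≠ 0 ∧ n.factorization p = (Cfsg.charDegree (Cfsg.indFun H (ξ : H → ℂ))).factorization p) ∧ ∀ B : Set (Cfsg.IrrCharacter G), Cfsg.IsPBlock M B → B ≠ B₀ → ∃ n : ℕ, Cfsg.blockPart B (Cfsg.indFun H (ξ : H → ℂ)) 1 = (n : ℂ) ∧ (n = 0 ∨ (Cfsg.charDegree (Cfsg.indFun H (ξ : H → ℂ))).factorization p < n.factorization p) := by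
  classical
  haveI : Fintype (Cfsg.IrrCharacter G) := Fintype.ofFinite _
  have hmax := hM.2.1
  obtain ⟨hb, hB₀, hcc⟩ := hind
  obtain ⟨χ₀, hχ₀⟩ := block_nonempty hmax hB₀
  obtain ⟨d, hd0, hd, hdeg⟩ := charDegree_cast_irr ξ
  have hD : Cfsg.charDegree (Cfsg.indFun H ξ.1) = H.index * d := by
    rw [charDegree_indFun, hdeg]
  have hD0 : H.index * d ≠ 0 :=
    Nat.mul_ne_zero (Subgroup.index_ne_zero_of_finite (H := H)) hd0.ne'
  have hnat : ∀ B : Set (Cfsg.IrrCharacter G),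
      ∃ n : ℕ, Cfsg.blockPart B (Cfsg.indFun H ξ.1) 1 = (n : ℂ) := by
    intro B
    have h1 : ∀ χ : Cfsg.IrrCharacter G,
        ∃ n : ℕ, Cfsg.classInner (Cfsg.indFun H ξ.1) χ.1 * χ.1 1 = (n : ℂ) := by
      intro χ
      obtain ⟨m, hm⟩ := classInner_char_nat
        (isCharacter_indFun H ξ.1 (isCharacter_of_irr ξ.2)) (isCharacter_of_irr χ.2)
      obtain ⟨e, _, he, _⟩ := charDegree_cast_irr χ
      exact ⟨m * e, by rw [hm, he]; push_cast; ring⟩
    choose f hf using h1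
    refine ⟨∑ χ : Cfsg.IrrCharacter G, if χ ∈ B then f χ else 0, ?_⟩
    rw [blockPart_apply, finsum_mem_eq_sum_ite]
    push_cast
    apply Finset.sum_congr rfl
    intro χ _
    by_cases hχ : χ ∈ B
    · rw [if_pos hχ, if_pos hχ, hf]
    · rw [if_neg hχ, if_neg hχ]
  have hkey : ∀ B : Set (Cfsg.IrrCharacter G), Cfsg.IsPBlock M B →
      Cfsg.MemLocalIdeal M (Om ξ.1 (fun h : H => Cfsg.blockCoeff B (h : G))
        - (if χ₀ ∈ B then 1 else 0)) := by
    intro B hB
    have h1 := induced_Om_congr hmax H ξ χ₀ (hcc ξ hξ χ₀ hχ₀) (blockCoeff_classFn B)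
      (fun g => osima_thm p M hM B hB g)
    rw [Om_blockCoeff B χ₀] at h1
    exact h1
  have hrel : ∀ B : Set (Cfsg.IrrCharacter G), ∀ n : ℕ,
      Cfsg.blockPart B (Cfsg.indFun H ξ.1) 1 = (n : ℂ) →
      (n : ℂ) = ((H.index * d : ℕ) : ℂ) * Om ξ.1 (fun h : H => Cfsg.blockCoeff B (h : G)) := by
    intro B n hn
    rw [← hn, blockPart_ind_one, hd]; push_cast; ring
  rw [hD]
  constructor
  · obtain ⟨n, hn⟩ := hnat B₀
    have h1 := hkey B₀ hB₀
    rw [if_pos hχ₀] at h1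
    have hlr : Cfsg.MemLocalRing M (Om ξ.1 (fun h : H => Cfsg.blockCoeff B₀ (h : G))) := by
      have h2 := mlr_add hmax (mli_mlr h1) (mlr_one hmax)
      rwa [sub_add_cancel] at h2
    have hnl : ¬ Cfsg.MemLocalIdeal M (Om ξ.1 (fun h : H => Cfsg.blockCoeff B₀ (h : G))) := by
      intro h2
      apply not_mli_one hmax
      have h3 := mli_sub hmax h2 h1
      rwa [sub_sub_cancel] at h3
    obtain ⟨h3, h4⟩ := (padic_ratio hM n (H.index * d) hD0 _ (hrel B₀ n hn)).1 hlr hnl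
    exact ⟨n, hn, h3, h4⟩
  · intro B hB hne
    obtain ⟨n, hn⟩ := hnat B
    have hχ₀B : χ₀ ∉ B := by
      intro h
      exact hne (block_eq_of_sameBlock hmax hB hB₀ h hχ₀ (sameBlock_refl hmax _))
    have h1 := hkey B hB
    rw [if_neg hχ₀B, sub_zero] at h1
    exact ⟨n, hn, (padic_ratio hM n (H.index * d) hD0 _ (hrel B n hn)).2 h1⟩

end Cfsg.Agent.Lib.Lead
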