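import Mathlib
import Cfsg.Agent.Lib.Lead.Block31
import Cfsg.Agent.Lib.Helper7.Codeg

/-!
S4521: principal blocks of central products.
-/

set_option autoImplicit false

namespace Cfsg.Agent.Lib.Lead

open scoped ComplexConjugate

section cp

variable {G : Type*} [Group G] [Fintype G]

theorem irr_mul_of_conj_inv (χ : Cfsg.IrrCharacter G) (x y : G)
    (h : ∀ a b : G, χ.1 (a * x * a⁻¹ * (b * y * b⁻¹)) = χ.1 (x * y)) :
    χ.1 1 * χ.1 (x * y) = χ.1 x * χ.1 y := by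
  have h1 := Cfsg.Agent.Lib.Helper7.irr_sum_conj_mul χ x y
  have h2 : ∑ a : G, ∑ b : G, χ.1 (a * x * a⁻¹ * (b * y * b⁻¹))
      = (Nat.card G : ℂ) ^ 2 * χ.1 (x * y) := by
    rw [Finset.sum_congr rfl (fun a _ => Finset.sum_congr rfl (fun b _ => h a b))]
    simp only [Finset.sum_const, Finset.card_univ, nsmul_eq_mul, Nat.card_eq_fintype_card]
    ring
  rw [h2] at h1
  have hG : (Nat.card G : ℂ) ^ 2 ≠ 0 := by
    apply pow_ne_zero; exact_mod_cast Nat.card_pos.ne'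
  apply mul_left_cancel₀ hG
  rw [← h1]; ring

theorem cp_decomp (U₁ U₂ : Subgroup G) (hcomm : ∀ u ∈ U₁, ∀ v ∈ U₂, u * v = v * u)
    (hgen : U₁ ⊔ U₂ = ⊤) (g : G) : ∃ u ∈ U₁, ∃ v ∈ U₂, g = u * v := by
  have hg : g ∈ Subgroup.closure ((U₁ : Set G) ∪ (U₂ : Set G)) := by
    rw [Subgroup.closure_union, Subgroup.closure_eq, Subgroup.closure_eq, hgen]
    exact Subgroup.mem_top g
  refine Subgroup.closure_induction (p := fun g _ => ∃ u ∈ U₁, ∃ v ∈ U₂, g = u * v)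
    ?_ ?_ ?_ ?_ hg
  · intro x hx
    rcases hx with hx | hx
    · exact ⟨x, hx, 1, U₂.one_mem, (mul_one x).symm⟩
    · exact ⟨1, U₁.one_mem, x, hx, (one_mul x).symm⟩
  · exact ⟨1, U₁.one_mem, 1, U₂.one_mem, (mul_one 1).symm⟩
  · rintro x y _ _ ⟨u, hu, v, hv, rfl⟩ ⟨u', hu', v', hv', rfl⟩
    refine ⟨u * u', U₁.mul_mem hu hu', v * v', U₂.mul_mem hv hv', ?_⟩
    have e := hcomm u' hu' v hv
    calc u * v * (u' * v') = u * (v * u') * v' := by group
      _ = u * (u' * v) * v' := by rw [e]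
      _ = u * u' * (v * v') := by group
  · rintro x _ ⟨u, hu, v, hv, rfl⟩
    refine ⟨u⁻¹, U₁.inv_mem hu, v⁻¹, U₂.inv_mem hv, ?_⟩
    have e := hcomm u hu v hv
    rw [show u⁻¹ * v⁻¹ = (v * u)⁻¹ from (mul_inv_rev v u).symm, e]

theorem cp_conj_left (U₁ U₂ : Subgroup G) (hcomm : ∀ u ∈ U₁, ∀ v ∈ U₂, u * v = v * u)
    (hgen : U₁ ⊔ U₂ = ⊤) (a u : G) (hu : u ∈ U₁) :
    ∃ d ∈ U₁, a * u * a⁻¹ = d * u * d⁻¹ := by
  obtain ⟨a₁, ha₁, a₂, ha₂, rfl⟩ := cp_decomp U₁ U₂ hcomm hgen a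
  refine ⟨a₁, ha₁, ?_⟩
  have e := hcomm u hu a₂ ha₂
  calc a₁ * a₂ * u * (a₁ * a₂)⁻¹ = a₁ * (a₂ * u) * a₂⁻¹ * a₁⁻¹ := by group
    _ = a₁ * (u * a₂) * a₂⁻¹ * a₁⁻¹ := by rw [e]
    _ = a₁ * u * a₁⁻¹ := by group

theorem cp_conj_mul (U₁ U₂ : Subgroup G) (hcomm : ∀ u ∈ U₁, ∀ v ∈ U₂, u * v = v * u)
    (hgen : U₁ ⊔ U₂ = ⊤) (a b u v : G) (hu : u ∈ U₁) (hv : v ∈ U₂) :
    ∃ c : G, a * u * a⁻¹ * (b * v * b⁻¹) = c * (u * v) * c⁻¹ := by
  have hcomm' : ∀ u ∈ U₂, ∀ v ∈ U₁, u * v = v * u := fun u hu v hv => (hcomm v hv u hu).symm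
  have hgen' : U₂ ⊔ U₁ = ⊤ := by rw [sup_comm]; exact hgen
  obtain ⟨d, hd, hdu⟩ := cp_conj_left U₁ U₂ hcomm hgen a u hu
  obtain ⟨e, he, hev⟩ := cp_conj_left U₂ U₁ hcomm' hgen' b v hv
  refine ⟨d * e, ?_⟩
  rw [hdu, hev]
  have e1 := hcomm u hu e he
  have e2 := hcomm d⁻¹ (U₁.inv_mem hd) (e * v * e⁻¹) (U₂.mul_mem (U₂.mul_mem he hv) (U₂.inv_mem he))
  calc d * u * d⁻¹ * (e * v * e⁻¹) = d * u * (d⁻¹ * (e * v * e⁻¹)) := by group
    _ = d * u * ((e * v * e⁻¹) * d⁻¹) := by rw [e2]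
    _ = d * (u * e) * v * e⁻¹ * d⁻¹ := by group
    _ = d * (e * u) * v * e⁻¹ * d⁻¹ := by rw [e1]
    _ = d * e * (u * v) * (d * e)⁻¹ := by group

theorem cp_char_mul (U₁ U₂ : Subgroup G) (hcomm : ∀ u ∈ U₁, ∀ v ∈ U₂, u * v = v * u)
    (hgen : U₁ ⊔ U₂ = ⊤) (χ : Cfsg.IrrCharacter G) (u v : G) (hu : u ∈ U₁) (hv : v ∈ U₂) :
    χ.1 1 * χ.1 (u * v) = χ.1 u * χ.1 v := by
  apply irr_mul_of_conj_inv χ u v
  intro a b
  obtain ⟨c, hc⟩ := cp_conj_mul U₁ U₂ hcomm hgen a b u v hu hv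
  rw [hc]
  exact isClassFunction_of_irr χ (u * v) c

theorem cp_central (U₁ U₂ : Subgroup G) (hcomm : ∀ u ∈ U₁, ∀ v ∈ U₂, u * v = v * u)
    (hgen : U₁ ⊔ U₂ = ⊤) (z : G) (hz : z ∈ U₁ ⊓ U₂) (x : G) : x * z = z * x := by
  obtain ⟨x₁, hx₁, x₂, hx₂, rfl⟩ := cp_decomp U₁ U₂ hcomm hgen x
  have e1 := hcomm z hz.1 x₂ hx₂
  have e2 := hcomm x₁ hx₁ z hz.2
  calc x₁ * x₂ * z = x₁ * (x₂ * z) := by group
    _ = x₁ * (z * x₂) := by rw [e1]
    _ = (x₁ * z) * x₂ := by group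
    _ = z * x₁ * x₂ := by rw [e2]
    _ = z * (x₁ * x₂) := by group

theorem cp_normal (U₁ U₂ : Subgroup G) (hcomm : ∀ u ∈ U₁, ∀ v ∈ U₂, u * v = v * u)
    (hgen : U₁ ⊔ U₂ = ⊤) : U₁.Normal := by
  constructor
  intro n hn g
  obtain ⟨d, hd, hdn⟩ := cp_conj_left U₁ U₂ hcomm hgen g n hn
  rw [hdn]
  exact U₁.mul_mem (U₁.mul_mem hd hn) (U₁.inv_mem hd)

theorem cp_homog (U₁ U₂ : Subgroup G) (hcomm : ∀ u ∈ U₁, ∀ v ∈ U₂, u * v = v * u)
    (hgen : U₁ ⊔ U₂ = ⊤) [Fintype U₁] (χ : Cfsg.IrrCharacter G) (ψ : Cfsg.IrrCharacter U₁)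
    (h : Cfsg.classInner (fun u : U₁ => χ.1 u) ψ.1 ≠ 0) (u : U₁) :
    χ.1 (u : G) * ψ.1 1 = χ.1 1 * ψ.1 u := by
  classical
  haveI hn : U₁.Normal := cp_normal U₁ U₂ hcomm hgen
  haveI : Fintype (Cfsg.IrrCharacter U₁) := Fintype.ofFinite _
  have huniq : ∀ ψ' : Cfsg.IrrCharacter U₁,
      Cfsg.classInner (fun u : U₁ => χ.1 u) ψ'.1 ≠ 0 → ψ' = ψ := by
    intro ψ' h'
    obtain ⟨x, hx⟩ := Cfsg.Agent.Lib.Helper7.Cliff.exists_conj_of_constituents (N := U₁)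
      χ ψ ψ' h h'
    apply Subtype.ext
    rw [hx]
    funext w
    rw [conjFun_apply]
    obtain ⟨d, hd, hdw⟩ := cp_conj_left U₁ U₂ hcomm hgen x (w : G) w.2
    exact (congrArg ψ.1 (Subtype.ext hdw)).trans (isClassFunction_of_irr ψ w ⟨d, hd⟩)
  have hexp := class_fn_expand' (fun u : U₁ => χ.1 u)
    (Cfsg.Agent.Lib.Helper7.Cliff.isClassFunction_restrict U₁ χ.1 (isClassFunction_of_irr χ))
  have hval : ∀ w : U₁, χ.1 (w : G)
      = Cfsg.classInner (fun u : U₁ => χ.1 u) ψ.1 * ψ.1 w := by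
    intro w
    have h1 := congrFun hexp w
    rw [Finset.sum_apply, Finset.sum_eq_single ψ] at h1
    · exact h1
    · intro ψ' _ hne
      have h0 : Cfsg.classInner (fun u : U₁ => χ.1 u) ψ'.1 = 0 := by
        by_contra h0; exact hne (huniq ψ' h0)
      rw [h0, zero_smul]; rfl
    · intro hh; exact absurd (Finset.mem_univ ψ) hh
  have h1 : χ.1 1 = Cfsg.classInner (fun u : U₁ => χ.1 u) ψ.1 * ψ.1 1 := hval 1
  rw [hval u, h1]
  ring

theorem cp_index_eq (U₁ U₂ : Subgroup G) (hcomm : ∀ u ∈ U₁, ∀ v ∈ U₂, u * v = v * u)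
    (hgen : U₁ ⊔ U₂ = ⊤) (u : U₁) :
    (Subgroup.centralizer ({u} : Set U₁)).index
      = (Subgroup.centralizer ({(u : G)} : Set G)).index := by
  rw [index_centralizer_eq, index_centralizer_eq]
  apply Nat.card_congr
  refine Equiv.ofBijective
    (fun x => ⟨(x.1 : G), by
      obtain ⟨c, hc⟩ := isConj_iff.mp x.2
      exact isConj_iff.mpr ⟨(c : G), by rw [← hc]; rfl⟩⟩) ⟨?_, ?_⟩
  · intro x y hxy
    apply Subtype.ext; apply Subtype.ext
    have h2 := congrArg Subtype.val hxy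
    exact h2
  · rintro ⟨y, hy⟩
    obtain ⟨a, ha⟩ := isConj_iff.mp hy
    obtain ⟨d, hd, hdu⟩ := cp_conj_left U₁ U₂ hcomm hgen a (u : G) u.2
    refine ⟨⟨⟨d, hd⟩ * u * ⟨d, hd⟩⁻¹, isConj_iff.mpr ⟨⟨d, hd⟩, rfl⟩⟩, ?_⟩
    apply Subtype.ext
    show d * (u : G) * d⁻¹ = y
    rw [← hdu, ha]

theorem cp_index_mul (U₁ U₂ : Subgroup G) (hcomm : ∀ u ∈ U₁, ∀ v ∈ U₂, u * v = v * u)
    (hgen : U₁ ⊔ U₂ = ⊤) (u v : G) (hu : u ∈ U₁) (hv : v ∈ U₂)
    (hW : ∀ z ∈ U₁ ⊓ U₂, IsConj (u * v) (u * v * z) → z = 1) :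
    (Subgroup.centralizer ({u * v} : Set G)).index
      = (Subgroup.centralizer ({u} : Set G)).index
        * (Subgroup.centralizer ({v} : Set G)).index := by
  have hcomm' : ∀ u ∈ U₂, ∀ v ∈ U₁, u * v = v * u := fun u hu v hv => (hcomm v hv u hu).symm
  have hgen' : U₂ ⊔ U₁ = ⊤ := by rw [sup_comm]; exact hgen
  rw [index_centralizer_eq (u * v), index_centralizer_eq u, index_centralizer_eq v,
    ← Nat.card_prod]
  symm
  apply Nat.card_congr
  refine Equiv.ofBijective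
    (fun xy => ⟨xy.1.1 * xy.2.1, by
      obtain ⟨a, ha⟩ := isConj_iff.mp xy.1.2
      obtain ⟨b, hb⟩ := isConj_iff.mp xy.2.2
      obtain ⟨c, hc⟩ := cp_conj_mul U₁ U₂ hcomm hgen a b u v hu hv
      exact isConj_iff.mpr ⟨c, by rw [← hc, ha, hb]⟩⟩) ⟨?_, ?_⟩
  · rintro ⟨⟨x, hx⟩, ⟨y, hy⟩⟩ ⟨⟨x', hx'⟩, ⟨y', hy'⟩⟩ hxy
    have hxy' : x * y = x' * y' := congrArg Subtype.val hxy
    obtain ⟨a, ha⟩ := isConj_iff.mp hx
    obtain ⟨a', ha'⟩ := isConj_iff.mp hx'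
    obtain ⟨b, hb⟩ := isConj_iff.mp hy
    obtain ⟨b', hb'⟩ := isConj_iff.mp hy'
    obtain ⟨d, hd, hdu⟩ := cp_conj_left U₁ U₂ hcomm hgen a u hu
    obtain ⟨d', hd', hdu'⟩ := cp_conj_left U₁ U₂ hcomm hgen a' u hu
    obtain ⟨e, he, hev⟩ := cp_conj_left U₂ U₁ hcomm' hgen' b v hv
    obtain ⟨e', he', hev'⟩ := cp_conj_left U₂ U₁ hcomm' hgen' b' v hv
    have hx_eq : x = d * u * d⁻¹ := by rw [← hdu, ha]
    have hx'_eq : x' = d' * u * d'⁻¹ := by rw [← hdu', ha']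
    have hy_eq : y = e * v * e⁻¹ := by rw [← hev, hb]
    have hy'_eq : y' = e' * v * e'⁻¹ := by rw [← hev', hb']
    have hxU : x ∈ U₁ := by rw [hx_eq]; exact U₁.mul_mem (U₁.mul_mem hd hu) (U₁.inv_mem hd)
    have hx'U : x' ∈ U₁ := by
      rw [hx'_eq]; exact U₁.mul_mem (U₁.mul_mem hd' hu) (U₁.inv_mem hd')
    have hyU : y ∈ U₂ := by rw [hy_eq]; exact U₂.mul_mem (U₂.mul_mem he hv) (U₂.inv_mem he)
    have hy'U : y' ∈ U₂ := by
      rw [hy'_eq]; exact U₂.mul_mem (U₂.mul_mem he' hv) (U₂.inv_mem he')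
    obtain ⟨z, hzdef⟩ : ∃ z : G, z = x⁻¹ * x' := ⟨_, rfl⟩
    have hz2 : z = y * y'⁻¹ := by
      rw [hzdef]
      calc x⁻¹ * x' = x⁻¹ * (x' * y') * y'⁻¹ := by group
        _ = x⁻¹ * (x * y) * y'⁻¹ := by rw [hxy']
        _ = y * y'⁻¹ := by group
    have hzZ : z ∈ U₁ ⊓ U₂ :=
      ⟨by rw [hzdef]; exact U₁.mul_mem (U₁.inv_mem hxU) hx'U,
        by rw [hz2]; exact U₂.mul_mem hyU (U₂.inv_mem hy'U)⟩
    have hzc := cp_central U₁ U₂ hcomm hgen z hzZ
    have hx'z : x' = x * z := by rw [hzdef]; group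
    have hz1 : z = 1 := by
      apply hW z hzZ
      refine isConj_iff.mpr ⟨d⁻¹ * d', ?_⟩
      have ec := hcomm (d⁻¹ * d')⁻¹ (U₁.inv_mem (U₁.mul_mem (U₁.inv_mem hd) hd')) v hv
      have hzv := hzc v
      have hzd := hzc d
      have K : d' * u * d'⁻¹ = d * u * d⁻¹ * z := by rw [← hx'_eq, ← hx_eq, hx'z]
      calc d⁻¹ * d' * (u * v) * (d⁻¹ * d')⁻¹
          = d⁻¹ * d' * u * (v * (d⁻¹ * d')⁻¹) := by group
        _ = d⁻¹ * d' * u * ((d⁻¹ * d')⁻¹ * v) := by rw [ec]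
        _ = d⁻¹ * (d' * u * d'⁻¹) * d * v := by group
        _ = d⁻¹ * (d * u * d⁻¹ * z) * d * v := by rw [K]
        _ = u * d⁻¹ * (z * d) * v := by group
        _ = u * d⁻¹ * (d * z) * v := by rw [← hzd]
        _ = u * (z * v) := by group
        _ = u * (v * z) := by rw [← hzv]
        _ = u * v * z := by group
    have hxx : x = x' := by rw [hx'z, hz1, mul_one]
    have hyy : y = y' := by
      have h3 : x * y = x * y' := by rw [hxy', hxx]
      exact mul_left_cancel h3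
    subst hxx
    subst hyy
    rfl
  · rintro ⟨w, hw⟩
    obtain ⟨a, ha⟩ := isConj_iff.mp hw
    refine ⟨(⟨a * u * a⁻¹, isConj_iff.mpr ⟨a, rfl⟩⟩, ⟨a * v * a⁻¹, isConj_iff.mpr ⟨a, rfl⟩⟩), ?_⟩
    apply Subtype.ext
    show a * u * a⁻¹ * (a * v * a⁻¹) = w
    rw [← ha]; group

theorem cp_central_mli {p : ℕ} [Fact p.Prime] {M : Ideal Cfsg.AlgInt}
    (hM : Cfsg.IsPModular p M) (χ : Cfsg.IrrCharacter G) (z : G)
    (hzc : ∀ x : G, x * z = z * x) (hz1 : z ≠ 1) (hzp : ∃ k : ℕ, z ^ (p ^ k) = 1) (g : G)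
    (hconj : IsConj g (g * z)) :
    Cfsg.MemLocalIdeal M (Cfsg.centralChar χ.1 g) := by
  classical
  have hmax := hM.2.1
  have hp : p.Prime := Fact.out
  obtain ⟨d, hd0, hd⟩ := irr_one_eq_nat χ
  have hχ1 : χ.1 1 ≠ 0 := by rw [hd]; exact_mod_cast hd0.ne'
  have hM1 : ∀ x : G, χ.1 1 * χ.1 (x * z) = χ.1 x * χ.1 z := by
    intro x
    apply irr_mul_of_conj_inv χ x z
    intro a b
    have e : a * x * a⁻¹ * (b * z * b⁻¹) = a * (x * z) * a⁻¹ := by
      have h1 : b * z * b⁻¹ = z := by rw [hzc b]; group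
      have h2 := hzc a⁻¹
      rw [h1]
      calc a * x * a⁻¹ * z = a * x * (a⁻¹ * z) := by group
        _ = a * x * (z * a⁻¹) := by rw [h2]
        _ = a * (x * z) * a⁻¹ := by group
    rw [e]
    exact isClassFunction_of_irr χ (x * z) a
  by_cases hlam : χ.1 z = χ.1 1
  · -- `z` lies in the kernel: pass to the quotient by `⟨z⟩`
    obtain ⟨N, hNdef⟩ : ∃ N : Subgroup G, N = Subgroup.zpowers z := ⟨_, rfl⟩
    have hNc : ∀ n ∈ N, ∀ w : G, w * n = n * w := by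
      intro n hn w
      rw [hNdef] at hn
      obtain ⟨k, rfl⟩ := Subgroup.mem_zpowers_iff.mp hn
      have hc : Commute w z := hzc w
      exact (hc.zpow_right k).eq
    haveI hNn : N.Normal := by
      constructor
      intro n hn x
      have h1 : x * n * x⁻¹ = n := by rw [hNc n hn x]; group
      rw [h1]; exact hn
    have hP : ∀ n ∈ N, ∀ y : G, χ.1 (y * n) = χ.1 y := by
      intro n hn
      rw [hNdef, Subgroup.zpowers_eq_closure] at hn
      refine Subgroup.closure_induction (p := fun n _ => ∀ y : G, χ.1 (y * n) = χ.1 y)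
        ?_ ?_ ?_ ?_ hn
      · intro x hx y
        rw [Set.mem_singleton_iff] at hx
        subst hx
        have h1 := hM1 y
        rw [hlam] at h1
        have h2 : χ.1 1 * χ.1 (y * x) = χ.1 1 * χ.1 y := by rw [h1, mul_comm]
        exact mul_left_cancel₀ hχ1 h2
      · intro y; rw [mul_one]
      · intro a b _ _ ha hb y
        rw [← mul_assoc, hb, ha]
      · intro a _ ha y
        have h1 := ha (y * a⁻¹)
        rw [inv_mul_cancel_right] at h1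
        exact h1.symm
    have hker : ∀ n ∈ N, χ.1 n = χ.1 1 := by
      intro n hn
      have h1 := hP n hn 1
      rwa [one_mul] at h1
    obtain ⟨ψ, hψ⟩ := Cfsg.Agent.Lib.Helper7.Codeg.exists_irr_quot χ N hker
    haveI : Fintype (G ⧸ N) := Fintype.ofFinite _
    obtain ⟨D, hDdef⟩ : ∃ D : Subgroup G,
        D = (Subgroup.centralizer ({(QuotientGroup.mk' N g)} : Set (G ⧸ N))).comap
          (QuotientGroup.mk' N) := ⟨_, rfl⟩
    have hCle : Subgroup.centralizer ({g} : Set G) ≤ D := by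
      intro w hw
      have h1 : w * g = g * w := Subgroup.mem_centralizer_singleton_iff.mp hw
      rw [hDdef]
      apply Subgroup.mem_comap.mpr
      apply Subgroup.mem_centralizer_singleton_iff.mpr
      rw [← map_mul, ← map_mul, h1]
    have hrel := Subgroup.relIndex_mul_index hCle
    have hDidx : D.index
        = (Subgroup.centralizer ({(QuotientGroup.mk' N g)} : Set (G ⧸ N))).index := by
      rw [hDdef]
      exact Subgroup.index_comap_of_surjective _ (QuotientGroup.mk'_surjective N)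
    have hDmem : ∀ x ∈ D, x * g * x⁻¹ * g⁻¹ ∈ N := by
      intro x hx
      rw [hDdef] at hx
      have h1 : QuotientGroup.mk' N x * QuotientGroup.mk' N g
          = QuotientGroup.mk' N g * QuotientGroup.mk' N x :=
        Subgroup.mem_centralizer_singleton_iff.mp (Subgroup.mem_comap.mp hx)
      apply (QuotientGroup.eq_one_iff _).mp
      show QuotientGroup.mk' N (x * g * x⁻¹ * g⁻¹) = 1
      rw [map_mul, map_mul, map_mul, map_inv, map_inv, h1]; group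
    let φ : D →* N := MonoidHom.mk'
      (fun x => ⟨(x : G) * g * (x : G)⁻¹ * g⁻¹, hDmem x x.2⟩) (by
        intro x y
        apply Subtype.ext
        show (x : G) * (y : G) * g * ((x : G) * (y : G))⁻¹ * g⁻¹
          = ((x : G) * g * (x : G)⁻¹ * g⁻¹) * ((y : G) * g * (y : G)⁻¹ * g⁻¹)
        have hc := hNc _ (hDmem y y.2)
        calc (x : G) * (y : G) * g * ((x : G) * (y : G))⁻¹ * g⁻¹
            = (x : G) * ((y : G) * g * (y : G)⁻¹ * g⁻¹) * (g * (x : G)⁻¹ * g⁻¹) := by group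
          _ = ((y : G) * g * (y : G)⁻¹ * g⁻¹) * (x : G) * (g * (x : G)⁻¹ * g⁻¹) := by
              rw [hc (x : G)]
          _ = ((y : G) * g * (y : G)⁻¹ * g⁻¹) * ((x : G) * g * (x : G)⁻¹ * g⁻¹) := by group
          _ = ((x : G) * g * (x : G)⁻¹ * g⁻¹) * ((y : G) * g * (y : G)⁻¹ * g⁻¹) :=
              (hc _).symm)
    have hkerφ : φ.ker = (Subgroup.centralizer ({g} : Set G)).subgroupOf D := by
      ext x
      rw [MonoidHom.mem_ker, Subgroup.mem_subgroupOf, Subgroup.mem_centralizer_singleton_iff]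
      constructor
      · intro h
        have h1 : (x : G) * g * (x : G)⁻¹ * g⁻¹ = 1 := congrArg Subtype.val h
        calc (x : G) * g = ((x : G) * g * (x : G)⁻¹ * g⁻¹) * (g * x) := by group
          _ = g * x := by rw [h1, one_mul]
      · intro h
        apply Subtype.ext
        show (x : G) * g * (x : G)⁻¹ * g⁻¹ = 1
        rw [h]; group
    have hr : (Subgroup.centralizer ({g} : Set G)).relIndex D = Nat.card φ.range := by
      rw [← Subgroup.index_ker, hkerφ]; rfl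
    have hrdvd : (Subgroup.centralizer ({g} : Set G)).relIndex D ∣ Nat.card N := by
      rw [hr]; exact Subgroup.card_subgroup_dvd_card φ.range
    have hr1 : (Subgroup.centralizer ({g} : Set G)).relIndex D ≠ 1 := by
      intro h1
      obtain ⟨v, hv⟩ := isConj_iff.mp hconj
      have hvD : v ∈ D := by
        rw [hDdef]
        apply Subgroup.mem_comap.mpr
        apply Subgroup.mem_centralizer_singleton_iff.mpr
        have h2 : QuotientGroup.mk' N (v * g * v⁻¹) = QuotientGroup.mk' N g := by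
          rw [hv, map_mul]
          have h3 : QuotientGroup.mk' N z = 1 :=
            (QuotientGroup.eq_one_iff z).mpr (by rw [hNdef]; exact Subgroup.mem_zpowers z)
          rw [h3, mul_one]
        rw [map_mul, map_mul, map_inv] at h2
        calc QuotientGroup.mk' N v * QuotientGroup.mk' N g
            = (QuotientGroup.mk' N v * QuotientGroup.mk' N g * (QuotientGroup.mk' N v)⁻¹)
              * QuotientGroup.mk' N v := by group
          _ = QuotientGroup.mk' N g * QuotientGroup.mk' N v := by rw [h2]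
      have hle : D ≤ Subgroup.centralizer ({g} : Set G) := Subgroup.relIndex_eq_one.mp h1
      have h2 : v * g = g * v := Subgroup.mem_centralizer_singleton_iff.mp (hle hvD)
      apply hz1
      have h3 : g * z = g * 1 := by rw [← hv, h2, mul_one]; group
      exact mul_left_cancel h3
    have hpr : p ∣ (Subgroup.centralizer ({g} : Set G)).relIndex D := by
      obtain ⟨k, hk⟩ := hzp
      have h1 : Nat.card N ∣ p ^ k := by
        rw [hNdef, Nat.card_zpowers]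
        exact orderOf_dvd_of_pow_eq_one hk
      obtain ⟨j, _, hj⟩ := (Nat.dvd_prime_pow hp).mp (hrdvd.trans h1)
      rw [hj]
      rw [hj] at hr1
      rcases Nat.eq_zero_or_pos j with h0 | h0
      · rw [h0, pow_zero] at hr1; exact absurd rfl hr1
      · exact dvd_pow_self p h0.ne'
    have hω : Cfsg.centralChar χ.1 g
        = Cfsg.centralChar ψ.1 (QuotientGroup.mk' N g)
          * (((Subgroup.centralizer ({g} : Set G)).relIndex D : ℕ) : ℂ) := by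
      unfold Cfsg.centralChar
      rw [← hrel, hDidx]
      have e1 : ψ.1 (QuotientGroup.mk' N g) = χ.1 g := hψ g
      have e2 : ψ.1 1 = χ.1 1 := hψ 1
      rw [e1, e2]
      push_cast
      ring
    rw [hω]
    exact mli_mul hmax (mlr_of_integral hmax (centralChar_isIntegral ψ _))
      (mli_natCast_of_dvd hM hpr)
  · have h1 := hM1 g
    have h2 : χ.1 (g * z) = χ.1 g :=
      (isClassFunction_conj_eq (isClassFunction_of_irr χ) hconj).symm
    rw [h2] at h1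
    have h3 : χ.1 g * (χ.1 1 - χ.1 z) = 0 := by linear_combination h1
    have h4 : χ.1 g = 0 := by
      rcases mul_eq_zero.mp h3 with h | h
      · exact h
      · exact absurd (sub_eq_zero.mp h).symm hlam
    unfold Cfsg.centralChar
    rw [h4, mul_zero, zero_div]
    exact mli_zero hmax

end cp

theorem central_product_principal {G : Type*} [Group G] [Fintype G] (p : ℕ) [Fact p.Prime] (M : Ideal Cfsg.AlgInt) (hM : Cfsg.IsPModular p M) (U₁ U₂ : Subgroup G) [Fintype U₁] [Fintype U₂] (hcomm : ∀ u ∈ U₁, ∀ v ∈ U₂, u * v = v * u) (hgen : U₁ ⊔ U₂ = ⊤) (hZ : IsPGroup p ↥(U₁ ⊓ U₂)) (χ : Cfsg.IrrCharacter G) (ψ₁ : Cfsg.IrrCharacter U₁) (ψ₂ : Cfsg.IrrCharacter U₂) (h₁ : Cfsg.classInner (fun u : U₁ => (χ : G → ℂ) u) (ψ₁ : U₁ → ℂ) ≠ 0) (h₂ : Cfsg.classInner (fun u : U₂ => (χ : G → ℂ) u) (ψ₂ : U₂ → ℂ) ≠ 0) : χ ∈ Cfsg.principalBlock M G ↔ (ψ₁ ∈ Cfsg.principalBlock M U₁ ∧ ψ₂ ∈ Cfsg.principalBlock M U₂) :=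 by
  classical
  have hmax := hM.2.1
  have hcomm' : ∀ u ∈ U₂, ∀ v ∈ U₁, u * v = v * u := fun u hu v hv => (hcomm v hv u hu).symm
  have hgen' : U₂ ⊔ U₁ = ⊤ := by rw [sup_comm]; exact hgen
  obtain ⟨d, hd0, hd⟩ := irr_one_eq_nat χ
  have hχ1 : χ.1 1 ≠ 0 := by rw [hd]; exact_mod_cast hd0.ne'
  obtain ⟨d₁, hd₁0, hd₁⟩ := irr_one_eq_nat ψ₁
  have hψ₁1 : ψ₁.1 1 ≠ 0 := by rw [hd₁]; exact_mod_cast hd₁0.ne'
  obtain ⟨d₂, hd₂0, hd₂⟩ := irr_one_eq_nat ψ₂
  have hψ₂1 : ψ₂.1 1 ≠ 0 := by rw [hd₂]; exact_mod_cast hd₂0.ne'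
  have hcc₁ : ∀ u : U₁, Cfsg.centralChar ψ₁.1 u = Cfsg.centralChar χ.1 (u : G) := by
    intro u
    unfold Cfsg.centralChar
    rw [cp_index_eq U₁ U₂ hcomm hgen u]
    have h := cp_homog U₁ U₂ hcomm hgen χ ψ₁ h₁ u
    have h' : ψ₁.1 u / ψ₁.1 1 = χ.1 (u : G) / χ.1 1 := by
      rw [div_eq_div_iff hψ₁1 hχ1]; linear_combination (-1 : ℂ) * h
    rw [mul_div_assoc, mul_div_assoc, h']
  have hone₁ : ∀ u : U₁, Cfsg.centralChar (fun _ : U₁ => (1 : ℂ)) u
      = Cfsg.centralChar (fun _ : G => (1 : ℂ)) (u : G) := by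
    intro u
    unfold Cfsg.centralChar
    rw [cp_index_eq U₁ U₂ hcomm hgen u]
  have hcc₂ : ∀ u : U₂, Cfsg.centralChar ψ₂.1 u = Cfsg.centralChar χ.1 (u : G) := by
    intro u
    unfold Cfsg.centralChar
    rw [cp_index_eq U₂ U₁ hcomm' hgen' u]
    have h := cp_homog U₂ U₁ hcomm' hgen' χ ψ₂ h₂ u
    have h' : ψ₂.1 u / ψ₂.1 1 = χ.1 (u : G) / χ.1 1 := by
      rw [div_eq_div_iff hψ₂1 hχ1]; linear_combination (-1 : ℂ) * h
    rw [mul_div_assoc, mul_div_assoc, h']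
  have hone₂ : ∀ u : U₂, Cfsg.centralChar (fun _ : U₂ => (1 : ℂ)) u
      = Cfsg.centralChar (fun _ : G => (1 : ℂ)) (u : G) := by
    intro u
    unfold Cfsg.centralChar
    rw [cp_index_eq U₂ U₁ hcomm' hgen' u]
  constructor
  · intro hχ
    have hχ' : Cfsg.SameBlock M (fun _ : G => (1 : ℂ)) χ.1 := hχ
    refine ⟨?_, ?_⟩
    · show Cfsg.SameBlock M (fun _ : U₁ => (1 : ℂ)) ψ₁.1
      intro u
      rw [hone₁ u, hcc₁ u]
      exact hχ' (u : G)
    · show Cfsg.SameBlock M (fun _ : U₂ => (1 : ℂ)) ψ₂.1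
      intro u
      rw [hone₂ u, hcc₂ u]
      exact hχ' (u : G)
  · rintro ⟨hp₁, hp₂⟩
    have hp₁' : Cfsg.SameBlock M (fun _ : U₁ => (1 : ℂ)) ψ₁.1 := hp₁
    have hp₂' : Cfsg.SameBlock M (fun _ : U₂ => (1 : ℂ)) ψ₂.1 := hp₂
    show Cfsg.SameBlock M (fun _ : G => (1 : ℂ)) χ.1
    intro g
    obtain ⟨u, hu, v, hv, rfl⟩ := cp_decomp U₁ U₂ hcomm hgen g
    by_cases hW : ∀ z ∈ U₁ ⊓ U₂, IsConj (u * v) (u * v * z) → z = 1
    · have hidx := cp_index_mul U₁ U₂ hcomm hgen u v hu hv hW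
      have hmul := cp_char_mul U₁ U₂ hcomm hgen χ u v hu hv
      have e1 := hp₁' ⟨u, hu⟩
      rw [hone₁ ⟨u, hu⟩, hcc₁ ⟨u, hu⟩] at e1
      have e2 := hp₂' ⟨v, hv⟩
      rw [hone₂ ⟨v, hv⟩, hcc₂ ⟨v, hv⟩] at e2
      have key : Cfsg.centralChar (fun _ : G => (1 : ℂ)) (u * v) - Cfsg.centralChar χ.1 (u * v)
          = Cfsg.centralChar (fun _ : G => (1 : ℂ)) u
              * (Cfsg.centralChar (fun _ : G => (1 : ℂ)) v - Cfsg.centralChar χ.1 v)
            + Cfsg.centralChar χ.1 v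
              * (Cfsg.centralChar (fun _ : G => (1 : ℂ)) u - Cfsg.centralChar χ.1 u) := by
        have hχuv : χ.1 (u * v) = χ.1 u * χ.1 v / χ.1 1 := by
          rw [eq_div_iff hχ1]; linear_combination hmul
        unfold Cfsg.centralChar
        rw [hidx, hχuv]
        push_cast
        field_simp
        ring
      rw [key]
      exact mli_add hmax
        (mli_mul hmax (mlr_of_integral hmax (centralChar_isIntegral (irrOne G) u)) e2)
        (mli_mul hmax (mlr_of_integral hmax (centralChar_isIntegral χ v)) e1)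
    · push Not at hW
      obtain ⟨z, hz, hconj, hz1⟩ := hW
      have hzc := cp_central U₁ U₂ hcomm hgen z hz
      have hzp : ∃ k : ℕ, z ^ (p ^ k) = 1 := by
        obtain ⟨k, hk⟩ := hZ ⟨z, hz⟩
        exact ⟨k, congrArg Subtype.val hk⟩
      have a1 := cp_central_mli hM (irrOne G) z hzc hz1 hzp (u * v) hconj
      have a2 := cp_central_mli hM χ z hzc hz1 hzp (u * v) hconj
      exact mli_sub hmax a1 a2

end Cfsg.Agent.Lib.Lead
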