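import Mathlib
import Cfsg.Agent.Lib.Lead.Brauer5

set_option autoImplicit false

namespace Cfsg.Agent.Lib.Lead

theorem isNilpotent_of_elementary {p : ℕ} (hp : p.Prime) {E : Type*} [Group E] [Finite E]
    (hE : Cfsg.IsElementary p E) : Group.IsNilpotent E := by
  obtain ⟨x, hx, hcop, k, hk⟩ := hE
  haveI : Fact p.Prime := ⟨hp⟩
  have hle : Subgroup.zpowers x ≤ Subgroup.center E := Subgroup.zpowers_le.2 hx
  haveI hnorm : (Subgroup.zpowers x).Normal := by
    constructor
    intro n hn g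
    have h1 := Subgroup.mem_center_iff.1 (hle hn) g
    rw [h1, mul_inv_cancel_right]; exact hn
  have hpg : IsPGroup p (E ⧸ Subgroup.zpowers x) := by
    apply IsPGroup.of_card (n := k)
    rw [← hk]; rfl
  haveI : Group.IsNilpotent (E ⧸ Subgroup.zpowers x) := hpg.isNilpotent
  apply isNilpotent_of_ker_le_center (QuotientGroup.mk' (Subgroup.zpowers x))
  rw [QuotientGroup.ker_mk']
  exact hle

theorem isElementary_subgroup {p : ℕ} (hp : p.Prime) {E : Type*} [Group E] [Finite E]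
    (hE : Cfsg.IsElementary p E) (S : Subgroup E) : Cfsg.IsElementary p S := by
  obtain ⟨x, hx, hcop, k, hk⟩ := hE
  have hle : Subgroup.zpowers x ≤ Subgroup.center E := Subgroup.zpowers_le.2 hx
  haveI hnorm : (Subgroup.zpowers x).Normal := by
    constructor
    intro n hn g
    have h1 := Subgroup.mem_center_iff.1 (hle hn) g
    rw [h1, mul_inv_cancel_right]; exact hn
  have hinj : Function.Injective (S.subtype.subgroupComap (Subgroup.zpowers x)) := by
    intro a b hab
    have h1 := congrArg (fun z : Subgroup.zpowers x => (z : E)) hab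
    exact Subtype.ext (Subtype.ext h1)
  haveI : IsCyclic ((Subgroup.zpowers x).subgroupOf S) :=
    isCyclic_of_injective (S.subtype.subgroupComap (Subgroup.zpowers x)) hinj
  obtain ⟨y, hy⟩ := exists_zpowers_of_isCyclic ((Subgroup.zpowers x).subgroupOf S)
  have hyY : y ∈ (Subgroup.zpowers x).subgroupOf S := by rw [hy]; exact Subgroup.mem_zpowers y
  refine ⟨y, ?_, ?_, ?_⟩
  · rw [Subgroup.mem_center_iff]
    intro g
    have h1 := Subgroup.mem_center_iff.1 (hle (Subgroup.mem_subgroupOf.1 hyY)) (g : E)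
    exact Subtype.ext h1
  · have h1 : orderOf y ∣ orderOf x := by
      rw [← Nat.card_zpowers, ← hy, ← Nat.card_zpowers x]
      exact Subgroup.card_dvd_of_injective _ hinj
    exact Nat.Coprime.coprime_dvd_left h1 hcop
  · rw [← hy]
    have h1 : (Subgroup.zpowers x).relIndex S ∣ (Subgroup.zpowers x).index :=
      Subgroup.relIndex_dvd_index_of_normal _ _
    rw [hk] at h1
    obtain ⟨j, _, hj⟩ := (Nat.dvd_prime_pow hp).1 h1
    exact ⟨j, hj⟩

/-- the span of the functions induced from linear characters of elementary subgroups -/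
def linSpan (G : Type*) [Group G] [Fintype G] : AddSubgroup (G → ℂ) :=
  AddSubgroup.closure {f : G → ℂ | ∃ (E : Subgroup G) (lam : E →* ℂˣ),
    (∃ p : ℕ, p.Prime ∧ Cfsg.IsElementary p E) ∧ f = Cfsg.indFun E (fun e => (lam e : ℂ))}

theorem elemSpanAll_le_linSpan {G : Type*} [Group G] [Fintype G] :
    elemSpanAll G ≤ linSpan G := by
  classical
  rw [elemSpanAll, AddSubgroup.closure_le]
  rintro f ⟨E, φ, ⟨p, hp, hE⟩, hφ, rfl⟩
  haveI : Fintype E := Fintype.ofFinite E
  haveI : Fintype (Cfsg.IrrCharacter E) := Fintype.ofFinite _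
  haveI : Group.IsNilpotent E := isNilpotent_of_elementary hp hE
  obtain ⟨m, hm⟩ := isCharacter_decomp hφ
  have h1 : Cfsg.indFun E φ = ∑ ψ : Cfsg.IrrCharacter E, (m ψ : ℂ) • Cfsg.indFun E ψ.1 := by
    rw [hm]
    have h2 := map_sum (indLin E) (fun ψ : Cfsg.IrrCharacter E => (m ψ : ℂ) • ψ.1) Finset.univ
    simp only [map_smul, indLin_apply] at h2
    exact h2
  show Cfsg.indFun E φ ∈ linSpan G
  rw [h1]
  apply AddSubgroup.sum_mem
  intro ψ _
  rw [Nat.cast_smul_eq_nsmul]
  apply AddSubgroup.nsmul_mem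
  obtain ⟨S, lam, hS⟩ := nilpotent_mgroup _ E rfl ψ.1 ψ.2
  rw [hS, ind_map E S]
  apply AddSubgroup.subset_closure
  exact ⟨S.map E.subtype,
    lam.comp (Subgroup.equivMapOfInjective S E.subtype E.subtype_injective).symm.toMonoidHom,
    ⟨p, hp, isElementary_of_equiv (Subgroup.equivMapOfInjective S E.subtype E.subtype_injective)
      (isElementary_subgroup hp hE S)⟩, rfl⟩

theorem lin_list_neg {G : Type*} [Group G] [Fintype G]
    (l : List ((E : Subgroup G) × ((E →* ℂˣ) × ℤ))) :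
    ((l.map (fun t => (⟨t.1, (t.2.1, -t.2.2)⟩ : (E : Subgroup G) × ((E →* ℂˣ) × ℤ)))).map
      fun t => (t.2.2 : ℂ) • Cfsg.indFun t.1 (fun a => (t.2.1 a : ℂ))).sum
      = -(l.map fun t => (t.2.2 : ℂ) • Cfsg.indFun t.1 (fun a => (t.2.1 a : ℂ))).sum := by
  induction l with
  | nil => simp
  | cons t l ih =>
    rw [List.map_cons, List.map_cons, List.sum_cons, ih, List.map_cons, List.sum_cons, neg_add]
    congr 1
    push_cast
    rw [neg_smul]

theorem lin_list_of_mem {G : Type*} [Group G] [Fintype G] {f : G → ℂ} (hf : f ∈ linSpan G) :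
    ∃ l : List ((E : Subgroup G) × ((E →* ℂˣ) × ℤ)),
      (∀ t ∈ l, ∃ p : ℕ, p.Prime ∧ Cfsg.IsElementary p t.1) ∧
      f = (l.map fun t => (t.2.2 : ℂ) • Cfsg.indFun t.1 (fun e => (t.2.1 e : ℂ))).sum := by
  induction hf using AddSubgroup.closure_induction with
  | mem x hx =>
    obtain ⟨E, lam, hE, rfl⟩ := hx
    refine ⟨[⟨E, (lam, 1)⟩], ?_, ?_⟩
    · intro t ht
      rw [List.mem_singleton] at ht
      rw [ht]
      exact hE
    · simp
  | zero => exact ⟨[], by simp, by simp⟩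
  | add x y _ _ hx hy =>
    obtain ⟨l₁, h1, rfl⟩ := hx
    obtain ⟨l₂, h2, rfl⟩ := hy
    refine ⟨l₁ ++ l₂, ?_, ?_⟩
    · intro t ht
      rcases List.mem_append.mp ht with h | h
      · exact h1 t h
      · exact h2 t h
    · rw [List.map_append, List.sum_append]
  | neg x _ hx =>
    obtain ⟨l, h1, rfl⟩ := hx
    refine ⟨l.map (fun t => (⟨t.1, (t.2.1, -t.2.2)⟩ : (E : Subgroup G) × ((E →* ℂˣ) × ℤ))), ?_, ?_⟩
    · intro t ht
      obtain ⟨t', ht', rfl⟩ := List.mem_map.mp ht
      exact h1 t' ht'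
    · rw [lin_list_neg]

/-- **Brauer's induction theorem** -/
theorem brauer_induction {G : Type*} [Group G] [Fintype G] (χ : G → ℂ)
    (hχ : Cfsg.IsCharacter G χ) :
    ∃ l : List ((E : Subgroup G) × ((E →* ℂˣ) × ℤ)),
      (∀ t ∈ l, ∃ p : ℕ, p.Prime ∧ Cfsg.IsElementary p t.1) ∧
      χ = (l.map fun t => (t.2.2 : ℂ) • Cfsg.indFun t.1 (fun e => (t.2.1 e : ℂ))).sum :=
  lin_list_of_mem (elemSpanAll_le_linSpan (char_mem_elemSpanAll hχ))

end Cfsg.Agent.Lib.Lead
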