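import Mathlib
import Cfsg.Agent.Lib.Lead.Frob2
import Cfsg.Agent.Lib.Lead.Gram
import Cfsg.Agent.Lib.Lead.Char8
import Cfsg.Agent.Lib.Lead.Taketa
import Cfsg.Agent.Lib.Lead.Artin

set_option autoImplicit false

namespace Cfsg.Agent.Lib.Lead

open scoped Pointwise

section Frob4
variable {G : Type*} [Group G] [Fintype G]

/-- Induction from a Frobenius complement: values on nonidentity elements of `H`. -/
theorem frob_ind_apply_mem (H : Subgroup G) (hH : Cfsg.IsFrobeniusComplement H) (θ : H → ℂ)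
    (hθ : Cfsg.IsClassFunction H θ) (h : H) (hh : h ≠ 1) : Cfsg.indFun H θ (h : G) = θ h := by
  classical
  haveI : Fintype H := Fintype.ofFinite H
  rw [indFun_apply]
  have h1 : ∀ x : G, Cfsg.extendByZero H θ (x⁻¹ * (h : G) * x)
      = Cfsg.extendByZero H (fun _ => θ h) x := by
    intro x
    by_cases hx : x ∈ H
    · rw [extendByZero_mem' H _ hx]
      have hmem : x⁻¹ * (h : G) * x ∈ H := H.mul_mem (H.mul_mem (H.inv_mem hx) h.2) hx
      rw [extendByZero_mem' H _ hmem]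
      have h2 := hθ h (⟨x, hx⟩ : H)⁻¹
      rw [← h2]
      congr 1
      apply Subtype.ext
      simp
    · rw [extendByZero_not_mem H _ hx]
      apply extendByZero_not_mem
      intro hmem
      exact hx (frob_TI H hH x (h : G) h.2 (fun h0 => hh (Subtype.ext h0)) hmem)
  have hc : (Nat.card H : ℂ) ≠ 0 := by exact_mod_cast Nat.card_pos.ne'
  rw [Finset.sum_congr rfl (fun x _ => h1 x), sum_extendByZero, Finset.sum_const, Finset.card_univ,
    nsmul_eq_mul, ← mul_assoc, ← Nat.card_eq_fintype_card, inv_mul_cancel₀ hc, one_mul]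

/-- Induced class functions vanish off the conjugates of `H`. -/
theorem frob_ind_apply_kernel (H : Subgroup G) (θ : H → ℂ) (g : G)
    (hg : ∀ x : G, x⁻¹ * g * x ∉ H) : Cfsg.indFun H θ g = 0 := by
  rw [indFun_apply, Finset.sum_eq_zero (fun x _ => extendByZero_not_mem H θ (hg x)), mul_zero]

theorem frob_ind_restrict (H : Subgroup G) (hH : Cfsg.IsFrobeniusComplement H) (θ : H → ℂ)
    (hθ : Cfsg.IsClassFunction H θ) (h1 : θ 1 = 0) :
    (fun h : H => Cfsg.indFun H θ (h : G)) = θ := by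
  funext h
  by_cases hh : h = 1
  · rw [hh]
    show Cfsg.indFun H θ ((1 : H) : G) = θ 1
    rw [Subgroup.coe_one, indFun_one_eq, h1, mul_zero, mul_zero]
  · exact frob_ind_apply_mem H hH θ hθ h hh

/-- A generalized character of norm one with positive degree is irreducible. -/
theorem isIrr_of_gen_norm_one (θ : G → ℂ) (hθ : Cfsg.IsGeneralizedCharacter G θ)
    (h1 : Cfsg.classInner θ θ = 1) (hpos : ∃ r : ℝ, 0 < r ∧ θ 1 = (r : ℂ)) :
    Cfsg.IsIrrCharacter G θ := by
  classical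
  haveI : Fintype (Cfsg.IrrCharacter G) := Fintype.ofFinite _
  obtain ⟨χ, ψ, hχ, hψ, rfl⟩ := hθ
  obtain ⟨m, hm⟩ := isCharacter_decomp hχ
  obtain ⟨m', hm'⟩ := isCharacter_decomp hψ
  let a : Cfsg.IrrCharacter G → ℤ := fun φ => (m φ : ℤ) - m' φ
  have hθa : χ - ψ = ∑ φ, ((a φ : ℤ) : ℂ) • φ.1 := by
    rw [hm, hm', ← Finset.sum_sub_distrib]
    apply Finset.sum_congr rfl
    intro φ _
    rw [← sub_smul]
    congr 1
    simp [a]
  have hinner : Cfsg.classInner (χ - ψ) (χ - ψ) = ((∑ φ, a φ ^ 2 : ℤ) : ℂ) := by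
    rw [hθa, classInner_sum_left]
    push_cast
    apply Finset.sum_congr rfl
    intro φ _
    rw [classInner_smul_left]
    have h3 : Cfsg.classInner φ.1 (∑ φ', ((a φ' : ℤ) : ℂ) • φ'.1) = (a φ : ℂ) := by
      rw [← classInner_conj_symm, classInner_nat_comb, map_intCast]
    rw [h3]; ring
  rw [h1] at hinner
  have hsum : ∑ φ, a φ ^ 2 = 1 := by exact_mod_cast hinner.symm
  have hex : ∃ p, a p ≠ 0 := by
    by_contra hcon
    push Not at hcon
    rw [Finset.sum_eq_zero (fun φ _ => by rw [hcon φ]; ring)] at hsum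
    omega
  obtain ⟨p, hp⟩ := hex
  rw [← Finset.add_sum_erase _ _ (Finset.mem_univ p)] at hsum
  have hp1 : 1 ≤ a p ^ 2 := by
    have h5 : 0 < a p ^ 2 := by positivity
    omega
  have hrest0 : ∑ φ ∈ Finset.univ.erase p, a φ ^ 2 = 0 := by
    have h5 : 0 ≤ ∑ φ ∈ Finset.univ.erase p, a φ ^ 2 :=
      Finset.sum_nonneg (fun φ _ => by positivity)
    omega
  have hrest : ∀ φ, φ ≠ p → a φ = 0 := by
    intro φ hφ
    have h5 := (Finset.sum_eq_zero_iff_of_nonneg (fun φ _ => by positivity)).mp hrest0 φ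
      (Finset.mem_erase.mpr ⟨hφ, Finset.mem_univ _⟩)
    exact pow_eq_zero_iff (two_ne_zero) |>.mp h5
  have hp2 : a p ^ 2 = 1 := by omega
  have hexp : χ - ψ = ((a p : ℤ) : ℂ) • p.1 := by
    rw [hθa]
    apply Finset.sum_eq_single p
    · intro r _ hr
      rw [hrest r hr, Int.cast_zero, zero_smul]
    · intro h; exact absurd (Finset.mem_univ p) h
  have hp' : a p = 1 ∨ a p = -1 := by
    have h5 : (a p - 1) * (a p + 1) = 0 := by ring_nf; linarith
    rcases mul_eq_zero.mp h5 with h | h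
    · left; linarith
    · right; linarith
  obtain ⟨dp, hdp, hdp'⟩ := irr_one_eq_nat p
  obtain ⟨r, hr, hr1⟩ := hpos
  rcases hp' with hp' | hp'
  · rw [hexp, hp']
    push_cast
    rw [one_smul]
    exact p.2
  · exfalso
    have h6 := congrFun hexp 1
    rw [hr1, hp'] at h6
    simp only [Pi.smul_apply, smul_eq_mul, hdp'] at h6
    push_cast at h6
    have h7 : (r : ℂ) = ((-(dp : ℝ) : ℝ) : ℂ) := by rw [h6]; push_cast; ring
    have h8 : r = -(dp : ℝ) := by exact_mod_cast h7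
    have h9 : (0 : ℝ) < dp := by exact_mod_cast hdp
    linarith

/-- The exceptional characters of a Frobenius group. -/
theorem frob_exc_char (H : Subgroup G) (hH : Cfsg.IsFrobeniusComplement H)
    (φ : Cfsg.IrrCharacter H) (hφ : φ ≠ irrOne H) :
    Cfsg.IsIrrCharacter G (fun g => Cfsg.indFun H (fun h => φ.1 h - φ.1 1) g + φ.1 1) := by
  classical
  haveI : Fintype H := Fintype.ofFinite H
  obtain ⟨d, hd, hd1⟩ := irr_one_eq_nat φ
  have hθeq : (fun h : H => φ.1 h - φ.1 1) = φ.1 - (d : ℂ) • (irrOne H).1 := by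
    funext h
    show φ.1 h - φ.1 1 = φ.1 h - (d : ℂ) * 1
    rw [hd1, mul_one]
  have hχeq : (fun g => Cfsg.indFun H (fun h => φ.1 h - φ.1 1) g + φ.1 1)
      = Cfsg.indFun H (φ.1 - (d : ℂ) • (irrOne H).1) + (d : ℂ) • (irrOne G).1 := by
    rw [hθeq]
    funext g
    show _ + φ.1 1 = _ + (d : ℂ) * 1
    rw [hd1, mul_one]
  rw [hχeq]
  obtain ⟨θ, hθdef⟩ : ∃ θ : H → ℂ, θ = φ.1 - (d : ℂ) • (irrOne H).1 := ⟨_, rfl⟩
  rw [← hθdef]
  have hθ1 : θ 1 = 0 := by
    rw [hθdef]
    show φ.1 1 - (d : ℂ) * 1 = 0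
    rw [hd1, mul_one, sub_self]
  have hθcf : Cfsg.IsClassFunction H θ := by
    intro g h
    rw [hθdef]
    show φ.1 (h * g * h⁻¹) - (d : ℂ) * 1 = φ.1 g - (d : ℂ) * 1
    rw [isClassFunction_of_irr φ g h]
  have hθgen : Cfsg.IsGeneralizedCharacter H θ :=
    ⟨φ.1, (d : ℂ) • (irrOne H).1, isCharacter_of_irr φ.2,
      isCharacter_nsmul d (isCharacter_of_irr (irrOne H).2), hθdef⟩
  have hgen : Cfsg.IsGeneralizedCharacter G (Cfsg.indFun H θ + (d : ℂ) • (irrOne G).1) :=
    isGen_add (isGen_indFun H hθgen)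
      (isGen_of_char (isCharacter_nsmul d (isCharacter_of_irr (irrOne G).2)))
  have hconjd : (starRingEnd ℂ) (d : ℂ) = (d : ℂ) := Complex.conj_natCast d
  have hφ1 : Cfsg.classInner φ.1 (irrOne H).1 = 0 := irr_inner_ne hφ
  have h1φ : Cfsg.classInner (irrOne H).1 φ.1 = 0 := irr_inner_ne (Ne.symm hφ)
  have hA : Cfsg.classInner θ θ = 1 + (d : ℂ) * (d : ℂ) := by
    have e1 : Cfsg.classInner φ.1 (φ.1 - (d : ℂ) • (irrOne H).1) = 1 := by
      rw [classInner_sub_right, classInner_smul_right, irr_inner_self, hφ1]; ring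
    have e2 : Cfsg.classInner ((d : ℂ) • (irrOne H).1) (φ.1 - (d : ℂ) • (irrOne H).1)
        = -((d : ℂ) * (d : ℂ)) := by
      rw [classInner_smul_left, classInner_sub_right, classInner_smul_right, h1φ,
        irr_inner_self, hconjd]; ring
    rw [hθdef, classInner_sub_left, e1, e2]
    ring
  have hB : Cfsg.classInner θ (irrOne H).1 = -(d : ℂ) := by
    rw [hθdef, classInner_sub_left, classInner_smul_left, irr_inner_self, hφ1]
    ring
  have hrestr : (fun h : H => Cfsg.indFun H θ (h : G)) = θ :=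
    frob_ind_restrict H hH θ hθcf hθ1
  have hII : Cfsg.classInner (Cfsg.indFun H θ) (Cfsg.indFun H θ) = 1 + (d : ℂ) * (d : ℂ) := by
    rw [frobenius_reciprocity H θ _ (indFun_isClassFunction H θ), hrestr, hA]
  have hI1 : Cfsg.classInner (Cfsg.indFun H θ) (irrOne G).1 = -(d : ℂ) := by
    rw [frobenius_reciprocity H θ _ (isClassFunction_of_irr (irrOne G))]
    exact hB
  have h1I : Cfsg.classInner (irrOne G).1 (Cfsg.indFun H θ) = -(d : ℂ) := by
    rw [← classInner_conj_symm, hI1, map_neg, hconjd]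
  have hnorm : Cfsg.classInner (Cfsg.indFun H θ + (d : ℂ) • (irrOne G).1)
      (Cfsg.indFun H θ + (d : ℂ) • (irrOne G).1) = 1 := by
    have e1 : Cfsg.classInner (Cfsg.indFun H θ) (Cfsg.indFun H θ + (d : ℂ) • (irrOne G).1)
        = 1 := by
      rw [classInner_add_right, classInner_smul_right, hII, hI1, hconjd]; ring
    have e2 : Cfsg.classInner ((d : ℂ) • (irrOne G).1)
        (Cfsg.indFun H θ + (d : ℂ) • (irrOne G).1) = 0 := by
      rw [classInner_smul_left, classInner_add_right, classInner_smul_right, h1I,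
        irr_inner_self, hconjd]; ring
    rw [classInner_add_left, e1, e2, add_zero]
  apply isIrr_of_gen_norm_one _ hgen hnorm
  refine ⟨(d : ℝ), by exact_mod_cast hd, ?_⟩
  show Cfsg.indFun H θ 1 + (d : ℂ) * 1 = _
  rw [indFun_one_eq, hθ1, mul_zero, mul_zero, zero_add, mul_one]
  push_cast
  rfl

end Frob4

end Cfsg.Agent.Lib.Lead
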