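import Mathlib
import Cfsg.Agent.Lib.Lead.Frob4

set_option autoImplicit false

namespace Cfsg.Agent.Lib.Lead

open scoped Pointwise

set_option maxHeartbeats 1000000 in
/-- **Frobenius' theorem**: the Frobenius kernel is a normal subgroup complementing `H`. -/
theorem frobenius_kernel_subgroup {G : Type*} [Group G] [Finite G] (H : Subgroup G)
    (hH : Cfsg.IsFrobeniusComplement H) :
    ∃ N : Subgroup G, (N : Set G) = Cfsg.frobeniusKernel H ∧ N.Normal ∧
      Subgroup.IsComplement' N H := by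
  classical
  haveI : Fintype G := Fintype.ofFinite G
  haveI : Fintype H := Fintype.ofFinite H
  haveI : Fintype (Cfsg.IrrCharacter H) := Fintype.ofFinite _
  choose n ρ hρirr hρchar using
    (fun φ : {φ : Cfsg.IrrCharacter H // φ ≠ irrOne H} => frob_exc_char H hH φ.1 φ.2)
  let N : Subgroup G := ⨅ φ, MonoidHom.ker (ρ φ)
  have hNn : N.Normal := Subgroup.normal_iInf_normal (fun φ => MonoidHom.normal_ker _)
  have hmemN : ∀ g : G, g ∈ N ↔ ∀ φ : {φ : Cfsg.IrrCharacter H // φ ≠ irrOne H},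
      Cfsg.indFun H (fun h => φ.1.1 h - φ.1.1 1) g = 0 := by
    intro g
    rw [Subgroup.mem_iInf]
    apply forall_congr'
    intro φ
    rw [MonoidHom.mem_ker, ← char_eq_deg_iff (ρ φ) g]
    have h1 : ((ρ φ).character 1 : ℂ) = (Module.finrank ℂ (Fin (n φ) → ℂ) : ℂ) :=
      Representation.char_one _
    rw [← h1, hρchar φ]
    show Cfsg.indFun H (fun h => φ.1.1 h - φ.1.1 1) g + φ.1.1 1
      = Cfsg.indFun H (fun h => φ.1.1 h - φ.1.1 1) 1 + φ.1.1 1 ↔ _
    rw [indFun_one_eq, sub_self, mul_zero, mul_zero, zero_add]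
    constructor
    · intro h; linear_combination h
    · intro h; linear_combination h
  have hKN : ∀ x ∈ Cfsg.frobeniusKernel H, x ∈ N := by
    intro x hx
    rw [frob_mem_kernel_iff] at hx
    rcases hx with hx | hx
    · rw [hx]; exact N.one_mem
    · rw [hmemN]; intro φ; exact frob_ind_apply_kernel H _ x hx
  have hNH : ∀ x, x ∈ N → x ∈ H → x = 1 := by
    intro x hxN hxH
    by_contra hx1
    have hx1' : (⟨x, hxH⟩ : H) ≠ 1 := fun h0 => hx1 (congrArg Subtype.val h0)
    have hall : ∀ φ : Cfsg.IrrCharacter H, φ.1 ⟨x, hxH⟩ = φ.1 1 := by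
      intro φ
      by_cases hφ : φ = irrOne H
      · rw [hφ]; rfl
      · have h1 := (hmemN x).mp hxN ⟨φ, hφ⟩
        have hcf : Cfsg.IsClassFunction H (fun h => φ.1 h - φ.1 1) := by
          intro g h
          show φ.1 (h * g * h⁻¹) - φ.1 1 = φ.1 g - φ.1 1
          rw [isClassFunction_of_irr φ g h]
        have h2 : Cfsg.indFun H (fun h => φ.1 h - φ.1 1) x = φ.1 ⟨x, hxH⟩ - φ.1 1 :=
          frob_ind_apply_mem H hH (fun h => φ.1 h - φ.1 1) hcf ⟨x, hxH⟩ hx1'
        rw [h1] at h2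
        linear_combination -h2
    have hc1 := col_orth' (G := H) (⟨x, hxH⟩ : H) 1
    have hc2 := col_orth' (G := H) (1 : H) 1
    rw [if_neg (fun h => hx1' (isConj_one_left.mp h))] at hc1
    rw [if_pos (IsConj.refl 1)] at hc2
    have h3 : ∑ χ : Cfsg.IrrCharacter H, χ.1 ⟨x, hxH⟩ * (starRingEnd ℂ) (χ.1 1)
        = ∑ χ : Cfsg.IrrCharacter H, χ.1 1 * (starRingEnd ℂ) (χ.1 1) :=
      Finset.sum_congr rfl (fun χ _ => by rw [hall χ])
    rw [h3, hc2] at hc1
    have h4 : Nat.card (Subgroup.centralizer ({1} : Set H)) ≠ 0 := Nat.card_pos.ne'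
    exact h4 (by exact_mod_cast hc1)
  have hNK : ∀ x ∈ N, x ∈ Cfsg.frobeniusKernel H := by
    intro x hxN
    rw [frob_mem_kernel_iff]
    by_cases hx1 : x = 1
    · left; exact hx1
    · right
      intro g hg
      have h0 : g⁻¹ * x * g ∈ N := by
        have h5 := hNn.conj_mem x hxN g⁻¹
        rwa [inv_inv] at h5
      have h1 := hNH _ h0 hg
      apply hx1
      calc x = g * (g⁻¹ * x * g) * g⁻¹ := by group
        _ = 1 := by rw [h1]; group
  have hset : (N : Set G) = Cfsg.frobeniusKernel H := Set.ext (fun x => ⟨hNK x, hKN x⟩)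
  have hcardN : Nat.card N = H.index := by
    rw [← frob_kernel_card H hH, ← hset]; rfl
  have hdisj : Disjoint N H := Subgroup.disjoint_def.mpr (fun hx hy => hNH _ hx hy)
  refine ⟨N, hset, hNn, Subgroup.isComplement'_of_card_mul_and_disjoint ?_ hdisj⟩
  rw [hcardN]
  exact Subgroup.index_mul_card H

end Cfsg.Agent.Lib.Lead
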