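import Mathlib
import Cfsg.Agent.Lib.Lead.UniqueInvol
import Cfsg.Agent.S0058

namespace Cfsg.Agent.Lib.Lead

universe u

theorem not_dvd_card_of_fpf {G : Type*} [Group G] [Finite G] (K B : Subgroup G) [K.Normal]
    {p : ℕ} [Fact p.Prime] (hB : IsPGroup p B) (hB1 : B ≠ ⊥)
    (hfpf : ∀ b ∈ B, b ≠ 1 → K ⊓ Subgroup.centralizer {b} = ⊥) : ¬ p ∣ Nat.card K := by
  classical
  letI : MulAction B K := MulAction.compHom K ((MulAut.conjNormal (H := K)).comp B.subtype)
  have h1 := hB.card_modEq_card_fixedPoints K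
  have hfix : ∀ k : K, k ∈ MulAction.fixedPoints B K → k = 1 := by
    intro k hk
    obtain ⟨⟨b, hb⟩, hb1⟩ := (Subgroup.ne_bot_iff_exists_ne_one).mp hB1
    have hb1' : b ≠ 1 := fun h => hb1 (Subtype.ext h)
    have h2 : (⟨b, hb⟩ : B) • k = k := hk ⟨b, hb⟩
    have h3 : b * (k : G) * b⁻¹ = k := congrArg Subtype.val h2
    have h4 : (k : G) ∈ K ⊓ Subgroup.centralizer {b} := by
      refine Subgroup.mem_inf.mpr ⟨k.2, ?_⟩
      rw [Subgroup.mem_centralizer_iff]
      intro h hh
      rw [Set.mem_singleton_iff.mp hh]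
      calc b * (k : G) = (b * (k : G) * b⁻¹) * b := by group
        _ = k * b := by rw [h3]
    rw [hfpf b hb hb1', Subgroup.mem_bot] at h4
    exact Subtype.ext h4
  have hcard : Nat.card (MulAction.fixedPoints B K) = 1 := by
    rw [Nat.card_eq_one_iff_unique]
    refine ⟨⟨fun a b => Subtype.ext ((hfix a a.2).trans (hfix b b.2).symm)⟩, ⟨⟨1, fun b => ?_⟩⟩⟩
    apply Subtype.ext
    show (b : G) * 1 * (b : G)⁻¹ = 1
    group
  intro hdvd
  rw [hcard] at h1
  have h5 : p ∣ 1 := (Nat.modEq_zero_iff_dvd.mp ((Nat.modEq_zero_iff_dvd.mpr hdvd).symm.trans h1).symm)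
  exact (Fact.out : p.Prime).one_lt.ne' (Nat.dvd_one.mp h5)

theorem uniq_order_p_of_abelian_cyclic {Q : Type*} [Group Q] [Finite Q] {p : ℕ} [Fact p.Prime]
    (hQ : IsPGroup p Q) (hab : ∀ B : Subgroup Q, IsMulCommutative B → IsCyclic B) :
    ∀ X Y : Subgroup Q, Nat.card X = p → Nat.card Y = p → X = Y := by
  have hp := (Fact.out : p.Prime)
  have key : ∀ X : Subgroup Q, Nat.card X = p → ∀ z : Q, z ∈ Subgroup.center Q →
      orderOf z = p → X = Subgroup.zpowers z := by
    intro X hX z hzc hzo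
    have hXne : X ≠ ⊥ := by
      rintro rfl
      rw [Subgroup.card_bot] at hX
      exact hp.one_lt.ne hX
    obtain ⟨⟨x, hxX⟩, hx1⟩ := (Subgroup.ne_bot_iff_exists_ne_one).mp hXne
    have hx1' : x ≠ 1 := fun h => hx1 (Subtype.ext h)
    have hxp : x ^ p = 1 := by
      have := pow_card_eq_one' (G := X) (x := ⟨x, hxX⟩)
      rw [hX] at this
      exact congrArg Subtype.val this
    have hox : orderOf x = p := orderOf_eq_prime hxp hx1'
    have hXx : Subgroup.zpowers x = X :=
      Subgroup.eq_of_le_of_card_ge (Subgroup.zpowers_le.mpr hxX)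
        (by rw [Nat.card_zpowers, hox, hX])
    have hBc : IsMulCommutative (Subgroup.closure ({x, z} : Set Q)) := by
      apply Subgroup.isMulCommutative_closure
      intro u hu v hv
      have hzcomm := Subgroup.mem_center_iff.mp hzc
      rcases hu with rfl | hu <;> rcases hv with rfl | hv
      · rfl
      · rw [Set.mem_singleton_iff.mp hv]; exact hzcomm u
      · rw [Set.mem_singleton_iff.mp hu]; exact (hzcomm v).symm
      · rw [Set.mem_singleton_iff.mp hu, Set.mem_singleton_iff.mp hv]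
    haveI := hab _ hBc
    have hxB : x ∈ Subgroup.closure ({x, z} : Set Q) := Subgroup.subset_closure (by simp)
    have hzB : z ∈ Subgroup.closure ({x, z} : Set Q) := Subgroup.subset_closure (by simp)
    have hmem := (mem_iff_pow_card_of_cyclic
      (Subgroup.zpowers (⟨x, hxB⟩ : Subgroup.closure ({x, z} : Set Q))) ⟨z, hzB⟩).mpr (by
        rw [Nat.card_zpowers, Subgroup.orderOf_mk, hox]
        apply Subtype.ext
        show z ^ p = 1
        rw [← hzo]; exact pow_orderOf_eq_one z)
    obtain ⟨k, hk⟩ := Subgroup.mem_zpowers_iff.mp hmem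
    have hzx : z ∈ Subgroup.zpowers x := ⟨k, congrArg Subtype.val hk⟩
    rw [← hXx]
    exact (Subgroup.eq_of_le_of_card_ge (Subgroup.zpowers_le.mpr hzx)
      (by rw [Nat.card_zpowers, Nat.card_zpowers, hox, hzo])).symm
  intro X Y hX hY
  haveI : Nontrivial Q := by
    have := Subgroup.card_le_card_group X
    rw [hX] at this
    exact Finite.one_lt_card_iff_nontrivial.mp (lt_of_lt_of_le hp.one_lt this)
  obtain ⟨z, -, hzc, hzo⟩ := exists_central_order_p hQ (⊤ : Subgroup Q) top_ne_bot
  rw [key X hX z hzc hzo, key Y hY z hzc hzo]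

theorem frob_compl_sylow {G : Type u} [Group G] [Finite G] (K H : Subgroup G) [K.Normal]
    (hK : K ≠ ⊥) (hfpf : ∀ h ∈ H, h ≠ 1 → K ⊓ Subgroup.centralizer {h} = ⊥)
    (p : ℕ) [Fact p.Prime] (P : Sylow p H) :
    IsCyclic P ∨ ∃ n : ℕ, Nonempty (P ≃* QuaternionGroup (2 ^ n)) := by
  have hL : ∀ B : Subgroup G, B ≤ H → IsPGroup p B → IsMulCommutative B → IsCyclic B := by
    intro B hBH hBp hBc
    by_contra hnc
    have hB1 : B ≠ ⊥ := by
      rintro rfl
      exact hnc inferInstance
    have hnd := not_dvd_card_of_fpf K B hBp hB1 (fun b hb hb1 => hfpf b (hBH hb) hb1)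
    have hcop : (Nat.card B).Coprime (Nat.card K) := by
      obtain ⟨k, hk⟩ := IsPGroup.iff_card.mp hBp
      rw [hk]
      exact Nat.Coprime.pow_left k ((Nat.Prime.coprime_iff_not_dvd Fact.out).mpr hnd)
    have hAK : B ≤ Subgroup.normalizer (K : Set G) := by
      rw [Subgroup.normalizer_eq_top]; exact le_top
    haveI := hBc
    have h58 := Cfsg.Agent.S0058.result B K hnc hAK hcop
    apply hK
    rw [← h58]
    simp only [iSup_eq_bot]
    intro a ha
    exact hfpf a (hBH ha.1) ha.2
  have hP : IsPGroup p (P : Subgroup H) := P.isPGroup'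
  have hab : ∀ B : Subgroup (P : Subgroup H), IsMulCommutative B → IsCyclic B := by
    intro B hBc
    have hι : Function.Injective (H.subtype.comp (P : Subgroup H).subtype) :=
      H.subtype_injective.comp (Subgroup.subtype_injective _)
    haveI := hBc
    have h1 : IsCyclic (B.map (H.subtype.comp (P : Subgroup H).subtype)) := by
      apply hL
      · rintro _ ⟨b, -, rfl⟩; exact (b : H).2
      · exact (hP.to_subgroup B).map _
      · infer_instance
    exact isCyclic_of_surjective (B.equivMapOfInjective _ hι).symm (MulEquiv.surjective _)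
  rcases unique_subgroup_order_p p hP (uniq_order_p_of_abelian_cyclic hP hab) with h | ⟨-, h⟩
  · left; exact h
  · right; exact h

end Cfsg.Agent.Lib.Lead
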