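import Mathlib
import Cfsg.Agent.Lib.Lead.Basic
import Cfsg.Agent.Lib.Lead.SZ4
import Cfsg.Agent.Lib.Lead.BaerSuzuki
import Cfsg.Agent.Lib.Helper7.PSolv3

set_option autoImplicit false

universe u

namespace Cfsg.Agent.Lib.Lead

open scoped Pointwise

/-- Hall subgroups central in their normaliser have normal complements. -/
def HallCentral (G : Type u) [Group G] : Prop :=
  ∀ H : Subgroup G, (Nat.card H).Coprime H.index →
    Subgroup.normalizer (H : Set G) ≤ Subgroup.centralizer (H : Set G) →
    ∃ N : Subgroup G, N.Normal ∧ N.IsComplement' H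

theorem hc_internal {G : Type u} [Group G] [Finite G] (L : Subgroup G) (hL : HallCentral ↥L)
    (H : Subgroup G) (hHL : H ≤ L) (hHall : (Nat.card H).Coprime H.index)
    (hNC : Subgroup.normalizer (H : Set G) ≤ Subgroup.centralizer (H : Set G)) :
    ∃ M : Subgroup G, M ≤ L ∧ L ≤ Subgroup.normalizer (M : Set G) ∧
      Nat.card M * Nat.card H = Nat.card L ∧ (Nat.card M).Coprime (Nat.card H) := by
  have eH := Nat.card_congr (Subgroup.subgroupOfEquivOfLe hHL).toEquiv
  have hrel := relIndex_mul_card_of_le hHL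
  have hHall' : (Nat.card (H.subgroupOf L)).Coprime (H.subgroupOf L).index := by
    rw [eH]
    exact Nat.Coprime.coprime_dvd_right (Subgroup.relIndex_dvd_index_of_le hHL) hHall
  have hNC' : Subgroup.normalizer ((H.subgroupOf L : Subgroup L) : Set L) ≤
      Subgroup.centralizer ((H.subgroupOf L : Subgroup L) : Set L) := by
    intro x hx
    have hxN : (x : G) ∈ Subgroup.normalizer (H : Set G) := by
      apply mem_normalizer_of_conj_le
      intro d hd
      have h1 := (Subgroup.mem_normalizer_iff.mp hx ⟨d, hHL hd⟩).mp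
        (by rw [Subgroup.mem_subgroupOf]; exact hd)
      rw [Subgroup.mem_subgroupOf] at h1
      exact h1
    have hxC := hNC hxN
    rw [Subgroup.mem_centralizer_iff]
    intro y hy
    apply Subtype.ext
    exact (Subgroup.mem_centralizer_iff.mp hxC) (y : G) (Subgroup.mem_subgroupOf.mp hy)
  obtain ⟨N', hN'n, hN'c⟩ := hL (H.subgroupOf L) hHall' hNC'
  have hcardN := hN'c.card_mul_card
  rw [eH] at hcardN
  have hMcard : Nat.card (N'.map L.subtype) = Nat.card N' :=
    Subgroup.card_map_of_injective (Subgroup.subtype_injective L)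
  refine ⟨N'.map L.subtype, Subgroup.map_subtype_le _, ?_, ?_, ?_⟩
  · intro x hx
    apply mem_normalizer_of_conj_le
    rintro d ⟨n, hn, rfl⟩
    refine ⟨⟨x, hx⟩ * n * (⟨x, hx⟩ : L)⁻¹, hN'n.conj_mem n hn ⟨x, hx⟩, rfl⟩
  · rw [hMcard]; exact hcardN
  · rw [hMcard]
    have hpos : 0 < Nat.card H := Nat.card_pos
    have h1 : Nat.card N' = H.relIndex L := by
      have h2 : Nat.card N' * Nat.card H = H.relIndex L * Nat.card H := by rw [hcardN, hrel]
      exact Nat.eq_of_mul_eq_mul_right hpos h2
    rw [h1]
    exact (Nat.Coprime.coprime_dvd_right (Subgroup.relIndex_dvd_index_of_le hHL) hHall).symm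

/-- Key step: under the inductive hypothesis, a Sylow subgroup of `G` inside `H` is central in
its normaliser. -/
theorem hc_claim {G : Type u} [Group G] [Finite G]
    (IH : ∀ L : Subgroup G, Nat.card L < Nat.card G → HallCentral ↥L)
    (H : Subgroup G) (hHall : (Nat.card H).Coprime H.index)
    (hNC : Subgroup.normalizer (H : Set G) ≤ Subgroup.centralizer (H : Set G))
    (p : ℕ) [Fact p.Prime] (P : Sylow p G) (hPH : (P : Subgroup G) ≤ H) :
    Subgroup.normalizer ((P : Subgroup G) : Set G) ≤ Subgroup.centralizer ((P : Subgroup G) : Set G) := by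
  classical
  have hab : ∀ x ∈ H, ∀ y ∈ H, x * y = y * x := by
    intro x hx y hy
    have h1 := hNC (Subgroup.le_normalizer hx)
    exact ((Subgroup.mem_centralizer_iff.mp h1) y hy).symm
  have hHcP : H ≤ Subgroup.centralizer ((P : Subgroup G) : Set G) := by
    intro h hh
    rw [Subgroup.mem_centralizer_iff]
    intro x hx
    exact hab x (hPH hx) h hh
  by_cases hNtop : Subgroup.normalizer ((P : Subgroup G) : Set G) = ⊤
  · -- P normal
    by_cases hCtop : Subgroup.centralizer ((P : Subgroup G) : Set G) = ⊤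
    · rw [hCtop]; exact le_top
    · have hClt : Nat.card (Subgroup.centralizer ((P : Subgroup G) : Set G)) < Nat.card G := by
        have h1 := card_lt_of_lt (lt_top_iff_ne_top.mpr hCtop)
        rwa [Subgroup.card_top] at h1
      obtain ⟨K, hKC, hCK, hKcard, hKcop⟩ := hc_internal _ (IH _ hClt) H hHcP hHall hNC
      haveI hPn : (P : Subgroup G).Normal := Subgroup.normalizer_eq_top_iff.mp hNtop
      haveI hCn : (Subgroup.centralizer ((P : Subgroup G) : Set G)).Normal :=
        Subgroup.normal_centralizer
      intro g _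
      have hHg : MulAut.conj g • H ≤ Subgroup.centralizer ((P : Subgroup G) : Set G) := by
        intro x hx
        rw [mem_conj_smul] at hx
        have h1 := hCn.conj_mem _ (hHcP hx) g
        have e : g * (g⁻¹ * x * g) * g⁻¹ = x := by group
        rwa [e] at h1
      haveI : Group.IsSolvable H :=
        Group.isSolvable_of_comm (fun a b => Subtype.ext (hab a a.2 b b.2))
      obtain ⟨c, hc, hcH⟩ := sz_conj_internal (Subgroup.centralizer ((P : Subgroup G) : Set G))
        K H (MulAut.conj g • H) hKC hHcP hHg hCK hKcard (card_conj_smul g H) hKcop (Or.inr inferInstance)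
      have h1 : MulAut.conj (c⁻¹ * g) • H = H := by
        rw [map_mul, mul_smul, ← hcH, ← mul_smul, ← map_mul, inv_mul_cancel, map_one, one_smul]
      have h2 := hNC (mem_normalizer_of_conj_smul_eq h1)
      have h3 : c⁻¹ * g ∈ Subgroup.centralizer ((P : Subgroup G) : Set G) :=
        Subgroup.centralizer_le hPH h2
      have e : g = c * (c⁻¹ * g) := by group
      rw [e]
      exact Subgroup.mul_mem _ hc h3
  · have hLlt : Nat.card (Subgroup.normalizer ((P : Subgroup G) : Set G)) < Nat.card G := by
      have h1 := card_lt_of_lt (lt_top_iff_ne_top.mpr hNtop)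
      rwa [Subgroup.card_top] at h1
    have hHL : H ≤ Subgroup.normalizer ((P : Subgroup G) : Set G) :=
      hHcP.trans (Subgroup.centralizer_le_normalizer _)
    obtain ⟨M, hML, hLM, hMcard, hMcop⟩ := hc_internal _ (IH _ hLlt) H hHL hHall hNC
    have hMC : M ≤ Subgroup.centralizer ((P : Subgroup G) : Set G) := by
      intro m hm
      rw [Subgroup.mem_centralizer_iff]
      intro x hx
      have hxP : x ∈ (P : Subgroup G) := hx
      have hw1 : m * x * m⁻¹ * x⁻¹ ∈ (P : Subgroup G) :=
        Subgroup.mul_mem _ ((Subgroup.mem_normalizer_iff.mp (hML hm) x).mp hxP) (Subgroup.inv_mem _ hxP)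
      have hw2 : m * x * m⁻¹ * x⁻¹ ∈ M := by
        have h1 : x * m⁻¹ * x⁻¹ ∈ M :=
          (Subgroup.mem_normalizer_iff.mp (hLM (hHL (hPH hxP))) m⁻¹).mp (M.inv_mem hm)
        have e : m * x * m⁻¹ * x⁻¹ = m * (x * m⁻¹ * x⁻¹) := by group
        rw [e]
        exact M.mul_mem hm h1
      have hw : m * x * m⁻¹ * x⁻¹ = 1 := by
        have d1 : orderOf (m * x * m⁻¹ * x⁻¹) ∣ Nat.card M := by
          have := orderOf_dvd_natCard (⟨_, hw2⟩ : M)
          rwa [Subgroup.orderOf_mk] at this
        have d2 : orderOf (m * x * m⁻¹ * x⁻¹) ∣ Nat.card H := by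
          have := orderOf_dvd_natCard (⟨_, hPH hw1⟩ : H)
          rwa [Subgroup.orderOf_mk] at this
        exact orderOf_eq_one_iff.mp (Nat.eq_one_of_dvd_coprimes hMcop d1 d2)
      calc x * m = (m * x * m⁻¹ * x⁻¹)⁻¹ * (m * x) := by group
        _ = m * x := by rw [hw, inv_one, one_mul]
    -- the normaliser is contained in the centraliser
    have hD : Subgroup.normalizer ((P : Subgroup G) : Set G) ⊓
        Subgroup.centralizer ((P : Subgroup G) : Set G) =
        Subgroup.normalizer ((P : Subgroup G) : Set G) := by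
      apply Subgroup.eq_of_le_of_card_ge inf_le_left
      have d1 : Nat.card M ∣ Nat.card ↥(Subgroup.normalizer ((P : Subgroup G) : Set G) ⊓
          Subgroup.centralizer ((P : Subgroup G) : Set G)) :=
        Subgroup.card_dvd_of_le (le_inf hML hMC)
      have d2 : Nat.card H ∣ Nat.card ↥(Subgroup.normalizer ((P : Subgroup G) : Set G) ⊓
          Subgroup.centralizer ((P : Subgroup G) : Set G)) :=
        Subgroup.card_dvd_of_le (le_inf hHL hHcP)
      have d3 := Nat.Coprime.mul_dvd_of_dvd_of_dvd hMcop d1 d2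
      rw [hMcard] at d3
      exact Nat.le_of_dvd Nat.card_pos d3
    rw [← hD]
    exact inf_le_right

theorem hall_central_all : ∀ (n : ℕ) (G : Type u) [Group G] [Finite G], Nat.card G = n →
    HallCentral G := by
  intro n
  induction n using Nat.strong_induction_on with
  | _ n ih =>
  intro G _ _ hn H hHall hNC
  classical
  have IH : ∀ L : Subgroup G, Nat.card L < Nat.card G → HallCentral ↥L :=
    fun L hL => ih _ (hn ▸ hL) ↥L rfl
  have hex : ∀ p : ℕ, p.Prime → p ∣ Nat.card H → ∃ K : Subgroup G, K.Normal ∧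
      K.index = p ^ (Nat.card H).factorization p ∧ ¬ p ∣ Nat.card K := by
    intro p hp hpH
    haveI : Fact p.Prime := ⟨hp⟩
    have hpidx : ¬ p ∣ H.index := fun h =>
      hp.one_lt.ne' (Nat.Coprime.eq_one_of_dvd (Nat.Coprime.coprime_dvd_left hpH hHall) h)
    obtain ⟨P, hPH⟩ := Cfsg.Agent.Lib.Helper7.PS.exists_sylow_le_of_not_dvd_index p H hpidx
    have hNCp := hc_claim IH H hHall hNC p P hPH
    refine ⟨(MonoidHom.transferSylow P hNCp).ker, inferInstance, ?_,
      MonoidHom.not_dvd_card_ker_transferSylow P hNCp⟩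
    have hc := MonoidHom.ker_transferSylow_isComplement' P hNCp
    rw [hc.symm.index_eq_card, Sylow.card_eq_multiplicity]
    congr 1
    rw [← Subgroup.card_mul_index H, Nat.factorization_mul Nat.card_pos.ne'
      Subgroup.index_ne_zero_of_finite]
    simp [Nat.factorization_eq_zero_of_not_dvd hpidx]
  have hbuild : ∀ S : Finset ℕ, S ⊆ (Nat.card H).primeFactors → ∃ K : Subgroup G, K.Normal ∧
      (∀ p ∈ S, ¬ p ∣ Nat.card K) ∧ K.index ∣ ∏ p ∈ S, p ^ (Nat.card H).factorization p := by
    intro S
    induction S using Finset.induction_on with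
    | empty =>
      intro _
      exact ⟨⊤, inferInstance, by simp, by simp⟩
    | insert p S hpS ih2 =>
      intro hsub
      obtain ⟨K, hKn, hKnd, hKidx⟩ := ih2 ((Finset.subset_insert p S).trans hsub)
      have hpmem := hsub (Finset.mem_insert_self p S)
      obtain ⟨hpp, hpd, -⟩ := Nat.mem_primeFactors.mp hpmem
      obtain ⟨Kp, hKpn, hKpidx, hKpnd⟩ := hex p hpp hpd
      haveI := hKn
      haveI := hKpn
      refine ⟨K ⊓ Kp, inferInstance, ?_, ?_⟩
      · intro q hq hqd
        rcases Finset.mem_insert.mp hq with rfl | hq'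
        · exact hKpnd (hqd.trans (Subgroup.card_dvd_of_le inf_le_right))
        · exact hKnd q hq' (hqd.trans (Subgroup.card_dvd_of_le inf_le_left))
      · rw [Finset.prod_insert hpS]
        have h1 := Subgroup.relIndex_mul_index (inf_le_left : K ⊓ Kp ≤ K)
        rw [Subgroup.inf_relIndex_left] at h1
        rw [← h1]
        exact mul_dvd_mul (hKpidx ▸ Subgroup.relIndex_dvd_index_of_normal Kp K) hKidx
  obtain ⟨K, hKn, hKnd, hKidx⟩ := hbuild _ subset_rfl
  have hprod : ∏ p ∈ (Nat.card H).primeFactors, p ^ (Nat.card H).factorization p = Nat.card H := by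
    have h1 := Nat.prod_factorization_pow_eq_self (Nat.card_pos (α := H)).ne'
    rw [Finsupp.prod, Nat.support_factorization] at h1
    exact h1
  rw [hprod] at hKidx
  have hcop : (Nat.card K).Coprime (Nat.card H) := by
    apply Nat.coprime_of_dvd
    intro q hq hqK hqH
    exact hKnd q (Nat.mem_primeFactors.mpr ⟨hq, hqH, Nat.card_pos.ne'⟩) hqK
  have h1 : Nat.card K * K.index = Nat.card H * H.index := by
    rw [Subgroup.card_mul_index, Subgroup.card_mul_index]
  have h2 : Nat.card K ∣ H.index := by
    have h3 : Nat.card K ∣ Nat.card H * H.index := h1 ▸ Dvd.intro _ rfl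
    exact hcop.dvd_of_dvd_mul_left h3
  have hcard : Nat.card K * Nat.card H = Nat.card G := by
    have hle1 : K.index ≤ Nat.card H := Nat.le_of_dvd Nat.card_pos hKidx
    have hle2 : Nat.card K ≤ H.index :=
      Nat.le_of_dvd (Nat.pos_of_ne_zero Subgroup.index_ne_zero_of_finite) h2
    have hKpos : 0 < Nat.card K := Nat.card_pos
    have heq : K.index = Nat.card H := by
      by_contra hne
      have hlt : K.index < Nat.card H := lt_of_le_of_ne hle1 hne
      have h3 : Nat.card K * K.index < Nat.card K * Nat.card H :=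
        Nat.mul_lt_mul_of_pos_left hlt hKpos
      have h4 : Nat.card K * Nat.card H ≤ H.index * Nat.card H := Nat.mul_le_mul_right _ hle2
      rw [h1, mul_comm (Nat.card H)] at h3
      omega
    rw [← heq]
    exact Subgroup.card_mul_index K
  exact ⟨K, hKn, Subgroup.isComplement'_of_coprime hcard hcop⟩

theorem hall_central {G : Type u} [Group G] [Finite G] : HallCentral G :=
  hall_central_all _ G rfl

end Cfsg.Agent.Lib.Lead
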