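import Mathlib

set_option autoImplicit false

namespace Cfsg.Agent.Lib.Lead

/-- A finite group with a normal subgroup of index `2 ^ k`, `k ≠ 0`, has a subgroup of index 2. -/
theorem exists_index_two_of_normal_index_two_pow {G : Type*} [Group G] [Finite G] (N : Subgroup G) [N.Normal]
    (k : ℕ) (hk : k ≠ 0) (h : N.index = 2 ^ k) : ∃ H : Subgroup G, H.index = 2 := by
  have hcard : Nat.card (G ⧸ N) = 2 ^ k := by rw [← Subgroup.index_eq_card, h]
  have : Fact (Nat.Prime 2) := ⟨Nat.prime_two⟩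
  have hdvd : 2 ^ (k - 1) ∣ Nat.card (G ⧸ N) := by
    rw [hcard]; exact pow_dvd_pow 2 (Nat.sub_le k 1)
  obtain ⟨K, hK⟩ := Sylow.exists_subgroup_card_pow_prime 2 hdvd
  refine ⟨K.comap (QuotientGroup.mk' N), ?_⟩
  rw [Subgroup.index_comap_of_surjective _ (QuotientGroup.mk'_surjective N)]
  have h1 : Nat.card K * K.index = Nat.card (G ⧸ N) := K.card_mul_index
  rw [hK, hcard] at h1
  have h2 : 2 ^ k = 2 ^ (k - 1) * 2 := by
    rw [← pow_succ]; congr 1; omega
  rw [h2] at h1
  exact Nat.eq_of_mul_eq_mul_left (by positivity) h1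

/-- A finite group of even order with a cyclic Sylow 2-subgroup has a subgroup of index 2. -/
theorem exists_index_two_of_cyclic_sylow {G : Type*} [Group G] [Finite G] (heven : Even (Nat.card G))
    (T : Sylow 2 G) (hT : IsCyclic (T : Subgroup G)) : ∃ H : Subgroup G, H.index = 2 := by
  have : Fact (Nat.Prime 2) := ⟨Nat.prime_two⟩
  have hmin : (Nat.card G).minFac = 2 := (Nat.minFac_eq_two_iff _).mpr heven.two_dvd
  have hc := IsCyclic.isComplement' hmin hT
  have hidx := hc.symm.index_eq_card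
  obtain ⟨k, hk⟩ := IsPGroup.iff_card.mp T.isPGroup'
  have hk0 : k ≠ 0 := by
    intro h0
    rw [h0, pow_zero] at hk
    have hbot : (T : Subgroup G) = ⊥ := Subgroup.card_eq_one.mp hk
    exact T.ne_bot_of_dvd_card heven.two_dvd hbot
  rw [hk] at hidx
  exact exists_index_two_of_normal_index_two_pow _ k hk0 hidx

end Cfsg.Agent.Lib.Lead
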