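import Mathlib
import Cfsg.Prelude.Def_Blocks
import Cfsg.Agent.Lib.Lead.Char1
import Cfsg.Agent.Lib.Lead.Char7

set_option autoImplicit false

namespace Cfsg.Agent.Lib.Lead

/-- the complex number `z` is (the image of) an element of the ideal `I` of algebraic integers -/
def InIdeal (I : Ideal Cfsg.AlgInt) (z : ℂ) : Prop := ∃ a : Cfsg.AlgInt, a ∈ I ∧ (a : ℂ) = z

theorem inIdeal_zero (I : Ideal Cfsg.AlgInt) : InIdeal I 0 := ⟨0, I.zero_mem, rfl⟩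

theorem inIdeal_add {I : Ideal Cfsg.AlgInt} {z w : ℂ} (hz : InIdeal I z) (hw : InIdeal I w) :
    InIdeal I (z + w) := by
  obtain ⟨a, ha, rfl⟩ := hz
  obtain ⟨b, hb, rfl⟩ := hw
  exact ⟨a + b, I.add_mem ha hb, rfl⟩

theorem inIdeal_neg {I : Ideal Cfsg.AlgInt} {z : ℂ} (hz : InIdeal I z) : InIdeal I (-z) := by
  obtain ⟨a, ha, rfl⟩ := hz
  exact ⟨-a, I.neg_mem ha, rfl⟩

theorem inIdeal_sub {I : Ideal Cfsg.AlgInt} {z w : ℂ} (hz : InIdeal I z) (hw : InIdeal I w) :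
    InIdeal I (z - w) := by
  rw [sub_eq_add_neg]
  exact inIdeal_add hz (inIdeal_neg hw)

theorem inIdeal_mul_left {I : Ideal Cfsg.AlgInt} {z c : ℂ} (hc : IsIntegral ℤ c)
    (hz : InIdeal I z) : InIdeal I (c * z) := by
  obtain ⟨a, ha, rfl⟩ := hz
  exact ⟨⟨c, hc⟩ * a, I.mul_mem_left _ ha, rfl⟩

theorem inIdeal_mul_right {I : Ideal Cfsg.AlgInt} {z c : ℂ} (hc : IsIntegral ℤ c)
    (hz : InIdeal I z) : InIdeal I (z * c) := by
  rw [mul_comm]; exact inIdeal_mul_left hc hz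

theorem inIdeal_sum {I : Ideal Cfsg.AlgInt} {ι : Type*} (s : Finset ι) (f : ι → ℂ)
    (hf : ∀ i ∈ s, InIdeal I (f i)) : InIdeal I (∑ i ∈ s, f i) := by
  classical
  induction s using Finset.induction_on with
  | empty => simpa using inIdeal_zero I
  | insert a s ha ih =>
    rw [Finset.sum_insert ha]
    exact inIdeal_add (hf a (Finset.mem_insert_self a s))
      (ih (fun i hi => hf i (Finset.mem_insert_of_mem hi)))

theorem inIdeal_mono {I J : Ideal Cfsg.AlgInt} (h : I ≤ J) {z : ℂ} (hz : InIdeal I z) :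
    InIdeal J z := by
  obtain ⟨a, ha, rfl⟩ := hz
  exact ⟨a, h ha, rfl⟩

theorem inIdeal_of_pow {M : Ideal Cfsg.AlgInt} (hM : M.IsPrime) {z : ℂ} (hz : IsIntegral ℤ z)
    (k : ℕ) (h : InIdeal M (z ^ k)) : InIdeal M z := by
  obtain ⟨a, ha, hae⟩ := h
  have h1 : (⟨z, hz⟩ : Cfsg.AlgInt) ^ k = a := by
    apply Subtype.ext
    rw [hae]; rfl
  rw [← h1] at ha
  exact ⟨⟨z, hz⟩, hM.mem_of_pow_mem k ha, rfl⟩

theorem memLocalIdeal_iff {M : Ideal Cfsg.AlgInt} (hM : M.IsPrime) {z : ℂ} (hz : IsIntegral ℤ z) :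
    Cfsg.MemLocalIdeal M z ↔ InIdeal M z := by
  constructor
  · rintro ⟨a, b, ha, hb, hab⟩
    have hb0 : (b : ℂ) ≠ 0 := by
      intro h0
      apply hb
      have : b = 0 := Subtype.ext h0
      rw [this]; exact M.zero_mem
    have h1 : (⟨z, hz⟩ : Cfsg.AlgInt) * b = a := by
      apply Subtype.ext
      show z * (b : ℂ) = (a : ℂ)
      rw [← hab]; field_simp
    have h2 : (⟨z, hz⟩ : Cfsg.AlgInt) * b ∈ M := by rw [h1]; exact ha
    rcases hM.mem_or_mem h2 with h3 | h3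
    · exact ⟨⟨z, hz⟩, h3, rfl⟩
    · exact absurd h3 hb
  · rintro ⟨a, ha, rfl⟩
    refine ⟨a, 1, ha, ?_, by simp⟩
    intro h1
    exact hM.ne_top ((Ideal.eq_top_iff_one M).mpr h1)

theorem natCast_inIdeal_span {p : ℕ} (hp : p.Prime) {n : ℕ}
    (h : InIdeal (Ideal.span {(p : Cfsg.AlgInt)}) (n : ℂ)) : p ∣ n := by
  obtain ⟨a, ha, hae⟩ := h
  obtain ⟨c, hc⟩ := Ideal.mem_span_singleton.mp ha
  apply dvd_of_isIntegral_div hp.pos
  have h1 : (n : ℂ) / (p : ℂ) = (c : ℂ) := by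
    rw [← hae, hc]
    have hp0 : (p : ℂ) ≠ 0 := by exact_mod_cast hp.ne_zero
    push_cast
    field_simp
  rw [h1]
  exact c.2

theorem p_nonunit {p : ℕ} (hp : p.Prime) : (p : Cfsg.AlgInt) ∈ nonunits Cfsg.AlgInt := by
  intro hu
  have h1 : InIdeal (Ideal.span {(p : Cfsg.AlgInt)}) ((1 : ℕ) : ℂ) := by
    refine ⟨1, ?_, by simp⟩
    rw [Ideal.span_singleton_eq_top.mpr hu]
    trivial
  have h2 := natCast_inIdeal_span hp h1
  exact hp.one_lt.ne' (Nat.dvd_one.mp h2)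

theorem frob_sum {p : ℕ} [hp : Fact p.Prime] {ι : Type*} (s : Finset ι) (f : ι → ℂ)
    (hf : ∀ i ∈ s, IsIntegral ℤ (f i)) (k : ℕ) :
    InIdeal (Ideal.span {(p : Cfsg.AlgInt)}) ((∑ i ∈ s, f i) ^ p ^ k - ∑ i ∈ s, f i ^ p ^ k) := by
  classical
  haveI : CharP (Cfsg.AlgInt ⧸ Ideal.span {(p : Cfsg.AlgInt)}) p :=
    CharP.quotient Cfsg.AlgInt p (p_nonunit hp.1)
  obtain ⟨F, hF⟩ : ∃ F : ι → Cfsg.AlgInt, ∀ i ∈ s, ((F i : Cfsg.AlgInt) : ℂ) = f i :=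
    ⟨fun i => if h : i ∈ s then ⟨f i, hf i h⟩ else 0, fun i hi => by simp [hi]⟩
  refine ⟨(∑ i ∈ s, F i) ^ p ^ k - ∑ i ∈ s, F i ^ p ^ k, ?_, ?_⟩
  · rw [← Ideal.Quotient.eq_zero_iff_mem, map_sub, map_pow, map_sum, map_sum, sum_pow_char_pow,
      sub_eq_zero]
    exact Finset.sum_congr rfl (fun i _ => by rw [map_pow])
  · push_cast
    have e1 : ∑ i ∈ s, ((F i : Cfsg.AlgInt) : ℂ) = ∑ i ∈ s, f i := Finset.sum_congr rfl hF
    have e2 : ∑ i ∈ s, ((F i : Cfsg.AlgInt) : ℂ) ^ p ^ k = ∑ i ∈ s, f i ^ p ^ k :=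
      Finset.sum_congr rfl (fun i hi => by rw [hF i hi])
    rw [e1, e2]

theorem frob_sub_one {p : ℕ} [hp : Fact p.Prime] {ν : ℂ} (hν : IsIntegral ℤ ν) (k : ℕ) :
    InIdeal (Ideal.span {(p : Cfsg.AlgInt)}) ((ν - 1) ^ p ^ k - (ν ^ p ^ k - 1)) := by
  haveI : CharP (Cfsg.AlgInt ⧸ Ideal.span {(p : Cfsg.AlgInt)}) p :=
    CharP.quotient Cfsg.AlgInt p (p_nonunit hp.1)
  refine ⟨((⟨ν, hν⟩ : Cfsg.AlgInt) - 1) ^ p ^ k - ((⟨ν, hν⟩ : Cfsg.AlgInt) ^ p ^ k - 1), ?_, ?_⟩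
  · rw [← Ideal.Quotient.eq_zero_iff_mem, map_sub, map_pow, map_sub, map_sub, map_pow, map_one,
      sub_pow_char_pow, one_pow, sub_self]
  · push_cast
    rfl

theorem frob_nat {p : ℕ} [hp : Fact p.Prime] (d k : ℕ) :
    InIdeal (Ideal.span {(p : Cfsg.AlgInt)}) ((d : ℂ) ^ p ^ k - (d : ℂ)) := by
  have h := frob_sum (p := p) (Finset.range d) (fun _ => (1 : ℂ)) (fun _ _ => isIntegral_one) k
  simpa using h

/-- eigenvalue data for an element with commuting `p`-part `a` and `p`-regular part `y` -/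
theorem preg_eigen {G V : Type*} [Group G] [Finite G] [AddCommGroup V] [Module ℂ V]
    [FiniteDimensional ℂ V] (ρ : Representation ℂ G V) (p : ℕ) (a y : G) (hcomm : Commute a y)
    (k : ℕ) (ha : orderOf a = p ^ k) (hy : Nat.Coprime (p ^ k) (orderOf y)) :
    ∃ (S : Finset ℂ) (d : ℂ → ℕ) (s : ℕ) (ν : ℂ → ℂ), (∀ μ ∈ S, IsIntegral ℤ μ) ∧
      (∀ μ ∈ S, IsIntegral ℤ (ν μ)) ∧ (∀ μ ∈ S, μ = μ ^ s * ν μ) ∧ (∀ μ ∈ S, ν μ ^ p ^ k = 1) ∧
      (∀ j : ℕ, ρ.character ((a * y) ^ j) = ∑ μ ∈ S, μ ^ j * (d μ : ℂ)) ∧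
      (∀ j : ℕ, ρ.character (y ^ j) = ∑ μ ∈ S, μ ^ (s * j) * (d μ : ℂ)) := by
  obtain ⟨S, d, h1, h2, h3, h4, h5⟩ := char_eigen ρ (a * y)
  obtain ⟨s, hs0, hs1⟩ := Nat.chineseRemainder hy 0 1
  have hpk : p ^ k ∣ s := (Nat.modEq_zero_iff_dvd).mp hs0
  have hxs : (a * y) ^ s = y := by
    rw [hcomm.mul_pow]
    have e1 : a ^ s = 1 := orderOf_dvd_iff_pow_eq_one.mp (ha ▸ hpk)
    have e2 : y ^ s = y := by
      have e3 := pow_eq_pow_iff_modEq.mpr hs1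
      rw [pow_one] at e3
      exact e3
    rw [e1, e2, one_mul]
  obtain ⟨N, hN⟩ : ∃ N, N = orderOf (a * y) := ⟨_, rfl⟩
  have hNpos : 0 < N := by rw [hN]; exact orderOf_pos _
  have hyN : y ^ N = 1 := by
    rw [← hxs, ← pow_mul, mul_comm, pow_mul, hN, pow_orderOf_eq_one, one_pow]
  have hxs' : (a * y) ^ ((N - 1) * s + 1) = a := by
    rw [pow_succ, mul_comm (N - 1) s, pow_mul, hxs]
    have e : y ^ (N - 1) * (a * y) = a * (y ^ (N - 1) * y) := by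
      rw [← mul_assoc, ← mul_assoc, (hcomm.pow_right (N - 1)).eq]
    rw [e, ← pow_succ, Nat.sub_add_cancel hNpos, hyN, mul_one]
  have hdiv : N ∣ ((N - 1) * s + 1) * p ^ k := by
    rw [hN]
    apply orderOf_dvd_of_pow_eq_one
    rw [pow_mul, ← hN, hxs', ← ha, pow_orderOf_eq_one]
  have hμN : ∀ μ ∈ S, μ ^ N = 1 := fun μ hμ => hN ▸ h1 μ hμ
  refine ⟨S, d, s, fun μ => μ ^ ((N - 1) * s + 1), ?_, ?_, ?_, ?_, h4, ?_⟩
  · intro μ hμ
    exact IsIntegral.of_pow hNpos (by rw [hμN μ hμ]; exact isIntegral_one)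
  · intro μ hμ
    exact (IsIntegral.of_pow hNpos (by rw [hμN μ hμ]; exact isIntegral_one)).pow _
  · intro μ hμ
    rw [← pow_add]
    have e : s + ((N - 1) * s + 1) = N * s + 1 := by
      obtain ⟨N', rfl⟩ : ∃ N', N = N' + 1 := ⟨N - 1, by omega⟩
      simp only [Nat.add_sub_cancel]
      ring
    rw [e, pow_succ, pow_mul, hμN μ hμ, one_pow, one_mul]
  · intro μ hμ
    obtain ⟨q, hq⟩ := hdiv
    show (μ ^ ((N - 1) * s + 1)) ^ p ^ k = 1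
    rw [← pow_mul, hq, pow_mul, hμN μ hμ, one_pow]
  · intro j
    rw [← h4, pow_mul, hxs]

/-- a character value is congruent to the value at the `p`-regular part modulo a prime ideal
containing `p` -/
theorem char_preg_congr_M {G V : Type*} [Group G] [Finite G] [AddCommGroup V] [Module ℂ V]
    [FiniteDimensional ℂ V] (ρ : Representation ℂ G V) (p : ℕ) [hp : Fact p.Prime]
    (M : Ideal Cfsg.AlgInt) (hM : M.IsPrime) (hpM : (p : Cfsg.AlgInt) ∈ M) (a y : G)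
    (hcomm : Commute a y) (k : ℕ) (ha : orderOf a = p ^ k) (hy : ¬ p ∣ orderOf y) :
    InIdeal M (ρ.character (a * y) - ρ.character y) := by
  have hcop : Nat.Coprime (p ^ k) (orderOf y) :=
    Nat.Coprime.pow_left k ((Nat.Prime.coprime_iff_not_dvd hp.1).mpr hy)
  obtain ⟨S, d, s, ν, hμi, hνi, hμν, hν1, hx, hy'⟩ := preg_eigen ρ p a y hcomm k ha hcop
  have h1 := hx 1
  have h2 := hy' 1
  rw [pow_one] at h1 h2
  rw [h1, h2, ← Finset.sum_sub_distrib]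
  apply inIdeal_sum
  intro μ hμ
  have hle : Ideal.span {(p : Cfsg.AlgInt)} ≤ M := (Ideal.span_singleton_le_iff_mem M).mpr hpM
  have h3 : InIdeal M (ν μ - 1) := by
    apply inIdeal_of_pow hM ((hνi μ hμ).sub isIntegral_one) (p ^ k)
    have h4 := frob_sub_one (p := p) (hνi μ hμ) k
    rw [hν1 μ hμ, sub_self, sub_zero] at h4
    exact inIdeal_mono hle h4
  have h5 : μ ^ 1 * (d μ : ℂ) - μ ^ (s * 1) * (d μ : ℂ) = (μ ^ s * (d μ : ℂ)) * (ν μ - 1) := by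
    rw [pow_one, mul_one]
    have e : (μ ^ s * (d μ : ℂ)) * (ν μ - 1) = (μ ^ s * ν μ) * (d μ : ℂ) - μ ^ s * (d μ : ℂ) := by
      ring
    rw [e, ← hμν μ hμ]
  rw [h5]
  exact inIdeal_mul_left (((hμi μ hμ).pow s).mul
    (isIntegral_algebraMap (R := ℤ) (A := ℂ) (x := (d μ : ℤ)))) h3

/-- the `p^A`-th power of a character value is congruent modulo `p` to the value at the
`p^A`-th power of the `p`-regular part -/
theorem char_preg_congr_p {G V : Type*} [Group G] [Finite G] [AddCommGroup V] [Module ℂ V]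
    [FiniteDimensional ℂ V] (ρ : Representation ℂ G V) (p : ℕ) [hp : Fact p.Prime] (a y : G)
    (hcomm : Commute a y) (k : ℕ) (ha : orderOf a = p ^ k) (hy : ¬ p ∣ orderOf y) (A : ℕ)
    (hkA : k ≤ A) :
    InIdeal (Ideal.span {(p : Cfsg.AlgInt)})
      (ρ.character (a * y) ^ p ^ A - ρ.character (y ^ p ^ A)) := by
  have hcop : Nat.Coprime (p ^ k) (orderOf y) :=
    Nat.Coprime.pow_left k ((Nat.Prime.coprime_iff_not_dvd hp.1).mpr hy)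
  obtain ⟨S, d, s, ν, hμi, hνi, hμν, hν1, hx, hy'⟩ := preg_eigen ρ p a y hcomm k ha hcop
  have h1 := hx 1
  rw [pow_one] at h1
  rw [h1, hy' (p ^ A)]
  have hdi : ∀ μ : ℂ, IsIntegral ℤ ((d μ : ℕ) : ℂ) := fun μ =>
    isIntegral_algebraMap (R := ℤ) (A := ℂ) (x := (d μ : ℤ))
  have h2 := frob_sum (p := p) S (fun μ => μ ^ 1 * (d μ : ℂ))
    (fun μ hμ => ((hμi μ hμ).pow 1).mul (hdi μ)) A
  have h3 : InIdeal (Ideal.span {(p : Cfsg.AlgInt)})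
      (∑ μ ∈ S, (μ ^ 1 * (d μ : ℂ)) ^ p ^ A - ∑ μ ∈ S, μ ^ (s * p ^ A) * (d μ : ℂ)) := by
    rw [← Finset.sum_sub_distrib]
    apply inIdeal_sum
    intro μ hμ
    have h4 : ν μ ^ p ^ A = 1 := by
      obtain ⟨c, rfl⟩ := Nat.exists_eq_add_of_le hkA
      rw [pow_add, pow_mul, hν1 μ hμ, one_pow]
    have h5 : (μ ^ 1 * (d μ : ℂ)) ^ p ^ A - μ ^ (s * p ^ A) * (d μ : ℂ)
        = μ ^ (s * p ^ A) * ((d μ : ℂ) ^ p ^ A - (d μ : ℂ)) := by
      have e2 : μ ^ p ^ A = μ ^ (s * p ^ A) := by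
        calc μ ^ p ^ A = (μ ^ s * ν μ) ^ p ^ A := by rw [← hμν μ hμ]
          _ = μ ^ (s * p ^ A) := by rw [mul_pow, h4, mul_one, ← pow_mul]
      rw [pow_one, mul_pow, e2]
      ring
    rw [h5]
    exact inIdeal_mul_left ((hμi μ hμ).pow _) (frob_nat (d μ) A)
  have h6 := inIdeal_add h2 h3
  have h7 : (∑ μ ∈ S, μ ^ 1 * (d μ : ℂ)) ^ p ^ A - ∑ μ ∈ S, (μ ^ 1 * (d μ : ℂ)) ^ p ^ A
      + (∑ μ ∈ S, (μ ^ 1 * (d μ : ℂ)) ^ p ^ A - ∑ μ ∈ S, μ ^ (s * p ^ A) * (d μ : ℂ))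
      = (∑ μ ∈ S, μ ^ 1 * (d μ : ℂ)) ^ p ^ A - ∑ μ ∈ S, μ ^ (s * p ^ A) * (d μ : ℂ) := by ring
  rw [h7] at h6
  exact h6

end Cfsg.Agent.Lib.Lead
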