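import Mathlib
import Cfsg.Agent.Lib.Lead.AISpan
import Cfsg.Agent.Lib.Lead.Brauer6

set_option autoImplicit false

namespace Cfsg.Agent.Lib.Lead

/-- in an elementary group, the power map that kills the `m`-part and fixes the `n`-part is
multiplicative -/
theorem elementary_pow_hom {p : ℕ} (hp : p.Prime) {E : Type*} [Group E] [Finite E]
    (hE : Cfsg.IsElementary p E) (m n t : ℕ) (hmn : Nat.Coprime m n) (hcard : Nat.card E ∣ m * n)
    (htm : m ∣ t) (htn : t ≡ 1 [MOD n]) (x y : E) : (x * y) ^ t = x ^ t * y ^ t := by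
  classical
  haveI : Fact p.Prime := ⟨hp⟩
  haveI hnil : Group.IsNilpotent E := isNilpotent_of_elementary hp hE
  obtain ⟨x₀, hx₀, hcop, k, hk⟩ := hE
  obtain ⟨P⟩ : Nonempty (Sylow p E) := inferInstance
  have hPn : (P : Subgroup E).Normal := inferInstance
  have huniq : ∀ Q : Sylow p E, Q = P := by
    intro Q
    haveI := Sylow.unique_of_normal P hPn
    exact Subsingleton.elim Q P
  have hle : Subgroup.zpowers x₀ ≤ Subgroup.center E := Subgroup.zpowers_le.2 hx₀
  haveI hnorm : (Subgroup.zpowers x₀).Normal := by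
    constructor
    intro n hn g
    have h1 := Subgroup.mem_center_iff.1 (hle hn) g
    rw [h1, mul_inv_cancel_right]; exact hn
  have hc : ∀ (a : E), ∀ c ∈ Subgroup.zpowers x₀, Commute c a := by
    intro a c hc
    exact (Subgroup.mem_center_iff.1 (hle hc) a).symm
  have hdecomp : ∀ x : E, ∃ z ∈ Subgroup.zpowers x₀, ∃ w ∈ (P : Subgroup E), x = z * w := by
    intro x
    have h1 : x ^ (p ^ k) ∈ Subgroup.zpowers x₀ := by
      rw [← QuotientGroup.eq_one_iff, QuotientGroup.mk_pow]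
      have h2 : Nat.card (E ⧸ Subgroup.zpowers x₀) = p ^ k := hk
      rw [← h2]
      exact pow_card_eq_one'
    have hcop' : Nat.Coprime (p ^ k) (orderOf x₀) := (Nat.Coprime.pow_right k hcop).symm
    have hbez := Nat.gcd_eq_gcd_ab (p ^ k) (orderOf x₀)
    rw [hcop'.gcd_eq_one] at hbez
    obtain ⟨α, hα⟩ : ∃ α : ℤ, α = Nat.gcdA (p ^ k) (orderOf x₀) := ⟨_, rfl⟩
    obtain ⟨β, hβ⟩ : ∃ β : ℤ, β = Nat.gcdB (p ^ k) (orderOf x₀) := ⟨_, rfl⟩
    rw [← hα, ← hβ] at hbez
    have hw : (x ^ ((orderOf x₀ : ℤ) * β)) ^ (p ^ k) = 1 := by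
      obtain ⟨j, hj⟩ := Subgroup.mem_zpowers_iff.mp h1
      have e : (x ^ ((orderOf x₀ : ℤ) * β)) ^ (p ^ k) = (x ^ (p ^ k)) ^ ((orderOf x₀ : ℤ) * β) := by
        rw [← zpow_natCast, ← zpow_natCast x (p ^ k), ← zpow_mul, ← zpow_mul, mul_comm]
      rw [e, ← hj, ← zpow_mul, mul_comm j, mul_assoc, zpow_mul, zpow_natCast, pow_orderOf_eq_one,
        one_zpow]
    refine ⟨x ^ (((p ^ k : ℕ) : ℤ) * α), ?_, x ^ ((orderOf x₀ : ℤ) * β), ?_, ?_⟩
    · rw [zpow_mul, zpow_natCast]
      exact Subgroup.zpow_mem _ h1 α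
    · have h3 : orderOf (x ^ ((orderOf x₀ : ℤ) * β)) ∣ p ^ k := orderOf_dvd_of_pow_eq_one hw
      obtain ⟨j, _, hj⟩ := (Nat.dvd_prime_pow hp).1 h3
      have h4 : IsPGroup p (Subgroup.zpowers (x ^ ((orderOf x₀ : ℤ) * β))) := by
        apply IsPGroup.of_card (n := j)
        rw [Nat.card_zpowers, hj]
      obtain ⟨Q, hQ⟩ := h4.exists_le_sylow
      rw [huniq Q] at hQ
      exact hQ (Subgroup.mem_zpowers _)
    · rw [← zpow_add, ← hbez]
      push_cast
      rw [zpow_one]
  have hP : ∀ w w' : E, w ∈ (P : Subgroup E) → w' ∈ (P : Subgroup E) →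
      (w * w') ^ t = w ^ t * w' ^ t := by
    have hord : ∀ w ∈ (P : Subgroup E), ∃ j, orderOf w = p ^ j ∧ p ^ j ∣ m * n := by
      intro w hw
      obtain ⟨j, hj⟩ := (IsPGroup.iff_orderOf.mp P.2) ⟨w, hw⟩
      rw [Subgroup.orderOf_mk] at hj
      exact ⟨j, hj, by rw [← hj]; exact (orderOf_dvd_natCard w).trans hcard⟩
    by_cases hpm : p ∣ m
    · have h1 : ∀ w ∈ (P : Subgroup E), w ^ t = 1 := by
        intro w hw
        obtain ⟨j, hj, hjd⟩ := hord w hw
        have h2 : Nat.Coprime (p ^ j) n := Nat.Coprime.pow_left j (Nat.Coprime.coprime_dvd_left hpm hmn)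
        have h3 : p ^ j ∣ m := h2.dvd_of_dvd_mul_right hjd
        apply orderOf_dvd_iff_pow_eq_one.mp
        rw [hj]
        exact h3.trans htm
      intro w w' hw hw'
      rw [h1 w hw, h1 w' hw', h1 _ (mul_mem hw hw'), one_mul]
    · have h1 : ∀ w ∈ (P : Subgroup E), w ^ t = w := by
        intro w hw
        obtain ⟨j, hj, hjd⟩ := hord w hw
        have h2 : Nat.Coprime (p ^ j) m := Nat.Coprime.pow_left j ((Nat.Prime.coprime_iff_not_dvd hp).mpr hpm)
        have h3 : p ^ j ∣ n := h2.dvd_of_dvd_mul_left hjd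
        have h4 : t ≡ 1 [MOD orderOf w] := by
          rw [hj]
          exact htn.of_dvd h3
        have h5 := pow_eq_pow_iff_modEq.mpr h4
        rw [pow_one] at h5
        exact h5
      intro w w' hw hw'
      rw [h1 w hw, h1 w' hw', h1 _ (mul_mem hw hw')]
  obtain ⟨z, hz, w, hw, rfl⟩ := hdecomp x
  obtain ⟨z', hz', w', hw', rfl⟩ := hdecomp y
  have e1 : z * w * (z' * w') = z * z' * (w * w') := by
    rw [mul_assoc z w, ← mul_assoc w z' w', ← (hc w z' hz').eq, mul_assoc z' w w', ← mul_assoc z z']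
  have h1 := ((hc w z' hz').pow_pow t t).eq
  rw [e1, (hc (w * w') (z * z') (mul_mem hz hz')).mul_pow, (hc z' z hz).mul_pow, hP w w' hw hw',
    (hc w z hz).mul_pow, (hc w' z' hz').mul_pow, mul_assoc (z ^ t) (z' ^ t), ← mul_assoc (z' ^ t) (w ^ t),
    h1, mul_assoc (w ^ t), ← mul_assoc (z ^ t)]

open Classical in
/-- the `n`-multiple of the indicator of a `π'`-section is an algebraic-integer combination of
characters -/
theorem pi_section_ai {G : Type*} [Group G] [Fintype G] (m n : ℕ) (hmn : Nat.card G = m * n)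
    (hcop : Nat.Coprime m n) (g : G) (t : ℕ) (htm : m ∣ t) (htn : t ≡ 1 [MOD n]) :
    (fun x : G => if IsConj (x ^ t) g then (n : ℂ) else 0) ∈ aiSpan G := by
  apply brauer_ai
  · intro x h
    show (if IsConj ((h * x * h⁻¹) ^ t) g then (n : ℂ) else 0) = if IsConj (x ^ t) g then (n : ℂ) else 0
    have h1 : IsConj ((h * x * h⁻¹) ^ t) g ↔ IsConj (x ^ t) g := by
      rw [conj_pow]
      constructor
      · intro h2
        exact (isConj_iff.mpr ⟨h, rfl⟩ : IsConj (x ^ t) (h * x ^ t * h⁻¹)).trans h2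
      · intro h2
        exact (isConj_iff.mpr ⟨h, rfl⟩ : IsConj (x ^ t) (h * x ^ t * h⁻¹)).symm.trans h2
    by_cases h3 : IsConj (x ^ t) g
    · rw [if_pos h3, if_pos (h1.mpr h3)]
    · rw [if_neg h3, if_neg (fun h4 => h3 (h1.mp h4))]
  · intro E p hp hE
    have hcardE : Nat.card E ∣ m * n := by
      rw [← hmn]; exact Subgroup.card_subgroup_dvd_card E
    obtain ⟨τ, hτ⟩ : ∃ τ : E →* E, ∀ x, τ x = x ^ t :=
      ⟨MonoidHom.mk' (fun x => x ^ t) (elementary_pow_hom hp hE m n t hcop hcardE htm htn),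
        fun x => rfl⟩
    have hBn : Nat.card τ.range ∣ n := by
      have h1 : ∀ b : τ.range, b ^ n = 1 := by
        rintro ⟨b, e, rfl⟩
        apply Subtype.ext
        show (τ e) ^ n = 1
        rw [hτ, ← pow_mul]
        apply orderOf_dvd_iff_pow_eq_one.mp
        exact (orderOf_dvd_natCard e).trans (hcardE.trans (Nat.mul_dvd_mul_right htm n))
      have h2 : Nat.card τ.range ∣ m * n := (Subgroup.card_subgroup_dvd_card τ.range).trans hcardE
      have h3 : Nat.Coprime (Nat.card τ.range) m := by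
        by_contra hnc
        obtain ⟨q, hq, hq1, hq2⟩ := Nat.Prime.not_coprime_iff_dvd.mp hnc
        haveI : Fact q.Prime := ⟨hq⟩
        obtain ⟨b, hb⟩ := exists_prime_orderOf_dvd_card' q hq1
        have h4 : q ∣ n := by
          rw [← hb]
          exact orderOf_dvd_of_pow_eq_one (h1 b)
        have h5 : q ∣ Nat.gcd m n := Nat.dvd_gcd hq2 h4
        rw [hcop.gcd_eq_one] at h5
        exact hq.one_lt.ne' (Nat.dvd_one.mp h5)
      exact h3.dvd_of_dvd_mul_left h2
    haveI : Fintype τ.range := Fintype.ofFinite _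
    have hind := aiSpan_indicator {b : τ.range | IsConj ((b : E) : G) g} (by
      intro s hs b
      have h6 : IsConj (((s : E) : G)) (((b * s * b⁻¹ : τ.range) : E) : G) :=
        isConj_iff.mpr ⟨((b : E) : G), by simp⟩
      exact h6.symm.trans hs) n hBn
    have h7 := aiSpan_comp τ.rangeRestrict hind
    have h8 : (fun e : E => if IsConj ((e : G) ^ t) g then (n : ℂ) else 0)
        = fun x : E => (fun b : τ.range => if b ∈ {b : τ.range | IsConj ((b : E) : G) g}
          then (n : ℂ) else 0) (τ.rangeRestrict x) := by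
      funext e
      have h9 : ((τ.rangeRestrict e : τ.range) : E) = e ^ t := hτ e
      show _ = if IsConj (((τ.rangeRestrict e : τ.range) : E) : G) g then (n : ℂ) else 0
      rw [h9]
      rfl
    rw [h8]
    exact h7

end Cfsg.Agent.Lib.Lead
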