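import Mathlib
import Cfsg.Agent.Lib.Lead.QuatLift

namespace Cfsg.Agent.Lib.Lead

open QuaternionGroup

theorem quat_a_pow {n : ℕ} (d : ZMod (2 * n)) (m : ℕ) :
    (a d : QuaternionGroup n) ^ m = a (m • d) := by
  induction m with
  | zero => simp
  | succ m ih => rw [pow_succ, ih, a_mul_a, succ_nsmul]

theorem quat_a_inv {n : ℕ} (i : ZMod (2 * n)) : (a i : QuaternionGroup n)⁻¹ = a (-i) := rfl

theorem quat_xa_inv {n : ℕ} (i : ZMod (2 * n)) :
    (xa i : QuaternionGroup n)⁻¹ = xa ((n : ZMod (2 * n)) + i) := rfl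

theorem quat_two_n {n : ℕ} : ((n : ZMod (2 * n)) + (n : ZMod (2 * n))) = 0 := by
  have : ((2 * n : ℕ) : ZMod (2 * n)) = 0 := ZMod.natCast_self _
  rw [← this]; push_cast; ring

theorem quat_a_n_ne_one {n : ℕ} [NeZero n] : (a (n : ZMod (2 * n)) : QuaternionGroup n) ≠ 1 := by
  rw [one_def]
  intro h
  have h1 : ((n : ℕ) : ZMod (2 * n)) = 0 := a.inj h
  rw [ZMod.natCast_eq_zero_iff] at h1
  have := Nat.le_of_dvd (Nat.pos_of_ne_zero (NeZero.ne n)) h1
  have := Nat.pos_of_ne_zero (NeZero.ne n)
  omega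

theorem quat_a_n_central {n : ℕ} (g : QuaternionGroup n) :
    g * a (n : ZMod (2 * n)) = a (n : ZMod (2 * n)) * g := by
  cases g with
  | a k => rw [a_mul_a, a_mul_a, add_comm]
  | xa k =>
    rw [xa_mul_a, a_mul_xa]
    congr 1
    have := quat_two_n (n := n)
    linear_combination this

/-- a non-abelian subgroup of a generalised quaternion group is generalised quaternion -/
theorem quat_subgroup (n : ℕ) [NeZero n] (P : Subgroup (QuaternionGroup n))
    (hP : ¬ ∀ u ∈ P, ∀ v ∈ P, u * v = v * u) :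
    ∃ n' : ℕ, 2 ≤ n' ∧ Nonempty (P ≃* QuaternionGroup n') := by
  classical
  have hxa : ∃ j, xa j ∈ P := by
    by_contra hcon
    push Not at hcon
    apply hP
    intro u hu v hv
    cases u with
    | a i => cases v with
      | a k => rw [a_mul_a, a_mul_a, add_comm]
      | xa k => exact absurd hv (hcon k)
    | xa i => exact absurd hu (hcon i)
  obtain ⟨j, hj⟩ := hxa
  let I : AddSubgroup (ZMod (2 * n)) :=
    { carrier := {i | a i ∈ P}
      zero_mem' := by show a 0 ∈ P; rw [a_zero]; exact P.one_mem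
      add_mem' := fun {i k} hi hk => by
        show a (i + k) ∈ P; rw [← a_mul_a]; exact P.mul_mem hi hk
      neg_mem' := fun {i} hi => by
        show a (-i) ∈ P; rw [← quat_a_inv]; exact P.inv_mem hi }
  obtain ⟨d, hd⟩ : ∃ d : ZMod (2 * n), AddSubgroup.zmultiples d = I := by
    have hcyc : IsAddCyclic I := inferInstance
    exact (AddSubgroup.isAddCyclic_iff_exists_zmultiples_eq_top I).mp hcyc
  have hdP : a d ∈ P := by
    have : d ∈ I := by rw [← hd]; exact AddSubgroup.mem_zmultiples d
    exact this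
  -- elements of P in terms of x' = a d and y' = xa j
  have claim1 : ∀ i, a i ∈ P → ∃ m < orderOf (a d : QuaternionGroup n), a i = (a d) ^ m := by
    intro i hi
    have h1 : i ∈ AddSubgroup.zmultiples d := by rw [hd]; exact hi
    rw [← mem_multiples_iff_mem_zmultiples] at h1
    obtain ⟨m, rfl⟩ := (AddSubmonoid.mem_multiples_iff _ _).mp h1
    refine ⟨m % orderOf (a d : QuaternionGroup n), Nat.mod_lt _ (orderOf_pos _), ?_⟩
    rw [pow_mod_orderOf, quat_a_pow]
  have claim2 : ∀ i, xa i ∈ P →
      ∃ m < orderOf (a d : QuaternionGroup n), xa i = xa j * (a d) ^ m := by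
    intro i hi
    have h1 : a (i - j) ∈ P := by
      have := P.mul_mem (P.inv_mem hj) hi
      rw [quat_xa_inv, xa_mul_xa] at this
      have e : (n : ZMod (2 * n)) + i - ((n : ZMod (2 * n)) + j) = i - j := by ring
      rwa [e] at this
    obtain ⟨m, hm, hm'⟩ := claim1 _ h1
    refine ⟨m, hm, ?_⟩
    rw [← hm', xa_mul_a]
    congr 1
    ring
  -- the involution
  have hsq : (xa j : QuaternionGroup n) ^ 2 = a (n : ZMod (2 * n)) := by
    rw [pow_two, xa_mul_xa]; congr 1; ring
  have hanP : a (n : ZMod (2 * n)) ∈ P := by rw [← hsq]; exact P.pow_mem hj 2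
  obtain ⟨m, hm, hm'⟩ := claim1 _ hanP
  have hm0 : m ≠ 0 := by
    rintro rfl
    rw [pow_zero] at hm'
    exact quat_a_n_ne_one hm'
  have h2m : orderOf (a d : QuaternionGroup n) = 2 * m := by
    have h1 : (a d : QuaternionGroup n) ^ (2 * m) = 1 := by
      rw [mul_comm, pow_mul, ← hm', pow_two, a_mul_a, quat_two_n, a_zero]
    obtain ⟨c, hc⟩ := orderOf_dvd_of_pow_eq_one h1
    have hc1 : c = 1 := by
      have hpos : 0 < c := by
        rcases Nat.eq_zero_or_pos c with h | h
        · rw [h, mul_zero] at hc; omega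
        · exact h
      have hlt : c < 2 := by
        by_contra hge
        push Not at hge
        have : orderOf (a d : QuaternionGroup n) * 2 ≤ orderOf (a d : QuaternionGroup n) * c :=
          Nat.mul_le_mul_left _ hge
        omega
      omega
    rw [hc, hc1, mul_one]
  have hm2 : 2 ≤ m := by
    by_contra hlt
    have hm1 : m = 1 := by omega
    subst hm1
    rw [pow_one] at hm'
    apply hP
    have hform : ∀ u ∈ P, ∃ e : ℕ, ∃ c : QuaternionGroup n, (∀ g, g * c = c * g) ∧
        u = (xa j) ^ e * c := by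
      intro u hu
      cases u with
      | a i =>
        obtain ⟨k, -, hk⟩ := claim1 i hu
        refine ⟨0, a i, ?_, by simp⟩
        intro g
        rw [hk, ← hm']
        exact ((Commute.pow_right (show Commute g (a (n : ZMod (2 * n))) from
          quat_a_n_central g) k)).eq
      | xa i =>
        obtain ⟨k, -, hk⟩ := claim2 i hu
        refine ⟨1, (a d) ^ k, ?_, by rw [pow_one]; exact hk⟩
        intro g
        rw [← hm']
        exact ((Commute.pow_right (show Commute g (a (n : ZMod (2 * n))) from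
          quat_a_n_central g) k)).eq
    intro u hu v hv
    obtain ⟨e, c, hc, rfl⟩ := hform u hu
    obtain ⟨e', c', hc', rfl⟩ := hform v hv
    calc (xa j : QuaternionGroup n) ^ e * c * ((xa j) ^ e' * c')
        = (xa j) ^ e * (c * (xa j) ^ e') * c' := by group
      _ = (xa j) ^ e * ((xa j) ^ e' * c) * c' := by rw [hc]
      _ = ((xa j) ^ e * (xa j) ^ e') * (c * c') := by group
      _ = ((xa j) ^ e' * (xa j) ^ e) * (c' * c) := by rw [pow_mul_comm, hc']
      _ = (xa j) ^ e' * ((xa j) ^ e * c') * c := by group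
      _ = (xa j) ^ e' * (c' * (xa j) ^ e) * c := by rw [hc']
      _ = (xa j) ^ e' * c' * ((xa j) ^ e * c) := by group
  -- the isomorphism
  haveI : NeZero m := ⟨hm0⟩
  have hx : (a d : QuaternionGroup n) ^ (2 * m) = 1 := by rw [← h2m]; exact pow_orderOf_eq_one _
  have hy : (xa j : QuaternionGroup n) ^ 2 = (a d) ^ m := by rw [hsq, hm']
  have hxy : (a d : QuaternionGroup n) * xa j * a d = xa j := by
    rw [a_mul_xa, xa_mul_a]; congr 1; ring
  have hinj := quatHom_injective m (a d) (xa j) hx hy hxy h2m hm2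
  have hrange : (quatHom m (a d) (xa j) hx hy hxy).range = P := by
    apply le_antisymm
    · rintro _ ⟨g, rfl⟩
      cases g with
      | a t => rw [quatHom_a]; exact P.pow_mem hdP _
      | xa t => rw [quatHom_xa]; exact P.mul_mem hj (P.pow_mem hdP _)
    · intro u hu
      cases u with
      | a i =>
        obtain ⟨k, hk, hk'⟩ := claim1 i hu
        rw [h2m] at hk
        refine ⟨a (k : ZMod (2 * m)), ?_⟩
        rw [quatHom_a, ZMod.val_natCast_of_lt hk, hk']
      | xa i =>
        obtain ⟨k, hk, hk'⟩ := claim2 i hu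
        rw [h2m] at hk
        refine ⟨xa (k : ZMod (2 * m)), ?_⟩
        rw [quatHom_xa, ZMod.val_natCast_of_lt hk, hk']
  exact ⟨m, hm2, ⟨((MonoidHom.ofInjective hinj).trans (MulEquiv.subgroupCongr hrange)).symm⟩⟩

end Cfsg.Agent.Lib.Lead
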