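import Mathlib
import Cfsg.Agent.Lib.Lead.SL2Sylow

namespace Cfsg.Agent.Lib.Lead

open Matrix
open scoped Pointwise

/-- if a cyclic subgroup contains the full `r`-part of the group order, all `r`-subgroups are
cyclic -/
theorem isCyclic_of_cyclic_subgroup {G : Type*} [Group G] [Finite G] (r : ℕ) [Fact r.Prime]
    (C : Subgroup G) [IsCyclic C]
    (h : (Nat.card G).factorization r = (Nat.card C).factorization r)
    (R : Subgroup G) (hR : IsPGroup r R) : IsCyclic R := by
  obtain ⟨P, hRP⟩ := hR.exists_le_sylow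
  suffices IsCyclic (P : Subgroup G) from Subgroup.isCyclic_of_le hRP
  obtain Q : Sylow r C := default
  have hQ0card : Nat.card ((Q : Subgroup C).map C.subtype) = r ^ (Nat.card G).factorization r := by
    rw [h, ← Sylow.card_eq_multiplicity Q]
    exact Nat.card_congr
      ((Q : Subgroup C).equivMapOfInjective C.subtype C.subtype_injective).symm.toEquiv
  obtain ⟨g, hg⟩ := MulAction.exists_smul_eq G (Sylow.ofCard _ hQ0card) P
  haveI hQ0cyc : IsCyclic ((Q : Subgroup C).map C.subtype) :=
    Subgroup.isCyclic_of_le (show (Q : Subgroup C).map C.subtype ≤ C from Subgroup.map_subtype_le _)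
  have hP : (P : Subgroup G) = MulAut.conj g • ((Q : Subgroup C).map C.subtype) := by
    rw [← hg]; rfl
  rw [hP]
  exact isCyclic_of_surjective
    ((MulDistribMulAction.toMonoidEnd (MulAut G) G (MulAut.conj g)).subgroupMap
      ((Q : Subgroup C).map C.subtype)) (MonoidHom.subgroupMap_surjective _ _)

variable {F : Type*} [Field F]

/-- the diagonal torus of `SL₂` -/
def dSL : Fˣ →* Matrix.SpecialLinearGroup (Fin 2) F where
  toFun a := ⟨!![(a : F), 0; 0, ((a⁻¹ : Fˣ) : F)], by simp [Matrix.det_fin_two]⟩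
  map_one' := by
    apply Subtype.ext
    show !![((1 : Fˣ) : F), 0; 0, (((1 : Fˣ)⁻¹ : Fˣ) : F)] = (1 : Matrix (Fin 2) (Fin 2) F)
    rw [Matrix.one_fin_two]; simp
  map_mul' a b := by
    apply Subtype.ext
    show !![((a * b : Fˣ) : F), 0; 0, (((a * b)⁻¹ : Fˣ) : F)] =
      !![(a : F), 0; 0, ((a⁻¹ : Fˣ) : F)] * !![(b : F), 0; 0, ((b⁻¹ : Fˣ) : F)]
    rw [Matrix.mul_fin_two]
    simp [mul_comm]

theorem dSL_val (a : Fˣ) :
    ((dSL a : Matrix.SpecialLinearGroup (Fin 2) F) : Matrix (Fin 2) (Fin 2) F) =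
      !![(a : F), 0; 0, ((a⁻¹ : Fˣ) : F)] := rfl

theorem dSL_injective : Function.Injective (dSL (F := F)) := by
  intro a b hab
  have h : ((dSL a : Matrix.SpecialLinearGroup (Fin 2) F) : Matrix (Fin 2) (Fin 2) F) 0 0 =
      ((dSL b : Matrix.SpecialLinearGroup (Fin 2) F) : Matrix (Fin 2) (Fin 2) F) 0 0 := by
    rw [hab]
  rw [dSL_val, dSL_val] at h
  exact Units.ext (by simpa using h)

theorem isCyclic_of_dvd_card_sub_one [Fintype F] (r : ℕ) [Fact r.Prime] (hr : r ≠ 2)
    (hdvd : r ∣ Fintype.card F - 1) (R : Subgroup (Matrix.SpecialLinearGroup (Fin 2) F))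
    (hR : IsPGroup r R) : IsCyclic R := by
  classical
  haveI : IsCyclic (dSL (F := F)).range :=
    isCyclic_of_surjective (dSL (F := F)).rangeRestrict (MonoidHom.rangeRestrict_surjective _)
  apply isCyclic_of_cyclic_subgroup r (dSL (F := F)).range _ R hR
  have hcardC : Nat.card (dSL (F := F)).range = Fintype.card F - 1 := by
    rw [← Nat.card_congr (MonoidHom.ofInjective (dSL_injective (F := F))).toEquiv, Nat.card_units,
      Nat.card_eq_fintype_card]
  rw [hcardC, card_SL2]
  have hq : 2 ≤ Fintype.card F := Fintype.one_lt_card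
  have hrp := (Fact.out : r.Prime)
  generalize Fintype.card F = q at *
  obtain ⟨k, rfl⟩ : ∃ k, q = k + 2 := ⟨q - 2, by omega⟩
  have e : (k + 2) * ((k + 2) ^ 2 - 1) = (k + 2 - 1) * ((k + 2) * (k + 3)) := by
    have e1 : (k + 2) ^ 2 - 1 = (k + 1) * (k + 3) := by
      have : (k + 2) ^ 2 = (k + 1) * (k + 3) + 1 := by ring
      omega
    have e2 : k + 2 - 1 = k + 1 := by omega
    rw [e1, e2]; ring
  rw [e, Nat.factorization_mul (by omega) (by positivity)]
  have h1 : ¬ r ∣ (k + 2) * (k + 3) := by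
    intro hd
    rcases (Nat.Prime.dvd_mul hrp).mp hd with hd | hd
    · have h2 : r ∣ 1 := by
        have := Nat.dvd_sub hd hdvd
        have e3 : k + 2 - (k + 2 - 1) = 1 := by omega
        rwa [e3] at this
      exact hrp.one_lt.ne' (Nat.dvd_one.mp h2)
    · have h2 : r ∣ 2 := by
        have := Nat.dvd_sub hd hdvd
        have e3 : k + 3 - (k + 2 - 1) = 2 := by omega
        rwa [e3] at this
      exact hr ((Nat.prime_dvd_prime_iff_eq hrp Nat.prime_two).mp h2)
  rw [Finsupp.add_apply, Nat.factorization_eq_zero_of_not_dvd h1, add_zero]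

theorem sylow_SL2_cyclic [Fintype F] (p : ℕ) [Fact p.Prime] [CharP F p] (r : ℕ) [Fact r.Prime]
    (hr : r ≠ 2) (hrp : r ≠ p) (R : Subgroup (Matrix.SpecialLinearGroup (Fin 2) F))
    (hR : IsPGroup r R) : IsCyclic R := by
  classical
  have hrpr := (Fact.out : r.Prime)
  haveI : NeZero (r - 1) := ⟨by have := hrpr.two_le; omega⟩
  haveI : Fintype (FiniteField.Extension F p (r - 1)) := Fintype.ofFinite _
  have hK : Fintype.card (FiniteField.Extension F p (r - 1)) = Fintype.card F ^ (r - 1) := by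
    rw [← Nat.card_eq_fintype_card, FiniteField.natCard_extension, Nat.card_eq_fintype_card]
  obtain ⟨f, -, hf⟩ := FiniteField.card F p
  have hndvd : ¬ r ∣ Fintype.card F := by
    rw [hf]; intro h
    exact hrp ((Nat.prime_dvd_prime_iff_eq hrpr (Fact.out : p.Prime)).mp (hrpr.dvd_of_dvd_pow h))
  have hdvd : r ∣ Fintype.card (FiniteField.Extension F p (r - 1)) - 1 := by
    rw [hK]
    have h1 : ((Fintype.card F : ℕ) : ZMod r) ≠ 0 := by
      rw [Ne, ZMod.natCast_eq_zero_iff]; exact hndvd
    have h2 := ZMod.pow_card_sub_one_eq_one h1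
    have h3 : ((Fintype.card F ^ (r - 1) : ℕ) : ZMod r) = ((1 : ℕ) : ZMod r) := by
      push_cast; exact h2
    rw [ZMod.natCast_eq_natCast_iff] at h3
    exact (Nat.modEq_iff_dvd' (Nat.one_le_pow _ _ Fintype.card_pos)).mp h3.symm
  have hφ : Function.Injective (Matrix.SpecialLinearGroup.map (n := Fin 2)
      (algebraMap F (FiniteField.Extension F p (r - 1)))) := by
    intro x y hxy
    apply Subtype.ext
    have := congrArg Subtype.val hxy
    exact (Matrix.map_injective (algebraMap F (FiniteField.Extension F p (r - 1))).injective) this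
  haveI := isCyclic_of_dvd_card_sub_one (F := FiniteField.Extension F p (r - 1)) r hr hdvd
    (R.map (Matrix.SpecialLinearGroup.map (n := Fin 2)
      (algebraMap F (FiniteField.Extension F p (r - 1))))) (hR.map _)
  exact isCyclic_of_surjective (R.equivMapOfInjective _ hφ).symm (MulEquiv.surjective _)

end Cfsg.Agent.Lib.Lead
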