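import Mathlib
import Cfsg.Agent.Lib.Lead.SL2Torus
import Cfsg.Agent.Lib.Lead.QuatSub

namespace Cfsg.Agent.Lib.Lead

open Matrix
open scoped Pointwise

/-- a non-abelian finite 2-group embedding into a generalised quaternion group is generalised
quaternion -/
theorem quat_of_injective {G : Type*} [Group G] [Finite G] (hG : IsPGroup 2 G)
    (hnc : ¬ ∀ u v : G, u * v = v * u) (M : ℕ) [NeZero M] (ρ : G →* QuaternionGroup M)
    (hρ : Function.Injective ρ) : ∃ k, 1 ≤ k ∧ Nonempty (G ≃* QuaternionGroup (2 ^ k)) := by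
  have hnc' : ¬ ∀ u ∈ ρ.range, ∀ v ∈ ρ.range, u * v = v * u := by
    intro h
    apply hnc
    intro u v
    apply hρ
    rw [map_mul, map_mul]
    exact h _ ⟨u, rfl⟩ _ ⟨v, rfl⟩
  obtain ⟨n', hn', ⟨e⟩⟩ := quat_subgroup M ρ.range hnc'
  have e2 : G ≃* QuaternionGroup n' := (MonoidHom.ofInjective hρ).trans e
  haveI : NeZero n' := ⟨by omega⟩
  have hcard : Nat.card G = 4 * n' := by
    rw [Nat.card_congr e2.toEquiv, Nat.card_eq_fintype_card, QuaternionGroup.card]
  obtain ⟨t, ht⟩ := IsPGroup.iff_card.mp hG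
  have hdvd : n' ∣ 2 ^ t := by rw [← ht, hcard]; exact Dvd.intro_left 4 rfl
  obtain ⟨k, -, rfl⟩ := (Nat.dvd_prime_pow Nat.prime_two).mp hdvd
  refine ⟨k, ?_, ⟨e2⟩⟩
  by_contra hk
  have : k = 0 := by omega
  subst this
  norm_num at hn'

variable {F : Type*} [Field F]

/-- the Weyl element of `SL₂` -/
def wSL : Matrix.SpecialLinearGroup (Fin 2) F := ⟨!![0, 1; -1, 0], by simp [Matrix.det_fin_two]⟩

/-- minus the identity of `SL₂` -/
def negSL : Matrix.SpecialLinearGroup (Fin 2) F := ⟨!![-1, 0; 0, -1], by simp [Matrix.det_fin_two]⟩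

theorem wSL_sq : (wSL : Matrix.SpecialLinearGroup (Fin 2) F) ^ 2 = negSL := by
  apply Subtype.ext
  rw [pow_two]
  show (!![0, 1; -1, 0] : Matrix (Fin 2) (Fin 2) F) * !![0, 1; -1, 0] = !![-1, 0; 0, -1]
  rw [Matrix.mul_fin_two]
  simp

theorem negSL_sq : (negSL : Matrix.SpecialLinearGroup (Fin 2) F) ^ 2 = 1 := by
  apply Subtype.ext
  rw [pow_two]
  show (!![-1, 0; 0, -1] : Matrix (Fin 2) (Fin 2) F) * !![-1, 0; 0, -1] = 1
  rw [Matrix.mul_fin_two, Matrix.one_fin_two]
  simp

theorem dSL_neg_one : dSL (-1 : Fˣ) = negSL := by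
  apply Subtype.ext
  show !![((-1 : Fˣ) : F), 0; 0, (((-1 : Fˣ)⁻¹ : Fˣ) : F)] = !![-1, 0; 0, -1]
  simp

theorem dSL_wSL (a : Fˣ) : dSL a * wSL * dSL a = wSL := by
  apply Subtype.ext
  show !![(a : F), 0; 0, ((a⁻¹ : Fˣ) : F)] * !![0, 1; -1, 0] * !![(a : F), 0; 0, ((a⁻¹ : Fˣ) : F)]
    = !![0, 1; -1, 0]
  rw [Matrix.mul_fin_two, Matrix.mul_fin_two]
  simp

/-- the quaternion element built from `a ^ 2 + b ^ 2 = -1` -/
def qSL (a b : F) (h : a ^ 2 + b ^ 2 = -1) : Matrix.SpecialLinearGroup (Fin 2) F :=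
  ⟨!![a, b; b, -a], by rw [Matrix.det_fin_two_of]; linear_combination -h⟩

theorem qSL_sq (a b : F) (h : a ^ 2 + b ^ 2 = -1) : (qSL a b h) ^ 2 = negSL := by
  apply Subtype.ext
  rw [pow_two]
  show (!![a, b; b, -a] : Matrix (Fin 2) (Fin 2) F) * !![a, b; b, -a] = !![-1, 0; 0, -1]
  rw [Matrix.mul_fin_two]
  congr 1
  ext i j
  fin_cases i <;> fin_cases j <;> simp <;>
    first | linear_combination h | linear_combination (-1 : F) * h | ring

theorem qSL_wSL (a b : F) (h : a ^ 2 + b ^ 2 = -1) : qSL a b h * wSL * qSL a b h = wSL := by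
  apply Subtype.ext
  show (!![a, b; b, -a] : Matrix (Fin 2) (Fin 2) F) * !![0, 1; -1, 0] * !![a, b; b, -a]
    = !![0, 1; -1, 0]
  rw [Matrix.mul_fin_two, Matrix.mul_fin_two]
  congr 1
  ext i j
  fin_cases i <;> fin_cases j <;> simp <;>
    first | linear_combination h | linear_combination (-1 : F) * h | ring

theorem qSL_wSL_ne [Fintype F] (hodd : Odd (Fintype.card F)) (a b : F) (h : a ^ 2 + b ^ 2 = -1) :
    qSL a b h * wSL ≠ wSL * qSL a b h := by
  intro heq
  have h2 : (2 : F) ≠ 0 := by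
    intro h2
    have hc : ringChar F = 2 := by
      have := (ringChar.spec F 2).mp (by exact_mod_cast h2)
      exact (Nat.prime_dvd_prime_iff_eq (CharP.char_is_prime F (ringChar F)) Nat.prime_two).mp this
    have h3 : ¬ ringChar F ∣ Fintype.card F := by
      rw [hc]; exact fun hd => (Nat.not_even_iff_odd.mpr hodd) (even_iff_two_dvd.mpr hd)
    apply h3
    obtain ⟨f, hf⟩ := FiniteField.card F (ringChar F)
    rw [hf.2]
    exact dvd_pow_self _ f.ne_zero
  have hm : (!![a, b; b, -a] : Matrix (Fin 2) (Fin 2) F) * !![0, 1; -1, 0] =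
      !![0, 1; -1, 0] * !![a, b; b, -a] := congrArg Subtype.val heq
  rw [Matrix.mul_fin_two, Matrix.mul_fin_two] at hm
  have e00 := congrFun (congrFun hm 0) 0
  have e01 := congrFun (congrFun hm 0) 1
  simp at e00 e01
  have hb : b = 0 := by
    have : (2 : F) * b = 0 := by linear_combination -e00
    rcases mul_eq_zero.mp this with h' | h'
    · exact absurd h' h2
    · exact h'
  have ha : a = 0 := by
    have : (2 : F) * a = 0 := by linear_combination e01
    rcases mul_eq_zero.mp this with h' | h'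
    · exact absurd h' h2
    · exact h'
  rw [ha, hb] at h
  norm_num at h

theorem sylow_two_nonabelian [Fintype F] (hodd : Odd (Fintype.card F))
    (P : Sylow 2 (Matrix.SpecialLinearGroup (Fin 2) F)) : ¬ ∀ u v : P, u * v = v * u := by
  classical
  obtain ⟨a, b, hab⟩ := FiniteField.exists_root_sum_quadratic (R := F)
    (f := Polynomial.X ^ 2) (g := Polynomial.X ^ 2 + Polynomial.C 1)
    (Polynomial.degree_X_pow 2) (Polynomial.degree_X_pow_add_C (by norm_num) 1)
    (Nat.odd_iff.mp hodd)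
  have h : a ^ 2 + b ^ 2 = -1 := by
    simp only [Polynomial.eval_pow, Polynomial.eval_X, Polynomial.eval_add, Polynomial.eval_C]
      at hab
    linear_combination hab
  have hx : (qSL a b h) ^ (2 * 2) = 1 := by rw [pow_mul, qSL_sq, negSL_sq]
  have hy : (wSL : Matrix.SpecialLinearGroup (Fin 2) F) ^ 2 = (qSL a b h) ^ 2 := by
    rw [qSL_sq, wSL_sq]
  have hxy := qSL_wSL a b h
  have hQ : IsPGroup 2 (quatHom 2 (qSL a b h) wSL hx hy hxy).range := by
    have h8 : IsPGroup 2 (QuaternionGroup 2) :=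
      IsPGroup.of_card (n := 3) (by rw [Nat.card_eq_fintype_card, QuaternionGroup.card]; rfl)
    exact h8.of_surjective (quatHom 2 (qSL a b h) wSL hx hy hxy).rangeRestrict
      (MonoidHom.rangeRestrict_surjective _)
  obtain ⟨P', hle⟩ := hQ.exists_le_sylow
  obtain ⟨g, hg⟩ := MulAction.exists_smul_eq (Matrix.SpecialLinearGroup (Fin 2) F) P' P
  have hxm : qSL a b h ∈ (P' : Subgroup (Matrix.SpecialLinearGroup (Fin 2) F)) := by
    apply hle
    refine ⟨QuaternionGroup.a 1, ?_⟩
    rw [quatHom_a]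
    have : (1 : ZMod (2 * 2)).val = 1 := rfl
    rw [this, pow_one]
  have hym : wSL ∈ (P' : Subgroup (Matrix.SpecialLinearGroup (Fin 2) F)) := by
    apply hle
    refine ⟨QuaternionGroup.xa 0, ?_⟩
    rw [quatHom_xa]
    have : (0 : ZMod (2 * 2)).val = 0 := rfl
    rw [this, pow_zero, mul_one]
  have hPeq : (P : Subgroup (Matrix.SpecialLinearGroup (Fin 2) F)) =
      MulAut.conj g • (P' : Subgroup (Matrix.SpecialLinearGroup (Fin 2) F)) := by
    rw [← hg]; rfl
  have hxm' : g * qSL a b h * g⁻¹ ∈ (P : Subgroup (Matrix.SpecialLinearGroup (Fin 2) F)) := by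
    rw [hPeq]; exact conj_mem_conj_smul hxm
  have hym' : g * wSL * g⁻¹ ∈ (P : Subgroup (Matrix.SpecialLinearGroup (Fin 2) F)) := by
    rw [hPeq]; exact conj_mem_conj_smul hym
  intro hcomm
  have : g * qSL a b h * g⁻¹ * (g * wSL * g⁻¹) = g * wSL * g⁻¹ * (g * qSL a b h * g⁻¹) :=
    congrArg Subtype.val (hcomm ⟨_, hxm'⟩ ⟨_, hym'⟩)
  apply qSL_wSL_ne hodd a b h
  have e1 : g * qSL a b h * g⁻¹ * (g * wSL * g⁻¹) = g * (qSL a b h * wSL) * g⁻¹ := by group
  have e2 : g * wSL * g⁻¹ * (g * qSL a b h * g⁻¹) = g * (wSL * qSL a b h) * g⁻¹ := by group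
  rw [e1, e2] at this
  exact mul_left_cancel (mul_right_cancel this)

theorem exists_hom_quat_of_card_mod_four [Fintype F] (hF : Fintype.card F % 4 = 1)
    (R : Subgroup (Matrix.SpecialLinearGroup (Fin 2) F)) (hR : IsPGroup 2 R) :
    ∃ M : ℕ, M ≠ 0 ∧ ∃ ρ : R →* QuaternionGroup M, Function.Injective ρ := by
  classical
  have hq : 2 ≤ Fintype.card F := Fintype.one_lt_card
  set q := Fintype.card F with hqdef
  set m := (q - 1).factorization 2 with hmdef
  have hq1 : q - 1 ≠ 0 := by omega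
  have hm2 : 2 ≤ m := by
    apply (Nat.Prime.pow_dvd_iff_le_factorization Nat.prime_two hq1).mp
    exact ⟨(q - 1) / 4, by omega⟩
  have hmdvd : 2 ^ m ∣ q - 1 := Nat.ordProj_dvd _ _
  obtain ⟨g, hg⟩ := IsCyclic.exists_ofOrder_eq_natCard (α := Fˣ)
  rw [Nat.card_units, Nat.card_eq_fintype_card] at hg
  have hord : orderOf (g ^ (orderOf g / 2 ^ m)) = 2 ^ m :=
    orderOf_pow_orderOf_div (by rw [hg]; exact hq1) (by rw [hg]; exact hmdvd)
  set a := g ^ (orderOf g / 2 ^ m) with hadef
  set n := 2 ^ (m - 1) with hndef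
  have h2n : 2 * n = 2 ^ m := by
    rw [hndef, ← pow_succ']
    congr 1
    omega
  have hn2 : 2 ≤ n := by
    rw [hndef]
    calc 2 = 2 ^ 1 := by norm_num
      _ ≤ 2 ^ (m - 1) := Nat.pow_le_pow_right (by norm_num) (by omega)
  haveI : NeZero n := ⟨by omega⟩
  have hordx : orderOf (dSL a) = 2 * n := by
    rw [orderOf_injective dSL dSL_injective, hord, h2n]
  have hx : (dSL a) ^ (2 * n) = 1 := by rw [← hordx]; exact pow_orderOf_eq_one _
  have han : a ^ n = -1 := by
    have h1 : (a ^ n) ^ 2 = 1 := by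
      rw [← pow_mul, mul_comm, h2n, ← hord]; exact pow_orderOf_eq_one _
    have h2 : a ^ n ≠ 1 := pow_ne_one_of_lt_orderOf (by omega) (by rw [hord, ← h2n]; omega)
    have h3 : ((a ^ n : Fˣ) : F) * ((a ^ n : Fˣ) : F) = 1 := by
      rw [← Units.val_mul, ← pow_two, h1, Units.val_one]
    rcases mul_self_eq_one_iff.mp h3 with h4 | h4
    · exact absurd (Units.ext h4) h2
    · exact Units.ext (by rw [h4]; simp)
  have hy : (wSL : Matrix.SpecialLinearGroup (Fin 2) F) ^ 2 = (dSL a) ^ n := by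
    rw [← map_pow, han, dSL_neg_one, wSL_sq]
  have hxy := dSL_wSL a
  have hinj := quatHom_injective n (dSL a) wSL hx hy hxy hordx hn2
  have hcardS : Nat.card (quatHom n (dSL a) wSL hx hy hxy).range =
      2 ^ (Nat.card (Matrix.SpecialLinearGroup (Fin 2) F)).factorization 2 := by
    rw [← Nat.card_congr (MonoidHom.ofInjective hinj).toEquiv, Nat.card_eq_fintype_card,
      QuaternionGroup.card, card_SL2, ← hqdef]
    obtain ⟨s, hs⟩ : ∃ s, q = 4 * s + 1 := ⟨q / 4, by omega⟩
    have e : q * (q ^ 2 - 1) = (q - 1) * (2 * (q * (2 * s + 1))) := by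
      have e1 : q ^ 2 - 1 = (q - 1) * (q + 1) := by
        have h1 : q - 1 = 4 * s := by omega
        rw [h1, hs]
        have : (4 * s + 1) ^ 2 = 4 * s * (4 * s + 1 + 1) + 1 := by ring
        omega
      have e2 : q + 1 = 2 * (2 * s + 1) := by omega
      rw [e1, e2]; ring
    have hodd' : ¬ 2 ∣ q * (2 * s + 1) := by
      intro hd
      rcases (Nat.Prime.dvd_mul Nat.prime_two).mp hd with h | h <;> omega
    have hne : q * (2 * s + 1) ≠ 0 := by
      apply Nat.mul_ne_zero <;> omega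
    rw [e, Nat.factorization_mul hq1 (by omega), Finsupp.add_apply,
      Nat.factorization_mul (by norm_num) hne, Finsupp.add_apply,
      Nat.Prime.factorization_self Nat.prime_two, Nat.factorization_eq_zero_of_not_dvd hodd',
      ← hmdef, pow_add, ← h2n]
    ring
  obtain ⟨S', hle⟩ := hR.exists_le_sylow
  obtain ⟨c, hc⟩ := MulAction.exists_smul_eq (Matrix.SpecialLinearGroup (Fin 2) F)
    (Sylow.ofCard _ hcardS) S'
  have hS' : (S' : Subgroup (Matrix.SpecialLinearGroup (Fin 2) F)) =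
      MulAut.conj c • (quatHom n (dSL a) wSL hx hy hxy).range := by
    rw [← hc]; rfl
  have hmem : ∀ u : R, ((MulAut.conj c⁻¹).toMonoidHom.comp R.subtype) u ∈
      (quatHom n (dSL a) wSL hx hy hxy).range := by
    intro u
    have h1 : (u : Matrix.SpecialLinearGroup (Fin 2) F) ∈
        MulAut.conj c • (quatHom n (dSL a) wSL hx hy hxy).range := by
      rw [← hS']; exact hle u.2
    rw [mem_conj_smul] at h1
    show (MulAut.conj c⁻¹) (u : Matrix.SpecialLinearGroup (Fin 2) F) ∈ _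
    rw [MulAut.conj_apply, inv_inv]
    exact h1
  refine ⟨n, NeZero.ne n, (MonoidHom.ofInjective hinj).symm.toMonoidHom.comp
    (((MulAut.conj c⁻¹).toMonoidHom.comp R.subtype).codRestrict _ hmem), ?_⟩
  rw [MonoidHom.coe_comp]
  apply Function.Injective.comp (MulEquiv.injective _)
  rw [MonoidHom.injective_codRestrict, MonoidHom.coe_comp]
  exact Function.Injective.comp (MulEquiv.injective _) R.subtype_injective

theorem sylow_two_SL2_quat [Fintype F] (hodd : Odd (Fintype.card F))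
    (P : Sylow 2 (Matrix.SpecialLinearGroup (Fin 2) F)) :
    ∃ k : ℕ, 1 ≤ k ∧ Nonempty ((P : Subgroup (Matrix.SpecialLinearGroup (Fin 2) F)) ≃*
      QuaternionGroup (2 ^ k)) := by
  classical
  haveI : Fact (ringChar F).Prime := ⟨CharP.char_is_prime F (ringChar F)⟩
  haveI : Fintype (FiniteField.Extension F (ringChar F) 2) := Fintype.ofFinite _
  have hK : Fintype.card (FiniteField.Extension F (ringChar F) 2) = Fintype.card F ^ 2 := by
    rw [← Nat.card_eq_fintype_card, FiniteField.natCard_extension, Nat.card_eq_fintype_card]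
  have hK4 : Fintype.card (FiniteField.Extension F (ringChar F) 2) % 4 = 1 := by
    rw [hK]
    obtain ⟨t, ht⟩ := hodd
    rw [ht]
    have : (2 * t + 1) ^ 2 = 4 * (t ^ 2 + t) + 1 := by ring
    rw [this]
    omega
  have hφ : Function.Injective (Matrix.SpecialLinearGroup.map (n := Fin 2)
      (algebraMap F (FiniteField.Extension F (ringChar F) 2))) := by
    intro x y hxy
    apply Subtype.ext
    have := congrArg Subtype.val hxy
    exact (Matrix.map_injective
      (algebraMap F (FiniteField.Extension F (ringChar F) 2)).injective) this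
  obtain ⟨M, hM, ρ, hρ⟩ := exists_hom_quat_of_card_mod_four hK4
    ((P : Subgroup (Matrix.SpecialLinearGroup (Fin 2) F)).map (Matrix.SpecialLinearGroup.map
      (n := Fin 2) (algebraMap F (FiniteField.Extension F (ringChar F) 2))))
    (P.isPGroup'.map _)
  haveI : NeZero M := ⟨hM⟩
  exact quat_of_injective P.isPGroup' (sylow_two_nonabelian hodd P) M
    (ρ.comp ((P : Subgroup (Matrix.SpecialLinearGroup (Fin 2) F)).equivMapOfInjective _
      hφ).toMonoidHom)
    (by rw [MonoidHom.coe_comp]; exact Function.Injective.comp hρ (MulEquiv.injective _))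

end Cfsg.Agent.Lib.Lead
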