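import Mathlib
import Cfsg.Agent.Lib.Lead.SL2Quat
import Cfsg.Agent.Lib.Lead.SLCard

namespace Cfsg.Agent.Lib.Lead

open Matrix

variable {F : Type*} [Field F] [Fintype F]

theorem two_ne_zero_of_odd_card (hodd : Odd (Fintype.card F)) : (2 : F) ≠ 0 := by
  intro h2
  have hc : ringChar F = 2 := by
    have := (ringChar.spec F 2).mp (by exact_mod_cast h2)
    exact (Nat.prime_dvd_prime_iff_eq (CharP.char_is_prime F (ringChar F)) Nat.prime_two).mp this
  have h3 : ¬ ringChar F ∣ Fintype.card F := by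
    rw [hc]; exact fun hd => (Nat.not_even_iff_odd.mpr hodd) (even_iff_two_dvd.mpr hd)
  apply h3
  obtain ⟨f, hf⟩ := FiniteField.card F (ringChar F)
  rw [hf.2]
  exact dvd_pow_self _ f.ne_zero

theorem SL2_sq_eq_one (hodd : Odd (Fintype.card F)) (u : Matrix.SpecialLinearGroup (Fin 2) F)
    (hu : u ^ 2 = 1) : u = 1 ∨ u = negSL := by
  have h2 := two_ne_zero_of_odd_card hodd
  have hinv : u = u⁻¹ := by rw [eq_inv_iff_mul_eq_one, ← pow_two, hu]
  have hm : (u : Matrix (Fin 2) (Fin 2) F) = Matrix.adjugate (u : Matrix (Fin 2) (Fin 2) F) := by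
    conv_lhs => rw [hinv]
    exact Matrix.SpecialLinearGroup.coe_inv u
  rw [Matrix.adjugate_fin_two] at hm
  have e00 := congrFun (congrFun hm 0) 0
  have e01 := congrFun (congrFun hm 0) 1
  have e10 := congrFun (congrFun hm 1) 0
  simp only [Matrix.of_apply, Matrix.cons_val_zero, Matrix.cons_val_one] at e00 e01 e10
  have hb : (u : Matrix (Fin 2) (Fin 2) F) 0 1 = 0 := by
    have : (2 : F) * (u : Matrix (Fin 2) (Fin 2) F) 0 1 = 0 := by linear_combination e01
    rcases mul_eq_zero.mp this with h' | h'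
    · exact absurd h' h2
    · exact h'
  have hc : (u : Matrix (Fin 2) (Fin 2) F) 1 0 = 0 := by
    have : (2 : F) * (u : Matrix (Fin 2) (Fin 2) F) 1 0 = 0 := by linear_combination e10
    rcases mul_eq_zero.mp this with h' | h'
    · exact absurd h' h2
    · exact h'
  have hdet := u.det_coe
  rw [Matrix.det_fin_two, hb, ← e00] at hdet
  have ha : (u : Matrix (Fin 2) (Fin 2) F) 0 0 * (u : Matrix (Fin 2) (Fin 2) F) 0 0 = 1 := by
    linear_combination hdet
  rcases mul_self_eq_one_iff.mp ha with h | h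
  · left
    apply Subtype.ext
    rw [Matrix.eta_fin_two (u : Matrix (Fin 2) (Fin 2) F), hb, hc, ← e00, h]
    show _ = (1 : Matrix (Fin 2) (Fin 2) F)
    rw [Matrix.one_fin_two]
  · right
    apply Subtype.ext
    rw [Matrix.eta_fin_two (u : Matrix (Fin 2) (Fin 2) F), hb, hc, ← e00, h]
    rfl

omit [Fintype F] in
theorem negSL_mem_center :
    (negSL : Matrix.SpecialLinearGroup (Fin 2) F) ∈
      Subgroup.center (Matrix.SpecialLinearGroup (Fin 2) F) := by
  rw [Matrix.SpecialLinearGroup.mem_center_iff]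
  refine ⟨-1, by simp, ?_⟩
  show Matrix.scalar (Fin 2) (-1 : F) = !![-1, 0; 0, -1]
  ext i j
  fin_cases i <;> fin_cases j <;> simp

theorem no_order_eight (hodd : Odd (Fintype.card F))
    (h8 : (Nat.card (Matrix.SpecialLinearGroup (Fin 2) F)).factorization 2 = 3)
    (x : Matrix.SpecialLinearGroup (Fin 2) F) (hx8 : x ^ 8 = 1) : x ^ 4 = 1 := by
  by_contra h4
  have hord : orderOf x = 2 ^ (2 + 1) := orderOf_eq_prime_pow (p := 2) (n := 2) h4 hx8
  have hcard : Nat.card (Subgroup.zpowers x) =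
      2 ^ (Nat.card (Matrix.SpecialLinearGroup (Fin 2) F)).factorization 2 := by
    rw [h8, Nat.card_zpowers, hord]
  apply sylow_two_nonabelian hodd (Sylow.ofCard _ hcard)
  rintro ⟨u, hu⟩ ⟨v, hv⟩
  apply Subtype.ext
  have hu' : u ∈ Subgroup.zpowers x := hu
  have hv' : v ∈ Subgroup.zpowers x := hv
  obtain ⟨i, rfl⟩ := Subgroup.mem_zpowers_iff.mp hu'
  obtain ⟨j, rfl⟩ := Subgroup.mem_zpowers_iff.mp hv'
  show x ^ i * x ^ j = x ^ j * x ^ i
  rw [← _root_.zpow_add, ← _root_.zpow_add, add_comm]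

theorem sylow_two_PSL2_klein {q : ℕ} (hF : Fintype.card F = q) (hq : q % 8 = 3 ∨ q % 8 = 5)
    (P : Sylow 2 (Matrix.ProjectiveSpecialLinearGroup (Fin 2) F)) :
    IsKleinFour (P : Subgroup (Matrix.ProjectiveSpecialLinearGroup (Fin 2) F)) := by
  classical
  have hodd : Odd (Fintype.card F) := by rw [hF, Nat.odd_iff]; omega
  have hSL : (Nat.card (Matrix.SpecialLinearGroup (Fin 2) F)).factorization 2 = 3 := by
    rw [card_SL2, hF]
    obtain ⟨w, hw, hwodd⟩ : ∃ w, q * (q ^ 2 - 1) = 2 ^ 3 * w ∧ ¬ 2 ∣ w := by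
      rcases hq with h | h
      · obtain ⟨s, hs⟩ : ∃ s, q = 8 * s + 3 := ⟨q / 8, by omega⟩
        refine ⟨q * ((4 * s + 1) * (2 * s + 1)), ?_, ?_⟩
        · have : q ^ 2 - 1 = 8 * ((4 * s + 1) * (2 * s + 1)) := by
            rw [hs]
            have : (8 * s + 3) ^ 2 = 8 * ((4 * s + 1) * (2 * s + 1)) + 1 := by ring
            omega
          rw [this]; ring
        · intro hd
          rcases (Nat.Prime.dvd_mul Nat.prime_two).mp hd with h' | h'
          · omega
          · rcases (Nat.Prime.dvd_mul Nat.prime_two).mp h' with h'' | h'' <;> omega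
      · obtain ⟨s, hs⟩ : ∃ s, q = 8 * s + 5 := ⟨q / 8, by omega⟩
        refine ⟨q * ((2 * s + 1) * (4 * s + 3)), ?_, ?_⟩
        · have : q ^ 2 - 1 = 8 * ((2 * s + 1) * (4 * s + 3)) := by
            rw [hs]
            have : (8 * s + 5) ^ 2 = 8 * ((2 * s + 1) * (4 * s + 3)) + 1 := by ring
            omega
          rw [this]; ring
        · intro hd
          rcases (Nat.Prime.dvd_mul Nat.prime_two).mp hd with h' | h'
          · omega
          · rcases (Nat.Prime.dvd_mul Nat.prime_two).mp h' with h'' | h'' <;> omega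
    have hw0 : w ≠ 0 := by rintro rfl; exact hwodd (dvd_zero 2)
    rw [hw, Nat.factorization_mul (by norm_num) hw0, Finsupp.add_apply,
      Nat.Prime.factorization_pow Nat.prime_two, Finsupp.single_eq_same,
      Nat.factorization_eq_zero_of_not_dvd hwodd]
  have hgcd : Nat.gcd 2 (Fintype.card F - 1) = 2 := by
    rw [hF]; exact Nat.gcd_eq_left (by omega)
  have hPSL : Nat.card (Matrix.SpecialLinearGroup (Fin 2) F) =
      2 * Nat.card (Matrix.ProjectiveSpecialLinearGroup (Fin 2) F) := by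
    have := card_SL_eq_card_PSL_mul (F := F) 2 (by norm_num)
    rw [this, hgcd]
  have hPSLfac : (Nat.card (Matrix.ProjectiveSpecialLinearGroup (Fin 2) F)).factorization 2
      = 2 := by
    have h1 : Nat.card (Matrix.ProjectiveSpecialLinearGroup (Fin 2) F) ≠ 0 := Nat.card_pos.ne'
    have := hSL
    rw [hPSL, Nat.factorization_mul (by norm_num) h1, Finsupp.add_apply,
      Nat.Prime.factorization_self Nat.prime_two] at this
    omega
  have hcardP : Nat.card (P : Subgroup (Matrix.ProjectiveSpecialLinearGroup (Fin 2) F)) = 4 := by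
    rw [Sylow.card_eq_multiplicity, hPSLfac]; norm_num
  have hcen : Nat.card (Subgroup.center (Matrix.SpecialLinearGroup (Fin 2) F)) = 2 := by
    rw [card_center_SL 2 (by norm_num), hgcd]
  have hexp : ∀ g : (P : Subgroup (Matrix.ProjectiveSpecialLinearGroup (Fin 2) F)), g ^ 2 = 1 := by
    rintro ⟨g, hg⟩
    apply Subtype.ext
    show g ^ 2 = 1
    have hg4 : g ^ 4 = 1 := by
      have := pow_card_eq_one'
        (G := (P : Subgroup (Matrix.ProjectiveSpecialLinearGroup (Fin 2) F))) (x := ⟨g, hg⟩)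
      rw [hcardP] at this
      exact congrArg Subtype.val this
    obtain ⟨x, rfl⟩ := QuotientGroup.mk_surjective g
    have hx4 : x ^ 4 ∈ Subgroup.center (Matrix.SpecialLinearGroup (Fin 2) F) := by
      rw [← QuotientGroup.eq_one_iff, QuotientGroup.mk_pow]; exact hg4
    have hx8 : x ^ 8 = 1 := by
      have := pow_card_eq_one'
        (G := Subgroup.center (Matrix.SpecialLinearGroup (Fin 2) F)) (x := ⟨x ^ 4, hx4⟩)
      rw [hcen] at this
      have h' : (x ^ 4) ^ 2 = 1 := congrArg Subtype.val this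
      rw [← pow_mul] at h'
      exact h'
    have hx4' := no_order_eight hodd hSL x hx8
    have hx2 : (x ^ 2) ^ 2 = 1 := by rw [← pow_mul]; exact hx4'
    rw [← QuotientGroup.mk_pow, QuotientGroup.eq_one_iff]
    rcases SL2_sq_eq_one hodd (x ^ 2) hx2 with h | h
    · rw [h]; exact Subgroup.one_mem _
    · rw [h]; exact negSL_mem_center
  refine ⟨hcardP, ?_⟩
  have hdvd : Monoid.exponent (P : Subgroup (Matrix.ProjectiveSpecialLinearGroup (Fin 2) F)) ∣ 2 :=
    Monoid.exponent_dvd_of_forall_pow_eq_one hexp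
  rcases (Nat.dvd_prime Nat.prime_two).mp hdvd with h | h
  · exfalso
    rw [Monoid.exp_eq_one_iff] at h
    have := Nat.card_of_subsingleton (1 : (P : Subgroup (Matrix.ProjectiveSpecialLinearGroup (Fin 2) F)))
    omega
  · exact h

end Cfsg.Agent.Lib.Lead
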